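import Cfsg.Agent.MH.Hom2

/-! The outcomes in the case without large groups of elations. -/

set_option autoImplicit false

namespace Cfsg.Agent.MH

open Matrix

variable {Γ K : Type*} [Group Γ] [Field K]

/-- the data that identify `A₆` -/
def IsA6 (Γ : Type*) [Group Γ] : Prop := Nat.card Γ = 360 ∧ ∃ R : Subgroup Γ, Nat.card R = 9 ∧
  (∀ y ∈ R, y ≠ 1 → Subgroup.centralizer {y} = R) ∧ Nat.card (Subgroup.normalizer (R : Set Γ)) = 36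

namespace PRep

/-- the group preserves a conic -/
def IsConic (ρ : PRep Γ K) : Prop :=
  (2 : K) ≠ 0 ∧ ∃ B : M3 K, Bᵀ = B ∧ B.det ≠ 0 ∧ ∀ x X, ρ.R x X → ∃ c : K, Xᵀ * B * X = c • B

/-- the data that identify `A₇` -/
def IsA7 (ρ : PRep Γ K) : Prop :=
  (5 : K) = 0 ∧ Nat.card Γ = 2520 ∧ ∃ (P Q : M3 K) (h : P * Q = 1) (ω a : K) (v φ : V3 K),
    ω ^ 2 + ω + 1 = 0 ∧ a ^ 4 = 1 ∧ v 0 * φ 0 = a ∧ v 1 * φ 1 = -a ∧ v 2 * φ 2 = 1 ∧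
    (∃ x, (ρ.cj P Q h).R x (diagonal ![-1, -1, 1])) ∧ (∃ x, (ρ.cj P Q h).R x (diagonal ![1, -1, -1])) ∧
    (∃ x, (ρ.cj P Q h).R x (diagonal ![1, ω, ω ^ 2])) ∧
    ∃ x, (ρ.cj P Q h).R x (-1 + (2 : K) • vecMulVec v φ)

/-- the conclusion in the remaining case -/
def OutB (ρ : PRep Γ K) : Prop := ρ.IsConic ∨ Nat.card Γ = 168 ∨ IsA6 Γ ∨ ρ.IsA7

end PRep

end Cfsg.Agent.MH
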