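import Mathlib

/-! The arithmetic of the class equation. -/

set_option autoImplicit false

namespace Cfsg.Agent.MH

/-- the contribution of a class of CA-subgroups with automiser of order two or three -/
def ET (N c n e : ℕ) (τ : ℚ) : Prop := (n = 1 ∧ τ = 0) ∨ (n % 2 = 1 ∧ n * e ∣ N ∧ n.Coprime c ∧
  ((e = 2 ∧ 3 ≤ n ∧ τ = 1 / 2 - (n : ℚ)⁻¹ / 2) ∨ (e = 3 ∧ 7 ≤ n ∧ n % 3 = 1 ∧ τ = 1 / 3 - (n : ℚ)⁻¹ / 3)))

theorem inv_le' {n : ℕ} (k : ℕ) (h : k ≤ n) (h0 : 0 < k := by norm_num) : (n : ℚ)⁻¹ ≤ (k : ℚ)⁻¹ :=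
  inv_anti₀ (by exact_mod_cast h0) (by exact_mod_cast h)

theorem inv_pos' {n : ℕ} (h : 0 < n) : 0 < (n : ℚ)⁻¹ := inv_pos.2 (by exact_mod_cast h)

theorem eq_of_inv {N k : ℕ} (h : (N : ℚ)⁻¹ = (k : ℚ)⁻¹) : N = k := by exact_mod_cast inv_injective h

variable {N c n e n1 e1 n2 e2 k q m μ : ℕ} {τ τ1 τ2 τ9 τU : ℚ}

theorem ET.bd (h : ET N c n e τ) : (τ = 0 ∨ 2 / 7 ≤ τ) ∧ τ < 1 / 2 := by
  rcases h with ⟨-, rfl⟩ | ⟨-, -, -, ⟨-, h, rfl⟩ | ⟨-, h, -, rfl⟩⟩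
  · norm_num
  · have := inv_le' 3 h
    have := inv_pos' (n := n) (by omega)
    exact ⟨Or.inr (by push_cast at *; linarith), by linarith⟩
  · have := inv_le' 7 h
    have := inv_pos' (n := n) (by omega)
    exact ⟨Or.inr (by push_cast at *; linarith), by linarith⟩

theorem ET.nonneg (h : ET N c n e τ) : 0 ≤ τ := by rcases h.bd.1 with e | e <;> linarith

theorem ET.two (h : ET N c n 2 τ) (h1 : n ≠ 1) : n % 2 = 1 ∧ n ∣ N ∧ n.Coprime c ∧ τ = 1 / 2 - (n : ℚ)⁻¹ / 2 := by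
  rcases h with ⟨h, -⟩ | ⟨a, b, c, ⟨-, -, h⟩ | ⟨h, -⟩⟩
  exacts [absurd h h1, ⟨a, dvd_of_mul_right_dvd b, c, h⟩, absurd h (by decide)]

theorem ET.zero (h : ET N c n e 0) : n = 1 := by
  rcases h with ⟨h, -⟩ | h
  · exact h
  · have := ET.bd (Or.inr h)
    rcases h with ⟨-, -, -, ⟨-, h, e⟩ | ⟨-, h, -, e⟩⟩
    · have := inv_le' 3 h
      push_cast at *
      linarith
    · have := inv_le' 7 h
      push_cast at *
      linarith

theorem arith_D22 (hk : 0 < k) (hN : 0 < N) (o1 : n1 % 2 = 1) (o2 : n2 % 2 = 1) (h1 : 3 ≤ n1) (h2 : n1 < n2)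
    (h : (N : ℚ)⁻¹ = (k : ℚ)⁻¹ / 4 + (n1 : ℚ)⁻¹ / 2 + (n2 : ℚ)⁻¹ / 2 - 1 / 2) : N = 60 ∧ k = 1 := by
  have := inv_pos' hN
  have := inv_le' 1 hk
  obtain rfl : n1 = 3 := by_contra fun e => by
    have := inv_le' (n := n1) 5 (by omega)
    have := inv_le' (n := n2) 7 (by omega)
    push_cast at *
    linarith
  obtain rfl : n2 = 5 := by_contra fun e => by
    have := inv_le' (n := n2) 7 (by omega)
    push_cast at *
    linarith
  obtain rfl : k = 1 := by_contra fun e => by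
    have := inv_le' (n := k) 2 (by omega)
    push_cast at *
    linarith
  exact ⟨eq_of_inv (by rw [h]; norm_num), rfl⟩

theorem arith_D23 (hk : 0 < k) (hN : 0 < N) (o1 : n1 % 2 = 1) (o2 : n2 % 2 = 1) (h1 : 3 ≤ n1) (h2 : 7 ≤ n2)
    (h3 : n2 % 3 = 1) (h4 : n2 * 3 ∣ N) (c1 : n1.Coprime (4 * k)) (h5 : 3 ∣ 4 * k ∨ 3 ∣ n1)
    (h : (N : ℚ)⁻¹ = (k : ℚ)⁻¹ / 4 + (n1 : ℚ)⁻¹ / 2 + (n2 : ℚ)⁻¹ / 3 - 1 / 3) : N = 168 := by
  have := inv_pos' hN
  have := inv_le' 1 hk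
  have := inv_le' 7 h2
  have := inv_pos' (n := n2) (by omega)
  have := inv_le' (n := N) 21 ((by omega : 21 ≤ n2 * 3).trans (Nat.le_of_dvd hN h4))
  rcases h5 with h5 | h5
  · have : n1 ≠ 3 := by rintro rfl; exact absurd (Nat.Coprime.eq_one_of_dvd c1 h5) (by decide)
    have := inv_le' (n := n1) 5 (by omega)
    have := inv_le' (n := k) 3 (by omega)
    push_cast at *
    linarith
  by_cases a : n1 = 3
  · subst a
    obtain rfl : k = 2 := by_contra fun e => by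
      by_cases e1 : k = 1
      · subst e1
        push_cast at *
        linarith
      have := inv_le' (n := k) 3 (by omega)
      push_cast at *
      linarith
    obtain rfl : n2 = 7 := by_contra fun e => by
      have := inv_le' (n := n2) 8 (by omega)
      push_cast at *
      linarith
    exact eq_of_inv (by rw [h]; norm_num)
  exfalso
  by_cases b : n1 = 9
  · subst b
    obtain rfl : k = 1 := by_contra fun e => by
      have := inv_le' (n := k) 2 (by omega)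
      push_cast at *
      linarith
    obtain rfl : n2 = 7 := by_contra fun e => by
      have := inv_le' (n := n2) 12 (by omega)
      push_cast at *
      linarith
    have h0 : (N : ℚ) ≠ 0 := by positivity
    have : (5 * N : ℚ) = 252 := by field_simp at h; push_cast at h; linarith
    have : 5 * N = 252 := by exact_mod_cast this
    omega
  have := inv_le' (n := n1) 15 (by omega)
  push_cast at *
  linarith

theorem arith_D0 (hk : 0 < k) (hN : 0 < N) (hd : 4 * k ∣ N) (h1 : ET N (4 * k) n1 e1 τ1) (h2 : ET N (4 * k) n2 e2 τ2)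
    (co : n1.Coprime n2) (h3 : 3 ∣ N → 3 ∣ 4 * k ∨ 3 ∣ n1 ∨ 3 ∣ n2)
    (h : 1 / 2 + (k : ℚ)⁻¹ / 4 - (N : ℚ)⁻¹ = τ1 + τ2) : (N = 60 ∧ k = 1) ∨ N = 168 := by
  have := inv_le' (4 * k) (Nat.le_of_dvd hN hd) (by omega)
  have := inv_pos' hN
  have b1 := h1.bd.2
  have b2 := h2.bd.2
  push_cast at *
  rw [mul_inv] at *
  rcases h1 with ⟨-, rfl⟩ | ⟨o1, d1, c1, h1⟩
  · linarith
  rcases h2 with ⟨-, rfl⟩ | ⟨o2, d2, c2, h2⟩
  · linarith
  have ne : n1 ≠ n2 := by rintro rfl; simp at co; omega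
  rcases h1 with ⟨rfl, a1, rfl⟩ | ⟨rfl, a1, a2, rfl⟩ <;> rcases h2 with ⟨rfl, a3, rfl⟩ | ⟨rfl, a3, a4, rfl⟩
  · rcases lt_or_gt_of_ne ne with e | e
    exacts [Or.inl (arith_D22 hk hN o1 o2 a1 e (by linarith)), Or.inl (arith_D22 hk hN o2 o1 a3 e (by linarith))]
  · exact Or.inr (arith_D23 hk hN o1 o2 a1 a3 a4 d2 c1 (by have := h3 (dvd_of_mul_left_dvd d2); omega) (by linarith))
  · exact Or.inr (arith_D23 hk hN o2 o1 a3 a1 a2 d1 c2 (by have := h3 (dvd_of_mul_left_dvd d1); omega) (by linarith))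
  · have := h3 (dvd_of_mul_left_dvd d1)
    have := inv_le' (n := k) 3 (by omega)
    have := inv_le' 7 a1
    have := inv_le' 7 a3
    rcases (by omega : 13 ≤ n1 ∨ 13 ≤ n2) with e | e <;> have := inv_le' 13 e <;> push_cast at * <;> linarith

theorem arith_D9' (hk : 0 < k) (k2 : 2 ∣ k) (k3 : ¬ 3 ∣ 4 * k) (hN : 0 < N) (hd : 4 * k ∣ N) (h9 : 9 ∣ N)
    (h1 : ET N (4 * k) n e τ) (n3 : ¬ 3 ∣ n) (h : 5 / 18 + (k : ℚ)⁻¹ / 4 - (N : ℚ)⁻¹ = τ) : N = 360 := by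
  have := inv_le' 9 (Nat.le_of_dvd hN h9)
  have := inv_pos' hN
  have := inv_pos' hk
  have := inv_le' (n := k) 2 (by omega)
  rcases h1 with ⟨-, rfl⟩ | ⟨o1, d1, c1, ⟨rfl, a1, rfl⟩ | ⟨rfl, a1, a2, rfl⟩⟩
  · push_cast at *
    linarith
  · obtain rfl : n = 5 := by_contra fun e => by
      have := inv_le' (n := n) 7 (by omega)
      push_cast at *
      linarith
    obtain rfl : k = 2 := by_contra fun e => by
      have := inv_le' (n := k) 4 (by omega)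
      push_cast at *
      linarith
    exact eq_of_inv (by push_cast at *; linarith)
  exfalso
  have c3 : ∀ a, ¬ 3 ∣ a → a.Coprime 9 := fun a ha =>
    ((Nat.Prime.coprime_iff_not_dvd Nat.prime_three).2 ha).symm.pow_right 2
  obtain ⟨M, rfl⟩ := ((c3 n n3).mul_right c1).mul_dvd_of_dvd_of_dvd (dvd_of_mul_right_dvd d1)
    ((c3 _ k3).symm.mul_dvd_of_dvd_of_dvd h9 hd)
  have M0 : (M : ℚ) ≠ 0 := by rintro e; simp_all
  have n0 : (n : ℚ) ≠ 0 := by positivity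
  have k0 : (k : ℚ) ≠ 0 := by positivity
  have e : (M : ℚ) * (9 * n + 12 * k - 2 * k * n) = 1 := by
    push_cast at h
    field_simp at h
    linarith
  have e' : (M : ℤ) * (9 * n + 12 * k - 2 * k * n) = 1 := by exact_mod_cast e
  have := Int.eq_one_of_mul_eq_one_left (by nlinarith) e'
  obtain ⟨n, rfl⟩ := Nat.exists_eq_add_of_le' (show 6 ≤ n by omega)
  have e2 : n * (2 * k - 9) = 53 := by
    have : 9 ≤ 2 * k := by push_cast at this; nlinarith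
    zify [this]
    push_cast at *
    linarith
  rcases (Nat.dvd_prime (by norm_num)).1 (Dvd.intro _ e2) with rfl | rfl <;> omega

theorem arith_D9 (hk : 0 < k) (k2 : 2 ∣ k) (k3 : ¬ 3 ∣ 4 * k) (hN : 0 < N) (hd : 4 * k ∣ N) (h9 : 9 ∣ N)
    (h1 : ET N (4 * k) n1 e1 τ1) (h2 : ET N (4 * k) n2 e2 τ2) (a1 : ¬ 3 ∣ n1) (a2 : ¬ 3 ∣ n2)
    (h : 1 / 2 + (k : ℚ)⁻¹ / 4 - (N : ℚ)⁻¹ = τ1 + τ2 + 2 / 9) : N = 360 := by
  have := inv_pos' hN
  have := inv_le' (n := k) 2 (by omega)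
  rcases h1.bd.1 with rfl | b1
  · exact arith_D9' hk k2 k3 hN hd h9 h2 a2 (by linarith)
  rcases h2.bd.1 with rfl | b2
  · exact arith_D9' hk k2 k3 hN hd h9 h1 a1 (by linarith)
  push_cast at *
  linarith

theorem arith_DU1 (hk : 0 < k) (hm : 4 ≤ m) (hq : 1 < q) (md : m ∣ q - 1) (qo : q % 2 = 1) (hμ : 1 ≤ μ)
    (hN : N = q * m * (1 + q * μ)) (hd : 4 * k ∣ N) (cq : q.Coprime (4 * k)) (h1 : ET N (4 * k) m 2 τ1)
    (h2 : τ2 = 0 ∨ 2 / 7 ≤ τ2) (h9 : τ9 = 0 ∨ (τ9 = 2 / 9 ∧ 2 ∣ k))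
    (h : 1 / 2 + (k : ℚ)⁻¹ / 4 - (N : ℚ)⁻¹ = τ1 + τ2 + τ9 + ((m : ℚ)⁻¹ - (q : ℚ)⁻¹ * (m : ℚ)⁻¹)) :
    μ = 1 ∧ q = 2 * m + 1 := by
  obtain ⟨mo, -, cm, rfl⟩ := h1.two (by omega)
  have N0 := inv_pos' (n := N) (by subst hN; positivity)
  have := inv_le' 1 hk
  have m0 := inv_pos' (n := m) (by omega)
  have := mul_le_mul_of_nonneg_right (inv_le' 2 hq) m0.le
  obtain rfl : τ2 = 0 := h2.resolve_right fun e => by rcases h9 with rfl | ⟨rfl, -⟩ <;> push_cast at * <;> linarith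
  obtain rfl : τ9 = 0 := h9.resolve_right fun ⟨e, e'⟩ => by
    have := inv_le' (n := k) 2 (by omega)
    push_cast at *
    linarith
  have e : 2 * k * (1 + q * μ) = m * (1 + q * μ) + 4 * k * μ := by
    have k0 : (k : ℚ) ≠ 0 := by positivity
    have q0 : (q : ℚ) ≠ 0 := by positivity
    have m0 : (m : ℚ) ≠ 0 := by positivity
    have X0 : (1 + q * μ : ℚ) ≠ 0 := by positivity
    subst hN
    push_cast at h
    field_simp at h
    have : (2 * k * (1 + q * μ) : ℚ) = m * (1 + q * μ) + 4 * k * μ :=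
      mul_left_cancel₀ (mul_ne_zero two_ne_zero q0) (by linear_combination -h)
    exact_mod_cast this
  have d1 : 4 * k ∣ 1 + q * μ := (cq.mul_left cm).symm.dvd_of_dvd_mul_left (hN ▸ hd)
  have d2 : 1 + q * μ ∣ 4 * k := (show (1 + q * μ).Coprime μ by simp).dvd_of_dvd_mul_right
    ((Nat.dvd_add_right (dvd_mul_left _ m)).1 (e ▸ dvd_mul_left _ _))
  have e2 := Nat.dvd_antisymm d1 d2
  rw [← e2, mul_comm m, ← mul_add, mul_comm] at e
  have e3 := Nat.eq_of_mul_eq_mul_left (by omega) e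
  have : 2 * m ≤ q - 1 := Nat.le_of_dvd (by omega) (Nat.Coprime.mul_dvd_of_dvd_of_dvd
    ((Nat.Prime.coprime_iff_not_dvd Nat.prime_two).2 (by omega)) (by omega) md)
  obtain rfl : μ = 1 := by_contra fun e => by
    have : q * 2 + 2 * (μ - 2) ≤ q * μ := by
      obtain ⟨μ, rfl⟩ := Nat.exists_eq_add_of_le' (show 2 ≤ μ by omega)
      simp only [Nat.add_sub_cancel]
      nlinarith
    omega
  omega

theorem arith_DU0' (hk : 2 ≤ k) (hq : 1 < q) (md : 2 * k ∣ q - 1) (hμ : 1 ≤ μ) (hN : N = q * (2 * k) * (1 + q * μ))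
    (h1 : ET N (4 * k) n e τ) (cq : q.Coprime n) (h3 : 1 / 3 < τ)
    (h : 1 / 2 - (k : ℚ)⁻¹ / 4 + (q : ℚ)⁻¹ * (k : ℚ)⁻¹ / 2 - (N : ℚ)⁻¹ = τ) : μ = 1 := by
  rcases h1 with ⟨-, rfl⟩ | ⟨o1, d1, c1, ⟨rfl, a1, rfl⟩ | ⟨rfl, a1, a2, rfl⟩⟩
  · norm_num at h3
  swap
  · have := inv_pos' (n := n) (by omega)
    linarith
  have e : 2 * n * μ + 2 * k * (1 + q * μ) = n * (1 + q * μ) := by
    have k0 : (k : ℚ) ≠ 0 := by positivity
    have q0 : (q : ℚ) ≠ 0 := by positivity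
    have n0 : (n : ℚ) ≠ 0 := by positivity
    have X0 : (1 + q * μ : ℚ) ≠ 0 := by positivity
    subst hN
    push_cast at h
    field_simp at h
    have : (2 * n * μ + 2 * k * (1 + q * μ) : ℚ) = n * (1 + q * μ) :=
      mul_left_cancel₀ (mul_ne_zero two_ne_zero q0) (by linear_combination h)
    exact_mod_cast this
  have d1 : n ∣ 1 + q * μ := (cq.symm.mul_right (c1.coprime_dvd_right ⟨2, by ring⟩)).dvd_of_dvd_mul_left
    (hN ▸ dvd_of_mul_right_dvd d1)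
  have d2 : 1 + q * μ ∣ 2 * n := (show (1 + q * μ).Coprime μ by simp).dvd_of_dvd_mul_right
    ((Nat.dvd_add_left (dvd_mul_left _ (2 * k))).1 (e ▸ dvd_mul_left _ _))
  obtain ⟨j, hj⟩ := d1
  rw [hj, mul_comm 2] at d2
  have hq' := Nat.le_of_dvd (by omega) md
  have e' : 2 * μ + 2 * k * j = n * j := Nat.eq_of_mul_eq_mul_left (show 0 < n by omega) (by rw [hj] at e; linarith)
  rcases (Nat.dvd_prime Nat.prime_two).1 (Nat.dvd_of_mul_dvd_mul_left (by omega) d2) with rfl | rfl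
  · omega
  by_contra e
  have : μ % 2 = 1 := by
    by_contra e
    have : 2 ∣ q * μ := dvd_mul_of_dvd_right (by omega) q
    omega
  have : q * 3 + 2 * (μ - 3) ≤ q * μ := by
    obtain ⟨μ, rfl⟩ := Nat.exists_eq_add_of_le' (show 3 ≤ μ by omega)
    simp only [Nat.add_sub_cancel]
    nlinarith
  omega

theorem arith_DU0 (hk : 2 ≤ k) (hq : 1 < q) (md : 2 * k ∣ q - 1) (hμ : 1 ≤ μ) (hN : N = q * (2 * k) * (1 + q * μ))
    (h1 : ET N (4 * k) n1 e1 τ1) (h2 : ET N (4 * k) n2 e2 τ2) (c1 : q.Coprime n1) (c2 : q.Coprime n2)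
    (h9 : τ9 = 0 ∨ τ9 = 2 / 9)
    (h : 1 / 2 + (k : ℚ)⁻¹ / 4 - (N : ℚ)⁻¹ = τ1 + τ2 + τ9 + (((2 * k : ℕ) : ℚ)⁻¹ - (q : ℚ)⁻¹ * ((2 * k : ℕ) : ℚ)⁻¹)) :
    μ = 1 := by
  have N0 := inv_pos' (n := N) (by subst hN; positivity)
  have := inv_le' 2 hk
  have k0 := inv_pos' (n := k) (by omega)
  have := mul_le_mul_of_nonneg_right (inv_le' 2 hq) k0.le
  have := inv_le' (n := N) (q * (2 * k)) (hN ▸ Nat.le_mul_of_pos_right _ (by omega)) (by positivity)
  push_cast at *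
  simp only [mul_inv] at *
  rcases h1.bd.1 with rfl | b1
  · rcases h9 with rfl | rfl
    · exact arith_DU0' hk hq md hμ hN h2 c2 (by linarith) (by linarith)
    · rcases h2.bd.1 with rfl | b2 <;> linarith
  rcases h2.bd.1 with rfl | b2
  · rcases h9 with rfl | rfl
    · exact arith_DU0' hk hq md hμ hN h1 c1 (by linarith) (by linarith)
    · linarith
  rcases h9 with rfl | rfl <;> linarith

theorem arith_V (hc : 6 ≤ c) (hN : 5 * c ≤ N) (h1 : ET N c n1 e1 τ1) (h2 : ET N c n2 e2 τ2) (co : n1.Coprime n2)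
    (h3 : 3 ∣ n1) (h : 2 / 3 + (c : ℚ)⁻¹ / 3 - (N : ℚ)⁻¹ = τ1 + τ2) : False := by
  have := inv_le' 6 hc
  have := inv_pos' (n := c) (by omega)
  have := inv_pos' (n := N) (by omega)
  have := inv_le' (5 * c) hN (by omega)
  have b1 := h1.bd.2
  have b2 := h2.bd
  push_cast at *
  rw [mul_inv] at *
  rcases h1 with ⟨rfl, -⟩ | ⟨o1, d1, c1, ⟨rfl, a1, rfl⟩ | ⟨rfl, a1, a2, rfl⟩⟩
  · omega
  swap
  · omega
  by_cases e : n1 = 3
  swap
  · have := inv_le' (n := n1) 9 (by omega)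
    push_cast at *
    rcases b2.1 with rfl | b <;> linarith
  subst e
  rcases h2 with ⟨-, rfl⟩ | ⟨o2, d2, c2, ⟨rfl, a3, rfl⟩ | ⟨rfl, a3, a4, rfl⟩⟩
  · linarith
  · have : n2 ≠ 3 := by rintro rfl; simp at co
    have := inv_le' (n := n2) 5 (by omega)
    push_cast at *
    linarith
  · have := inv_pos' (n := n2) (by omega)
    push_cast at *
    linarith

theorem arith_A7 (hN : 0 < N) (hd : 72 ∣ N) (h1 : ET N 24 n e τ)
    (hU : τU = 0 ∨ (τU = 1 / 4 - (q : ℚ)⁻¹ / 4 ∧ 1 < q ∧ 4 ∣ q - 1)) (h : 35 / 72 - (N : ℚ)⁻¹ = τ + τU) :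
    N = 2520 ∧ ((e = 2 ∧ n = 35) ∨ (e = 3 ∧ τU ≠ 0 ∧ q = 5)) := by
  have := inv_pos' hN
  have := inv_le' 72 (Nat.le_of_dvd hN hd)
  have b : τU = 0 ∨ (1 / 5 ≤ τU ∧ τU < 1 / 4) := hU.imp_right fun ⟨a, b, c⟩ => by
    have := inv_le' (n := q) 5 (by omega)
    have := inv_pos' (n := q) (by omega)
    push_cast at *
    constructor <;> linarith
  rcases h1 with ⟨-, rfl⟩ | ⟨o1, d1, c1, ⟨rfl, a1, rfl⟩ | ⟨rfl, a1, a2, rfl⟩⟩
  · push_cast at *
    rcases b with rfl | b <;> linarith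
  · have : n ≠ 3 := by rintro rfl; exact absurd c1 (by decide)
    have := inv_le' (n := n) 5 (by omega)
    obtain rfl : τU = 0 := b.resolve_right fun b => by push_cast at *; linarith
    obtain ⟨M, rfl⟩ := (show n.Coprime 72 from (c1.pow_right 2).coprime_dvd_right (by norm_num)).mul_dvd_of_dvd_of_dvd
      (dvd_of_mul_right_dvd d1) hd
    have M0 : (M : ℚ) ≠ 0 := by rintro e; simp_all
    have n0 : (n : ℚ) ≠ 0 := by positivity
    have e : (M : ℚ) * (36 - n) = 1 := by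
      push_cast at h
      field_simp at h
      linarith
    have e' : (M : ℤ) * (36 - n) = 1 := by exact_mod_cast e
    have a := Int.eq_one_of_mul_eq_one_right (by positivity) e'
    obtain rfl : M = 1 := by exact_mod_cast a
    obtain rfl : n = 35 := by omega
    exact ⟨rfl, Or.inl ⟨rfl, rfl⟩⟩
  have := inv_pos' (n := n) (by omega)
  have := inv_le' 7 a1
  obtain ⟨rfl, b1, b2⟩ := hU.resolve_left (by rintro rfl; push_cast at *; linarith)
  obtain rfl : q = 5 := by_contra fun e => by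
    have := inv_le' (n := q) 9 (by omega)
    push_cast at *
    linarith
  obtain rfl : n = 7 := by_contra fun e => by
    have := inv_le' (n := n) 13 (by omega)
    push_cast at *
    linarith
  exact ⟨eq_of_inv (by push_cast at *; linarith), Or.inr ⟨rfl, by norm_num, rfl⟩⟩

end Cfsg.Agent.MH
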