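import Mathlib

/-! Projective representations of degree three, given as a relation between group elements and matrices. -/

set_option autoImplicit false

namespace Cfsg.Agent.MH

open Matrix

/-- vectors -/
abbrev V3 (K : Type*) := Fin 3 → K

/-- matrices -/
abbrev M3 (K : Type*) := Matrix (Fin 3) (Fin 3) K

/-- a faithful projective representation: `R x X` says that the matrix `X` represents `x` -/
structure PRep (Γ K : Type*) [Group Γ] [Field K] where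
  r : Γ → M3 K → Prop
  r_ex : ∀ x, ∃ X, r x X
  r_det : ∀ {x X}, r x X → X.det ≠ 0
  r_one : r 1 1
  r_mul : ∀ {x y X Y}, r x X → r y Y → r (x * y) (X * Y)
  r_smul : ∀ {x X} {c : K}, r x X → c ≠ 0 → r x (c • X)
  r_uniq : ∀ {x X Y}, r x X → r x Y → ∃ c : K, Y = c • X
  r_inj : ∀ {x y X}, r x X → r y X → x = y

variable {Γ K : Type*} [Group Γ] [Field K]

theorem smul_det_ne {c : K} {X : M3 K} (h : (c • X).det ≠ 0) : c ≠ 0 := by
  rintro rfl
  simp at h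

namespace PRep

/-- the matrix `X` represents `x` -/
def R (ρ : PRep Γ K) (x : Γ) (X : M3 K) : Prop := ρ.r x X

variable {ρ : PRep Γ K} {x y z : Γ} {X Y Z : M3 K}

theorem ex (ρ : PRep Γ K) (x : Γ) : ∃ X, ρ.R x X := ρ.r_ex x

theorem one (ρ : PRep Γ K) : ρ.R 1 1 := ρ.r_one

namespace R

theorem det (h : ρ.R x X) : X.det ≠ 0 := ρ.r_det h

theorem mul (hX : ρ.R x X) (hY : ρ.R y Y) : ρ.R (x * y) (X * Y) := ρ.r_mul hX hY

theorem smul {c : K} (hX : ρ.R x X) (hc : c ≠ 0) : ρ.R x (c • X) := ρ.r_smul hX hc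

theorem inj (hX : ρ.R x X) (hY : ρ.R y X) : x = y := ρ.r_inj hX hY

theorem uniq (hX : ρ.R x X) (hY : ρ.R x Y) : ∃ c : K, c ≠ 0 ∧ Y = c • X := by
  obtain ⟨c, rfl⟩ := ρ.r_uniq hX hY
  exact ⟨c, smul_det_ne hY.det, rfl⟩

theorem of_smul {c : K} (h : ρ.R x (c • X)) : ρ.R x X := by
  have hc := smul_det_ne h.det
  have := h.smul (inv_ne_zero hc)
  rwa [smul_smul, inv_mul_cancel₀ hc, one_smul] at this

theorem eq_of_smul {c : K} (hX : ρ.R x X) (hY : ρ.R y (c • X)) : x = y :=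
  hX.inj hY.of_smul

theorem congr (h : ρ.R x X) (e : Y = X) : ρ.R x Y := e ▸ h

theorem congr' (h : ρ.R x X) (e : y = x) : ρ.R y X := e ▸ h

theorem eq_iff (hX : ρ.R x X) (hY : ρ.R y Y) : x = y ↔ ∃ c : K, Y = c • X := by
  constructor
  · rintro rfl
    exact (hX.uniq hY).imp fun _ h => h.2
  · rintro ⟨c, rfl⟩
    exact hX.eq_of_smul hY

theorem eq_one_iff (hX : ρ.R x X) : x = 1 ↔ ∃ c : K, X = c • 1 := by
  rw [eq_comm, ρ.one.eq_iff hX]

theorem inv_of_mul {c : K} (hX : ρ.R x X) (hc : c ≠ 0) (h : X * Y = c • 1) : ρ.R x⁻¹ Y := by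
  obtain ⟨Z, hZ⟩ := ρ.ex x⁻¹
  have h1 := hZ.mul hX
  rw [inv_mul_cancel] at h1
  obtain ⟨d, hd, e⟩ := ρ.one.uniq h1
  have : d • Y = c • Z := by
    have := congrArg (· * Y) e
    simp only [mul_assoc, h, Matrix.mul_smul, mul_one, Matrix.smul_mul, one_mul] at this
    exact this.symm
  exact of_smul ((hZ.smul hc).congr this)

theorem inv_of_mul' (hX : ρ.R x X) (h : X * Y = 1) : ρ.R x⁻¹ Y :=
  hX.inv_of_mul one_ne_zero (by simpa using h)

theorem mul_inv (hX : ρ.R x X) : X * X⁻¹ = 1 := mul_nonsing_inv _ (Ne.isUnit hX.det)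

theorem inv_mul (hX : ρ.R x X) : X⁻¹ * X = 1 := nonsing_inv_mul _ (Ne.isUnit hX.det)

theorem inv (hX : ρ.R x X) : ρ.R x⁻¹ X⁻¹ := hX.inv_of_mul' hX.mul_inv

theorem pow (hX : ρ.R x X) (n : ℕ) : ρ.R (x ^ n) (X ^ n) := by
  induction n with
  | zero => simpa using ρ.one
  | succ n ih => rw [pow_succ, pow_succ]; exact ih.mul hX

/-- left division -/
theorem of_mul_left (hX : ρ.R x X) (hZ : ρ.R z (X * Y)) : ρ.R (x⁻¹ * z) Y := by
  have := hX.inv.mul hZ
  rwa [← mul_assoc, hX.inv_mul, one_mul] at this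

/-- right division -/
theorem of_mul_right (hX : ρ.R x X) (hZ : ρ.R z (Y * X)) : ρ.R (z * x⁻¹) Y := by
  have := hZ.mul hX.inv
  rwa [mul_assoc, hX.mul_inv, mul_one] at this

theorem conj_of (hX : ρ.R x X) (hY : ρ.R y Y) (h : X * Y = Z * X) : ρ.R (x * y * x⁻¹) Z :=
  hX.of_mul_right (h ▸ hX.mul hY)

theorem comm_iff (hX : ρ.R x X) (hY : ρ.R y Y) : x * y = y * x ↔ ∃ c : K, Y * X = c • (X * Y) :=
  (hX.mul hY).eq_iff (hY.mul hX)

theorem comm_of (hX : ρ.R x X) (hY : ρ.R y Y) (h : X * Y = Y * X) : x * y = y * x :=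
  (hX.mul hY).inj (h ▸ hY.mul hX)

theorem mulVec_ne (hX : ρ.R x X) {v : V3 K} (hv : v ≠ 0) : X *ᵥ v ≠ 0 := by
  intro h
  apply hv
  have := congrArg (X⁻¹ *ᵥ ·) h
  simpa [mulVec_mulVec, hX.inv_mul] using this

theorem vecMul_ne (hX : ρ.R x X) {v : V3 K} (hv : v ≠ 0) : v ᵥ* X ≠ 0 := by
  intro h
  apply hv
  have := congrArg (· ᵥ* X⁻¹) h
  simpa [vecMul_vecMul, hX.mul_inv] using this

end R

theorem scalar (ρ : PRep Γ K) {c : K} (hc : c ≠ 0) : ρ.R 1 (c • 1) := ρ.one.smul hc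

/-- change of basis -/
def cj (ρ : PRep Γ K) (P Q : M3 K) (h : P * Q = 1) : PRep Γ K where
  r x X := ρ.R x (P * X * Q)
  r_ex x := by
    obtain ⟨X, hX⟩ := ρ.ex x
    refine ⟨Q * X * P, hX.congr ?_⟩
    calc P * (Q * X * P) * Q = (P * Q) * X * (P * Q) := by simp only [mul_assoc]
      _ = X := by simp [h]
  r_det hX e := hX.det (by simp [e])
  r_one := ρ.one.congr (by simp [h])
  r_mul {x y X Y} hX hY := (hX.mul hY).congr (by
    calc P * (X * Y) * Q = P * X * (Q * P) * Y * Q := by simp [mul_eq_one_comm.1 h, mul_assoc]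
      _ = _ := by simp only [mul_assoc])
  r_smul hX hc := (hX.smul hc).congr (by simp)
  r_uniq {x X Y} hX hY := by
    obtain ⟨c, -, e⟩ := hX.uniq hY
    refine ⟨c, ?_⟩
    have h' := mul_eq_one_comm.1 h
    calc Y = (Q * P) * Y * (Q * P) := by simp [h']
      _ = Q * (P * Y * Q) * P := by simp only [mul_assoc]
      _ = c • ((Q * P) * X * (Q * P)) := by rw [e]; simp [mul_assoc]
      _ = _ := by simp [h']
  r_inj hX hY := hX.inj hY

theorem cj_R {P Q : M3 K} {h : P * Q = 1} : (ρ.cj P Q h).R x X ↔ ρ.R x (P * X * Q) := Iff.rfl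

theorem R.cj {P Q : M3 K} {h : P * Q = 1} (hX : ρ.R x X) : (ρ.cj P Q h).R x (Q * X * P) := by
  refine cj_R.2 (hX.congr ?_)
  calc P * (Q * X * P) * Q = (P * Q) * X * (P * Q) := by simp only [mul_assoc]
    _ = X := by simp [h]

theorem R.cj' {P Q : M3 K} {h : P * Q = 1} (hX : ρ.R x X) (e : X * P = P * Y) : (ρ.cj P Q h).R x Y := by
  refine cj_R.2 (hX.congr ?_)
  rw [← e, mul_assoc, h, mul_one]

/-- the dual representation -/
def tp (ρ : PRep Γ K) : PRep Γ K where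
  r x X := ρ.R x⁻¹ Xᵀ
  r_ex x := by
    obtain ⟨X, hX⟩ := ρ.ex x⁻¹
    exact ⟨Xᵀ, hX⟩
  r_det hX := by simpa using hX.det
  r_one := by simpa using ρ.one
  r_mul hX hY := by simpa using hY.mul hX
  r_smul hX hc := by simpa using hX.smul hc
  r_uniq hX hY := by
    obtain ⟨c, -, e⟩ := hX.uniq hY
    exact ⟨c, transpose_injective (by simpa using e)⟩
  r_inj hX hY := inv_injective (hX.inj hY)

theorem tp_R : ρ.tp.R x X ↔ ρ.R x⁻¹ Xᵀ := Iff.rfl

theorem R.tp (hX : ρ.R x X) : ρ.tp.R x⁻¹ Xᵀ := by simpa [tp_R] using hX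

/-- the standing hypotheses -/
structure Hyp (ρ : PRep Γ K) : Prop where
  perf : commutator Γ = ⊤
  pt : ∀ v : V3 K, v ≠ 0 → ∃ x X, ρ.R x X ∧ ∀ c : K, X *ᵥ v ≠ c • v
  ln : ∀ v : V3 K, v ≠ 0 → ∃ x X, ρ.R x X ∧ ∀ c : K, v ᵥ* X ≠ c • v
  split : ∀ {x X}, ρ.R x X → X.charpoly.Splits

theorem Hyp.tp (h : ρ.Hyp) : ρ.tp.Hyp where
  perf := h.perf
  pt v hv := by
    obtain ⟨x, X, h1, h2⟩ := h.ln v hv
    exact ⟨_, _, h1.tp, by simpa [mulVec_transpose] using h2⟩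
  ln v hv := by
    obtain ⟨x, X, h1, h2⟩ := h.pt v hv
    exact ⟨_, _, h1.tp, by simpa [vecMul_transpose] using h2⟩
  split hX := by simpa [charpoly_transpose] using h.split hX

theorem Hyp.cj (h : ρ.Hyp) {P Q : M3 K} (hP : P * Q = 1) : (ρ.cj P Q hP).Hyp where
  perf := h.perf
  pt v hv := by
    have hQ := mul_eq_one_comm.1 hP
    obtain ⟨x, X, h1, h2⟩ := h.pt (P *ᵥ v) fun e => hv (by
      simpa [mulVec_mulVec, hQ] using congrArg (Q *ᵥ ·) e)
    refine ⟨x, _, h1.cj, fun c e => h2 c ?_⟩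
    have := congrArg (P *ᵥ ·) e
    simpa [mulVec_mulVec, ← mul_assoc, hP, mulVec_smul] using this
  ln v hv := by
    have hQ := mul_eq_one_comm.1 hP
    obtain ⟨x, X, h1, h2⟩ := h.ln (v ᵥ* Q) fun e => hv (by
      simpa [vecMul_vecMul, hQ] using congrArg (· ᵥ* P) e)
    refine ⟨x, _, h1.cj, fun c e => h2 c ?_⟩
    have := congrArg (· ᵥ* Q) e
    simpa [vecMul_vecMul, mul_assoc, hP, smul_vecMul] using this
  split {x X} hX := by
    have := h.split hX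
    rwa [charpoly_mul_comm, ← mul_assoc, mul_eq_one_comm.1 hP, one_mul] at this

end PRep

/-! ### perspectivities -/

/-- the perspectivity `1 + v ⊗ φ` -/
def T (v φ : V3 K) : M3 K := 1 + vecMulVec v φ

theorem T_mulVec (v φ w : V3 K) : T v φ *ᵥ w = w + (φ ⬝ᵥ w) • v := by
  simp [T, add_mulVec, vecMulVec_mulVec]

theorem vecMul_T (v φ ψ : V3 K) : ψ ᵥ* T v φ = ψ + (ψ ⬝ᵥ v) • φ := by
  simp [T, vecMul_add, vecMul_vecMulVec]

theorem T_transpose (v φ : V3 K) : (T v φ)ᵀ = T φ v := by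
  simp [T, transpose_vecMulVec]

theorem T_smul (c : K) (v φ : V3 K) : T (c • v) φ = T v (c • φ) := by
  simp [T, smul_vecMulVec, vecMulVec_smul]

theorem T_zero (v : V3 K) : T v 0 = 1 := by simp [T]

theorem zero_T (v : V3 K) : T 0 v = 1 := by simp [T]

theorem T_mul_T (v φ ψ : V3 K) : T v φ * T v ψ = T v (φ + ψ + (φ ⬝ᵥ v) • ψ) := by
  simp only [T, add_mul, mul_add, one_mul, mul_one, vecMulVec_mul_vecMulVec, vecMulVec_add]
  abel

theorem T_mul_T' (v w φ : V3 K) : T v φ * T w φ = T (v + w + (φ ⬝ᵥ w) • v) φ := by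
  simp only [T, add_mul, mul_add, one_mul, mul_one, vecMulVec_mul_vecMulVec, add_vecMulVec, smul_vecMulVec,
    vecMulVec_smul]
  abel

theorem conj_T {X Y : M3 K} (h : X * Y = 1) (v φ : V3 K) : X * T v φ * Y = T (X *ᵥ v) (φ ᵥ* Y) := by
  simp [T, mul_add, add_mul, h, mul_vecMulVec, vecMulVec_mul]

theorem mul_T {X Y : M3 K} (h : X * Y = 1) (v φ : V3 K) : X * T v φ = T (X *ᵥ v) (φ ᵥ* Y) * X := by
  rw [← conj_T h, mul_assoc, mul_eq_one_comm.1 h, mul_one]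

theorem det_T (v φ : V3 K) : (T v φ).det = 1 + φ ⬝ᵥ v := by
  simp [T, det_fin_three, vecMulVec, dotProduct, Fin.sum_univ_three, one_apply]
  ring

theorem trace_T (v φ : V3 K) : (T v φ).trace = 3 + φ ⬝ᵥ v := by
  simp [T, trace_vecMulVec, dotProduct_comm]

theorem T_inj {v φ w ψ : V3 K} (h : T v φ = T w ψ) : vecMulVec v φ = vecMulVec w ψ := add_left_cancel h

theorem exists_ne_zero {v : V3 K} (hv : v ≠ 0) : ∃ i, v i ≠ 0 := Function.ne_iff.1 hv

theorem vmv_eq {v φ w ψ : V3 K} (h : vecMulVec v φ = vecMulVec w ψ) (hv : v ≠ 0) (hφ : φ ≠ 0) :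
    ∃ c : K, c ≠ 0 ∧ v = c • w ∧ ψ = c • φ := by
  obtain ⟨i, hi⟩ := exists_ne_zero hv
  obtain ⟨j, hj⟩ := exists_ne_zero hφ
  have e : ∀ a b, v a * φ b = w a * ψ b := fun a b => by simpa [vecMulVec] using congrFun (congrFun h a) b
  have h1 : w i ≠ 0 := fun h0 => by simpa [h0, hi, hj] using e i j
  have h2 : ψ j ≠ 0 := fun h0 => by simpa [h0, hi, hj] using e i j
  refine ⟨v i / w i, div_ne_zero hi h1, funext fun a => ?_, funext fun b => ?_⟩
  · simp only [Pi.smul_apply, smul_eq_mul]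
    field_simp
    apply mul_right_cancel₀ hj
    linear_combination w i * e a j - w a * e i j
  · simp only [Pi.smul_apply, smul_eq_mul]
    field_simp
    linear_combination -e i b

/-- a perspectivity that is a scalar multiple of a perspectivity is equal to it -/
theorem T_eq_smul {v φ w ψ : V3 K} {c : K} (h : T v φ = c • T w ψ) : c = 1 := by
  obtain ⟨u, hu, h1, h2⟩ : ∃ u : V3 K, u ≠ 0 ∧ φ ⬝ᵥ u = 0 ∧ ψ ⬝ᵥ u = 0 := by
    have : (Matrix.of ![φ, ψ, 0]).det = 0 := det_eq_zero_of_row_eq_zero 2 (by simp)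
    obtain ⟨u, hu, e⟩ := exists_mulVec_eq_zero_iff.2 this
    exact ⟨u, hu, by simpa [mulVec] using congrFun e 0, by simpa [mulVec] using congrFun e 1⟩
  have := congrArg (· *ᵥ u) h
  simp only [T_mulVec, smul_mulVec, h1, h2, zero_smul, add_zero] at this
  obtain ⟨i, hi⟩ := exists_ne_zero hu
  have := congrFun this i
  simp only [Pi.smul_apply, smul_eq_mul] at this
  exact mul_right_cancel₀ hi (by linear_combination -this)

theorem T_eq_scalar {v φ : V3 K} {c : K} (h : T v φ = c • 1) : v = 0 ∨ φ = 0 := by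
  have hc : c = 1 := T_eq_smul (w := 0) (ψ := 0) (by rw [h, T_zero])
  rw [hc, one_smul, T, add_eq_left, vecMulVec_eq_zero] at h
  exact h

/-! ### bases -/

/-- the matrix with given columns -/
def col3 (u v w : V3 K) : M3 K := (Matrix.of ![u, v, w])ᵀ

theorem col3_mulVec (u v w a : V3 K) : col3 u v w *ᵥ a = a 0 • u + a 1 • v + a 2 • w := by
  ext i
  simp [col3, mulVec, dotProduct, Fin.sum_univ_three]
  ring

theorem mul_col3 (X : M3 K) (u v w : V3 K) : X * col3 u v w = col3 (X *ᵥ u) (X *ᵥ v) (X *ᵥ w) := by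
  ext i j
  fin_cases j <;> simp [col3, mul_apply, mulVec, dotProduct]

theorem col3_mul (u v w : V3 K) (Y : M3 K) : col3 u v w * Y =
    col3 (Y 0 0 • u + Y 1 0 • v + Y 2 0 • w) (Y 0 1 • u + Y 1 1 • v + Y 2 1 • w)
      (Y 0 2 • u + Y 1 2 • v + Y 2 2 • w) := by
  ext i j
  fin_cases j <;> simp [col3, mul_apply, Fin.sum_univ_three] <;> ring

theorem vecMul_col3 (φ u v w : V3 K) : φ ᵥ* col3 u v w = ![φ ⬝ᵥ u, φ ⬝ᵥ v, φ ⬝ᵥ w] := by
  ext i
  fin_cases i <;> simp [col3, vecMul, dotProduct]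

theorem det_col3_ne {u v w : V3 K} (h : ∀ a b c : K, a • u + b • v + c • w = 0 → a = 0 ∧ b = 0 ∧ c = 0) :
    (col3 u v w).det ≠ 0 := by
  intro e
  obtain ⟨a, ha, e⟩ := exists_mulVec_eq_zero_iff.2 e
  rw [col3_mulVec] at e
  obtain ⟨h0, h1, h2⟩ := h _ _ _ e
  exact ha (funext fun i => by fin_cases i <;> simpa)

theorem indep_of_det {u v w : V3 K} (h : (col3 u v w).det ≠ 0) {a b c : K} (e : a • u + b • v + c • w = 0) :
    a = 0 ∧ b = 0 ∧ c = 0 := by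
  by_contra hc
  apply h
  refine exists_mulVec_eq_zero_iff.1 ⟨![a, b, c], fun h0 => hc ⟨?_, ?_, ?_⟩, by simpa [col3_mulVec] using e⟩
  exacts [congrFun h0 0, congrFun h0 1, congrFun h0 2]

/-- `u` and `v` are linearly independent -/
def Ind (u v : V3 K) : Prop := ∀ a b : K, a • u + b • v = 0 → a = 0 ∧ b = 0

theorem Ind.symm {u v : V3 K} (h : Ind u v) : Ind v u := fun a b e => (h b a (by rw [add_comm, e])).symm

theorem Ind.ne {u v : V3 K} (h : Ind u v) : u ≠ 0 := fun e => one_ne_zero (h 1 0 (by simp [e])).1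

theorem Ind.ne' {u v : V3 K} (h : Ind u v) : v ≠ 0 := h.symm.ne

theorem ind_iff {u v : V3 K} (hu : u ≠ 0) : Ind u v ↔ ∀ c : K, v ≠ c • u := by
  constructor
  · intro h c e
    exact one_ne_zero (h (-c) 1 (by simp [e])).2
  · intro h a b e
    by_cases hb : b = 0
    · subst hb
      simpa [hu] using e
    · exfalso
      refine h (-(b⁻¹ * a)) ?_
      have : b • v = -(a • u) := eq_neg_of_add_eq_zero_right e
      rw [← one_smul K v, ← inv_mul_cancel₀ hb, mul_smul, this]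
      simp [mul_smul]

theorem ind_or {u : V3 K} (hu : u ≠ 0) (v : V3 K) : Ind u v ∨ ∃ c : K, v = c • u := by
  rw [ind_iff hu]
  by_contra h
  push Not at h
  obtain ⟨⟨c, e⟩, h⟩ := h
  exact h c e

theorem Ind.smul {u v : V3 K} (h : Ind u v) {a b : K} (ha : a ≠ 0) (hb : b ≠ 0) : Ind (a • u) (b • v) :=
  fun c d e => by
    obtain ⟨h1, h2⟩ := h (c * a) (d * b) (by simpa [mul_smul] using e)
    exact ⟨by simpa [ha] using h1, by simpa [hb] using h2⟩

theorem ind_of_dot {u v φ : V3 K} (hu : u ≠ 0) (h1 : φ ⬝ᵥ u = 0) (h2 : φ ⬝ᵥ v ≠ 0) : Ind u v :=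
  (ind_iff hu).2 fun c e => h2 (by simp [e, h1])

theorem det_col3_eq (u v w : V3 K) : (col3 u v w).det = (u ⨯₃ v) ⬝ᵥ w := by
  simp [col3, det_fin_three, crossProduct, dotProduct, Fin.sum_univ_three]
  ring

theorem Ind.cross_ne {u v : V3 K} (h : Ind u v) : u ⨯₃ v ≠ 0 := by
  rw [crossProduct_ne_zero_iff_linearIndependent, LinearIndependent.pair_iff]
  exact h

theorem exists_dot_ne {φ : V3 K} (h : φ ≠ 0) : ∃ w : V3 K, φ ⬝ᵥ w ≠ 0 := by
  obtain ⟨i, hi⟩ := exists_ne_zero h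
  exact ⟨Pi.single i 1, by simpa using hi⟩

theorem Ind.exists_third {u v : V3 K} (h : Ind u v) : ∃ w, (col3 u v w).det ≠ 0 := by
  obtain ⟨w, hw⟩ := exists_dot_ne h.cross_ne
  exact ⟨w, by rwa [det_col3_eq]⟩

theorem exists_ind {u : V3 K} (hu : u ≠ 0) : ∃ v, Ind u v := by
  obtain ⟨φ, hφ, h1⟩ : ∃ φ : V3 K, φ ≠ 0 ∧ u ⬝ᵥ φ = 0 := by
    have : (Matrix.of ![u, 0, 0]).det = 0 := det_eq_zero_of_row_eq_zero 2 (by simp)
    obtain ⟨φ, hφ, e⟩ := exists_mulVec_eq_zero_iff.2 this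
    exact ⟨φ, hφ, by simpa [mulVec] using congrFun e 0⟩
  obtain ⟨w, hw⟩ := exists_dot_ne hφ
  exact ⟨w, ind_of_dot hu (by rwa [dotProduct_comm]) hw⟩

/-- a functional vanishing on two independent vectors is a multiple of their cross product -/
theorem Ind.eq_smul_cross {u v φ : V3 K} (h : Ind u v) (h1 : φ ⬝ᵥ u = 0) (h2 : φ ⬝ᵥ v = 0) :
    ∃ c : K, φ = c • (u ⨯₃ v) := by
  rcases ind_or h.cross_ne φ with h3 | h3
  · exfalso
    apply h3.cross_ne
    rw [cross_cross_eq_smul_sub_smul, dotProduct_comm u, dotProduct_comm v, h1, h2]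
    simp
  · exact h3

theorem Ind.eq_smul {u v φ ψ : V3 K} (h : Ind u v) (hψ : ψ ≠ 0) (h1 : φ ⬝ᵥ u = 0) (h2 : φ ⬝ᵥ v = 0)
    (h3 : ψ ⬝ᵥ u = 0) (h4 : ψ ⬝ᵥ v = 0) : ∃ c : K, φ = c • ψ := by
  obtain ⟨a, rfl⟩ := h.eq_smul_cross h1 h2
  obtain ⟨b, rfl⟩ := h.eq_smul_cross h3 h4
  have hb : b ≠ 0 := by rintro rfl; simp at hψ
  exact ⟨a / b, by rw [smul_smul, div_mul_cancel₀ _ hb]⟩

theorem exists_inv {P : M3 K} (h : P.det ≠ 0) : ∃ Q, P * Q = 1 := ⟨P⁻¹, mul_nonsing_inv _ (Ne.isUnit h)⟩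

theorem span_of_det {u v w : V3 K} (h : (col3 u v w).det ≠ 0) (x : V3 K) :
    ∃ a b c : K, x = a • u + b • v + c • w := by
  obtain ⟨Q, hQ⟩ := exists_inv h
  exact ⟨_, _, _, by rw [← col3_mulVec _ _ _ (Q *ᵥ x), mulVec_mulVec, hQ, one_mulVec]⟩

/-- a vector on the line through two independent vectors -/
theorem Ind.mem_span {u v φ x : V3 K} (h : Ind u v) (hφ : φ ≠ 0) (h1 : φ ⬝ᵥ u = 0) (h2 : φ ⬝ᵥ v = 0)
    (h3 : φ ⬝ᵥ x = 0) : ∃ a b : K, x = a • u + b • v := by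
  obtain ⟨w, hw⟩ := h.exists_third
  obtain ⟨a, b, c, rfl⟩ := span_of_det hw x
  obtain ⟨d, rfl⟩ := h.eq_smul_cross h1 h2
  rw [det_col3_eq] at hw
  have hd : d ≠ 0 := by rintro rfl; simp at hφ
  rw [dotProduct_add, dotProduct_add, dotProduct_smul, dotProduct_smul, dotProduct_smul, h1, h2,
    smul_dotProduct] at h3
  have : c = 0 := by simpa [hd, hw] using h3
  exact ⟨a, b, by simp [this]⟩

theorem vec3_eq (φ : V3 K) : φ = ![φ 0, φ 1, φ 2] := by
  ext i; fin_cases i <;> rfl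

/-- closes equalities of explicit vectors -/
scoped macro "vec" : tactic =>
  `(tactic| (ext i; fin_cases i <;> simp [dotProduct, Fin.sum_univ_three] <;> ring))

end Cfsg.Agent.MH
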