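import Mathlib

/-! Group-theoretic lemmas: perfect groups, transfer, counting. -/

set_option autoImplicit false

namespace Cfsg.Agent.MH

open Subgroup MulAction

variable {Γ : Type*} [Group Γ]

/-- centraliser of an element -/
def Cn (x : Γ) : Subgroup Γ := centralizer {x}

theorem mem_Cn {x y : Γ} : y ∈ Cn x ↔ x * y = y * x := by simp [Cn, mem_centralizer_iff]

theorem self_mem_Cn (x : Γ) : x ∈ Cn x := mem_Cn.2 rfl

theorem mem_Cn_comm {x y : Γ} : y ∈ Cn x ↔ x ∈ Cn y := by rw [mem_Cn, mem_Cn, eq_comm]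

theorem conj_mem_Cn {x y g : Γ} : g * y * g⁻¹ ∈ Cn (g * x * g⁻¹) ↔ y ∈ Cn x := by
  rw [mem_Cn, mem_Cn]
  constructor
  · intro h
    have := congrArg (fun z => g⁻¹ * z * g) h
    simpa [mul_assoc] using this
  · intro h
    calc g * x * g⁻¹ * (g * y * g⁻¹) = g * (x * y) * g⁻¹ := by group
      _ = _ := by rw [h]; group

theorem card_Cn_conj (g x : Γ) : Nat.card (Cn (g * x * g⁻¹)) = Nat.card (Cn x) := by
  symm
  refine Nat.card_congr ⟨fun y => ⟨g * y * g⁻¹, conj_mem_Cn.2 y.2⟩,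
    fun y => ⟨g⁻¹ * y * g, (conj_mem_Cn (g := g) (x := x)).1 (by simpa [mul_assoc] using y.2)⟩, fun y => ?_, fun y => ?_⟩ <;>
  simp [mul_assoc]

/-- normaliser of a subgroup -/
abbrev Nm (H : Subgroup Γ) : Subgroup Γ := normalizer (H : Set Γ)

theorem mem_Nm [Finite Γ] {H : Subgroup Γ} {g : Γ} (h : ∀ y ∈ H, g * y * g⁻¹ ∈ H) : g ∈ Nm H :=
  mem_normalizer_fintype h

theorem Nm_conj {H : Subgroup Γ} {g y : Γ} (hg : g ∈ Nm H) (hy : y ∈ H) : g * y * g⁻¹ ∈ H :=
  (mem_normalizer_iff.1 hg y).1 hy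

theorem Nm_conj' {H : Subgroup Γ} {g y : Γ} (hg : g ∈ Nm H) (hy : y ∈ H) : g⁻¹ * y * g ∈ H := by
  simpa using Nm_conj (inv_mem hg) hy

/-- involutions -/
def Inv (t : Γ) : Prop := t ≠ 1 ∧ t * t = 1

theorem Inv.inv_eq {t : Γ} (h : Inv t) : t⁻¹ = t := inv_eq_of_mul_eq_one_right h.2

theorem Inv.conj {t : Γ} (h : Inv t) (g : Γ) : Inv (g * t * g⁻¹) :=
  ⟨fun e => h.1 (by simpa using e), by
    calc g * t * g⁻¹ * (g * t * g⁻¹) = g * (t * t) * g⁻¹ := by group
      _ = 1 := by simp [h.2]⟩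

theorem Inv.orderOf {t : Γ} (h : Inv t) : orderOf t = 2 :=
  orderOf_eq_prime (by rw [pow_two, h.2]) h.1

theorem inv_of_orderOf {t : Γ} (h : orderOf t = 2) : Inv t :=
  ⟨fun e => by simp [e] at h, by rw [← pow_two, ← h, pow_orderOf_eq_one]⟩

theorem Inv.mul {s t : Γ} (hs : Inv s) (ht : Inv t) (hst : s ≠ t) (h : s * t = t * s) : Inv (s * t) :=
  ⟨fun e => hst (by rw [← ht.inv_eq]; exact eq_inv_of_mul_eq_one_left e), by
    calc s * t * (s * t) = s * (t * s) * t := by group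
      _ = (s * s) * (t * t) := by rw [← h]; group
      _ = 1 := by simp [hs.2, ht.2]⟩

theorem exists_mem_orderOf [Finite Γ] {H : Subgroup Γ} {r : ℕ} (hr : r.Prime) (h : r ∣ Nat.card H) :
    ∃ y ∈ H, orderOf y = r := by
  have := Fact.mk hr
  obtain ⟨y, hy⟩ := exists_prime_orderOf_dvd_card' r h
  exact ⟨y, y.2, by rwa [orderOf_coe]⟩

theorem exists_mem_inv [Finite Γ] {H : Subgroup Γ} (h : 2 ∣ Nat.card H) : ∃ y ∈ H, Inv y :=
  (exists_mem_orderOf Nat.prime_two h).imp fun _ h => ⟨h.1, inv_of_orderOf h.2⟩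

theorem orderOf_dvd_card_of_mem {H : Subgroup Γ} {y : Γ} (hy : y ∈ H) : orderOf y ∣ Nat.card H :=
  H.orderOf_dvd_natCard hy

/-! ### perfect groups -/

theorem hom_eq_one {A : Type*} [CommGroup A] (hp : commutator Γ = ⊤) (f : Γ →* A) (x : Γ) : f x = 1 :=
  Abelianization.commutator_subset_ker f (hp ▸ mem_top x)

theorem range_perfect {A : Type*} [Group A] (hp : commutator Γ = ⊤) (f : Γ →* A) : ⁅f.range, f.range⁆ = f.range := by
  rw [MonoidHom.range_eq_map, ← map_commutator, ← commutator_def, hp]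

theorem perfect_four {T : Subgroup (Equiv.Perm (Fin 4))} (h : ⁅T, T⁆ = T) : T = ⊥ := by
  have hα : Nat.card (Fin 4) = 4 := by simp
  have h1 : T ≤ alternatingGroup _ := h ▸ (Subgroup.commutator_mono le_top le_top).trans
    alternatingGroup.commutator_perm_le
  have h2 : T ≤ (alternatingGroup.kleinFour _).map (alternatingGroup _).subtype := by
    rw [alternatingGroup.kleinFour_eq_commutator hα, commutator_def, Subgroup.map_commutator,
      ← MonoidHom.range_eq_map, Subgroup.range_subtype, ← h]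
    exact Subgroup.commutator_mono h1 h1
  rw [eq_bot_iff, ← h, Subgroup.commutator_le]
  intro a ha b hb
  obtain ⟨a, ha', rfl⟩ := h2 ha
  obtain ⟨b, hb', rfl⟩ := h2 hb
  have := (alternatingGroup.kleinFour_isKleinFour hα).isMulCommutative.is_comm.comm ⟨a, ha'⟩ ⟨b, hb'⟩
  rw [Subgroup.mem_bot, commutatorElement_eq_one_iff_mul_comm]
  exact congrArg (fun z : alternatingGroup.kleinFour (Fin 4) => ((z : alternatingGroup (Fin 4)) : Equiv.Perm (Fin 4))) this

theorem eq_top_of_index_le [Finite Γ] (hp : commutator Γ = ⊤) {H : Subgroup Γ} (h : H.index ≤ 4) : H = ⊤ := by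
  classical
  have := Fintype.ofFinite (Γ ⧸ H)
  obtain ⟨e⟩ : Nonempty ((Γ ⧸ H) ↪ Fin 4) := Function.Embedding.nonempty_of_card_le (by
    simpa [index, Nat.card_eq_fintype_card] using h)
  have h1 := perfect_four (range_perfect hp ((Equiv.Perm.viaEmbeddingHom e).comp (toPermHom Γ (Γ ⧸ H))))
  rw [eq_top_iff]
  intro g _
  have h2 : (Equiv.Perm.viaEmbeddingHom e) (toPermHom Γ (Γ ⧸ H) g) = 1 := by
    rw [← mem_bot, ← h1]; exact ⟨g, rfl⟩
  have h3 := Equiv.Perm.viaEmbeddingHom_injective e (h2.trans (map_one _).symm)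
  have h4 : g • ((1 : Γ) : Γ ⧸ H) = ((1 : Γ) : Γ ⧸ H) := congrArg (· ((1 : Γ) : Γ ⧸ H)) h3
  have : ((g : Γ) : Γ ⧸ H) = ((1 : Γ) : Γ ⧸ H) := by simpa using h4
  simpa using QuotientGroup.eq.1 this.symm

theorem fix_of_ncard_le [Finite Γ] (hp : commutator Γ = ⊤) {X : Type*} [MulAction Γ X] {S : Set X} (hS : S.Finite)
    (h4 : S.ncard ≤ 4) {x : X} (h : ∀ g : Γ, g • x ∈ S) (g : Γ) : g • x = x := by
  have : (stabilizer Γ x).index ≤ 4 := by
    rw [index_stabilizer]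
    exact (Set.ncard_le_ncard (by rintro _ ⟨g, rfl⟩; exact h g) hS).trans h4
  exact mem_stabilizer_iff.1 (eq_top_of_index_le hp this ▸ mem_top g)

theorem perfect_rel [Finite Γ] (hp : commutator Γ = ⊤) {S : Set Γ} (hS : ∀ g, ∀ y ∈ S, g * y * g⁻¹ ∈ S)
    (r : Γ → Γ → Prop) (hr : ∀ g x y, r x y → r (g * x * g⁻¹) (g * y * g⁻¹)) (refl : ∀ x ∈ S, r x x)
    (tr : ∀ x ∈ S, ∀ y ∈ S, ∀ z ∈ S, r x y → r x z → r y z) {a b c d : Γ} (ha : a ∈ S) (hb : b ∈ S) (hc : c ∈ S)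
    (hd : d ∈ S) (h : ∀ x ∈ S, r x a ∨ r x b ∨ r x c ∨ r x d) {x : Γ} (hx : x ∈ S) (g : Γ) : r x (g * x * g⁻¹) := by
  let _ : MulAction Γ (Set Γ) :=
    { smul := fun g A => {y | g⁻¹ * y * g ∈ A}
      one_smul := fun A => by
        change {y | 1⁻¹ * y * 1 ∈ A} = A
        simp
      mul_smul := fun g k A => by
        change {y | (g * k)⁻¹ * y * (g * k) ∈ A} = {y | k⁻¹ * (g⁻¹ * y * g) * k ∈ A}
        simp [mul_assoc] }
  let cl : Γ → Set Γ := fun x => {y ∈ S | r x y}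
  have e1 : ∀ x ∈ S, ∀ y ∈ S, r x y → cl x = cl y := fun x hx y hy h => by
    ext z
    exact and_congr_right fun hz => ⟨tr x hx y hy z hz h, tr y hy x hx z hz (tr x hx y hy x hx h (refl x hx))⟩
  have e2 : ∀ g : Γ, g • cl x = cl (g * x * g⁻¹) := fun g => by
    ext z
    change (g⁻¹ * z * g ∈ S ∧ r x (g⁻¹ * z * g)) ↔ (z ∈ S ∧ r (g * x * g⁻¹) z)
    constructor
    · rintro ⟨h1, h2⟩
      exact ⟨by simpa [mul_assoc] using hS g _ h1, by simpa [mul_assoc] using hr g _ _ h2⟩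
    · rintro ⟨h1, h2⟩
      exact ⟨by simpa using hS g⁻¹ _ h1, by simpa [mul_assoc] using hr g⁻¹ _ _ h2⟩
  have := fix_of_ncard_le hp (S := {cl a, cl b, cl c, cl d}) (Set.toFinite _) (by
    refine (Set.ncard_insert_le _ _).trans (Nat.succ_le_succ ((Set.ncard_insert_le _ _).trans (Nat.succ_le_succ ?_)))
    exact (Set.ncard_insert_le _ _).trans (by simp)) (x := cl x) (fun g => by
      rw [e2]
      rcases h _ (hS g x hx) with k | k | k | k
      · simp [e1 _ (hS g x hx) _ ha k]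
      · simp [e1 _ (hS g x hx) _ hb k]
      · simp [e1 _ (hS g x hx) _ hc k]
      · simp [e1 _ (hS g x hx) _ hd k]) g
  rw [e2] at this
  have h1 : g * x * g⁻¹ ∈ cl (g * x * g⁻¹) := ⟨hS g x hx, refl _ (hS g x hx)⟩
  rw [this] at h1
  exact h1.2

theorem not_pgroup_quot [Finite Γ] (hp : commutator Γ = ⊤) {H : Subgroup Γ} [H.Normal] {r k : ℕ} (hr : r.Prime)
    (h : H.index = r ^ k) : H = ⊤ := by
  have := Fact.mk hr
  have h1 : IsPGroup r (Γ ⧸ H) := IsPGroup.of_card h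
  have := h1.isNilpotent
  by_contra hne
  have : Nontrivial (Γ ⧸ H) := QuotientGroup.nontrivial_iff.2 hne
  have h2 := Group.IsSolvable.commutator_lt_top_of_nontrivial (Γ ⧸ H)
  have h3 := range_perfect hp (QuotientGroup.mk' H)
  rw [MonoidHom.range_eq_top.2 (QuotientGroup.mk'_surjective H)] at h3
  exact h2.ne h3

theorem burnside [Finite Γ] (hp : commutator Γ = ⊤) {r : ℕ} (hr : r.Prime) (P : Sylow r Γ)
    (h : ∀ g ∈ Nm (P : Subgroup Γ), ∀ y ∈ P, y * g = g * y) : (P : Subgroup Γ) = ⊥ := by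
  have := Fact.mk hr
  have hP : normalizer P ≤ centralizer (P : Set Γ) := fun g hg y hy => h g hg y hy
  have hc := MonoidHom.ker_transferSylow_isComplement' P hP
  have hcomm : IsMulCommutative P := ⟨⟨fun a b => Subtype.ext (hP (le_normalizer b.2) a a.2)⟩⟩
  have hk : (MonoidHom.transferSylow P hP).ker = ⊤ := by
    rw [eq_top_iff, ← hp, commutator_def, commutator_le]
    intro a _ b _
    rw [MonoidHom.mem_ker, map_commutatorElement, commutatorElement_eq_one_iff_mul_comm]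
    exact hcomm.is_comm.comm _ _
  have := hc.disjoint
  rwa [hk, top_disjoint] at this

theorem thompson [Finite Γ] (hp : commutator Γ = ⊤) {M : Subgroup Γ} (hM : M.index % 4 = 2) {s : Γ}
    (hs : s * s = 1) : ∃ g, g * s * g⁻¹ ∈ M := by
  classical
  have := Fintype.ofFinite (Γ ⧸ M)
  by_contra hc
  push Not at hc
  have h1 := hom_eq_one hp (Equiv.Perm.sign.comp (toPermHom Γ (Γ ⧸ M))) s
  rw [MonoidHom.comp_apply, Equiv.Perm.sign_of_pow_two_eq_one (by rw [← map_pow, pow_two, hs, map_one])] at h1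
  have h2 : Fintype.card (Function.fixedPoints (toPermHom Γ (Γ ⧸ M) s)) = 0 := by
    rw [Fintype.card_eq_zero_iff]
    refine ⟨fun ⟨q, hq⟩ => ?_⟩
    induction q using QuotientGroup.induction_on with
    | H y =>
      have : ((s * y : Γ) : Γ ⧸ M) = (y : Γ ⧸ M) := hq
      exact hc y⁻¹ (by simpa [mul_assoc] using QuotientGroup.eq.1 this.symm)
  rw [h2, ← Nat.card_eq_fintype_card] at h1
  change (-1 : ℤˣ) ^ ((M.index - 0) / 2) = 1 at h1
  rw [Odd.neg_one_pow (Nat.odd_iff.2 (by omega))] at h1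
  exact absurd h1 (by decide)

theorem transfer_four [Finite Γ] (hp : commutator Γ = ⊤) {C : Subgroup Γ} (χ : C →* ℤˣ) {g : Γ} (hg : g ∈ C)
    (h4 : g ^ 4 = 1) (hχ : χ ⟨g, hg⟩ = -1) (hx : ∀ x, x⁻¹ * g * x ∈ C → x ∈ C)
    (hs : ∀ s : C, s * s = 1 → χ s = 1) : False := by
  classical
  have := Fintype.ofFinite (Quotient (orbitRel (zpowers g) (Γ ⧸ C)))
  have h1 := hom_eq_one hp (MonoidHom.transfer χ) g
  rw [MonoidHom.transfer_eq_prod_quotient_orbitRel_zpowers_quot] at h1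
  have hfix : ∀ k : zpowers g, k • ((1 : Γ) : Γ ⧸ C) = ((1 : Γ) : Γ ⧸ C) := by
    intro k
    have : (k : Γ) ∈ C := zpowers_le.2 hg k.2
    change (((k : Γ) * 1 : Γ) : Γ ⧸ C) = _
    exact QuotientGroup.eq.2 (by simpa using this)
  have key : ∀ q : Quotient (orbitRel (zpowers g) (Γ ⧸ C)), q.out.out ∈ C ↔ q = ⟦((1 : Γ) : Γ ⧸ C)⟧ := by
    intro q
    constructor
    · intro h
      have : q.out = ((1 : Γ) : Γ ⧸ C) := by
        rw [← QuotientGroup.out_eq' q.out]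
        exact QuotientGroup.eq.2 (by simpa using h)
      rw [← this, Quotient.out_eq]
    · rintro rfl
      obtain ⟨k, hk⟩ : (⟦((1 : Γ) : Γ ⧸ C)⟧ : Quotient (orbitRel (zpowers g) (Γ ⧸ C))).out ∈
          orbit (zpowers g) ((1 : Γ) : Γ ⧸ C) := orbitRel_apply.1 (Quotient.exact (Quotient.out_eq _))
      simp only [hfix] at hk
      rw [← hk]
      have := QuotientGroup.eq.1 (QuotientGroup.out_eq' ((1 : Γ) : Γ ⧸ C))
      simpa using this
  have hper : ∀ q : Γ ⧸ C, Function.minimalPeriod (g • ·) q ∣ 4 := fun q =>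
    Function.IsPeriodicPt.minimalPeriod_dvd (by
      change (g • ·)^[4] q = q
      rw [smul_iterate, h4]
      exact one_smul _ _)
  rw [Finset.prod_eq_single ⟦((1 : Γ) : Γ ⧸ C)⟧] at h1
  · set q : Quotient (orbitRel (zpowers g) (Γ ⧸ C)) := ⟦((1 : Γ) : Γ ⧸ C)⟧
    have h2 : q.out.out ∈ C := (key q).2 rfl
    have h3 : Function.minimalPeriod (g • ·) q.out = 1 := by
      rw [Function.minimalPeriod_eq_one_iff_isFixedPt]
      change g • q.out = q.out
      rw [← QuotientGroup.out_eq' q.out]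
      change ((g * q.out.out : Γ) : Γ ⧸ C) = _
      exact QuotientGroup.eq.2 (C.mul_mem (C.inv_mem (C.mul_mem hg h2)) h2)
    have h5 : χ ((⟨_, h2⟩ : C)⁻¹ * ⟨g, hg⟩ * ⟨_, h2⟩) = 1 := by
      rw [← h1]
      congr 1
      ext
      simp [h3]
    rw [map_mul, map_mul, map_inv, hχ, mul_right_comm, inv_mul_cancel, one_mul] at h5
    exact absurd h5 (by decide)
  · intro q _ hq
    apply hs
    have h2 := QuotientGroup.out_conj_pow_minimalPeriod_mem C g q.out
    have h3 : 2 ∣ Function.minimalPeriod (g • ·) q.out := by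
      have := (Nat.dvd_prime_pow Nat.prime_two (m := 2)).1 (hper q.out)
      obtain ⟨i, hi, e⟩ := this
      rw [e] at h2 ⊢
      rcases i with _ | i
      · exact absurd ((key q).1 (hx _ (by simpa using h2))) hq
      · exact Dvd.intro_left _ (pow_succ 2 i).symm
    obtain ⟨j, hj⟩ := h3
    ext
    simp only [coe_mul, coe_one]
    rw [hj]
    calc _ = q.out.out⁻¹ * (g ^ 4) ^ j * q.out.out := by group
      _ = 1 := by simp [h4]
  · simp

/-! ### Sylow subgroups and CA-subgroups -/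

theorem exists_conj_le_sylow [Finite Γ] {r : ℕ} (hr : r.Prime) (R : Sylow r Γ) {H : Subgroup Γ} (hH : IsPGroup r H) :
    ∃ g : Γ, ∀ y ∈ H, g * y * g⁻¹ ∈ R := by
  have := Fact.mk hr
  obtain ⟨Q, hQ⟩ := hH.exists_le_sylow
  obtain ⟨g, rfl⟩ := exists_smul_eq Γ Q R
  exact ⟨g, fun y hy => ⟨y, hQ hy, rfl⟩⟩

theorem isPGroup_zpowers {r k : ℕ} {z : Γ} (hz : z ^ r ^ k = 1) : IsPGroup r (zpowers z) := by
  rintro ⟨_, n, rfl⟩
  refine ⟨k, Subtype.ext ?_⟩
  change (z ^ n) ^ r ^ k = 1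
  rw [← zpow_natCast, ← zpow_mul, mul_comm, zpow_mul, zpow_natCast, hz, one_zpow]

theorem exists_conj_mem_sylow [Finite Γ] {r k : ℕ} (hr : r.Prime) (R : Sylow r Γ) {z : Γ} (hz : z ^ r ^ k = 1) :
    ∃ g : Γ, g * z * g⁻¹ ∈ R :=
  (exists_conj_le_sylow hr R (isPGroup_zpowers hz)).imp fun _ h => h z (mem_zpowers z)

theorem exists_center [Finite Γ] {r : ℕ} (hr : r.Prime) {R : Subgroup Γ} (hR : IsPGroup r R) (h : R ≠ ⊥) :
    ∃ z ∈ R, orderOf z = r ∧ R ≤ Cn z := by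
  have := Fact.mk hr
  have := (nontrivial_iff_ne_bot R).2 h
  have := hR.center_nontrivial
  have h1 : r ∣ Nat.card (center R) := ((hR.to_subgroup _).card_eq_or_dvd).resolve_left Finite.one_lt_card.ne'
  obtain ⟨z, hz, e⟩ := exists_mem_orderOf hr h1
  exact ⟨z, z.2, by rwa [orderOf_coe], fun y hy => mem_Cn.2
    (congrArg Subtype.val (mem_center_iff.1 hz ⟨y, hy⟩)).symm⟩

theorem mem_sylow_of_Nm {r k : ℕ} (R : Sylow r Γ) {z : Γ} (hz : z ^ r ^ k = 1) (h : z ∈ Nm (R : Subgroup Γ)) :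
    z ∈ R := by
  have := (isPGroup_zpowers hz).inf_normalizer_sylow R
  exact (this ▸ (mem_inf.2 ⟨mem_zpowers z, h⟩ : z ∈ zpowers z ⊓ normalizer (R : Set Γ))).2

/-- every non-identity element of `H` has centraliser `H` -/
def CA (H : Subgroup Γ) : Prop := ∀ y ∈ H, y ≠ 1 → Cn y = H

theorem CA.comm {H : Subgroup Γ} (h : CA H) {x y : Γ} (hx : x ∈ H) (hy : y ∈ H) : x * y = y * x := by
  by_cases h1 : x = 1
  · simp [h1]
  · exact mem_Cn.1 (h x hx h1 ▸ hy)

theorem CA.exists_sylow [Finite Γ] {H : Subgroup Γ} (h : CA H) {r : ℕ} (hr : r.Prime) (hd : r ∣ Nat.card H) :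
    ∃ R : Sylow r Γ, (R : Subgroup Γ) ≤ H ∧ (R : Subgroup Γ) ≠ ⊥ := by
  obtain ⟨y, hy, e⟩ := exists_mem_orderOf hr hd
  have hy1 : y ≠ 1 := fun e' => hr.one_lt.ne (by rw [← e, e', orderOf_one])
  obtain ⟨R, hR⟩ := (isPGroup_zpowers (z := y) (r := r) (k := 1) (by simp [← e])).exists_le_sylow
  have hyR : y ∈ (R : Subgroup Γ) := hR (mem_zpowers y)
  have hne : (R : Subgroup Γ) ≠ ⊥ := fun e' => hy1 (by rwa [e', mem_bot] at hyR)
  obtain ⟨z, hz, e1, h2⟩ := exists_center hr R.2 hne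
  have hz1 : z ≠ 1 := fun e' => hr.one_lt.ne (by rw [← e1, e', orderOf_one])
  exact ⟨R, h z (h y hy hy1 ▸ mem_Cn_comm.1 (h2 hyR)) hz1 ▸ h2, hne⟩

theorem CA.exists_conj [Finite Γ] {H : Subgroup Γ} (h : CA H) {r : ℕ} (hr : r.Prime) (hd : r ∣ Nat.card H) {z : Γ}
    (hz : z ^ r = 1) : ∃ g, g * z * g⁻¹ ∈ H := by
  obtain ⟨R, hR, -⟩ := h.exists_sylow hr hd
  exact (exists_conj_mem_sylow (k := 1) hr R (by simpa using hz)).imp fun _ h => hR h

theorem CA.mem_Nm [Finite Γ] {H : Subgroup Γ} (h : CA H) {y g : Γ} (hy : y ∈ H) (h1 : y ≠ 1)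
    (hg : g * y * g⁻¹ ∈ H) : g ∈ Nm H :=
  MH.mem_Nm fun z hz => h _ hg (by simpa using h1) ▸ conj_mem_Cn.2 (h y hy h1 ▸ hz)

theorem CA.Nm_ne [Finite Γ] (hp : commutator Γ = ⊤) {H : Subgroup Γ} (h : CA H) (hne : H ≠ ⊥) : ¬ Nm H ≤ H := by
  intro hle
  obtain ⟨r, hr, hd⟩ := Nat.exists_prime_and_dvd (n := Nat.card H) (fun e => hne (card_eq_one.1 e))
  obtain ⟨R, hR, hR1⟩ := h.exists_sylow hr hd
  refine hR1 (burnside hp hr R fun g hg y hy => ?_)
  obtain ⟨z, hz, hz1⟩ := (bot_or_exists_ne_one (R : Subgroup Γ)).resolve_left hR1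
  exact h.comm (hR hy) (hle (h.mem_Nm (hR hz) hz1 (hR (Nm_conj hg hz))))

/-! ### counting -/

theorem ncard_double [Finite Γ] {α : Type*} [Finite α] (r : Γ → α → Prop) (S : Set Γ) (U : Set α) {m n : ℕ}
    (h1 : ∀ x ∈ S, {a ∈ U | r x a}.ncard = m) (h2 : ∀ a ∈ U, {x ∈ S | r x a}.ncard = n) :
    S.ncard * m = U.ncard * n := by
  classical
  have := Fintype.ofFinite Γ
  have := Fintype.ofFinite α
  rw [Set.ncard_eq_toFinset_card' S, Set.ncard_eq_toFinset_card' U]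
  refine Finset.card_mul_eq_card_mul r (fun x hx => ?_) (fun a ha => ?_)
  · rw [← h1 x (by simpa using hx), Set.ncard_eq_toFinset_card']
    congr 1
    ext a
    simp [Finset.bipartiteAbove]
  · rw [← h2 a (by simpa using ha), Set.ncard_eq_toFinset_card']
    congr 1
    ext x
    simp [Finset.bipartiteBelow]

theorem ncard_coe (H : Subgroup Γ) : (H : Set Γ).ncard = Nat.card H := (Nat.card_coe_set_eq _).symm

theorem ncard_conj (g : Γ) (S : Set Γ) : {y | g * y * g⁻¹ ∈ S}.ncard = S.ncard := by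
  have : {y | g * y * g⁻¹ ∈ S} = (fun y => g⁻¹ * y * g) '' S := by
    ext y
    constructor
    · intro h
      exact ⟨_, h, by group⟩
    · rintro ⟨z, hz, rfl⟩
      simpa [mul_assoc] using hz
  rw [this, Set.ncard_image_of_injective]
  intro a b h
  simpa using h

theorem ncard_coset (H : Subgroup Γ) (g : Γ) : {y | y * g⁻¹ ∈ H}.ncard = Nat.card H := by
  have : {y | y * g⁻¹ ∈ H} = (fun y => y * g) '' H := by
    ext y
    constructor
    · intro h
      exact ⟨_, h, by group⟩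
    · rintro ⟨z, hz, rfl⟩
      simpa using hz
  rw [this, Set.ncard_image_of_injective _ (mul_left_injective g), ncard_coe]

/-- the elements of `S` conjugate into `H` -/
def cls (S : Set Γ) (H : Subgroup Γ) : Set Γ := {y ∈ S | ∃ g, g * y * g⁻¹ ∈ H}

theorem card_cls [Finite Γ] {S : Set Γ} (hS : ∀ g, ∀ y ∈ S, g * y * g⁻¹ ∈ S) {H : Subgroup Γ}
    (hH : ∀ y ∈ S, y ∈ H → ∀ g, g * y * g⁻¹ ∈ H → g ∈ Nm H) :
    (cls S H).ncard * Nat.card (Nm H) = Nat.card Γ * (S ∩ H).ncard := by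
  rw [← Set.ncard_univ Γ]
  refine ncard_double (fun y g => g * y * g⁻¹ ∈ H) _ _ ?_ ?_
  · rintro y ⟨hy, g, hg⟩
    rw [← ncard_coset (Nm H) g]
    congr 1
    ext k
    simp only [Set.mem_univ, true_and, Set.mem_setOf_eq]
    constructor
    · intro hk
      exact hH _ (hS g y hy) hg _ (by simpa [mul_assoc] using hk)
    · intro hk
      simpa [mul_assoc] using Nm_conj hk hg
  · intro g _
    rw [← ncard_conj g (S ∩ H)]
    congr 1
    ext y
    simp only [cls, Set.mem_setOf_eq, Set.mem_inter_iff, SetLike.mem_coe]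
    constructor
    · rintro ⟨⟨h1, -⟩, h2⟩
      exact ⟨hS g y h1, h2⟩
    · rintro ⟨h1, h2⟩
      exact ⟨⟨by simpa [mul_assoc] using hS g⁻¹ _ h1, g, h2⟩, h2⟩

theorem card_class [Finite Γ] (t : Γ) : {s | ∃ g, g * s * g⁻¹ = t}.ncard * Nat.card (Cn t) = Nat.card Γ := by
  have := ncard_double (fun y g : Γ => g * y * g⁻¹ = t) {s | ∃ g, g * s * g⁻¹ = t} Set.univ
    (m := Nat.card (Cn t)) (n := 1) ?_ ?_
  · rwa [Set.ncard_univ, mul_one] at this
  · rintro y ⟨g, rfl⟩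
    rw [← ncard_coset _ g]
    congr 1
    ext k
    simp only [Set.mem_univ, true_and, Set.mem_setOf_eq, mem_Cn]
    constructor
    · intro hk
      calc g * y * g⁻¹ * (k * g⁻¹) = k * y * k⁻¹ * (k * g⁻¹) := by rw [hk]
        _ = _ := by group
    · intro hk
      calc k * y * k⁻¹ = k * g⁻¹ * (g * y * g⁻¹) * (k * g⁻¹)⁻¹ := by group
        _ = _ := by rw [← hk]; group
  · intro g _
    rw [Set.ncard_eq_one]
    refine ⟨g⁻¹ * t * g, ?_⟩
    ext y
    simp only [Set.mem_setOf_eq, Set.mem_singleton_iff]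
    constructor
    · rintro ⟨-, rfl⟩
      group
    · rintro rfl
      exact ⟨⟨g, by group⟩, by group⟩

/-- the number of involutions commuting with `x` -/
noncomputable def nv (x : Γ) : ℕ := {s | Inv s ∧ s ∈ Cn x}.ncard

theorem nv_conj (g x : Γ) : nv (g * x * g⁻¹) = nv x := by
  unfold nv
  rw [← ncard_conj g]
  congr 1
  ext s
  simp only [Set.mem_setOf_eq, conj_mem_Cn]
  exact and_congr_left fun _ => ⟨fun h => by simpa [mul_assoc] using h.conj g⁻¹, fun h => h.conj g⟩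

theorem conj_mul_self {g x : Γ} : g * x * g⁻¹ * (g * x * g⁻¹) = 1 ↔ x * x = 1 := by
  rw [show g * x * g⁻¹ * (g * x * g⁻¹) = g * (x * x) * g⁻¹ by group]
  simp

theorem count_nv [Finite Γ] {t : Γ} (h : ∀ s, Inv s → ∃ g, g * s * g⁻¹ = t) (j : ℕ) :
    {x : Γ | x * x ≠ 1 ∧ nv x = j}.ncard * j =
      {s : Γ | Inv s}.ncard * {x : Γ | x ∈ Cn t ∧ x * x ≠ 1 ∧ nv x = j}.ncard := by
  refine ncard_double (fun x s => s ∈ Cn x) _ _ (fun x hx => hx.2) fun s hs => ?_
  obtain ⟨g, rfl⟩ := h s hs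
  rw [← ncard_conj g {x | x ∈ Cn (g * s * g⁻¹) ∧ x * x ≠ 1 ∧ nv x = j}]
  congr 1
  ext x
  have e : g * x * g⁻¹ ∈ Cn (g * s * g⁻¹) ↔ s ∈ Cn x := conj_mem_Cn.trans mem_Cn_comm
  simp only [Set.mem_setOf_eq, e, nv_conj, ne_eq, conj_mul_self]
  tauto

theorem pair_count [Finite Γ] {S : Set Γ} {n : ℕ}
    (h : ∀ x ∈ S, n ≤ {s | Inv s ∧ Inv (s * x)}.ncard) : S.ncard * n ≤ {s : Γ | Inv s}.ncard ^ 2 := by
  classical
  have := Fintype.ofFinite Γ
  let U : Finset (Γ × Γ) := Finset.univ.filter fun z => Inv z.1 ∧ Inv z.2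
  have h1 : U.card = {s : Γ | Inv s}.ncard ^ 2 := by
    rw [Set.ncard_eq_toFinset_card', pow_two, ← Finset.card_product]
    congr 1
    ext z
    simp [U]
  rw [← h1, Set.ncard_eq_toFinset_card', mul_comm]
  refine le_trans (Finset.mul_card_image_le_card_of_maps_to (f := fun z : Γ × Γ => z.1 * z.2)
    (s := U.filter fun z => z.1 * z.2 ∈ S) (t := S.toFinset) (by simp) n fun x hx => ?_)
    (Finset.card_filter_le _ _)
  refine (h x (by simpa using hx)).trans ?_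
  rw [Set.ncard_eq_toFinset_card']
  refine Finset.card_le_card_of_injOn (fun s => (s, s * x)) (fun s hs => ?_) fun a _ b _ e => congrArg Prod.fst e
  simp only [Set.coe_toFinset, Set.mem_setOf_eq] at hs
  have : s * (s * x) = x := by rw [← mul_assoc, hs.1.2, one_mul]
  simpa [U, this, hs.1, hs.2] using hx

theorem card_dvd_of_free (A : Subgroup Γ) {X : Type*} [MulAction Γ X] (S : Set X)
    (hinv : ∀ g ∈ A, ∀ x ∈ S, g • x ∈ S) (B : Subgroup Γ) [Finite Γ]
    (hfree : ∀ g ∈ A, ∀ x ∈ S, g • x = x ↔ g ∈ B) (hB : B ≤ A) (hS : S.Finite) :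
    ∃ k, Nat.card B * S.ncard = k * Nat.card A := by
  induction hn : S.ncard using Nat.strong_induction_on generalizing S with
  | _ n ih =>
  rcases S.eq_empty_or_nonempty with rfl | ⟨x, hx⟩
  · exact ⟨0, by simp [← hn]⟩
  let O : Set X := orbit A x
  have hO : O ⊆ S := by rintro _ ⟨g, rfl⟩; exact hinv g g.2 x hx
  have h1 : Nat.card B * O.ncard = Nat.card A := by
    rw [← index_stabilizer, ← card_mul_index (stabilizer A x)]
    congr 1
    have : stabilizer A x = B.subgroupOf A := by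
      ext g
      exact hfree g g.2 x hx
    rw [this]
    exact (Nat.card_congr (subgroupOfEquivOfLe hB).toEquiv).symm
  have h2 := Set.ncard_diff_add_ncard_of_subset hO hS
  have h3 : 0 < O.ncard := (Set.ncard_pos (hS.subset hO)).2 ⟨x, mem_orbit_self x⟩
  obtain ⟨k, hk⟩ := ih _ (by omega) (S \ O) (fun g hg y hy => ⟨hinv g hg y hy.1, fun ⟨a, ha⟩ => hy.2
    ⟨(⟨g, hg⟩ : A)⁻¹ * a, by
      change ((⟨g, hg⟩ : A)⁻¹ * a) • x = y
      rw [mul_smul, show a • x = g • y from ha]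
      exact inv_smul_smul (⟨g, hg⟩ : A) y⟩⟩) (fun g hg y hy => hfree g hg y hy.1) (hS.subset Set.diff_subset) rfl
  exact ⟨k + 1, by rw [← hn, ← h2, mul_add, hk, h1]; ring⟩

/-- free conjugation action modulo a subgroup -/
theorem card_dvd_of_conj_free [Finite Γ] (A B : Subgroup Γ) (hB : B ≤ A) (S : Set Γ)
    (hinv : ∀ g ∈ A, ∀ x ∈ S, g * x * g⁻¹ ∈ S) (hfree : ∀ g ∈ A, ∀ x ∈ S, g ∈ Cn x ↔ g ∈ B) :
    ∃ k, Nat.card B * S.ncard = k * Nat.card A := by
  let _ : MulAction Γ (Multiplicative (Additive Γ)) :=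
    { smul := fun g x => Multiplicative.ofAdd (Additive.ofMul (g * Additive.toMul (Multiplicative.toAdd x) * g⁻¹))
      one_smul := fun x => by
        change Multiplicative.ofAdd (Additive.ofMul (1 * Additive.toMul (Multiplicative.toAdd x) * 1⁻¹)) = x
        simp
      mul_smul := fun a b x => by
        change Multiplicative.ofAdd (Additive.ofMul (a * b * Additive.toMul (Multiplicative.toAdd x) * (a * b)⁻¹)) =
          Multiplicative.ofAdd (Additive.ofMul (a * (b * Additive.toMul (Multiplicative.toAdd x) * b⁻¹) * a⁻¹))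
        simp [mul_assoc] }
  obtain ⟨k, hk⟩ := card_dvd_of_free A (X := Multiplicative (Additive Γ)) S hinv B (fun g hg x hx => by
    refine Iff.trans ?_ (hfree g hg x hx)
    change g * Additive.toMul (Multiplicative.toAdd x) * g⁻¹ = Additive.toMul (Multiplicative.toAdd x) ↔
      g ∈ Cn (Additive.toMul (Multiplicative.toAdd x))
    rw [mem_Cn, mul_inv_eq_iff_eq_mul, eq_comm]) hB S.toFinite
  exact ⟨k, hk⟩

end Cfsg.Agent.MH
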