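import Cfsg.Agent.MH.SU3
import Cfsg.Agent.MH.Grp

/-! Perspectivities when all groups of elations are small; the stabiliser of an antiflag. -/

set_option autoImplicit false

namespace Cfsg.Agent.MH

open Matrix MulAction Cfsg.Agent.H4 Cfsg.Agent.H4.Mob Cfsg.Agent.H4.Bar Cfsg.Agent.H4.Pair Cfsg.Agent.H4.Dick

variable {Γ K : Type*} [Group Γ] [Field K]

theorem T_pow {v φ : V3 K} (h : φ ⬝ᵥ v = 0) (n : ℕ) : T v φ ^ n = T v ((n : K) • φ) := by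
  induction n with
  | zero => simp [T_zero]
  | succ n ih => rw [pow_succ, ih, T_mul_T]; simp [h, add_smul]

theorem pow_card_sub_one [Finite K] {a : K} (ha : a ≠ 0) : a ^ (Nat.card K - 1) = 1 := by
  have := Fintype.ofFinite K
  rw [Nat.card_eq_fintype_card]
  exact FiniteField.pow_card_sub_one_eq_one a ha

theorem cast_card_sub_one [Finite K] : ((Nat.card K - 1 : ℕ) : K) = -1 := by
  have := Fintype.ofFinite K
  rw [Nat.cast_sub Nat.card_pos, Nat.card_eq_fintype_card, FiniteField.cast_card_eq_zero]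
  simp

/-- closes equalities of explicit matrices -/
scoped macro "mat" : tactic =>
  `(tactic| (ext i j; fin_cases i <;> fin_cases j <;>
    simp [T, vecMulVec, Matrix.mul_apply, Fin.sum_univ_three, Matrix.one_apply] <;> ring))

namespace PRep

variable {ρ : PRep Γ K} {x y : Γ} {X Y : M3 K} {c u v w φ ψ χ : V3 K}

theorem Small.tp (h : ρ.Small) : ρ.tp.Small := fun v φ l hv hφ h1 h2 =>
  h φ v l hφ hv h1.of_tp (el_smul.1 h2.of_tp)

theorem Small.cj (h : ρ.Small) {P Q : M3 K} (hP : P * Q = 1) : (ρ.cj P Q hP).Small := fun v φ l hv hφ h1 h2 =>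
  h _ _ l (fun e => hv (by simpa [mulVec_mulVec, mul_eq_one_comm.1 hP] using congrArg (Q *ᵥ ·) e))
    (fun e => hφ (by simpa [vecMul_vecMul, mul_eq_one_comm.1 hP] using congrArg (· ᵥ* P) e)) (El.cj.1 h1)
    (smul_vecMul l φ Q ▸ El.cj.1 h2)

theorem Small.two (h : ρ.Small) (e : ρ.El v φ) (hv : v ≠ 0) (hφ : φ ≠ 0) : (2 : K) = 0 := by
  rcases h v φ (-1) hv hφ e (by simpa using e.neg) with k | k
  · simp at k
  · linear_combination -k

/-- an element acting as a multiple of a transvection on the line yields an elation -/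
theorem el_of_block [Finite K] {δ e : K} (hX : ρ.R x (diagonal ![δ, δ, e] * T v φ)) (h1 : v 2 = 0) (h2 : φ 2 = 0)
    (h3 : φ ⬝ᵥ v = 0) : ρ.El v φ := by
  have hd := hX.det
  rw [det_mul, det_diagonal, Fin.prod_univ_three] at hd
  have hδ : δ ≠ 0 := fun e => by simp [e] at hd
  have he : e ≠ 0 := fun e => by simp [e] at hd
  have := hX.pow (Nat.card K - 1)
  rw [Commute.mul_pow (by
    change _ * _ = _ * _
    ext i j
    fin_cases i <;> fin_cases j <;> simp [T, vecMulVec, h1, h2, mul_comm]), T_pow h3, cast_card_sub_one,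
    diagonal_pow, show ![δ, δ, e] ^ (Nat.card K - 1) = 1 by
      ext i; fin_cases i <;> simp [pow_card_sub_one, hδ, he], diagonal_one', one_mul] at this
  simpa using El.neg (ρ := ρ) ⟨by simp [h3], _, this⟩

/-- the stabiliser of the point `e₂` and the line `z = 0` -/
def blk (ρ : PRep Γ K) : Subgroup Γ where
  carrier := {x | ∃ X, ρ.R x X ∧ X 2 0 = 0 ∧ X 2 1 = 0 ∧ X 0 2 = 0 ∧ X 1 2 = 0}
  mul_mem' := by
    rintro x y ⟨X, h1, h2, h3, h7, h8⟩ ⟨Y, h4, h5, h6, h9, h10⟩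
    exact ⟨_, h1.mul h4, by simp [mul_apply, Fin.sum_univ_three, *]⟩
  one_mem' := ⟨1, ρ.one, by simp⟩
  inv_mem' := by
    rintro x ⟨X, h1, h2, h3, h4, h5⟩
    have := (minor_ne h1.det h2 h3).2
    have e0 := congrFun (congrFun h1.mul_inv 2) 0
    have e1 := congrFun (congrFun h1.mul_inv 2) 1
    have e2 := congrFun (congrFun h1.inv_mul 0) 2
    have e3 := congrFun (congrFun h1.inv_mul 1) 2
    exact ⟨_, h1.inv, by simpa [mul_apply, Fin.sum_univ_three, *] using e0,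
      by simpa [mul_apply, Fin.sum_univ_three, *] using e1, by simpa [mul_apply, Fin.sum_univ_three, *] using e2,
      by simpa [mul_apply, Fin.sum_univ_three, *] using e3⟩

theorem blk_le : ρ.blk ≤ ρ.stabL := fun _ ⟨X, h1, h2, h3, _⟩ => ⟨X, h1, h2, h3⟩

theorem R.blk (hX : ρ.R x X) (hx : x ∈ ρ.blk) : X 2 0 = 0 ∧ X 2 1 = 0 ∧ X 0 2 = 0 ∧ X 1 2 = 0 := by
  obtain ⟨Y, h1, h2, h3, h4, h5⟩ := hx
  obtain ⟨c, -, rfl⟩ := h1.uniq hX
  simp [h2, h3, h4, h5]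

theorem R.mem_blk {a b c d e : K} (hX : ρ.R x !![a, b, 0; c, d, 0; 0, 0, e]) : x ∈ ρ.blk :=
  ⟨_, hX, rfl, rfl, rfl, rfl⟩

theorem exists_blk (hx : x ∈ ρ.blk) : ∃ a b c d, ρ.R x !![a, b, 0; c, d, 0; 0, 0, 1] := by
  obtain ⟨X, h1, h2, h3, h4, h5⟩ := hx
  have := (minor_ne h1.det h2 h3).2
  exact ⟨_, _, _, _, (h1.smul (inv_ne_zero this)).congr (by
    ext i j; fin_cases i <;> fin_cases j <;> simp [h2, h3, h4, h5, this] <;> rfl)⟩

theorem R.blk_det {a b c d e : K} (hX : ρ.R x !![a, b, 0; c, d, 0; 0, 0, e]) : a * d - b * c ≠ 0 :=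
  (minor_ne hX.det rfl rfl).1

theorem exists_of_mem_piM' {C : Subgroup Γ} (hC : C ≤ ρ.blk) {a b c d : K} {h : a * d - b * c ≠ 0}
    (hm : mob a b c d h ∈ ρ.piM C) : ∃ x ∈ C, ∃ e, ρ.R x !![a, b, 0; c, d, 0; 0, 0, e] := by
  obtain ⟨x, hx, X, hX, h1, h2, h3, h4, h5, h6⟩ := exists_of_mem_piM hm
  obtain ⟨-, -, h7, h8⟩ := hX.blk (hC hx)
  exact ⟨x, hx, X 2 2, hX.congr (by ext i j; fin_cases i <;> fin_cases j <;> simp [*])⟩

theorem R.mob_mem' {C : Subgroup Γ} {a b c d e : K} (hX : ρ.R x !![a, b, 0; c, d, 0; 0, 0, e]) (hx : x ∈ C) :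
    mob a b c d hX.blk_det ∈ ρ.piM C := hX.mob_mem hx rfl rfl rfl rfl rfl rfl

theorem Small.blk_cases [Finite K] (h : ρ.Small) {C : Subgroup Γ} (hC : C ≤ ρ.blk) :
    (∃ x : P1 K, ρ.piM C ≤ stabilizer (PG K) x) ∨ (∃ x y, IsPair x y ∧ ρ.piM C ≤ Nor x y) ∨
    ((2 : K) ≠ 0 ∧ (Nonempty (ρ.piM C ≃* alternatingGroup (Fin 4)) ∨ Nonempty (ρ.piM C ≃* Equiv.Perm (Fin 4)) ∨
      Nonempty (ρ.piM C ≃* alternatingGroup (Fin 5)))) := by
  rcases dickson (ρ.piM C) with k | k | ⟨k, -, k'⟩ | ⟨k, -, -, k'⟩ | ⟨g, E, h3, hl, -⟩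
  · exact Or.inl k
  · exact Or.inr (Or.inl k)
  · exact Or.inr (Or.inr ⟨k, k'.imp_right Or.inl⟩)
  · exact Or.inr (Or.inr ⟨k, Or.inr (Or.inr k')⟩)
  exfalso
  classical
  obtain ⟨p, q, r, s, hδ, rfl⟩ := exists_mob g
  have key : ∀ b ∈ E, ρ.El ![s, -r, 0] (b • (p * s - q * r)⁻¹ • ![r, s, 0]) := fun b hb => by
    have := mem_cj.1 (hl (tr_mem_PSsub hb))
    simp only [tr, aff, mob_inv, mob_mul] at this
    obtain ⟨x, -, e, hx⟩ := exists_of_mem_piM' hC this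
    refine el_of_block (δ := p * s - q * r) (e := e) (hx.congr ?_) rfl (by simp) (by simp; ring)
    ext i j
    fin_cases i <;> fin_cases j <;> simp [T, vecMulVec] <;> field_simp <;> ring
  have := Fintype.ofFinite E
  rw [Nat.card_eq_fintype_card] at h3
  obtain ⟨⟨b, hb⟩, b0, b1⟩ : ∃ b : E, b ≠ 0 ∧ b ≠ 1 := by
    by_contra hn
    push Not at hn
    have : Fintype.card E ≤ ({0, 1} : Finset E).card :=
      Finset.card_le_card fun b _ => by by_cases e : b = 0 <;> simp [e, hn]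
    have := Finset.card_le_two (a := (0 : E)) (b := 1)
    omega
  rcases h _ _ b (fun e => hδ (by simp at e; simp [e])) (smul_ne_zero (inv_ne_zero hδ)
    (fun e => hδ (by simp at e; simp [e]))) (by simpa using key 1 E.one_mem) (key b hb) with e | e
  exacts [b0 (Subtype.ext e), b1 (Subtype.ext e)]

theorem R.blk_mul {a b c d e a' b' c' d' e' : K} (hX : ρ.R x !![a, b, 0; c, d, 0; 0, 0, e])
    (hY : ρ.R y !![a', b', 0; c', d', 0; 0, 0, e']) :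
    ρ.R (x * y) !![a * a' + b * c', a * b' + b * d', 0; c * a' + d * c', c * b' + d * d', 0; 0, 0, e * e'] :=
  (hX.mul hY).congr (by mat)

theorem R.blk_inv {a b c d : K} (hX : ρ.R x !![a, b, 0; c, d, 0; 0, 0, 1]) :
    ρ.R x⁻¹ !![d, -b, 0; -c, a, 0; 0, 0, a * d - b * c] := hX.inv_of_mul hX.blk_det (by mat)

/-- the elements acting with determinant one on the line -/
def blk1 (ρ : PRep Γ K) : Subgroup Γ where
  carrier := {x | ∃ a b c d, ρ.R x !![a, b, 0; c, d, 0; 0, 0, 1] ∧ a * d - b * c = 1}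
  mul_mem' := by
    rintro x y ⟨a, b, c, d, h1, h2⟩ ⟨a', b', c', d', h3, h4⟩
    exact ⟨_, _, _, _, by simpa using h1.blk_mul h3, by linear_combination (a' * d' - b' * c') * h2 + h4⟩
  one_mem' := ⟨1, 0, 0, 1, ρ.one.congr (by mat), by simp⟩
  inv_mem' := by
    rintro x ⟨a, b, c, d, h1, h2⟩
    exact ⟨_, _, _, _, by simpa [h2] using h1.blk_inv, by linear_combination h2⟩

theorem R.mem_blk1 {a b c d e : K} (hX : ρ.R x !![a, b, 0; c, d, 0; 0, 0, e]) (h : a * d - b * c = e ^ 2) :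
    x ∈ ρ.blk1 := by
  have he : e ≠ 0 := (minor_ne hX.det rfl rfl).2
  refine ⟨e⁻¹ * a, e⁻¹ * b, e⁻¹ * c, e⁻¹ * d, (hX.smul (inv_ne_zero he)).congr ?_, by field_simp; exact h⟩
  ext i j; fin_cases i <;> fin_cases j <;> simp [he]

/-- commutators have lifts of determinant one -/
theorem exists_det_one {C : Subgroup Γ} (hC : C ≤ ρ.blk) {g : PG K} (hg : g ∈ ⁅ρ.piM C, ρ.piM C⁆) :
    ∃ x ∈ C, ∃ a b c d, ∃ h : ρ.R x !![a, b, 0; c, d, 0; 0, 0, 1], a * d - b * c = 1 ∧ g = mob a b c d h.blk_det := by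
  rw [piM, ← Subgroup.map_commutator] at hg
  obtain ⟨x, hx, rfl⟩ := hg
  have h1 : ⁅C.subgroupOf ρ.stabL, C.subgroupOf ρ.stabL⁆ ≤ (C ⊓ ρ.blk1).subgroupOf ρ.stabL := by
    rw [Subgroup.commutator_le]
    intro x hx y hy
    refine ⟨(Subgroup.commutator_le.1 (Subgroup.commutator_le_self _)) x hx y hy, ?_⟩
    obtain ⟨a, b, c, d, h1⟩ := exists_blk (hC hx)
    obtain ⟨a', b', c', d', h2⟩ := exists_blk (hC hy)
    exact (((h1.blk_mul h2).blk_mul h1.blk_inv).blk_mul h2.blk_inv).mem_blk1 (by ring)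
  obtain ⟨h2, a, b, c, d, h, h3⟩ := h1 hx
  exact ⟨x, h2, a, b, c, d, h, h3, h.pi_eq x.2⟩

/-! ### homologies -/

/-- the perspectivity is in the group -/
def Pe (ρ : PRep Γ K) (v φ : V3 K) : Prop := ∃ x, ρ.R x (T v φ)

theorem Pe.ne (h : ρ.Pe v φ) : 1 + φ ⬝ᵥ v ≠ 0 := by
  obtain ⟨x, hx⟩ := h
  exact det_T v φ ▸ hx.det

theorem T_mul_inv (h : 1 + φ ⬝ᵥ v ≠ 0) : T v φ * T v (-(1 + φ ⬝ᵥ v)⁻¹ • φ) = 1 := by
  rw [T_mul_T, ← T_zero v, smul_smul, ← one_smul K φ, smul_smul, smul_smul, ← add_smul, ← add_smul, one_smul]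
  convert congrArg (T v) (zero_smul K φ)
  field_simp
  ring

theorem Pe.tp (h : ρ.Pe v φ) : ρ.tp.Pe φ v := by
  obtain ⟨x, h2⟩ := h
  exact ⟨_, T_transpose v φ ▸ h2.tp⟩

theorem Pe.conj (h : ρ.Pe v φ) (hX : ρ.R x X) (hY : X * Y = 1) : ρ.Pe (X *ᵥ v) (φ ᵥ* Y) := by
  obtain ⟨y, h2⟩ := h
  exact ⟨_, hX.conj_of h2 (mul_T hY v φ)⟩

theorem Pe.conj_Pe (h : ρ.Pe w ψ) (h' : ρ.Pe v φ) :
    ρ.Pe (w + (φ ⬝ᵥ w) • v) (ψ - ((1 + φ ⬝ᵥ v)⁻¹ * (ψ ⬝ᵥ v)) • φ) := by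
  obtain ⟨x, hx⟩ := id h'
  have := h.conj hx (T_mul_inv h'.ne)
  rwa [T_mulVec, vecMul_T, smul_smul, mul_neg, neg_smul, ← sub_eq_add_neg, mul_comm] at this

theorem pe_smul {c : K} : ρ.Pe (c • v) φ ↔ ρ.Pe v (c • φ) := by simp [Pe, T_smul]

theorem Pe.cj' {P Q : M3 K} {h : P * Q = 1} (e : ρ.Pe (P *ᵥ v) φ) : (ρ.cj P Q h).Pe v (φ ᵥ* P) := by
  obtain ⟨x, hx⟩ := e
  exact ⟨x, by rwa [cj_R, conj_T h, vecMul_vecMul, h, vecMul_one]⟩

theorem Pe.of_cj {P Q : M3 K} {h : P * Q = 1} (e : (ρ.cj P Q h).Pe v φ) : ρ.Pe (P *ᵥ v) (φ ᵥ* Q) := by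
  obtain ⟨x, hx⟩ := e
  exact ⟨x, by rwa [cj_R, conj_T h] at hx⟩

theorem Pe.congr (h : ρ.Pe v φ) (e1 : w = v) (e2 : ψ = φ) : ρ.Pe w ψ := by rw [e1, e2]; exact h

theorem Small.axis (h : ρ.Small) (h1 : ρ.Pe v φ) (h2 : ρ.Pe v ψ) (hd : φ ⬝ᵥ v ≠ 0) (e : ψ ⬝ᵥ v = φ ⬝ᵥ v) :
    ψ = φ := by
  obtain ⟨x, hx⟩ := id h1
  obtain ⟨y, hy⟩ := h2
  have hl := h1.ne
  have e1 : ρ.El v (ψ - φ) := ⟨by rw [sub_dotProduct, e, sub_self], _,
    (hy.mul (hx.inv_of_mul' (T_mul_inv hl))).congr (by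
      rw [T_mul_T, e, smul_smul, add_assoc, ← add_smul, sub_eq_add_neg, ← neg_one_smul K φ]
      congr 3
      · field_simp
        ring
      all_goals simp)⟩
  have e2 := e1.conj hx (T_mul_inv hl)
  rw [T_mulVec, vecMul_T, e1.1, zero_smul, add_zero, show v + (φ ⬝ᵥ v) • v = (1 + φ ⬝ᵥ v) • v by
    rw [add_smul, one_smul], el_smul] at e2
  by_contra hn
  rcases h _ _ _ (by rintro rfl; simp at hd) (sub_ne_zero.2 hn) e1 e2 with k | k
  · exact hl k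
  · exact hd (by linear_combination k)

theorem Small.centre (h : ρ.Small) (h1 : ρ.Pe v φ) (h2 : ρ.Pe w φ) (hd : φ ⬝ᵥ v ≠ 0) (e : φ ⬝ᵥ w = φ ⬝ᵥ v) :
    w = v :=
  h.tp.axis h1.tp h2.tp (by rwa [dotProduct_comm]) (by rw [dotProduct_comm, e, dotProduct_comm])

theorem Small.orth (h : ρ.Small) (h1 : ρ.Pe v φ) (h2 : ρ.Pe w ψ) (hd : φ ⬝ᵥ v ≠ 0) (hd' : ψ ⬝ᵥ w ≠ 0)
    (e : φ ⬝ᵥ w = 0) : ψ ⬝ᵥ v = 0 := by
  have := h2.conj_Pe h1
  rw [e, zero_smul, add_zero] at this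
  have := h.axis h2 this hd' (by simp [sub_dotProduct, e])
  rw [sub_eq_self, smul_eq_zero, mul_eq_zero] at this
  rcases this with (k | k) | k
  · exact absurd k (inv_ne_zero h1.ne)
  · exact k
  · simp [k] at hd

/-- commutators of unitriangular elements -/
theorem uni_comm {a b c a' b' c' : K} (h : ρ.R x !![1, a, c; 0, 1, b; 0, 0, 1])
    (h' : ρ.R y !![1, a', c'; 0, 1, b'; 0, 0, 1]) :
    ρ.R (x * y * (y * x)⁻¹) (T ![1, 0, 0] ![0, 0, a * b' - a' * b]) :=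
  (h'.mul h).of_mul_right ((h.mul h').congr (by mat))

theorem uni_comm' {a b c a' b' c' : K} (h : ρ.R x !![1, a, c; 0, 1, b; 0, 0, 1])
    (h' : ρ.R y !![1, a', c'; 0, 1, b'; 0, 0, 1]) : ρ.El ![1, 0, 0] ![0, 0, a * b' - a' * b] :=
  ⟨by simp, _, uni_comm h h'⟩

theorem uni_sq (h2 : (2 : K) = 0) {a b c : K} (h : ρ.R x !![1, a, c; 0, 1, b; 0, 0, 1]) :
    ρ.R (x * x) (T ![1, 0, 0] ![0, 0, a * b]) := (h.mul h).congr (by
  ext i j
  fin_cases i <;> fin_cases j <;> simp [T, vecMulVec, Matrix.mul_apply, Fin.sum_univ_three]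
  exacts [by linear_combination -a * h2, by linear_combination -c * h2, by linear_combination -b * h2])

theorem Small.el13 (h : ρ.Small) {a b : K} (h1 : ρ.El ![1, 0, 0] ![0, 0, a]) (h2 : ρ.El ![1, 0, 0] ![0, 0, b])
    (ha : a ≠ 0) : b = 0 ∨ b = a := by
  rcases h _ _ (b / a) (by simp) (by simp [ha]) h1 (h2.congr rfl (by ext i; fin_cases i <;> simp [ha])) with k | k
  · exact Or.inl (by simpa [ha] using k)
  · exact Or.inr ((div_eq_one_iff_eq ha).1 k)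

end PRep

end Cfsg.Agent.MH
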