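import Cfsg.Agent.MH.End

/-! The classification in the case without large groups of elations. -/

set_option autoImplicit false

namespace Cfsg.Agent.MH

open Matrix Equiv Subgroup

variable {Γ K : Type*} [Group Γ] [Field K]

section

variable {x y t : Γ} {R : Subgroup Γ} {ν : ℕ}

theorem sq_ne_of_cube (h : y ^ 3 = 1) (h1 : y ≠ 1) : y * y ≠ 1 := fun e => h1 (by rwa [pow_three, e, mul_one] at h)

theorem Nine.ca [Finite Γ] (h : Nine R ν) (hc : Cls t) (h3 : ∀ y ∈ Cn t, y ^ 3 = 1 → y ≠ 1 → nv y ≠ 3) : CA R :=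
  fun y hy h1 => ((h.cent y hy h1).resolve_right fun e => by
    obtain ⟨g, hg⟩ := hc.conj_mem (x := y) (by omega)
    exact h3 _ hg (by simp [h.cube y hy]) (by simpa using h1) ((nv_conj g y).trans e)).2

theorem Nine.ca' [Finite Γ] (h : Nine R ν) (hc : Cls t) (h1 : NvC t 1) : CA R :=
  h.ca hc fun y hy a b => by rw [h1 y hy (sq_ne_of_cube a b)]; decide

theorem Nine.tau [Finite Γ] (h : Nine (Cn x) ν) (hc : CA (Cn x)) (hx : x ∈ OO Γ) (he : ¬ EE x) :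
    ν ≠ 2 ∧ (OO Γ ∩ Cn x).ncard = 8 :=
  ⟨by rintro rfl; exact he ⟨2, _, Ecl.of hx hc (Or.inl rfl) (by rw [h.cardN, h.card])⟩, by
    have := hc.card_OO (by rw [h.card])
    rw [h.card] at this
    omega⟩

end

namespace PRep

variable {ρ ρ' : PRep Γ K} {x y z g u s t : Γ} {γ : Kˣ} {c n1 e1 n2 e2 : ℕ} {τ1 τ2 τ9 τU : ℚ}

theorem B.five [Finite Γ] [Finite K] (h : ρ.B) (ht : Inv t) : 5 * Nat.card (Cn t) ≤ Nat.card Γ := by
  rw [← (Cn t).card_mul_index, mul_comm]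
  refine Nat.mul_le_mul_left _ (not_le.1 fun e : _ ≤ 4 => ?_)
  obtain ⟨v, φ, hv, hφ, k⟩ := h.inv_T ht
  obtain ⟨x, X, hX, e'⟩ := h.H.pt v hv
  have := (k.conj hX hX.mul_inv).r
  rw [← mem_Cn.1 ((eq_top_of_index_le h.H.perf e).ge (mem_top x)), mul_inv_cancel_right] at this
  obtain ⟨c, -, e1⟩ := k.r.uniq this
  rw [T_eq_smul e1, one_smul] at e1
  obtain ⟨c, -, e2, -⟩ := vmv_eq (T_inj e1) (hX.mulVec_ne hv) (hX.inv.vecMul_ne hφ)
  exact e' c e2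

theorem B.os' [Finite Γ] [Finite K] (h : ρ.B) (ht : Inv t) {a : ℚ}
    (hb : ((OO Γ).ncard : ℚ) / Nat.card Γ = a - (Nat.card Γ : ℚ)⁻¹) (ha : a ≤ 6 / 7) :
    ∃ n1 e1 n2 e2 τ1 τ2 τ9 τU, ρ.OS (Nat.card (Cn t)) n1 e1 n2 e2 τ1 τ2 τ9 τU ∧
      a - (Nat.card Γ : ℚ)⁻¹ = τ1 + τ2 + τ9 + τU ∧ 0 ≤ τ1 ∧ 0 ≤ τ2 ∧ 0 ≤ τ9 ∧ 0 < (Nat.card Γ : ℚ)⁻¹ := by
  have := inv_pos' (Nat.card_pos (α := Γ))
  obtain ⟨_, _, _, _, _, _, _, _, k⟩ := h.os (fun x hx hc => hc.coprime_Cn (odd_card (nv_eq_zero.1 hx.2)) ht)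
    (by linarith)
  refine ⟨_, _, _, _, _, _, _, _, k, hb ▸ k.sum, k.et1.nonneg, k.et2.nonneg, ?_, this⟩
  rcases k.nine with ⟨rfl, -⟩ | ⟨_, _, -, -, -, rfl, -⟩ <;> positivity

theorem UD.tau [Finite Γ] (h : ρ.UD u g γ)
    (e : τU = (orderOf γ : ℚ)⁻¹ - (Nat.card (Cn u) : ℚ)⁻¹ * (orderOf γ : ℚ)⁻¹) :
    (orderOf γ : ℚ)⁻¹ / 2 ≤ τU ∧ τU < (orderOf γ : ℚ)⁻¹ ∧ (orderOf γ : ℚ)⁻¹ ≤ 1 / 4 ∧ 0 < (orderOf γ : ℚ)⁻¹ := by
  have h1 := inv_pos' (n := orderOf γ) (by have := h.four; omega)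
  have := mul_pos (inv_pos' (Nat.card_pos (α := Cn u))) h1
  have := mul_le_mul_of_nonneg_right (inv_le' 2 (two_le_card h.ne (self_mem_Cn u))) h1.le
  have := inv_le' 4 h.four
  push_cast at *
  exact ⟨by linarith, by linarith, by linarith, h1⟩

theorem OS.odd [Finite Γ] (h : ρ.OS c n1 e1 n2 e2 τ1 τ2 τ9 τU) (hu : ρ'.UD u g γ) (ho : ¬ orderOf γ % 2 = 0) :
    (2 = e1 ∧ orderOf γ = n1) ∨ (2 = e2 ∧ orderOf γ = n2) :=
  h.ecl g (hu.ecl (by omega)).1 _ _ (hu.ecl (by omega)).2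

theorem OS.odd' [Finite Γ] (h : ρ.OS c n1 e1 n2 e2 τ1 τ2 τ9 τU) (hu : ρ'.UD u g γ) (ho : ¬ orderOf γ % 2 = 0) :
    τ1 = 1 / 2 - (orderOf γ : ℚ)⁻¹ / 2 ∨ τ2 = 1 / 2 - (orderOf γ : ℚ)⁻¹ / 2 := by
  have := hu.four
  rcases h.odd hu ho with ⟨rfl, rfl⟩ | ⟨rfl, rfl⟩
  exacts [Or.inl (h.et1.two (by omega)).2.2.2, Or.inr (h.et2.two (by omega)).2.2.2]

theorem UD.even [Finite Γ] (hu : ρ.UD u g γ) (ho : orderOf γ % 2 = 0) (hc : Cls t) :
    ∃ k, k * g * k⁻¹ ∈ Cn t ∧ k * g * k⁻¹ * (k * g * k⁻¹) ≠ 1 ∧ nv (k * g * k⁻¹) = 1 ∧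
      Nat.card (zpowers (k * g * k⁻¹)) = orderOf γ := by
  have := hu.nv_one ho
  obtain ⟨k, hk⟩ := hc.conj_mem (x := g) (by omega)
  exact ⟨k, hk, mt conj_mul_self.1 hu.reg.sq_ne, (nv_conj k g).trans this, by
    rw [Nat.card_zpowers, ← hu.orderOf_eq]; exact orderOf_eq_orderOf_iff.2 (by simp)⟩

theorem OS.three [Finite Γ] (h : ρ.OS c n1 e1 n2 e2 τ1 τ2 τ9 τU) (hc : Cls t)
    (h9 : ∀ x ∈ OO Γ, x ^ 3 = 1 → (3 : K) ≠ 0 → EE x) (hU : ∀ x ∈ OO Γ, EE x ∨ (x ^ 3 = 1 ∧ (3 : K) ≠ 0))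
    (h3 : 3 ∣ Nat.card Γ) : 3 ∣ Nat.card (Cn t) ∨ 3 ∣ n1 ∨ 3 ∣ n2 := by
  obtain ⟨z, -, e⟩ := exists_mem_orderOf (H := (⊤ : Subgroup Γ)) Nat.prime_three (by rwa [card_top])
  have z1 : z ≠ 1 := by rintro rfl; simp at e
  have z3 : z ^ 3 = 1 := e ▸ pow_orderOf_eq_one z
  by_cases h0 : nv z = 0
  · have o : z ∈ OO Γ := ⟨sq_ne_of_cube z3 z1, h0⟩
    obtain ⟨e, n, a⟩ := (hU z o).elim id fun a => h9 z o a.1 a.2
    have := a.card ▸ three_dvd_card z1 z3 (self_mem_Cn z)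
    rcases h.ecl z o e n a with ⟨-, rfl⟩ | ⟨-, rfl⟩
    exacts [Or.inr (Or.inl this), Or.inr (Or.inr this)]
  obtain ⟨g, hg⟩ := hc.conj_mem h0
  exact Or.inl (three_dvd_card (by simpa using z1) (by simp [z3]) hg)

theorem B.odd [Finite Γ] [Finite K] (h : ρ.B) : 2 ∣ Nat.card Γ := by
  by_contra hn
  have o : ∀ x : Γ, x ≠ 1 → ∃ n, Ecl x 3 n := fun x hx => by
    have d := card_subgroup_dvd_card (Nm (Cn x))
    rcases h.loc (mem_OO hx fun s hs _ => hn (hs.orderOf ▸ orderOf_dvd_natCard s)) with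
      ⟨e, n, a⟩ | ⟨-, ν, a⟩ | ⟨ρ', g, γ, -, a⟩
    · rcases a.ty with ⟨rfl, -⟩ | ⟨rfl, -⟩
      exacts [absurd (dvd_of_mul_left_dvd (a.cardN ▸ d)) hn, ⟨n, a⟩]
    · refine absurd (dvd_trans ?_ (a.cardN ▸ d)) hn
      rcases a.nu with rfl | rfl | rfl <;> decide
    by_cases e : orderOf γ % 2 = 0
    · exact absurd ((Nat.dvd_of_mod_eq_zero e).trans (dvd_of_mul_left_dvd (a.cardN ▸ d))) hn
    · exact absurd (dvd_of_mul_left_dvd ((a.ecl (by omega)).2.cardN ▸ card_subgroup_dvd_card _)) hn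
  obtain ⟨x, X, hX, e⟩ := h.H.pt ![1, 0, 0] (by simp)
  obtain ⟨n, a⟩ := o x fun k => by
    obtain ⟨c, rfl⟩ := hX.eq_one_iff.1 k
    exact e c (by simp [smul_mulVec])
  obtain ⟨z, -, e⟩ := exists_mem_orderOf Nat.prime_three (Dvd.intro_left _ a.cardN.symm)
  have z1 : z ≠ 1 := by rintro rfl; simp at e
  obtain ⟨n, a⟩ := o z z1
  have := a.card ▸ three_dvd_card z1 (e ▸ pow_orderOf_eq_one z) (self_mem_Cn z)
  have := a.ty
  omega

theorem B.not_tb [Finite Γ] [Finite K] (h : ρ.B) (ht : Inv t) (hB : TB t) : False := by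
  obtain ⟨x, hx, y, hy, xy⟩ := hB.nab
  have c5 := inv_le' 5 (five_le_card hx hy xy)
  obtain ⟨n1, e1, n2, e2, τ1, τ2, τ9, τU, k, s, p1, p2, p9, pN⟩ := h.os' ht (a := (Nat.card (Cn t) : ℚ)⁻¹)
    (by rw [hB.cls.count_one ht hB.nv1, hB.ni]; simp) (by push_cast at c5; linarith)
  have := inv_le' _ (h.five ht) (by have := Nat.card_pos (α := Cn t); omega)
  have := inv_pos' (Nat.card_pos (α := Cn t))
  push_cast at *
  rw [mul_inv] at *
  rcases k.uni with ⟨rfl, -⟩ | ⟨ρ', u, g, γ, -, a, b, -⟩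
  swap
  · obtain ⟨b1, b2, b3, b4⟩ := a.tau b
    by_cases o : orderOf γ % 2 = 0
    swap
    · rcases k.odd' a o with e | e <;> linarith
    obtain ⟨j, a1, -, -, a2⟩ := a.even o hB.cls
    obtain ⟨m, hm⟩ := a2 ▸ card_dvd_of_le (zpowers_le.2 a1)
    have : m ≠ 1 := by
      rintro rfl
      have := eq_of_le_of_card_ge (zpowers_le.2 a1) (by rw [a2, hm, mul_one])
      exact xy (zpowers_comm x (this ▸ hx) y (this ▸ hy))
    have : m ≠ 0 := by rintro rfl; exact Nat.card_pos.ne' hm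
    have := inv_le' (orderOf γ * 2) (hm ▸ Nat.mul_le_mul_left _ (by omega) : _ ≤ Nat.card (Cn t))
      (by have := a.four; omega)
    push_cast at this
    rw [mul_inv] at this
    linarith
  obtain rfl := k.et1.bd.1.resolve_right (by intro; linarith)
  obtain rfl := k.et2.bd.1.resolve_right (by intro; linarith)
  rcases k.nine with ⟨rfl, -⟩ | ⟨x, ν, a1, a2, a3, rfl, -⟩
  · linarith
  obtain ⟨b1, b2⟩ := a3.tau (a3.ca' hB.cls hB.nv1) a1 a2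
  rw [b2] at s
  rcases a3.nu.resolve_left b1 with rfl | rfl
  · push_cast at s
    linarith
  have := inv_le' 72 (a3.cardN ▸ card_le_card_group _)
  have : Nat.card (Cn t) = 8 := by_contra fun e => by
    rcases (by omega : 9 ≤ Nat.card (Cn t) ∨ Nat.card (Cn t) ≤ 7) with e | e
    · have := inv_le' 9 e
      push_cast at *
      linarith
    · have := inv_le' _ e Nat.card_pos
      push_cast at *
      linarith
  have N : Nat.card Γ = 72 := eq_of_inv (by rw [this] at s; push_cast at *; linarith)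
  have := normalizer_eq_top_iff.1 ((card_eq_iff_eq_top _).1 (a3.cardN.trans N.symm))
  have e := (Cn x).card_mul_index
  have := a3.card
  rw [not_pgroup_quot h.H.perf (H := Cn x) (k := 3) Nat.prime_two (by rw [this] at e; omega), card_top] at this
  omega

theorem B.not_tgl [Finite Γ] [Finite K] (h : ρ.B) (ht : Inv t) (hB : TGL t) : False := by
  obtain ⟨n1, e1, n2, e2, τ1, τ2, τ9, τU, k, s, p1, p2, p9, pN⟩ := h.os' ht (a := 13 / 48)
    (by rw [hB.cls.count_one ht hB.nv1, hB.ni, hB.card]; simp) (by norm_num)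
  have := inv_le' 48 (hB.card ▸ card_le_card_group _)
  obtain rfl : τ9 = 0 := by
    rcases k.nine with ⟨rfl, -⟩ | ⟨x, ν, a1, -, a3, -⟩
    · rfl
    have := (a3.ca' hB.cls hB.nv1).coprime_Cn (by rw [a3.card]) ht
    rw [a3.card, hB.card] at this
    exact absurd this (by decide)
  push_cast at *
  have : 0 ≤ τU ∧ τU < 1 / 4 := by
    rcases k.uni with ⟨rfl, -⟩ | ⟨ρ', u, g, γ, -, a, b, -⟩
    · norm_num
    · obtain ⟨b1, b2, b3, b4⟩ := a.tau b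
      constructor <;> linarith
  rcases k.et1.bd.1 with e | e <;> rcases k.et2.bd.1 with e' | e' <;> linarith

theorem B.not_tv [Finite Γ] [Finite K] (h : ρ.B) (ht : Inv t) (hB : TV t) : False := by
  have c6 := inv_le' 6 hB.six
  obtain ⟨n1, e1, n2, e2, τ1, τ2, τ9, τU, k, s, p1, p2, p9, pN⟩ := h.os' ht (a := 2 / 3 + (Nat.card (Cn t) : ℚ)⁻¹ / 3)
    (by rw [hB.count ht]; ring) (by push_cast at c6; linarith)
  obtain ⟨rfl, h9⟩ := k.nine.resolve_right fun ⟨x, ν, a1, a2, a3, _⟩ => by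
    obtain ⟨g, b1, b2, b3⟩ := (a3.four' hB.cls (a3.tau (a3.ca hB.cls fun y a b c =>
      absurd (three_dvd_card c b a) hB.n3) a1 a2).1).1
    exact b2 (hB.no4 g b1 b3)
  rcases k.uni with ⟨rfl, hU⟩ | ⟨ρ', u, g, γ, -, a, b, -⟩
  · rcases (k.three hB.cls h9 hU hB.d3).resolve_left hB.n3 with e | e
    exacts [arith_V hB.six (h.five ht) k.et1 k.et2 k.co e (by linarith),
      arith_V hB.six (h.five ht) k.et2 k.et1 k.co.symm e (by linarith)]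
  by_cases o : orderOf γ % 2 = 0
  · obtain ⟨j, a1, a2, a3, -⟩ := a.even o hB.cls
    have := hB.nv3 _ a1 a2
    omega
  obtain ⟨b1, b2, b3, b4⟩ := a.tau b
  have := inv_le' _ (h.five ht) (by have := Nat.card_pos (α := Cn t); omega)
  have := inv_pos' (Nat.card_pos (α := Cn t))
  push_cast at *
  rw [mul_inv] at *
  rcases k.odd' a o with e | e
  · rcases k.et2.bd.1 with e | e <;> linarith
  · rcases k.et1.bd.1 with e | e <;> linarith

theorem B.of_td [Finite Γ] [Finite K] (h : ρ.B) (ht : Inv t) {A : Subgroup Γ} {k : ℕ} (hB : TD t A k)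
    (h2 : (2 : K) ≠ 0 ∨ 2 ∣ k) : ρ.OutB := by
  have k0 : 0 < k := by have := hB.cardA ▸ Nat.card_pos (α := A); omega
  have k1 := inv_le' 1 k0
  obtain ⟨n1, e1, n2, e2, τ1, τ2, τ9, τU, S, s, p1, p2, p9, pN⟩ := h.os' ht (a := 1 / 2 + (k : ℚ)⁻¹ / 4)
    (by rw [hB.cls.count_one ht hB.nv1, hB.ni, hB.card]; push_cast; field_simp; ring) (by push_cast at k1; linarith)
  have hd : 4 * k ∣ Nat.card Γ := hB.card ▸ card_subgroup_dvd_card _
  rw [hB.card] at S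
  have h9 : (τ9 = 0 ∧ ∀ x ∈ OO Γ, x ^ 3 = 1 → (3 : K) ≠ 0 → EE x) ∨ (τ9 = 2 / 9 ∧ 2 ∣ k ∧ ¬ 3 ∣ 4 * k ∧ ¬ 3 ∣ n1 ∧
      ¬ 3 ∣ n2 ∧ ∃ R : Subgroup Γ, Nat.card R = 9 ∧ CA R ∧ Nat.card (Nm R) = 36) :=
    S.nine.imp_right fun ⟨x, ν, a1, a2, a3, a4, a5, a6⟩ => by
      have ca := a3.ca' hB.cls hB.nv1
      obtain ⟨b1, b2⟩ := a3.tau ca a1 a2
      obtain ⟨⟨g, c1, c2, c3⟩, c4⟩ := a3.four' hB.cls b1
      obtain rfl := c4 (hB.p4 ht)
      have := ca.coprime_Cn (by rw [a3.card]) ht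
      rw [a3.card, hB.card] at this
      exact ⟨by rw [a4, b2]; norm_num, hB.even c1 c2 c3, fun e => absurd (Nat.Coprime.eq_one_of_dvd
        (this.coprime_dvd_left (by decide : 3 ∣ 9)) e) (by decide), a5, a6, _, a3.card, ca, a3.cardN⟩
  rcases S.uni with ⟨rfl, hU⟩ | ⟨ρ', u, g, γ, E, a, rfl, c1, c2, c3, -⟩
  · rcases h9 with ⟨rfl, h9⟩ | ⟨rfl, a1, a2, a3, a4, R, a5, a6, a7⟩
    · rcases arith_D0 k0 Nat.card_pos hd S.et1 S.et2 S.co (hB.card ▸ S.three hB.cls h9 hU) (by linarith) with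
        ⟨e, rfl⟩ | e
      exacts [h.sixty (h2.resolve_right (by decide)) ht hB e, Or.inr (Or.inl e)]
    · exact Or.inr (Or.inr (Or.inl ⟨arith_D9 k0 a1 a2 Nat.card_pos hd (a5 ▸ card_subgroup_dvd_card R) S.et1 S.et2 a3 a4
        (by linarith), R, a5, a6, a7⟩))
  refine OutB.of_eqv E (Or.inl ?_)
  obtain ⟨μ, m1, m2⟩ := a.card
  have q2 := two_le_card a.ne (self_mem_Cn u)
  by_cases o : orderOf γ % 2 = 0
  · obtain ⟨j, a1, a2, -, a3⟩ := a.even o hB.cls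
    have jA := by_contra fun e => a2 (hB.out _ a1 e)
    have le : A ≤ Cn (j * g * j⁻¹) := fun y hy => mem_Cn.2 (hB.comm _ jA y hy)
    have eA := eq_of_le_of_card_ge le (by
      rw [card_Cn_conj, a.Cn_g, a.card_D, ← a3]; exact card_le_of_le (zpowers_le.2 jA))
    have m : orderOf γ = 2 * k := by rw [← hB.cardA, eA, card_Cn_conj, a.Cn_g, a.card_D]
    obtain ⟨w, w1, w2⟩ := SetLike.exists_of_lt (hB.le.lt_of_ne fun e => by
      have := hB.card; rw [← e, hB.cardA] at this; omega)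
    have f := a.four
    obtain rfl := arith_DU0 (by omega) q2 (m ▸ a.dvd) m1 (m ▸ m2) S.et1 S.et2 c2 c3 (h9.imp And.left And.left) (m ▸ s)
    refine a.conic (s := j⁻¹ * w * j) (Or.inl o) (by simpa using m2) ?_ fun e => w2 ?_
    · simpa [mul_assoc] using conj_mem_Nm_Cn (g := j⁻¹) (x := j * g * j⁻¹) (y := w) (eA ▸ mem_Nm fun y hy => by
        have := hB.out _ (mul_mem w1 (hB.le hy)) fun e => w2 ((mul_mem_cancel_right hy).1 e)
        rw [inv_eq_of_mul_eq_one_right (hB.out w w1 w2), eq_inv_of_mul_eq_one_left ((mul_assoc _ _ _).trans this)]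
        exact inv_mem hy)
    · simpa [eA, mul_assoc] using (conj_mem_Cn (g := j)).2 e
  have : μ = 1 ∧ Nat.card (Cn u) = 2 * orderOf γ + 1 := by
    have h9' := h9.imp And.left fun a => And.intro a.1 a.2.1
    rcases S.odd a o with ⟨rfl, rfl⟩ | ⟨rfl, rfl⟩
    exacts [arith_DU1 k0 a.four q2 a.dvd a.odd m1 m2 hd c1 S.et1 S.et2.bd.1 h9' s,
      arith_DU1 k0 a.four q2 a.dvd a.odd m1 m2 hd c1 S.et2 S.et1.bd.1 h9' (by linarith)]
  obtain ⟨rfl, e⟩ := this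
  have b := (a.ecl (by omega)).2
  obtain ⟨w, w1, w2⟩ := SetLike.exists_of_lt (le_normalizer.lt_of_ne fun e : Cn g = Nm (Cn g) => by
    have := b.cardN; rw [← e, b.card] at this; omega)
  exact a.conic (Or.inr e) (by simpa using m2) w1 w2

theorem TA7.card_nine [Finite Γ] (h : ρ.TA7 t) {R : Subgroup Γ} {ν : ℕ} (hR : Nine R ν) :
    (OO Γ ∩ R).ncard + ν = 8 ∧ (ν = 2 ∨ ν = 4) := by
  refine ⟨?_, or_iff_not_imp_left.2 fun e => (hR.four' h.cls e).2 h.p4⟩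
  obtain ⟨z, -, -, hz, -, -, z3, hc⟩ := h.nine
  obtain ⟨g, hg⟩ := hR.syl z hz.cube
  have := ncard_sharp R
  rw [hR.card, show {y | y ∈ R ∧ y ≠ 1} = OO Γ ∩ R ∪ {x | x ∈ R ∧ ∃ k, k * (g * z * g⁻¹) * k⁻¹ = x} from ?_,
    Set.ncard_union_eq (Set.disjoint_left.2 ?_), hR.fus _ hg (by simpa using hz.ne)] at this
  · omega
  · rintro _ a ⟨-, k, rfl⟩
    have := a.1.2
    rw [nv_conj, nv_conj, z3] at this
    omega
  ext y
  refine ⟨fun ⟨a, b⟩ => (hR.cent y a b).imp (fun c => ⟨⟨sq_ne_of_cube (hR.cube y a) b, c.1⟩, a⟩) fun c => ⟨a, ?_⟩, ?_⟩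
  · obtain ⟨k, hk⟩ := h.cls.conj_mem (x := y) (by omega)
    obtain ⟨l, hl⟩ := hc _ hk (by simp [hR.cube y a]) (by simpa using b)
    exact ⟨k⁻¹ * l * g⁻¹, by rw [show y = k⁻¹ * (k * y * k⁻¹) * k by group, ← hl]; group⟩
  · rintro (a | ⟨a, k, rfl⟩)
    exacts [⟨a.2, OO_ne a.1⟩, ⟨a, by simpa using hz.ne⟩]

theorem TA7.key [Finite Γ] [Finite K] (h : ρ.TA7 t) (ht : Inv t) {q : ℕ} (S : ρ.OS 24 n1 e1 n2 e2 τ1 0 τ9 τU)
    (hd : 72 ∣ Nat.card Γ) (hU : τU = 0 ∨ (τU = 1 / 4 - (q : ℚ)⁻¹ / 4 ∧ 1 < q ∧ 4 ∣ q - 1))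
    (s : 35 / 72 - (Nat.card Γ : ℚ)⁻¹ = τ1 + τU) :
    Nat.card Γ = 2520 ∧ τU ≠ 0 ∧ q = 5 ∧ ∀ x ∈ OO Γ, ∀ e n, Ecl x e n → e = 3 := by
  obtain ⟨N, ⟨rfl, rfl⟩ | ⟨rfl, a, b⟩⟩ := arith_A7 Nat.card_pos hd S.et1 hU s
  · obtain ⟨x, hx, a⟩ := S.rep1 (by decide)
    have b1 := a.ca.real_le (by rw [a.card]) (by rw [a.cardN]; decide)
    have b2 := (h.b.gd.card hx).trans (a.ca.tau (by rw [a.card]) (a.card ▸ a.cardN))
    have b3 := h.cls.card ht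
    rw [a.card, N] at *
    rw [h.card] at b3
    rw [show {s : Γ | Inv s}.ncard = 105 by omega, show (MH.cls (OO Γ) (Cn x)).ncard = 1224 by
      have : (({y | y ∈ OO Γ ∧ Cj x y}.ncard : ℚ)) = 1224 := by push_cast at b2; linarith
      exact_mod_cast this] at b1
    omega
  refine ⟨N, a, b, fun x hx e n k => ((S.ecl x hx e n k).resolve_right ?_).1⟩
  rintro ⟨-, rfl⟩
  have := S.et2.zero
  have := k.ty
  omega

theorem TA7.out [Finite Γ] [Finite K] (h : ρ.TA7 t) (ht : Inv t) : ρ.IsA7 := by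
  obtain ⟨n1, e1, n2, e2, τ1, τ2, τ9, τU, S, s, p1, p2, p9, pN⟩ := h.b.os' ht (a := 43 / 72)
    (by rw [h.cls.count ht (fun x a b => (h.alt x a b).imp And.right And.right) h.n1 h.n3, h.card]; push_cast; ring)
    (by norm_num)
  rw [h.card] at S
  obtain ⟨x, ν, -, -, a3, a4, -⟩ := S.nine.resolve_left fun ⟨_, k⟩ => by
    obtain ⟨z, R, ν, hz, hR, zR, z3, -⟩ := h.nine
    obtain ⟨x, a, b⟩ := Set.nonempty_of_ncard_ne_zero (s := OO Γ ∩ R) (by have := h.card_nine hR; omega)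
    obtain ⟨e, n, c⟩ := k x a (hR.cube x b) hz.three
    have := (c.ca.mem_OO (c.card ▸ c.odd) (hR.gd a b ▸ zR) hz.ne).2
    omega
  have hd : 72 ∣ Nat.card Γ := by
    have := h.card ▸ card_subgroup_dvd_card (Cn t)
    have := a3.card ▸ card_subgroup_dvd_card (Cn x)
    omega
  have := inv_le' 72 (Nat.le_of_dvd Nat.card_pos hd)
  have h9 : τ9 = 1 / 3 ∨ τ9 = 1 / 9 := by
    obtain ⟨a, rfl | rfl⟩ := h.card_nine a3
    · exact Or.inl (by rw [a4, show (OO Γ ∩ Cn x).ncard = 6 by omega]; norm_num)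
    · exact Or.inr (by rw [a4, show (OO Γ ∩ Cn x).ncard = 4 by omega]; norm_num)
  have key : ∀ q : ℕ, τU = 0 ∨ (τU = 1 / 4 - (q : ℚ)⁻¹ / 4 ∧ 1 < q ∧ 4 ∣ q - 1) →
      Nat.card Γ = 2520 ∧ τU ≠ 0 ∧ q = 5 ∧ ∀ x ∈ OO Γ, ∀ e n, Ecl x e n → e = 3 := fun q hU => by
    have : 0 ≤ τU ∧ τU < 1 / 4 := by
      rcases hU with rfl | ⟨rfl, a, -⟩
      · norm_num
      · have := inv_le' 1 a.le
        have := inv_pos' (n := q) (by omega)
        constructor <;> push_cast at * <;> linarith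
    push_cast at *
    obtain rfl := h9.resolve_left (by
      rintro rfl; rcases S.et1.bd.1 with e | e <;> rcases S.et2.bd.1 with e' | e' <;> linarith)
    rcases S.et2.bd.1 with rfl | e
    · exact h.key ht S hd hU (by linarith)
    obtain rfl := S.et1.bd.1.resolve_right (by intro; linarith)
    exact h.key ht S.swap hd hU (by linarith)
  rcases S.uni with ⟨e, -⟩ | ⟨ρ', u, g, γ, -, a, b, -, -, -, hO⟩
  · exact absurd e (key 0 (Or.inl e)).2.1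
  have o : orderOf γ % 2 = 0 := by_contra fun o => by
    obtain ⟨b1, b2, b3, b4⟩ := a.tau b
    rcases S.odd' a o with e | e <;> rcases h9 with e' | e' <;> linarith
  obtain ⟨j, a1, a2, a3, a4⟩ := a.even o h.cls
  have m : orderOf γ = 4 := (Nat.le_of_dvd (by decide) (by
    rw [← a4, Nat.card_zpowers]
    exact orderOf_dvd_of_pow_eq_one ((h.alt _ a1 a2).resolve_right (by omega)).1)).antisymm a.four
  obtain ⟨N, -, q5, h3⟩ := key _ (Or.inr ⟨by rw [b, m]; ring, two_le_card a.ne (self_mem_Cn u), m ▸ a.dvd⟩)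
  obtain ⟨i, i1, i2⟩ := exists_mem_inv (H := Nm (Cn u)) (by rw [a.cardN, m, q5]; decide)
  have p5 : ∀ y ∈ Cn u, y ^ 5 = 1 := fun y hy => q5 ▸ congrArg Subtype.val (pow_card_eq_one' (x := (⟨y, hy⟩ : Cn u)))
  refine h.isA7 (Eqv.refl ρ) (by simpa using a.cast Nat.prime_five q5.symm.dvd) N i2 (inverts i2.2 i1 (self_mem_Cn u)
    (fun _ p _ r => a.ca.comm p r) fun y hy e => by_contra fun k => ?_) a.ne (p5 u (self_mem_Cn u))
    fun x hx ⟨w, w1, w2⟩ => ((hO x hx).resolve_left fun ⟨e, n, k⟩ => ?_).imp_right fun ⟨l, k⟩ => by simpa using p5 _ k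
  · have := two_dvd_card i2 (a.ca y hy k ▸ e)
    omega
  obtain rfl := h3 x hx e n k
  have := k.cardN ▸ two_dvd_card w1 (k.ca.mem_Nm (self_mem_Cn x) (OO_ne hx) (w2 ▸ inv_mem (self_mem_Cn x)))
  have := k.odd
  omega

theorem caseB [Finite Γ] [Finite K] (H : ρ.Hyp) (h : ρ.Small) : ρ.OutB := by
  have b := B.of H h
  obtain ⟨t, ht, k | k | ⟨A, k, a, c⟩ | k | ⟨ρ', e, k⟩⟩ := b.types b.odd
  exacts [(b.not_tb ht k).elim, (b.not_tgl ht k).elim, b.of_td ht a c, (b.not_tv ht k).elim,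
    OutB.of_eqv e (Or.inr (Or.inr (Or.inr (k.out ht))))]

end PRep

end Cfsg.Agent.MH
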