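import Cfsg.Agent.MH.Types

/-! Centralisers of involutions in odd characteristic: reduction to the monomial case. -/

set_option autoImplicit false

namespace Cfsg.Agent.MH

open Matrix Equiv Subgroup MulAction Cfsg.Agent.H4 Cfsg.Agent.H4.Mob Cfsg.Agent.H4.Bar Cfsg.Agent.H4.Pair

variable {Γ K : Type*} [Group Γ] [Field K]

theorem stab_comm [Finite K] {M : Subgroup (PG K)} {P : P1 K} (hM : M ≤ stabilizer (PG K) P)
    (hp : ∀ g ∈ M, g ^ (Nat.card K - 1) = 1) {g h : PG K} (hg : g ∈ M) (hh : h ∈ M) : g * h = h * g := by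
  obtain ⟨k, rfl⟩ := exists_smul_inf P
  have key : ∀ g ∈ M, ∃ a b ha, k⁻¹ * g * k = aff a b ha := fun g hg => exists_aff_of_fix (by
    rw [mul_smul, mul_smul, mem_stabilizer_iff.1 (hM hg), inv_smul_smul])
  obtain ⟨a, b, ha, e1⟩ := key g hg
  obtain ⟨c, d, hc, e2⟩ := key h hh
  obtain ⟨β, e⟩ : ∃ β, k⁻¹ * (g * h * (h * g)⁻¹) * k⁻¹⁻¹ = tr β := ⟨_, by
    rw [show k⁻¹ * (g * h * (h * g)⁻¹) * k⁻¹⁻¹ = k⁻¹ * g * k * (k⁻¹ * h * k) * (k⁻¹ * h * k * (k⁻¹ * g * k))⁻¹ by group,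
      e1, e2, aff_mul, aff_mul, aff_inv, aff_mul, tr]
    exact aff_eq_aff.2 ⟨by field_simp, rfl⟩⟩
  have := hp _ (mul_mem (mul_mem hg hh) (inv_mem (mul_mem hh hg)))
  rw [← conj_eq_one_iff (a := k⁻¹), ← conj_pow, e, tr_pow, cast_card_sub_one, tr_eq_one] at this
  rw [show β = 0 by simpa using this, tr_zero, conj_eq_one_iff] at e
  exact mul_inv_eq_one.1 e

theorem card_preimage [Finite Γ] {C : Subgroup Γ} {M : Type*} [Group M] [Finite M] (f : C →* M)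
    (hf : Function.Surjective f) (T : Set M) :
    {x | ∃ h : x ∈ C, f ⟨x, h⟩ ∈ T}.ncard = T.ncard * Nat.card f.ker := by
  have : {x | ∃ h : x ∈ C, f ⟨x, h⟩ ∈ T} = Subtype.val '' (f ⁻¹' T) := by
    ext x
    simp
  rw [this, Set.ncard_image_of_injective _ Subtype.val_injective, ← ncard_double (fun x a => f x = a) (f ⁻¹' T) T
    (m := 1) (fun x hx => Set.ncard_eq_one.2 ⟨f x, Set.ext fun a => ⟨fun h => h.2.symm, by rintro rfl; exact ⟨hx, rfl⟩⟩⟩)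
    fun a ha => ?_, mul_one]
  obtain ⟨x, rfl⟩ := hf a
  rw [← ncard_coset f.ker x]
  congr 1
  ext y
  simp only [Set.mem_preimage, Set.mem_setOf_eq, MonoidHom.mem_ker, map_mul, map_inv, mul_inv_eq_one]
  exact ⟨And.right, fun h => ⟨h ▸ ha, h⟩⟩

namespace PRep

variable {ρ ρ' : PRep Γ K} {x y z g w j s t : Γ} {X Y : M3 K} {σ τ : S3} {k l : Fin 3} {v φ : V3 K}

theorem B.ic [Finite K] (h : ρ.B) (ht : Inv t) (x s : Γ) (hx : x * x ≠ 1) (hs : Inv s) (h1 : s ∈ Cn x)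
    (h2 : t ∈ Cn x) : s ∈ Cn t := mem_Cn.2 (h.inv_comm hx ht.2 hs.2 h2 h1)

theorem B.inv_T [Finite K] (h : ρ.B) (ht : Inv t) : ∃ v φ, v ≠ 0 ∧ φ ≠ 0 ∧ ρ.Hm (-2) t v φ := by
  rcases h.nf t with ⟨v, φ, k⟩ | ⟨ρ', -, k⟩ | ⟨ρ', -, k⟩
  · have hv : v ≠ 0 := by rintro rfl; exact ht.1 (k.inj (ρ.one.congr (zero_T _)))
    have hφ : φ ≠ 0 := by rintro rfl; exact ht.1 (k.inj (ρ.one.congr (T_zero _)))
    exact ⟨v, φ, hv, hφ, k, h.pe ⟨_, k⟩ hv hφ⟩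
  exacts [absurd ht.2 k.sq_ne, absurd ht.2 k.sq_ne]

theorem exists_ker (φ : V3 K) : ∃ u w, Ind u w ∧ φ ⬝ᵥ u = 0 ∧ φ ⬝ᵥ w = 0 := by
  obtain ⟨w, hw, h1, -⟩ := exists_common φ φ
  obtain ⟨i, hi⟩ := exists_ne_zero hw
  obtain ⟨u, hu, h2, h3⟩ := exists_common φ (Pi.single i 1)
  exact ⟨u, w, ind_of_dot hu h3 (by simpa using hi), h2, h1⟩

theorem B.frame_tt [Finite K] (h : ρ.B) (h2 : (2 : K) ≠ 0) (ht : Inv t) : ∃ ρ', ρ.Eqv ρ' ∧ ρ'.R t (tt 2) := by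
  obtain ⟨v, φ, -, -, k⟩ := h.inv_T ht
  obtain ⟨u, w, i, a, b⟩ := exists_ker φ
  obtain ⟨Q, hQ⟩ := exists_inv (det_ne_of_dot i a b (by rw [k.e]; simpa using h2))
  refine ⟨_, Eqv.cj ρ hQ, (k.r.smul (c := -1) (by simp)).cj' ?_⟩
  rw [mul_col3, col3_mul]
  simp [tt, T_mulVec, neg_mulVec, a, b, k.e, two_smul]

theorem B.frame_pair [Finite K] (h : ρ.B) (h2 : (2 : K) ≠ 0) (ht : Inv t) (hs : Inv s) (hst : s ≠ t) (hc : s ∈ Cn t) :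
    ∃ ρ', ρ.Eqv ρ' ∧ ρ'.R t (tt 0) ∧ ρ'.R s (tt 1) := by
  obtain ⟨v, φ, -, -, k⟩ := h.inv_T ht
  obtain ⟨w, ψ, -, -, k'⟩ := h.inv_T hs
  have hd : (-2 : K) ≠ 0 := neg_ne_zero.2 h2
  have a := ((k.comm_iff h.s hd k').1 (mem_Cn.1 hc)).resolve_left fun ⟨a, e⟩ => hst (k.eq h.s hd (e ▸ k')).symm
  have b := h.s.orth k.pe k'.pe (k.e ▸ hd) (k'.e ▸ hd) a
  obtain ⟨O, hO, o1, o2⟩ := exists_common φ ψ
  obtain ⟨Q, hQ⟩ := exists_inv (det_ne_of_pair k.e k'.e (by rw [a, zero_mul]; exact (pow_ne_zero 2 hd).symm) hO o1 o2)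
  refine ⟨_, Eqv.cj ρ hQ, (k.r.smul (c := -1) (by simp)).cj' ?_, (k'.r.smul (c := -1) (by simp)).cj' ?_⟩ <;>
    rw [mul_col3, col3_mul] <;> simp [tt, T_mulVec, neg_mulVec, a, b, o1, o2, k.e, k'.e, two_smul]

theorem B.frame_cent [Finite K] (h : ρ.B) (h2 : (2 : K) ≠ 0) (ht : Inv t) (hx : x ∈ Cn t) (h1 : x ≠ 1) (hxt : x ≠ t) :
    ∃ ρ' k, ρ.Eqv ρ' ∧ ρ'.R t (tt k) ∧ (ρ'.Reg x ∨ ∃ l, l ≠ k ∧ ρ'.R x (tt l)) := by
  by_cases e : x * x = 1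
  · obtain ⟨ρ', a, b, c⟩ := h.frame_pair h2 ht ⟨h1, e⟩ hxt hx
    exact ⟨ρ', 0, a, b, Or.inr ⟨1, by decide, c⟩⟩
  rcases h.nf x with ⟨v, φ, k⟩ | ⟨ρ', a, k⟩ | ⟨ρ', a, k⟩
  · exact absurd (h.inv_of_T k) e
  · obtain ⟨-, l, b⟩ := (h.eqv a).inv_D (k.inv_mem ht.2 (mem_Cn_comm.1 hx)) ht
    exact ⟨ρ', l, a, b, Or.inl k⟩
  · exact absurd ht.2 ((h.eqv a).uni_of h2 (k.cent (mem_Cn_comm.1 hx)) ht.1).sq_ne

theorem B.frame_reg [Finite K] (h : ρ.B) (h2 : (2 : K) ≠ 0) (ht : Inv t) (hx : x ∈ Cn t) (h1 : x * x ≠ 1) :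
    ∃ ρ' k, ρ.Eqv ρ' ∧ ρ'.R t (tt k) ∧ ρ'.Reg x := by
  obtain ⟨ρ', k, a, b, c⟩ := h.frame_cent h2 ht hx (by rintro rfl; simp at h1) (by rintro rfl; exact h1 ht.2)
  exact ⟨ρ', k, a, b, c.resolve_right fun ⟨_, _, e⟩ => h1 e.tt_sq⟩

theorem D_pow [Finite K] (hx : x ∈ ρ.D) : x ^ (Nat.card K - 1) = 1 := by
  obtain ⟨d, hx⟩ := hx
  simp [(hx.dpow _).done_iff, pow_card_sub_one (hx.dne _)]

theorem B.cent_pow [Finite K] (h : ρ.B) (h2 : (2 : K) ≠ 0) (ht : Inv t) (hx : x ∈ Cn t) :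
    x ^ (Nat.card K - 1) = 1 := by
  by_cases h1 : x = 1
  · simp [h1]
  by_cases hxt : x = t
  · obtain ⟨ρ', -, b⟩ := h.frame_tt h2 ht
    exact D_pow (hxt ▸ b.tt_mem)
  obtain ⟨ρ', k, -, -, c | ⟨l, -, c⟩⟩ := h.frame_cent h2 ht hx h1 hxt
  exacts [D_pow c.mem, D_pow c.tt_mem]

theorem Mon.cent (hg : ρ.Mon g σ) (h2 : (2 : K) ≠ 0) (ht : ρ.R t (tt k)) (hc : g ∈ Cn t) :
    g ∈ ρ.D ∨ ρ.Mon g (sw k) := by
  have h1 : σ k = k := by_contra fun e => (hg.conj_tt ht).tt_ne h2 ht e (by rw [← mem_Cn.1 hc, mul_inv_cancel_right])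
  have : σ = 1 ∨ σ = sw k := by clear hg ht; revert σ k; decide
  rcases this with rfl | rfl
  exacts [Or.inl (Mon.one_iff.1 hg), Or.inr hg]

theorem Cn_blk (h2 : (2 : K) ≠ 0) (ht : ρ.R t (tt 2)) : Cn t ≤ ρ.blk := fun g hg => by
  obtain ⟨G, hG⟩ := ρ.ex g
  obtain ⟨κ, e⟩ := (ht.comm_iff hG).1 (mem_Cn.1 hg)
  have e' : ∀ i j, G i j * (if j = 2 then 1 else -1) = κ * ((if i = 2 then 1 else -1) * G i j) := fun i j => by
    simpa only [tt, mul_diagonal, Matrix.smul_apply, diagonal_mul, smul_eq_mul] using congrFun (congrFun e i) j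
  have hd := hG.det
  have e00 := e' 0 0
  have e01 := e' 0 1
  have e02 := e' 0 2
  have e10 := e' 1 0
  have e11 := e' 1 1
  have e12 := e' 1 2
  have e20 := e' 2 0
  have e21 := e' 2 1
  simp at e00 e01 e02 e10 e11 e12 e20 e21
  obtain rfl : κ = 1 := by_contra fun k => hd (by
    rw [det_fin_three, show G 0 0 = 0 by grind, show G 0 1 = 0 by grind, show G 1 0 = 0 by grind,
      show G 1 1 = 0 by grind]
    ring)
  exact ⟨G, hG, by grind, by grind, by grind, by grind⟩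

theorem tt_two : tt 2 = !![(-1 : K), 0, 0; 0, -1, 0; 0, 0, 1] := by
  ext i j
  fin_cases i <;> fin_cases j <;> simp [tt]

theorem B.dick [Finite K] (h : ρ.B) (h2 : (2 : K) ≠ 0) (ht : ρ.R t (tt 2)) :
    (∀ g ∈ Cn t, ∀ x ∈ Cn t, x * x ≠ 1 → x * x ≠ t →
      g * x * g⁻¹ * x * (x * (g * x * g⁻¹))⁻¹ = 1 ∨ g * x * g⁻¹ * x * (x * (g * x * g⁻¹))⁻¹ = t) ∨
    (∀ s, Inv s → s ∈ Cn t → s = t) ∨ ∃ f : Cn t →* Perm (Fin 4), Function.Surjective f ∧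
      (∀ x, f x = 1 ↔ x = 1 ∨ (x : Γ) = t) ∧ ∀ s, s * s = 1 → Perm.sign (f s) = 1 → f s = 1 := by
  have hC := Cn_blk h2 ht
  let f0 : Cn t →* PG K := ρ.pi.comp (inclusion (hC.trans blk_le))
  have r0 : f0.range = ρ.piM (Cn t) := by
    ext g
    exact ⟨fun ⟨x, e⟩ => ⟨⟨x, blk_le (hC x.2)⟩, x.2, e⟩, fun ⟨x, hx, e⟩ => ⟨⟨x, hx⟩, e⟩⟩
  have m0 : ∀ x, f0 x ∈ ρ.piM (Cn t) := fun x => r0 ▸ ⟨x, rfl⟩
  have v0 : ∀ (x : Cn t) {a b c d e}, (hx : ρ.R x !![a, b, 0; c, d, 0; 0, 0, e]) → f0 x = mob a b c d hx.blk_det :=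
    fun x _ _ _ _ _ hx => hx.pi_eq _
  have ker : ∀ x, f0 x = 1 ↔ x = 1 ∨ (x : Γ) = t := fun x => by
    refine ⟨fun e => ?_, ?_⟩
    · obtain ⟨a, b, c, d, hx⟩ := exists_blk (hC x.2)
      obtain ⟨rfl, rfl, rfl⟩ := mob_eq_one.1 (v0 x hx ▸ e)
      exact (h.two_eq (d := ![a, a, 1]) (hx.congr (diag_up _)) 2 rfl).imp Subtype.ext fun e => e.2.inj ht
    · rintro (rfl | e)
      · exact map_one f0
      · rw [v0 x (e ▸ tt_two (K := K) ▸ ht)]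
        exact mob_eq_one.2 ⟨rfl, rfl, rfl⟩
  have ker' : ∀ x, f0 x = 1 ↔ (x : Γ) = 1 ∨ (x : Γ) = t := fun x => by rw [ker, Subtype.ext_iff]; rfl
  have cmm : ∀ x y : Cn t, f0 x * f0 y = f0 y * f0 x → (x * y * (y * x)⁻¹ : Γ) = 1 ∨ (x * y * (y * x)⁻¹ : Γ) = t :=
    fun x y e => (ker' (x * y * (y * x)⁻¹)).1 (by simp only [map_mul, map_inv, e, mul_inv_cancel])
  have hK : ∀ s : Cn t, s * s = 1 → f0 s ∈ ⁅ρ.piM (Cn t), ρ.piM (Cn t)⁆ → f0 s = 1 := fun s hs hm => by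
    obtain ⟨j, hj, a, b, c, d, r, e1, e2⟩ := exists_det_one hC hm
    by_contra hn
    have e3 := (mob_pow2 (h := r.blk_det) (by rw [← e2, ← map_pow, pow_two, hs, map_one])).resolve_left
      fun k => hn (e2 ▸ mob_eq_one.2 k)
    have e4 : j * j = t := (r.blk_mul r).inj (ht.congr (by
      rw [tt_two]
      ext i j
      fin_cases i <;> fin_cases j <;> simp <;> grind))
    have hs' : (s * s : Γ) = 1 := congrArg Subtype.val hs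
    rcases (ker' (s⁻¹ * ⟨j, hj⟩)).1 (by rw [map_mul, map_inv, v0 ⟨j, hj⟩ r, ← e2, inv_mul_cancel]) with e | e
    · exact (ht.tt_inv h2).1 (by rw [← e4, ← show (s : Γ) = j from inv_mul_eq_one.1 e, hs'])
    · refine (ht.tt_inv h2).1 ?_
      rw [← e4, show j = s * t from inv_mul_eq_iff_eq_mul.1 e, mul_assoc, ← mul_assoc t, mem_Cn.1 s.2, mul_assoc, ht.tt_sq, mul_one, hs']
  have iso : ∀ {M : Type} [Group M], ρ.piM (Cn t) ≃* M → ∃ f : Cn t →* M, Function.Surjective f ∧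
      (∀ x, f x = 1 ↔ x = 1 ∨ (x : Γ) = t) ∧ ∀ s, s * s = 1 → f s ∈ commutator M → f s = 1 := fun {M} _ e => by
    have k1 : ∀ x, e ⟨f0 x, m0 x⟩ = 1 ↔ f0 x = 1 := fun x => by rw [map_eq_one_iff _ e.injective, Subtype.ext_iff]; rfl
    refine ⟨e.toMonoidHom.comp (f0.codRestrict _ m0), fun a => ?_, fun x => (k1 x).trans (ker x), fun s hs hm =>
      (k1 s).2 (hK s hs ?_)⟩
    · obtain ⟨x, hx⟩ : (e.symm a : PG K) ∈ f0.range := r0.ge (e.symm a).2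
      exact ⟨x, e.eq_symm_apply.1 (Subtype.ext hx)⟩
    · have := mem_map_of_mem ((ρ.piM (Cn t)).subtype.comp e.symm.toMonoidHom) hm
      rw [_root_.commutator, map_commutator, ← MonoidHom.range_eq_map, MonoidHom.range_comp,
        MonoidHom.range_eq_top.2 e.symm.surjective, ← MonoidHom.range_eq_map, range_subtype] at this
      simpa using this
  have one : ∀ {M : Type} [Group M], ρ.piM (Cn t) ≃* M → (∀ a : M, a * a = 1 → a ∈ commutator M) →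
      ∀ s, Inv s → s ∈ Cn t → s = t := fun e ha s hs hc => by
    obtain ⟨f, -, f1, f2⟩ := iso e
    have : (⟨s, hc⟩ * ⟨s, hc⟩ : Cn t) = 1 := Subtype.ext hs.2
    exact ((f1 _).1 (f2 _ this (ha _ (by rw [← map_mul, this, map_one])))).resolve_left
      fun e => hs.1 (congrArg Subtype.val e)
  rcases h.s.blk_cases hC with ⟨P, k⟩ | ⟨P, Q, hPQ, k⟩ | ⟨-, ⟨⟨e⟩⟩ | ⟨⟨e⟩⟩ | ⟨⟨e⟩⟩⟩
  · refine Or.inl fun g hg x hx _ _ => cmm (⟨g, hg⟩ * ⟨x, hx⟩ * ⟨g, hg⟩⁻¹) ⟨x, hx⟩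
      (stab_comm k (fun y hy => ?_) (m0 _) (m0 _))
    obtain ⟨y, rfl⟩ : y ∈ f0.range := r0 ▸ hy
    rw [← map_pow, show y ^ (Nat.card K - 1) = 1 from Subtype.ext (h.cent_pow h2 (ht.tt_inv h2) y.2), map_one]
  · refine Or.inl fun g hg x hx a b => cmm (⟨g, hg⟩ * ⟨x, hx⟩ * ⟨g, hg⟩⁻¹) ⟨x, hx⟩ ?_
    have : f0 ⟨x, hx⟩ ∈ Tor P Q := by_contra fun hn =>
      ((ker' _).1 ((map_mul f0 _ _).trans (mul_self_eq_one hPQ.ne (k (m0 _)) hn))).elim a b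
    rw [map_mul, map_mul, map_inv]
    exact Tor_comm hPQ.ne (conj_mem_Tor (k (m0 _)) this) this
  · refine Or.inr (Or.inl (one e fun a ha => ?_))
    obtain ⟨b, c, rfl⟩ := (by decide +kernel : ∀ a : alternatingGroup (Fin 4), a * a = 1 →
      ∃ b c, a = b * c * b⁻¹ * c⁻¹) a ha
    exact commutator_mem_commutator (mem_top b) (mem_top c)
  · obtain ⟨f, f0, f1, f2⟩ := iso e
    refine Or.inr (Or.inr ⟨f, f0, f1, fun s hs e => f2 s hs ?_⟩)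
    obtain ⟨b, c, e⟩ := (by decide +kernel : ∀ a : Perm (Fin 4), a * a = 1 → Perm.sign a = 1 →
      ∃ b c, a = b * c * b⁻¹ * c⁻¹) (f s) (by rw [← map_mul, hs, map_one]) e
    exact e ▸ commutator_mem_commutator (mem_top b) (mem_top c)
  · exact Or.inr (Or.inl (one e fun a _ => commutator_alternatingGroup_eq_top (α := Fin 5) (by simp) ▸ mem_top a))

theorem B.tgl [Finite Γ] [Finite K] (h : ρ.B) (h2 : (2 : K) ≠ 0) (ht : Inv t) (S : Sylow 2 Γ)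
    (hS : (S : Subgroup Γ) ≤ Cn t) (f : Cn t →* Perm (Fin 4)) (f0 : Function.Surjective f)
    (f1 : ∀ x, f x = 1 ↔ x = 1 ∨ (x : Γ) = t) (f2 : ∀ s, s * s = 1 → Perm.sign (f s) = 1 → f s = 1)
    (hs : Inv s) (hc : s ∈ Cn t) (hst : s ≠ t) : TGL t := by
  have a1 : ∀ s, Inv s → s ≠ t → ∀ hc : s ∈ Cn t, f ⟨s, hc⟩ * f ⟨s, hc⟩ = 1 ∧ Perm.sign (f ⟨s, hc⟩) = -1 :=
    fun s hs hst hc => ⟨by rw [← map_mul, show (⟨s, hc⟩ * ⟨s, hc⟩ : Cn t) = 1 from Subtype.ext hs.2, map_one],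
      (Int.units_eq_one_or _).resolve_left fun e => ((f1 _).1 (f2 _ (Subtype.ext hs.2) e)).elim
        (fun e => hs.1 (congrArg Subtype.val e)) hst⟩
  have kc : Nat.card f.ker = 2 := by
    rw [← ncard_coe]
    exact Set.ncard_eq_two.2 ⟨1, ⟨t, self_mem_Cn t⟩, fun e => ht.1 (congrArg Subtype.val e).symm,
      Set.ext fun x => (f1 x).trans (or_congr_right (Subtype.ext_iff (a2 := ⟨t, self_mem_Cn t⟩)).symm)⟩
  refine ⟨fun y hy => ?_, fun x hx h1 => nv_eq_one ht (mem_Cn_comm.1 hx) fun y hy e => by_contra fun hn => h1 ?_, ?_, ?_⟩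
  · obtain ⟨g, hg, e⟩ := thompson_hom h.H.perf S hS (Perm.sign.comp f) (g := ⟨s, hc⟩)
      (by simp [(a1 s hs hst hc).2]) hy.2
    exact ⟨g, by_contra fun hn => absurd ((a1 _ (hy.conj g) hn hg).2.symm.trans e) (by decide)⟩
  · have hc := h.ic ht x y h1 hy e (mem_Cn_comm.1 hx)
    obtain ⟨ρ', k, e1, e2, e3⟩ := h.frame_reg h2 ht hx h1
    obtain ⟨-, l, e4⟩ := (h.eqv e1).inv_D (e3.inv_mem hy.2 e) hy
    refine (h.eqv e1).no_four (vier_of h2 e2 e4 (by rintro rfl; exact hn (e4.inj e2))) e3.mem ?_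
    have := (by decide +kernel : ∀ a b : Perm (Fin 4), b * b = 1 ∧ Perm.sign b = -1 → a * b = b * a → a * a = 1)
      (f ⟨x, hx⟩) _ (a1 y hy hn hc) (by rw [← map_mul, ← map_mul]; exact congrArg f (Subtype.ext (mem_Cn.1 e)))
    rcases (f1 _).1 ((map_mul f _ _).trans this) with e | e
    · exact absurd (congrArg Subtype.val e) h1
    · exact (show x * x = t from e) ▸ ht.2
  · have : {s | Inv s ∧ s ∈ Cn t} = insert t {x | ∃ h : x ∈ Cn t, f ⟨x, h⟩ ∈ {a | a * a = 1 ∧ Perm.sign a = -1}} := by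
      ext y
      refine ⟨fun hy => or_iff_not_imp_left.2 fun e => ⟨hy.2, a1 y hy.1 e hy.2⟩, ?_⟩
      rintro (rfl | ⟨hy, e⟩)
      · exact ⟨ht, self_mem_Cn _⟩
      obtain ⟨g, hg⟩ := (by decide +kernel : ∀ a b : Perm (Fin 4), a * a = 1 ∧ Perm.sign a = -1 →
        b * b = 1 ∧ Perm.sign b = -1 → ∃ g, g * a * g⁻¹ = b) _ _ (a1 s hs hst hc) e
      obtain ⟨g, rfl⟩ := f0 g
      refine ⟨⟨by rintro rfl; simp [show (⟨1, hy⟩ : Cn t) = 1 from rfl] at e, ?_⟩, hy⟩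
      rcases (f1 ((g * ⟨s, hc⟩ * g⁻¹)⁻¹ * ⟨y, hy⟩)).1 (by simp only [map_mul, map_inv, hg, inv_mul_cancel]) with k | k
      · exact (show _ = y from congrArg Subtype.val (inv_mul_eq_one.1 k)) ▸ (hs.conj g).2
      · have k' : y = g * s * (g : Γ)⁻¹ * t := inv_mul_eq_iff_eq_mul.1 k
        have := mem_Cn.1 (mul_mem (mul_mem g.2 hc) (inv_mem g.2))
        have e2 := (hs.conj g).2
        generalize (g : Γ) * s * (g : Γ)⁻¹ = u at *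
        rw [k', mul_assoc, ← mul_assoc t, this, mul_assoc, ht.2, mul_one, e2]
    rw [nv, this, Set.ncard_insert_of_notMem, card_preimage f f0, kc, Set.ncard_eq_toFinset_card']
    · decide +kernel
    · rintro ⟨a, e⟩
      simp [(f1 ⟨t, a⟩).2 (Or.inr rfl)] at e
  · have := card_preimage f f0 Set.univ
    rw [kc, Set.ncard_univ, Small.card_S4] at this
    rw [← ncard_coe]
    simpa using this

theorem B.mono [Finite K] (h : ρ.B) (h2 : (2 : K) ≠ 0) (ht : Inv t) (hc : ∀ g ∈ Cn t, ∀ x ∈ Cn t, x * x ≠ 1 → x * x ≠ t →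
      g * x * g⁻¹ * x * (x * (g * x * g⁻¹))⁻¹ = 1 ∨ g * x * g⁻¹ * x * (x * (g * x * g⁻¹))⁻¹ = t) :
    ∃ ρ' k, ρ.Eqv ρ' ∧ ρ'.R t (tt k) ∧ ∀ g ∈ Cn t, g ∈ ρ'.D ∨ ρ'.Mon g (sw k) := by
  by_cases h1 : ∃ x ∈ Cn t, x * x ≠ 1 ∧ x * x ≠ t
  · obtain ⟨x, hx, a, b⟩ := h1
    obtain ⟨ρ', k, e1, e2, e3⟩ := h.frame_reg h2 ht hx a
    refine ⟨ρ', k, e1, e2, fun g hg => ?_⟩
    have hy := mul_mem (mul_mem hg hx) (inv_mem hg)
    obtain ⟨σ, hσ⟩ := e3.mon (g := g * x * g⁻¹) (by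
      have : ∀ y, y * x * y⁻¹ = y * x * (x * y)⁻¹ * x := fun y => by group
      rw [this]
      rcases hc g hg x hx a b with e | e <;> rw [e]
      exacts [mul_mem (one_mem _) e3.mem, mul_mem e2.tt_mem e3.mem])
    obtain ⟨τ, hτ⟩ := e3.mon ((hσ.cent h2 e2 hy).resolve_right fun e => by
      rcases (h.eqv e1).sw_sq e with e | e
      · exact a (conj_mul_self.1 e)
      · have := e.2.inj e2
        rw [conj_mul, mul_inv_eq_iff_eq_mul, mem_Cn.1 hg, mul_right_inj] at this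
        exact b this)
    exact hτ.cent h2 e2 hg
  by_cases h3 : ∃ x ∈ Cn t, x ≠ 1 ∧ x ≠ t
  swap
  · push Not at h3
    obtain ⟨ρ', a, b⟩ := h.frame_tt h2 ht
    refine ⟨ρ', 2, a, b, fun g hg => Or.inl ?_⟩
    by_cases e : g = 1
    exacts [e ▸ one_mem _, h3 g hg e ▸ b.tt_mem]
  obtain ⟨x, hx, a, b⟩ := h3
  obtain ⟨ρ', k, e1, e2, e3⟩ := h.frame_cent h2 ht hx a b
  refine ⟨ρ', k, e1, e2, fun g hg => ?_⟩
  have xD : x ∈ ρ'.D := e3.elim Reg.mem fun ⟨_, _, e⟩ => e.tt_mem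
  have sq : ∀ y ∈ Cn t, y * y ∈ ρ'.D ∧ ∀ z ∈ Cn t, y * y * z = z * (y * y) := fun y hy => by
    by_cases e : y * y = 1
    · simp [e, one_mem]
    · rw [show y * y = t from by_contra fun k => h1 ⟨y, hy, e, k⟩]
      exact ⟨e2.tt_mem, fun z => mem_Cn.1⟩
  have gx : g * x * g⁻¹ ∈ ρ'.D := by
    rw [show g * x * g⁻¹ = g * x * (g * x) * x⁻¹ * (g * g)⁻¹ by group]
    exact mul_mem (mul_mem (sq _ (mul_mem hg hx)).1 (inv_mem xD)) (inv_mem (sq g hg).1)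
  obtain ⟨σ, hσ⟩ : ∃ σ, ρ'.Mon g σ := by
    rcases e3 with e3 | ⟨l, hl, e3⟩
    · exact e3.mon gx
    refine mon_of_conj fun i j hij => ?_
    have n : (1 : K) ≠ -1 := fun e => h2 (by linear_combination e)
    by_cases e : i = k ∨ j = k
    · exact ⟨t, _, e2, by rcases e with rfl | rfl <;> simp [hij, hij.symm, n, n.symm],
        by rw [← mem_Cn.1 hg, mul_inv_cancel_right]; exact e2.tt_mem⟩
    · have : i = l ∨ j = l := by clear e2 e3; revert i j k l; decide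
      exact ⟨x, _, e3, by rcases this with rfl | rfl <;> simp [hij, hij.symm, n, n.symm], gx⟩
  exact hσ.cent h2 e2 hg

end PRep

end Cfsg.Agent.MH
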