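import Cfsg.Agent.MH.Cent

/-! Centralisers of involutions: the monomial case. -/

set_option autoImplicit false

namespace Cfsg.Agent.MH

open Matrix Equiv Subgroup

variable {Γ K : Type*} [Group Γ] [Field K]

theorem card_eq_two_mul {A C : Subgroup Γ} (le : A ≤ C) {s : Γ} (hs : s ∈ C) (hs' : s ∉ A)
    (h : ∀ x ∈ C, x ∉ A → x * s ∈ A) : Nat.card C = 2 * Nat.card A := by
  rw [← (A.subgroupOf C).index_mul_card, Nat.card_congr (subgroupOfEquivOfLe le).toEquiv,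
    index_eq_two_iff.2 ⟨⟨s, hs⟩, fun b => ?_⟩]
  by_cases hb : (b : Γ) ∈ A
  · exact Or.inr ⟨hb, fun e => hs' ((mul_mem_cancel_left hb).1 e)⟩
  · exact Or.inl ⟨h b b.2 hb, hb⟩

theorem zpowers_comm {g : Γ} : ∀ x ∈ zpowers g, ∀ y ∈ zpowers g, x * y = y * x := by
  rintro _ ⟨i, rfl⟩ _ ⟨j, rfl⟩
  exact (Commute.zpow_zpow_self g i j).eq

theorem mem_zpowers_lt {z y : Γ} {n : ℕ} (h0 : 0 < n) (h : z ^ n = 1) (hy : y ∈ zpowers z) : ∃ i, i < n ∧ y = z ^ i := by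
  obtain ⟨m, rfl⟩ := hy
  have := Int.emod_nonneg m (b := n) (by omega)
  have := Int.emod_lt_of_pos m (b := n) (by omega)
  refine ⟨(m % n).toNat, by omega, ?_⟩
  rw [← zpow_natCast, Int.toNat_of_nonneg (by omega)]
  exact zpow_eq_zpow_emod' m h

theorem TD.d8 [Finite Γ] {t g : Γ} (hp : commutator Γ = ⊤) (S : Sylow 2 Γ) (hS : (S : Subgroup Γ) ≤ Cn t) (ht : Inv t)
    (ic : ∀ x s, x * x ≠ 1 → Inv s → s ∈ Cn x → t ∈ Cn x → s ∈ Cn t) (hg : g * g = t)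
    (card : Nat.card (zpowers g) = 4 → Nat.card (Cn t) = 8) (out : ∀ x ∈ Cn t, x ∉ zpowers g → x * x = 1) :
    ∃ A k, TD t A k := by
  have h4 : g ^ 4 = 1 := by rw [pow_four_eq, hg, ht.2]
  have c4 : Nat.card (zpowers g) = 4 := (Nat.card_zpowers g).trans
    (orderOf_eq_prime_pow (p := 2) (n := 1) (by simpa [pow_two, hg] using ht.1) h4)
  refine ⟨_, TD.of hp S hS ht ic (zpowers_le.2 (mem_Cn.2 (by rw [← hg, mul_assoc])))
    (hg ▸ mul_mem (mem_zpowers g) (mem_zpowers g)) (by rw [card c4, c4]) zpowers_comm (fun s hs h => ?_) out⟩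
  obtain ⟨i, hi, rfl⟩ := mem_zpowers_lt four_pos h4 hs
  have := h.2
  interval_cases i
  · exact absurd (pow_zero g) h.1
  · exact absurd (by simpa [hg] using this) ht.1
  · rw [pow_two, hg]
  · rw [← pow_add, show 3 + 3 = 4 + 2 by rfl, pow_add, h4, one_mul, pow_two, hg] at this
    exact absurd this ht.1

theorem sw_k : ∀ k, sw k k = k := by decide

theorem sw_k1 : ∀ k, sw k (k + 1) = k + 2 := by decide

theorem sw_k2 : ∀ k, sw k (k + 2) = k + 1 := by decide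

theorem sw_sw : ∀ k, sw k * sw k = 1 := by decide

theorem sw_ne : ∀ k, sw k ≠ 1 := by decide

namespace PRep

variable {ρ ρ' : PRep Γ K} {x y z g w j s t : Γ} {X Y : M3 K} {σ τ : S3} {k l : Fin 3} {v φ : V3 K} {ε δ : K}

/-- the sign of a monomial element fixing the `k`-th point -/
def Et (ρ : PRep Γ K) (k : Fin 3) (x : Γ) (ε : K) : Prop :=
  ∃ σ d, (σ = 1 ∨ σ = sw k) ∧ ρ.R x (mn σ d) ∧ d (k + 1) * d (k + 2) = ε * d k ^ 2

theorem Et.mul (h : ρ.Et k x ε) (h' : ρ.Et k y δ) : ρ.Et k (x * y) (ε * δ) := by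
  obtain ⟨σ, d, h1, h2, h3⟩ := h
  obtain ⟨τ, e, h4, h5, h6⟩ := h'
  refine ⟨_, _, ?_, mn_mul σ τ d e ▸ h2.mul h5, ?_⟩
  · rcases h1 with rfl | rfl <;> rcases h4 with rfl | rfl <;> simp [sw_sw]
  · rcases h4 with rfl | rfl <;> simp only [Perm.coe_one, id, sw_k, sw_k1, sw_k2] <;>
      linear_combination e (k + 1) * e (k + 2) * h3 + ε * d k ^ 2 * h6

theorem Et.uniq (h : ρ.Et k x ε) (h' : ρ.Et k x δ) : ε = δ := by
  obtain ⟨σ, d, -, h2, h3⟩ := h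
  obtain ⟨τ, e, -, h5, h6⟩ := h'
  obtain rfl := Mon.uniq ⟨d, h2⟩ ⟨e, h5⟩
  obtain ⟨c, hc, e1⟩ := h2.uniq h5
  have e2 : ∀ j, e j = c * d j := fun j => by simpa [mn] using congrFun (congrFun e1 (σ j)) j
  simp only [e2] at h6
  exact mul_right_cancel₀ (pow_ne_zero 2 (mul_ne_zero hc (mn_ne h2.det k))) (by linear_combination h6 - c ^ 2 * h3)

theorem Et.tt (h : ρ.R s (tt l)) : ρ.Et k s (if l = k then 1 else -1) :=
  ⟨1, fun i => if i = l then 1 else -1, Or.inl rfl, h.congr (mn_one _), by fin_cases k <;> fin_cases l <;> simp⟩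

theorem Et.one (ρ : PRep Γ K) (k : Fin 3) : ρ.Et k 1 1 :=
  ⟨1, fun _ => 1, Or.inl rfl, ρ.one.congr (by rw [mn_one, diagonal_one]), by simp⟩

/-- the centraliser of the involution is monomial -/
structure MC (ρ : PRep Γ K) (t : Γ) (k : Fin 3) : Prop where
  b : ρ.B
  two : (2 : K) ≠ 0
  tk : ρ.R t (tt k)
  mon : ∀ g ∈ Cn t, g ∈ ρ.D ∨ ρ.Mon g (sw k)

theorem MC.inv (h : ρ.MC t k) : Inv t := h.tk.tt_inv h.two

theorem MC.le (h : ρ.MC t k) : ρ.D ≤ Cn t := D_le_Cn h.tk.tt_mem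

theorem MC.mem (h : ρ.MC t k) (hw : ρ.Mon w (sw k)) : w ∈ Cn t :=
  mem_Cn.2 (mul_inv_eq_iff_eq_mul.1 ((hw.conj_tt h.tk).inj (by rw [sw_k]; exact h.tk))).symm

theorem Mon.sw_mul (hx : ρ.Mon x (sw k)) (hw : ρ.Mon w (sw k)) : x * w ∈ ρ.D := Mon.one_iff.1 (sw_sw k ▸ hx.mul hw)

theorem MC.card (h : ρ.MC t k) (hw : ρ.Mon w (sw k)) : Nat.card (Cn t) = 2 * Nat.card ρ.D :=
  card_eq_two_mul h.le (h.mem hw) (hw.not_mem (sw_ne k)) fun x hx h1 => ((h.mon x hx).resolve_left h1).sw_mul hw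

theorem MC.et_sw (h : ρ.MC t k) (hw : ρ.Mon w (sw k)) : (w * w = 1 ∧ ρ.Et k w 1) ∨ (w * w = t ∧ ρ.Et k w (-1)) := by
  have h1 := h.b.sw_sq hw
  obtain ⟨d, hw⟩ := hw
  have h2 := hw.mul hw
  rw [mn_mul, sw_sw, mn_one] at h2
  refine h1.imp (fun e => ⟨e, _, d, Or.inr rfl, hw, ?_⟩) fun e => ⟨e.2.inj h.tk, _, d, Or.inr rfl, hw, ?_⟩
  · obtain ⟨c, e⟩ := h2.eq_one_iff.1 e
    have e1 := diag_scalar.1 e k
    have e2 := diag_scalar.1 e (k + 1)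
    simp only [sw_k, sw_k1] at e1 e2
    linear_combination e2 - e1
  · obtain ⟨c, e⟩ := (e.2.deq_iff h2).1 rfl
    have e1 := e k
    have e2 := e (k + 1)
    simp [sw_k, sw_k1] at e1 e2
    linear_combination e2 + e1

theorem MC.et (h : ρ.MC t k) (hw : ρ.Mon w (sw k)) (hx : x ∈ Cn t) : ρ.Et k x 1 ∨ ρ.Et k x (-1) := by
  rcases h.mon x hx with ⟨d, hx⟩ | hx
  · have := h.b.sw_conj hw hx
    rw [show d k ^ 4 = (d k ^ 2) ^ 2 by ring, sq_eq_sq_iff_eq_or_eq_neg] at this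
    exact this.imp (fun e => ⟨1, d, Or.inl rfl, (mn_one d).symm ▸ hx, by linear_combination -e⟩)
      fun e => ⟨1, d, Or.inl rfl, (mn_one d).symm ▸ hx, by linear_combination e⟩
  · exact (h.et_sw hx).imp And.right And.right

theorem MC.not_et (h : ρ.MC t k) (h1 : ρ.Et k x (-1)) : ¬ ρ.Et k x 1 := fun e =>
  h.two (by linear_combination e.uniq h1)

theorem MC.et_mul (h : ρ.MC t k) (hw : ρ.Mon w (sw k)) (hx : x ∈ Cn t) (hy : y ∈ Cn t) :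
    ρ.Et k (x * y) 1 ↔ (ρ.Et k x 1 ↔ ρ.Et k y 1) := by
  rcases h.et hw hx with a | a <;> rcases h.et hw hy with b | b <;> have := a.mul b
  · simpa [a, b] using this
  · simpa [a, h.not_et b] using h.not_et (by simpa using this)
  · simpa [b, h.not_et a] using h.not_et (by simpa using this)
  · simpa [h.not_et a, h.not_et b] using this

theorem MC.D_mul (h : ρ.MC t k) (hx : x ∈ Cn t) (hy : y ∈ Cn t) : x * y ∈ ρ.D ↔ (x ∈ ρ.D ↔ y ∈ ρ.D) := by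
  by_cases a : x ∈ ρ.D
  · simp [a, mul_mem_cancel_left]
  by_cases b : y ∈ ρ.D
  · simp [a, b, mul_mem_cancel_right]
  · simp [a, b, ((h.mon x hx).resolve_left a).sw_mul ((h.mon y hy).resolve_left b)]

theorem MC.eq_of_et (h : ρ.MC t k) (hx : x ∈ ρ.D) (h2 : x * x = 1) (he : ρ.Et k x 1) : x = 1 ∨ x = t := by
  refine or_iff_not_imp_left.2 fun h1 => ?_
  obtain ⟨-, l, hl⟩ := h.b.inv_D hx ⟨h1, h2⟩
  obtain rfl : l = k := by_contra fun e => h.not_et (by simpa [e] using Et.tt (k := k) hl) he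
  exact hl.inj h.tk

theorem MC.et_of_sq (h : ρ.MC t k) (hx : ρ.Mon x (sw k)) (h2 : x * x = 1) : ρ.Et k x 1 :=
  ((h.et_sw hx).resolve_right fun e => h.inv.1 (e.1 ▸ h2)).2

theorem MC.uq (h : ρ.MC t k) (hV : ¬ ρ.Vier) (hs : s ∈ ρ.D) (h2 : Inv s) : s = t := by
  obtain ⟨-, l, hl⟩ := h.b.inv_D hs h2
  obtain rfl : l = k := by_contra fun e => hV (vier_of h.two hl h.tk e)
  exact hl.inj h.tk

theorem MC.no_sd [Finite Γ] (h : ρ.MC t k) (hV : ¬ ρ.Vier) (hw : ρ.Mon w (sw k)) : w * w = 1 := by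
  refine ((h.et_sw hw).resolve_right fun ⟨e1, e2⟩ => ?_).1
  refine transfer_four h.b.H.perf (homOf (Cn t) (ρ.Et k · 1) fun x hx y hy => h.et_mul hw hx hy) (h.mem hw)
    (by rw [pow_four_eq, e1, h.inv.2]) ((Int.units_eq_one_or _).resolve_left fun e => h.not_et e2 (homOf_eq.1 e))
    (fun x hx => ?_) fun s hs => homOf_eq.2 ?_
  · have e : x⁻¹ * w * x * (x⁻¹ * w * x) = x⁻¹ * t * x⁻¹⁻¹ := by rw [← e1]; group
    have := h.uq hV (e ▸ (h.D_mul hx hx).2 Iff.rfl) (h.inv.conj _)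
    rw [inv_inv, mul_assoc, inv_mul_eq_iff_eq_mul] at this
    exact mem_Cn.2 this
  · have hs' : (s : Γ) * s = 1 := congrArg Subtype.val hs
    rcases h.mon s s.2 with e | e
    · by_cases h1 : (s : Γ) = 1
      · exact h1 ▸ Et.one ρ k
      · simpa [h.uq hV e ⟨h1, hs'⟩] using Et.tt (k := k) h.tk
    · exact h.et_of_sq e hs'

/-- the four-group -/
def V (ρ : PRep Γ K) : Subgroup Γ where
  carrier := {x | x ∈ ρ.D ∧ x * x = 1}
  mul_mem' := fun {x y} a b => ⟨mul_mem a.1 b.1, by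
    rw [mul_assoc, ← mul_assoc y, D_comm b.1 a.1, mul_assoc, b.2, mul_one, a.2]⟩
  one_mem' := ⟨one_mem _, mul_one 1⟩
  inv_mem' := fun a => ⟨inv_mem a.1, by rw [← _root_.mul_inv_rev, a.2, inv_one]⟩

theorem B.card_V [Finite Γ] (h : ρ.B) (hV : ρ.Vier) : Nat.card ρ.V = 4 := by
  rw [← ncard_sharp, ← show 3 + 1 = 4 by rfl, ← h.card_inv_D hV]
  congr 2
  ext s
  exact ⟨fun a => ⟨⟨a.2, a.1.2⟩, a.1.1⟩, fun a => ⟨⟨a.2, a.1.2⟩, a.1.1⟩⟩

theorem Z.inv_sw (h : ρ.Z z) (hj : j * z * j⁻¹ = z⁻¹) : ∃ l, ρ.Mon j (sw l) := by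
  obtain ⟨τ, hτ⟩ := h.reg.mon (hj ▸ inv_mem h.reg.mem : j * z * j⁻¹ ∈ _)
  have n : j ∉ Cn z := fun e => h.reg.sq_ne (by
    rw [← mem_Cn.1 e, mul_inv_cancel_right] at hj; exact mul_eq_one_iff_eq_inv.2 hj)
  obtain ⟨k, rfl⟩ : ∃ k, τ = sw k := ((S3_cases τ).resolve_left fun e => n (D_le_Cn h.reg.mem
    (Mon.one_iff.1 (e ▸ hτ)))).resolve_right fun e => n (h.cyc hτ ((cyc_iff τ).2 e))
  exact ⟨k, hτ⟩

theorem MC.tv [Finite Γ] [Finite K] (h : ρ.MC t k) (S : Sylow 2 Γ) (hS : (S : Subgroup Γ) ≤ Cn t) (hV : ρ.Vier)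
    (hC : Cn t = ρ.D) (hx : x ∈ ρ.D) (hx2 : x * x ≠ 1) : TV t := by
  rw [hC] at hS
  have mS : ∀ y ∈ ρ.D, ∀ n, y ^ 2 ^ n = 1 → y ∈ S := fun y hy n e => mem_sylow_of_Nm S e
    (mem_Nm fun z hz => by rwa [D_comm hy (hS hz), mul_inv_cancel_right])
  have nsw : ∀ j l, ¬ ρ.Mon j (sw l) := fun j l hj => hj.not_mem (sw_ne l) (hS (mem_sylow_of_Nm S (h.b.sw_four hj)
    (mem_Nm fun y hy => by
      obtain ⟨n, hn⟩ := S.isPGroup' ⟨y, hy⟩
      exact mS _ (hj.conj_mem (hS hy)) n (by rw [conj_pow, show y ^ 2 ^ n = 1 from congrArg Subtype.val hn]; simp))))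
  have tS : ∀ {s l}, ρ.R s (tt l) → s ∈ S := fun e => mS _ e.tt_mem 1 (by simpa [pow_two] using e.tt_sq)
  obtain ⟨g, hg, y, hy, n⟩ : ∃ g ∈ Nm (S : Subgroup Γ), ∃ y ∈ S, y * g ≠ g * y := by
    by_contra hn
    push Not at hn
    exact h.inv.1 (mem_bot.1 (burnside h.b.H.perf Nat.prime_two S hn ▸ tS h.tk))
  obtain ⟨σ, hσ⟩ : ∃ σ, ρ.Mon g σ := mon_of_conj fun i j hij => by
    obtain ⟨s, hs⟩ := hV.2 i
    exact ⟨s, _, hs, by simpa [hij.symm] using fun e => h.two (by linear_combination e), hS (Nm_conj hg (tS hs))⟩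
  have hc : cyc σ := (cyc_iff σ).2 (((S3_cases σ).resolve_left fun e =>
    n (D_comm (hS hy) (Mon.one_iff.1 (e ▸ hσ)))).resolve_left fun ⟨l, e⟩ => nsw g l (e ▸ hσ))
  have ni : nv t = 3 := by rw [nv, hC, h.b.card_inv_D hV]
  refine ⟨fun s hs => ?_, fun y hy e => by rw [(h.b.reg (hC ▸ hy) e).nv, h.b.card_inv_D hV], ni, ?_, fun e => ?_,
    card_top (G := Γ) ▸ three_dvd_card (s := g) (fun e => hσ.not_mem (fun e => hc 0 (by simp [e])) (e ▸ one_mem _))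
      (hσ.cube hc) (mem_top g), fun y hy e => h.b.no_four hV (hC ▸ hy) (pow_four_eq y ▸ e)⟩
  · obtain ⟨a, ha⟩ := exists_conj_mem_sylow (k := 1) Nat.prime_two S (z := s) (by simpa [pow_two] using hs.2)
    obtain ⟨-, l, hl⟩ := h.b.inv_D (hS ha) (hs.conj a)
    have : l = k ∨ σ l = k ∨ σ⁻¹ l = k := by clear hσ hl h; revert σ l k; decide
    rcases this with rfl | rfl | rfl
    exacts [⟨a, hl.inj h.tk⟩, ⟨g * a, by simpa [mul_assoc] using (hσ.conj_tt hl).inj h.tk⟩,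
      ⟨g⁻¹ * a, by simpa [mul_assoc] using (hσ.inv.conj_tt hl).inj h.tk⟩]
  · have h1 := card_Cn_split t
    have h2 := two_dvd_card h.inv (self_mem_Cn t)
    have h3 : 0 < {x | x ∈ Cn t ∧ x * x ≠ 1}.ncard := (Set.ncard_pos (Set.toFinite _)).2 ⟨x, hC ▸ hx, hx2⟩
    omega
  · obtain ⟨z, hz, e⟩ := exists_mem_orderOf Nat.prime_three e
    have f : ρ.Fr _ z g σ := ⟨h.b, h.b.cube_D (hC ▸ hz) (e ▸ pow_orderOf_eq_one z) (by rintro rfl; simp at e),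
      hσ, hc, rfl⟩
    obtain ⟨ν, -, j, -, hj⟩ := f.nine
    obtain ⟨l, hl⟩ := f.z3.inv_sw (hj z f.zm)
    exact nsw j l hl

theorem B.nv_four [Finite K] (h : ρ.B) (h2 : (2 : K) ≠ 0) (ht : Inv t) (hx : x ∈ Cn t) (h1 : x * x ≠ 1)
    (h4 : x ^ 4 = 1) : nv x = 1 := nv_eq_one ht (mem_Cn_comm.1 hx) fun y hy e => by_contra fun hn => h1 (by
  obtain ⟨ρ', k, e1, e2, e3⟩ := h.frame_reg h2 ht hx h1
  obtain ⟨-, l, e4⟩ := (h.eqv e1).inv_D (e3.inv_mem hy.2 e) hy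
  exact (h.eqv e1).no_four (vier_of h2 e2 e4 (by rintro rfl; exact hn (e4.inj e2))) e3.mem (pow_four_eq x ▸ h4))

/-- the centraliser is as in `A₇` -/
structure TA7 (ρ : PRep Γ K) (t : Γ) : Prop where
  b : ρ.B
  vier : ρ.Vier
  cls : Cls t
  card : Nat.card (Cn t) = 24
  n1 : {x : Γ | x ∈ Cn t ∧ x * x ≠ 1 ∧ nv x = 1}.ncard = 6
  n3 : {x : Γ | x ∈ Cn t ∧ x * x ≠ 1 ∧ nv x = 3}.ncard = 8
  alt : ∀ x ∈ Cn t, x * x ≠ 1 → (x ^ 4 = 1 ∧ nv x = 1) ∨ (x ^ 6 = 1 ∧ nv x = 3)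
  p4 : P4 t
  nine : ∃ z R ν, ρ.Z z ∧ Nine R ν ∧ z ∈ R ∧ nv z = 3 ∧ ∀ y ∈ Cn t, y ^ 3 = 1 → y ≠ 1 → ∃ g, g * z * g⁻¹ = y

theorem MC.ta7 [Finite Γ] [Finite K] (h : ρ.MC t k) (S : Sylow 2 Γ) (hS : (S : Subgroup Γ) ≤ Cn t) (hV : ρ.Vier)
    (hw : ρ.Mon w (sw k)) (hx : x ∈ ρ.D) (hx2 : x * x ≠ 1) : ρ.TA7 t := by
  obtain ⟨t', ht'⟩ := hV.2 (k + 1)
  have e' : ρ.Et k t' (-1) := by simpa using Et.tt (k := k) ht'
  have cls : Cls t := fun s hs => by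
    obtain ⟨g, hg, e⟩ := thompson_hom h.b.H.perf S hS (homOf (Cn t) (fun x => x ∈ ρ.D ↔ ρ.Et k x 1) fun x hx y hy => by
      rw [h.D_mul hx hy, h.et_mul hw hx hy]; tauto) (g := ⟨t', h.le ht'.tt_mem⟩)
      (fun e => h.not_et e' ((homOf_eq.1 e).1 ht'.tt_mem)) hs.2
    replace e := homOf_eq.1 e
    have := (h.mon _ hg).elim id fun a => e.2 (h.et_of_sq a (hs.conj g).2)
    exact ⟨g, (h.eq_of_et this (hs.conj g).2 (e.1 this)).resolve_left (hs.conj g).1⟩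
  have n4 : ∀ y ∈ ρ.D, y * y ≠ 1 → y ^ 4 ≠ 1 := fun y hy a b => a (h.b.no_four hV hy (pow_four_eq y ▸ b))
  obtain ⟨γ, hγ⟩ := cls t' (ht'.tt_inv h.two)
  obtain ⟨σ, hσ⟩ := (h.b.reg hx hx2).mon ((h.mon _ (hγ ▸ conj_mem_Cn.2 (D_le_Cn ht'.tt_mem hx))).resolve_right
    fun e => n4 x hx hx2 (by simpa using h.b.sw_four e))
  have e1 : σ (k + 1) = k := by_contra fun e => (hσ.conj_tt ht').tt_ne h.two h.tk e hγ
  obtain ⟨u, τ, hu, hτ⟩ : ∃ u τ, ρ.Mon u τ ∧ cyc τ := by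
    have : cyc σ ∨ cyc (σ * sw k) := by clear hσ hw e' ht' h; revert σ k; decide
    exact this.elim (fun e => ⟨_, _, hσ, e⟩) fun e => ⟨_, _, hσ.mul hw, e⟩
  have six : ∀ y ∈ ρ.D, y ^ 6 = 1 := fun y hy => h.b.six hu hτ hw hy
  have sq3 : ∀ y ∈ ρ.D, (y * y) ^ 3 = 1 := fun y hy => by rw [← pow_two, ← pow_mul, six y hy]
  have hz := h.b.cube_D (mul_mem hx hx) (sq3 x hx) hx2
  have cD : Nat.card ρ.D = 12 := by
    rw [card_label (fun y a => y * y = a) (B := ρ.V) (by simp) ?_, h.b.card_V hV,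
      show {a | ∃ y ∈ ρ.D, y * y = a} = zpowers (x * x) from Set.ext fun a => ⟨?_, ?_⟩, ncard_coe,
      card_zpowers_three hz.cube hx2]
    · rintro ⟨y, hy, rfl⟩
      exact h.b.cube_mem hz (mul_mem hy hy) (sq3 y hy)
    · rintro ⟨n, rfl⟩
      exact ⟨x ^ n, zpow_mem hx n, ((Commute.refl x).mul_zpow n).symm⟩
    · rintro y hy _ rfl a
      have c : ∀ a ∈ ρ.D, a * y⁻¹ * (a * y⁻¹) = a * a * (y * y)⁻¹ := fun a ha => by
        rw [mul_assoc, ← mul_assoc y⁻¹, D_comm (inv_mem hy) ha]; group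
      constructor
      · rintro ⟨a1, a2⟩
        exact ⟨mul_mem a1 (inv_mem hy), by rw [c a a1, a2, mul_inv_cancel]⟩
      · rintro ⟨a1, a2⟩
        have := (mul_mem_cancel_right (inv_mem hy)).1 a1
        exact ⟨this, mul_inv_eq_one.1 (c a this ▸ a2)⟩
  have nvD : ∀ y ∈ ρ.D, y * y ≠ 1 → nv y = 3 := fun y hy a => by rw [(h.b.reg hy a).nv, h.b.card_inv_D hV]
  have nvT : ∀ y ∈ Cn t, y ∉ ρ.D → y * y ≠ 1 → y ^ 4 = 1 ∧ nv y = 1 := fun y hy a b =>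
    have := h.b.sw_four ((h.mon y hy).resolve_left a)
    ⟨this, h.b.nv_four h.two h.inv hy b this⟩
  have f : ρ.Fr _ (x * x) u τ := ⟨h.b, hz, hu, hτ, rfl⟩
  obtain ⟨ν, hν, -⟩ := f.nine
  refine ⟨h.b, hV, cls, by rw [h.card hw, cD], ?_, ?_, fun y hy a => ?_, fun a ha b hb a1 a2 a3 a4 a5 => ?_,
    _, _, ν, hz, hν, f.zm, nvD _ hz.reg.mem hz.reg.sq_ne, fun y hy a b => ?_⟩
  · have c1 : ((Cn t : Set Γ) \ ρ.D).ncard = 12 := by rw [Set.ncard_diff h.le, ncard_coe, ncard_coe, h.card hw, cD]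
    have mt : ∀ y, y ∈ (Cn t : Set Γ) \ ρ.D → y * t' ∈ (Cn t : Set Γ) \ ρ.D := fun y hy =>
      ⟨mul_mem hy.1 (h.le ht'.tt_mem), fun e => hy.2 ((mul_mem_cancel_right ht'.tt_mem).1 e)⟩
    have mo : ∀ y, y ∈ (Cn t : Set Γ) \ ρ.D → ρ.Mon y (sw k) := fun y hy => (h.mon y hy.1).resolve_left hy.2
    have c2 := Set.ncard_inter_add_ncard_diff_eq_ncard ((Cn t : Set Γ) \ ρ.D) {y | y * y = 1}
    have c3 := Set.ncard_le_ncard_of_injOn (s := ((Cn t : Set Γ) \ ρ.D) ∩ {y | y * y = 1})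
      (t := ((Cn t : Set Γ) \ ρ.D) \ {y | y * y = 1}) (· * t') (fun y hy => ⟨mt y hy.1, fun e =>
        h.not_et (by simpa using (h.et_of_sq (mo y hy.1) hy.2).mul e') (h.et_of_sq (mo _ (mt y hy.1)) e)⟩)
      (mul_left_injective t').injOn
    have c4 := Set.ncard_le_ncard_of_injOn (t := ((Cn t : Set Γ) \ ρ.D) ∩ {y | y * y = 1})
      (s := ((Cn t : Set Γ) \ ρ.D) \ {y | y * y = 1}) (· * t') (fun y hy => ⟨mt y hy.1,
        ((h.et_sw (mo _ (mt y hy.1))).resolve_right fun e => h.not_et e.2 (by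
          simpa using ((h.et_sw (mo y hy.1)).resolve_left fun e => hy.2 e.1).2.mul e')).1⟩)
      (mul_left_injective t').injOn
    rw [show {x : Γ | x ∈ Cn t ∧ x * x ≠ 1 ∧ nv x = 1} = ((Cn t : Set Γ) \ ρ.D) \ {y | y * y = 1} from
      Set.ext fun y => ⟨fun a => ⟨⟨a.1, fun e => by have := nvD y e a.2.1; have := a.2.2; omega⟩, a.2.1⟩,
        fun a => ⟨a.1.1, a.2, (nvT y a.1.1 a.1.2 a.2).2⟩⟩]
    omega
  · rw [show {x : Γ | x ∈ Cn t ∧ x * x ≠ 1 ∧ nv x = 3} = (ρ.D : Set Γ) \ ρ.V from Set.ext fun y =>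
      ⟨fun a => ⟨by_contra fun e => by have := (nvT y a.1 e a.2.1).2; have := a.2.2; omega, fun e => a.2.1 e.2⟩,
        fun a => ⟨h.le a.1, fun e => a.2 ⟨a.1, e⟩, nvD y a.1 fun e => a.2 ⟨a.1, e⟩⟩⟩,
      Set.ncard_diff fun _ e => e.1, ncard_coe, ncard_coe, cD, h.b.card_V hV]
  · by_cases e : y ∈ ρ.D
    exacts [Or.inr ⟨six y e, nvD y e a⟩, Or.inl (nvT y hy e a)]
  · exact h.b.no_four hV ((h.D_mul ha hb).2 (iff_of_false (fun e => n4 a e a1 a3) fun e => n4 b e a2 a4))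
      (pow_four_eq (a * b) ▸ a5)
  · have := (h.mon y hy).resolve_right fun e => b (by
      have := h.b.sw_four e
      rwa [show 2 ^ 2 = 3 + 1 by rfl, pow_succ, a, one_mul] at this)
    rcases hz.eq (h.b.cube_D this a b) with rfl | rfl
    · exact ⟨1, by simp⟩
    refine ⟨w, (hz.eq (h.b.cube_D (hw.conj_mem hz.reg.mem) (by simp [hz.cube]) (by simpa using hx2))).resolve_left
      fun e => ?_⟩
    rcases hz.reg.cent (mem_Cn.2 (mul_inv_eq_iff_eq_mul.1 e).symm) with e | ⟨-, σ, a, b⟩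
    · exact hw.not_mem (sw_ne k) e
    · exact a k (by rw [b.uniq hw, sw_k])

theorem MC.cases [Finite Γ] [Finite K] (h : ρ.MC t k) (S : Sylow 2 Γ) (hS : (S : Subgroup Γ) ≤ Cn t) (tS : t ∈ S) :
    TB t ∨ (∃ A k, TD t A k) ∨ TV t ∨ ρ.TA7 t := by
  have hp := h.b.H.perf
  have ic := h.b.ic h.inv
  by_cases hw : ∃ w, ρ.Mon w (sw k)
  swap
  · have hC : Cn t = ρ.D := le_antisymm (fun g hg => (h.mon g hg).resolve_right fun e => hw ⟨g, e⟩) h.le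
    by_cases hV : ρ.Vier
    swap
    · exact Or.inl (TB.of hp S hS h.inv tS ic fun s hs e => h.uq hV (hC ▸ e) hs)
    by_cases hx : ∃ x ∈ ρ.D, x * x ≠ 1
    · obtain ⟨x, a, b⟩ := hx
      exact Or.inr (Or.inr (Or.inl (h.tv S hS hV hC a b)))
    push Not at hx
    refine Or.inr (Or.inl ⟨_, TD.of hp S hS h.inv ic (zpowers_le.2 (self_mem_Cn t)) (mem_zpowers t) ?_ zpowers_comm
      (fun s hs e => ?_) fun x a _ => hx x (hC ▸ a)⟩)
    · rw [hC, show ρ.D = ρ.V from le_antisymm (fun x a => ⟨a, hx x a⟩) fun _ a => a.1, h.b.card_V hV,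
        Nat.card_zpowers, h.inv.orderOf]
    · obtain ⟨i, hi, rfl⟩ := mem_zpowers_lt two_pos (by simpa [pow_two] using h.inv.2) hs
      interval_cases i
      exacts [absurd (pow_zero t) e.1, pow_one t]
  obtain ⟨w, hw⟩ := hw
  by_cases hV : ρ.Vier
  swap
  · exact Or.inr (Or.inl ⟨_, TD.of hp S hS h.inv ic h.le h.tk.tt_mem (h.card hw) (fun _ a _ b => D_comm a b)
      (fun s a b => h.uq hV a b) fun x a b => h.no_sd hV ((h.mon x a).resolve_left b)⟩)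
  by_cases hx : ∃ x ∈ ρ.D, x * x ≠ 1
  · obtain ⟨x, a, b⟩ := hx
    exact Or.inr (Or.inr (Or.inr (h.ta7 S hS hV hw a b)))
  push Not at hx
  obtain ⟨g, hg, e1, e2⟩ : ∃ g, ρ.Mon g (sw k) ∧ g * g = t ∧ ρ.Et k g (-1) := by
    rcases h.et_sw hw with e | e
    · obtain ⟨t', ht'⟩ := hV.2 (k + 1)
      have a := hw.mul (Mon.one_iff.2 ht'.tt_mem)
      rw [mul_one] at a
      exact ⟨_, a, (h.et_sw a).resolve_left fun b => h.not_et (by simpa using e.2.mul (Et.tt (k := k) ht')) b.2⟩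
    · exact ⟨w, hw, e⟩
  refine Or.inr (Or.inl (TD.d8 hp S hS h.inv ic e1 (fun _ => ?_) fun x a b => ?_))
  · rw [h.card hw, show ρ.D = ρ.V from le_antisymm (fun x a => ⟨a, hx x a⟩) fun _ a => a.1, h.b.card_V hV]
  refine (h.mon x a).elim (hx x) fun c => ((h.et_sw c).resolve_right fun d => b ?_).1
  rw [← mul_mem_cancel_right (mem_zpowers g)]
  rcases h.eq_of_et (c.sw_mul hg) (hx _ (c.sw_mul hg)) (by simpa using d.2.mul e2) with e | e <;> rw [e]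
  exacts [one_mem _, e1 ▸ mul_mem (mem_zpowers g) (mem_zpowers g)]

end PRep

end Cfsg.Agent.MH
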