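import Cfsg.Agent.MH.Cent2

/-! Centralisers of involutions in characteristic two; the list of all cases. -/

set_option autoImplicit false

namespace Cfsg.Agent.MH

open Matrix Equiv Subgroup

variable {Γ K : Type*} [Group Γ] [Field K]

namespace PRep

variable {ρ ρ' : PRep Γ K} {x y z g w j s t : Γ} {X Y : M3 K} {v φ : V3 K} {a b c : K}

theorem B.four_of_cent [Finite K] (h : ρ.B) (h2 : (2 : K) = 0) (ht : Inv t) (hg : g ∈ Cn t) : g ^ 2 ^ 2 = 1 := by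
  rw [show 2 ^ 2 = 4 by rfl, pow_four_eq]
  rcases h.nf g with ⟨v, φ, k⟩ | ⟨ρ', e, k⟩ | ⟨ρ', e, a, b, c, -, -, k⟩
  · rw [h.inv_of_T k, mul_one]
  · exact absurd h2 ((h.eqv e).inv_D (k.inv_mem ht.2 (mem_Cn_comm.1 hg)) ht).1
  · have := k.un_mul k
    rw [(this.un_mul this).un_one_iff]
    grind

theorem B.frame_un [Finite K] (h : ρ.B) (h2 : (2 : K) = 0) (ht : Inv t) : ∃ ρ', ρ.Eqv ρ' ∧ ρ'.R t (un 0 0 1) := by
  obtain ⟨v, φ, hv, hφ, k⟩ := h.inv_T ht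
  have e : φ ⬝ᵥ v = 0 := by rw [k.e, h2, neg_zero]
  obtain ⟨i, hi⟩ := exists_ne_zero hv
  obtain ⟨u, hu, a, b⟩ := exists_common φ (Pi.single i 1)
  obtain ⟨w, hw⟩ := exists_dot_ne hφ
  have e' : φ ⬝ᵥ ((φ ⬝ᵥ w)⁻¹ • w) = 1 := by simp [hw]
  obtain ⟨Q, hQ⟩ := exists_inv (det_ne_of_dot (ind_of_dot hu b (by simpa using hi)).symm e a (e' ▸ one_ne_zero))
  refine ⟨_, Eqv.cj ρ hQ, k.r.cj' ?_⟩
  rw [mul_col3, col3_mul]
  simp only [T_mulVec, e, e', a]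
  simp [add_comm]

theorem B.Cn_un [Finite K] (h : ρ.B) (h2 : (2 : K) = 0) (ht : ρ.R t (un 0 0 1)) : Cn t = ρ.UT := by
  refine le_antisymm (fun g hg => ?_) fun g ⟨a, b, c, hg⟩ =>
    mem_Cn.2 (((ht.un_mul hg).un_eq_iff (hg.un_mul ht)).2 (by simp [add_comm]))
  obtain ⟨G, hG⟩ := ρ.ex g
  obtain ⟨κ, e⟩ := (ht.comm_iff hG).1 (mem_Cn.1 hg)
  have hd := hG.det
  rw [eta_fin_three G] at e hd hG
  simp [det_fin_three] at e hd
  obtain ⟨⟨e1, e2, e3⟩, ⟨e4, e5, e6⟩, e7, e8, e9⟩ := e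
  obtain rfl : κ = 1 := by_contra fun hn => hd (by
    rw [show G 1 0 = 0 by grind, show G 1 1 = 0 by grind, show G 2 0 = 0 by grind, show G 2 1 = 0 by grind]
    ring)
  rw [show G 1 0 = 0 by grind, show G 2 0 = 0 by grind, show G 2 1 = 0 by grind, show G 2 2 = G 0 0 by grind] at hG
  have h1 := hG.up_mul hG
  obtain ⟨κ, e⟩ := (h1.up_mul h1).eq_one_iff.1 (pow_four_eq g ▸ h.four_of_cent h2
    ⟨fun e => by simpa using ht.un_one_iff.1 e, (ht.un_mul ht).un_one_iff.2 (by grind)⟩ hg)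
  have a0 := congrFun (congrFun e 0) 0
  have a1 := congrFun (congrFun e 1) 1
  simp at a0 a1
  rw [show G 1 1 = G 0 0 from sub_eq_zero.1 (pow_eq_zero_iff (n := 4) (by decide) |>.1 (by grind))] at hG
  have := hG.up_ne.1
  exact ⟨_, _, _, (hG.smul (inv_ne_zero this)).congr (by simp [this]; exact ⟨⟨rfl, rfl⟩, rfl⟩)⟩

theorem B.no_centre [Finite Γ] [Finite K] (h : ρ.B) (h2 : (2 : K) = 0) (S : Sylow 2 Γ) (hS : (S : Subgroup Γ) ≤ Cn t)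
    (hL : ρ.Large v) (hv : v ≠ 0) (hall : ∀ x ∈ Cn t, ∃ φ, φ ⬝ᵥ v = 0 ∧ ρ.R x (T v φ)) : False := by
  obtain ⟨w, ψ, o, i, ⟨a1, t', ht'⟩, n, e⟩ := hL.exists_near h.H hv
  obtain ⟨χ, hχ, n'⟩ := (hL.orb o).exists_ne i.symm
  obtain ⟨a2, y, hy⟩ := hχ.rule ⟨a1, t', ht'⟩ e
  have i' : Inv t' := ⟨fun e => by
    obtain ⟨c, e⟩ := ht'.eq_one_iff.1 e
    exact (T_eq_scalar e).elim hv n, h.inv_of_T ht'⟩
  have e1 : Cn t' = S := S.is_maximal' (fun g => ⟨2, Subtype.ext (h.four_of_cent h2 i' g.2)⟩) fun x hx => by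
    obtain ⟨φ, b1, b2⟩ := hall x (hS hx)
    exact mem_Cn.2 (ht'.comm_of b2 (by simp [T_mul_T, a1, b1, add_comm]))
  obtain ⟨φ, -, b2⟩ := hall y (hS (e1.le (mem_Cn.2 (ht'.comm_of hy (by
    simp [T, mul_add, add_mul, vecMulVec_mul_vecMulVec, e, a1, add_comm, add_left_comm])))))
  obtain ⟨c, -, e2⟩ := b2.uniq hy
  rw [T_eq_smul e2, one_smul] at e2
  obtain ⟨c, -, e3, -⟩ := vmv_eq (T_inj e2) i.ne' (smul_ne_zero n' n)
  exact (ind_iff hv).1 i c e3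

theorem B.un_c (h : ρ.B) (ht : ρ.R t (un 0 0 1)) (hx : ρ.R x (un 0 0 c)) : c = 0 ∨ c = 1 :=
  h.s.el13 ⟨by simp, t, ht.congr (by mat)⟩ ⟨by simp, x, hx.congr (by mat)⟩ one_ne_zero

theorem B.un_ab (h : ρ.B) (h2 : (2 : K) = 0) (ht : ρ.R t (un 0 0 1)) (hx : ρ.R x (un a b c)) :
    a * b = 0 ∨ a * b = 1 :=
  h.un_c ht ((hx.un_mul hx).congr (by rw [← two_mul, ← two_mul, ← two_mul, h2]; simp))

theorem B.two_cases [Finite Γ] [Finite K] (h : ρ.B) (h2 : (2 : K) = 0) (S : Sylow 2 Γ) (hS : (S : Subgroup Γ) ≤ Cn t)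
    (tS : t ∈ S) (ht : ρ.R t (un 0 0 1)) : TB t ∨ ∃ A k, TD t A k ∧ 2 ∣ k := by
  have i : Inv t := ⟨fun e => by simpa using ht.un_one_iff.1 e, (ht.un_mul ht).un_one_iff.2 (by grind)⟩
  have hC := h.Cn_un h2 ht
  have z : ∀ {x c}, ρ.R x (un 0 0 c) → x = 1 ∨ x = t := fun hx =>
    (h.un_c ht hx).imp (fun e => hx.un_one_iff.2 ⟨rfl, rfl, e⟩) fun e => by subst e; exact hx.inj ht
  by_cases h1 : ∃ x a c, a ≠ 0 ∧ ρ.R x (un a 0 c) <;> by_cases h3 : ∃ x b c, b ≠ 0 ∧ ρ.R x (un 0 b c)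
  · obtain ⟨x, a, c, ha, hx⟩ := h1
    obtain ⟨y, b, c', hb, hy⟩ := h3
    have hg := hx.un_mul hy
    rw [add_zero, zero_add] at hg
    have ab := (h.un_ab h2 ht hg).resolve_left (mul_ne_zero ha hb)
    have g2 : x * y * (x * y) = t := ((hg.un_mul hg).un_eq_iff ht).2 (by grind)
    have zA : ∀ {u c}, ρ.R u (un 0 0 c) → u ∈ zpowers (x * y) := fun hu => by
      rcases z hu with rfl | rfl
      exacts [one_mem _, g2 ▸ mul_mem (mem_zpowers _) (mem_zpowers _)]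
    have gA : ∀ {u c}, ρ.R u (un a b c) → u ∈ zpowers (x * y) := fun hu =>
      (mul_mem_cancel_right (mem_zpowers _)).1 (zA (by simpa only [← two_mul, h2, zero_mul] using hu.un_mul hg))
    have key : ∀ u ∈ Cn t, u ∉ zpowers (x * y) → (∃ c, ρ.R u (un a 0 c)) ∨ ∃ c, ρ.R u (un 0 b c) := fun u hu hn => by
      obtain ⟨a', b', c'', hu⟩ := hC ▸ hu
      have e1 := h.un_ab h2 ht hu
      have e2 := h.un_ab h2 ht (hu.un_mul hx)
      have e3 := h.un_ab h2 ht (hu.un_mul hy)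
      have e4 : a' = 0 ∨ a' = a := by grind
      have e5 : b' = 0 ∨ b' = b := by grind
      rcases e4 with rfl | rfl <;> rcases e5 with rfl | rfl
      exacts [absurd (zA hu) hn, Or.inr ⟨_, hu⟩, Or.inl ⟨_, hu⟩, absurd (gA hu) hn]
    refine Or.inr ((TD.d8 h.H.perf S hS i (h.ic i) g2 (fun c4 => ?_) fun u hu hn => ?_).imp fun _ => Exists.imp fun _ d =>
      ⟨d, d.even (hC ▸ ⟨_, _, _, hg⟩) (g2 ▸ i.1) (by rw [pow_four_eq, g2, i.2])⟩)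
    · rw [card_eq_two_mul (A := zpowers (x * y)) (s := x) (zpowers_le.2 (hC ▸ ⟨_, _, _, hg⟩)) (hC ▸ ⟨_, _, _, hx⟩)
        (fun e => ?_) fun u hu hn => ?_, c4]
      · have := ((hx.un_mul hg).un_eq_iff (hg.un_mul hx)).1 (zpowers_comm _ e _ (mem_zpowers _))
        grind
      · rcases key u hu hn with ⟨c, hu⟩ | ⟨c, hu⟩
        exacts [zA (by simpa only [← two_mul, h2, zero_mul] using hu.un_mul hx), gA (by simpa using hu.un_mul hx)]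
    · rcases key u hu hn with ⟨c, hu⟩ | ⟨c, hu⟩ <;> exact (hu.un_mul hu).un_one_iff.2 (by grind)
  · obtain ⟨x, a, c, ha, hx⟩ := h1
    refine (h.no_centre h2 S hS (v := ![1, 0, 0]) ⟨![0, 0, 1], ![0, a, c], ⟨by simp, t, ht.congr (by mat)⟩,
      ⟨by simp, x, hx.congr (by mat)⟩, ind_of_dot (φ := ![0, 1, 0]) (by simp) (by simp) (by simpa using ha)⟩ (by simp)
      fun u hu => ?_).elim
    obtain ⟨a', b', c', hu⟩ := hC ▸ hu
    obtain rfl : b' = 0 := by_contra fun hb => h3 (by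
      have e1 := h.un_ab h2 ht hu
      have e2 := h.un_ab h2 ht (hu.un_mul hx)
      by_cases e : a' = 0
      · exact ⟨u, b', c', hb, e ▸ hu⟩
      · exact ⟨_, _, _, by simpa using hb, show a' + a = 0 by grind ▸ hu.un_mul hx⟩)
    exact ⟨![0, a', c'], by simp, hu.congr (by mat)⟩
  · obtain ⟨x, b, c, hb, hx⟩ := h3
    refine (h.tp.no_centre h2 S hS (v := ![0, 0, 1]) ⟨![1, 0, 0], ![c, b, 0],
      El.tp ⟨by simp, t, ht.congr (by mat)⟩, El.tp ⟨by simp, x, hx.congr (by mat)⟩,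
      ind_of_dot (φ := ![0, 1, 0]) (by simp) (by simp) (by simpa using hb)⟩ (by simp) fun u hu => ?_).elim
    obtain ⟨a', b', c', hu⟩ := hC ▸ inv_mem hu
    obtain rfl : a' = 0 := by_contra fun ha => h1 (by
      have e1 := h.un_ab h2 ht hu
      have e2 := h.un_ab h2 ht (hu.un_mul hx)
      by_cases e : b' = 0
      · exact ⟨_, a', c', ha, e ▸ hu⟩
      · exact ⟨_, _, _, by simpa using ha, show b' + b = 0 by grind ▸ hu.un_mul hx⟩)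
    exact ⟨![c', b', 0], by simp, tp_R.2 (hu.congr (by mat))⟩
  · refine Or.inl (TB.of h.H.perf S hS i tS (h.ic i) fun s hs e => ?_)
    obtain ⟨a, b, c, hu⟩ := hC ▸ e
    have := (hu.un_mul hu).un_one_iff.1 hs.2
    have e1 : a = 0 ∨ b = 0 := by grind
    obtain rfl : a = 0 := by_contra fun e => h1 ⟨s, a, c, e, e1.resolve_left e ▸ hu⟩
    obtain rfl : b = 0 := by_contra fun e => h3 ⟨s, b, c, e, hu⟩
    exact (z hu).resolve_left hs.1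

theorem B.types [Finite Γ] [Finite K] (h : ρ.B) (he : 2 ∣ Nat.card Γ) : ∃ t : Γ, Inv t ∧
    (TB t ∨ TGL t ∨ (∃ A k, TD t A k ∧ ((2 : K) ≠ 0 ∨ 2 ∣ k)) ∨ TV t ∨ ∃ ρ', ρ.Eqv ρ' ∧ ρ'.TA7 t) := by
  obtain ⟨S⟩ : Nonempty (Sylow 2 Γ) := inferInstance
  obtain ⟨t, tS, e, hS⟩ := exists_center Nat.prime_two S.2 fun e => S.not_dvd_index (by rwa [e, index_bot])
  have ht := inv_of_orderOf e
  refine ⟨t, ht, ?_⟩
  by_cases h2 : (2 : K) = 0
  · obtain ⟨ρ', e1, e2⟩ := h.frame_un h2 ht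
    exact ((h.eqv e1).two_cases h2 S hS tS e2).imp_right fun ⟨A, k, a, b⟩ => Or.inr (Or.inl ⟨A, k, a, Or.inr b⟩)
  obtain ⟨ρ', e1, e2⟩ := h.frame_tt h2 ht
  by_cases one : ∀ s, Inv s → s ∈ Cn t → s = t
  · exact Or.inl (TB.of h.H.perf S hS ht tS (h.ic ht) one)
  rcases (h.eqv e1).dick h2 e2 with k | k | ⟨f, f0, f1, f2⟩
  · obtain ⟨ρ'', l, a, b, c⟩ := h.mono h2 ht k
    rcases MC.cases ⟨h.eqv a, h2, b, c⟩ S hS tS with k | ⟨A, k, d⟩ | k | k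
    exacts [Or.inl k, Or.inr (Or.inr (Or.inl ⟨A, k, d, Or.inl h2⟩)), Or.inr (Or.inr (Or.inr (Or.inl k))),
      Or.inr (Or.inr (Or.inr (Or.inr ⟨_, a, k⟩)))]
  · exact absurd k one
  · push Not at one
    obtain ⟨s, a, b, c⟩ := one
    exact Or.inr (Or.inl (h.tgl h2 ht S hS f f0 f1 f2 a b c))

end PRep

end Cfsg.Agent.MH
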