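import Cfsg.Agent.MH.Line

/-! Orbits of centres of elations. -/

set_option autoImplicit false

namespace Cfsg.Agent.MH

open Matrix Cfsg.Agent.H4

variable {Γ K : Type*} [Group Γ] [Field K]

theorem Ind.not_dot {u v φ ψ : V3 K} (h : Ind u v) (h' : Ind φ ψ) (h1 : φ ⬝ᵥ u = 0) (h2 : φ ⬝ᵥ v = 0)
    (h3 : ψ ⬝ᵥ u = 0) (h4 : ψ ⬝ᵥ v = 0) : False := by
  obtain ⟨c, e⟩ := h.eq_smul h'.ne h3 h4 h1 h2
  exact (ind_iff h'.ne).1 h' c e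

theorem eq_zero_of_dot {u v w φ : V3 K} (h : (col3 u v w).det ≠ 0) (h1 : φ ⬝ᵥ u = 0) (h2 : φ ⬝ᵥ v = 0)
    (h3 : φ ⬝ᵥ w = 0) : φ = 0 := by
  by_contra h0
  obtain ⟨z, hz⟩ := exists_dot_ne h0
  obtain ⟨a, b, c, rfl⟩ := span_of_det h z
  simp [h1, h2, h3] at hz

theorem det_ne_of_dot {u v w φ : V3 K} (h : Ind u v) (h1 : φ ⬝ᵥ u = 0) (h2 : φ ⬝ᵥ v = 0) (h3 : φ ⬝ᵥ w ≠ 0) :
    (col3 u v w).det ≠ 0 := det_col3_ne fun a b c e => by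
  have := congrArg (φ ⬝ᵥ ·) e
  have hc : c = 0 := by simpa [h1, h2, h3] using this
  exact ⟨(h a b (by simpa [hc] using e)).1, (h a b (by simpa [hc] using e)).2, hc⟩

theorem Ind.map {u v : V3 K} (h : Ind u v) {X Y : M3 K} (hY : Y * X = 1) : Ind (X *ᵥ u) (X *ᵥ v) := fun a b e =>
  h a b (by simpa [mulVec_add, mulVec_smul, mulVec_mulVec, hY] using congrArg (Y *ᵥ ·) e)

theorem Ind.map' {u v : V3 K} (h : Ind u v) {X Y : M3 K} (hY : X * Y = 1) : Ind (u ᵥ* X) (v ᵥ* X) := fun a b e =>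
  h a b (by simpa [add_vecMul, smul_vecMul, vecMul_vecMul, hY] using congrArg (· ᵥ* Y) e)

theorem dot_conj {X Y : M3 K} (hY : X * Y = 1) (φ v : V3 K) : (φ ᵥ* Y) ⬝ᵥ (X *ᵥ v) = φ ⬝ᵥ v := by
  rw [← dotProduct_mulVec, mulVec_mulVec, mul_eq_one_comm.1 hY, one_mulVec]

theorem subfield_eq [Finite K] {E E' : Subfield K} (h : Nat.card E = Nat.card E') : E = E' := by
  ext x
  rw [Subf.mem_iff_pow, Subf.mem_iff_pow, h]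

namespace PRep

variable {ρ : PRep Γ K} {x y : Γ} {X Y : M3 K} {c u v w φ ψ χ : V3 K}

/-- the orbit of a vector -/
def Orb (ρ : PRep Γ K) (c v : V3 K) : Prop := ∃ x X, ρ.R x X ∧ v = X *ᵥ c

theorem Orb.refl (ρ : PRep Γ K) (c : V3 K) : ρ.Orb c c := ⟨1, 1, ρ.one, by simp⟩

theorem Orb.map (h : ρ.Orb c v) (hX : ρ.R x X) : ρ.Orb c (X *ᵥ v) := by
  obtain ⟨y, Y, hY, rfl⟩ := h
  exact ⟨_, _, hX.mul hY, by rw [mulVec_mulVec]⟩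

theorem Orb.smul (h : ρ.Orb c v) {a : K} (ha : a ≠ 0) : ρ.Orb c (a • v) := by
  simpa [smul_mulVec] using h.map (ρ.scalar ha)

theorem Orb.move (h : ρ.Orb c v) (h' : ρ.El u χ) : ρ.Orb c (v + (χ ⬝ᵥ v) • u) := by
  obtain ⟨-, x, hx⟩ := h'
  simpa [T_mulVec] using h.map hx

theorem Orb.ne (h : ρ.Orb c v) (hc : c ≠ 0) : v ≠ 0 := by
  obtain ⟨y, Y, hY, rfl⟩ := h
  exact hY.mulVec_ne hc

theorem Orb.symm (h : ρ.Orb c v) : ρ.Orb v c := by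
  obtain ⟨y, Y, hY, rfl⟩ := h
  exact ⟨_, _, hY.inv, by rw [mulVec_mulVec, hY.inv_mul, one_mulVec]⟩

theorem Orb.trans (h : ρ.Orb c v) (h' : ρ.Orb v w) : ρ.Orb c w := by
  obtain ⟨y, Y, hY, rfl⟩ := h'
  exact h.map hY

theorem Orb.cj {P Q : M3 K} {h : P * Q = 1} (e : ρ.Orb (P *ᵥ c) (P *ᵥ v)) : (ρ.cj P Q h).Orb c v := by
  obtain ⟨y, Y, hY, e⟩ := e
  refine ⟨y, _, hY.cj, ?_⟩
  rw [← mulVec_mulVec, ← mulVec_mulVec, ← e, mulVec_mulVec, mul_eq_one_comm.1 h, one_mulVec]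

theorem El.conj' (h : ρ.El (X *ᵥ v) φ) (hX : ρ.R x X) : ρ.El v (φ ᵥ* X) := by
  simpa [mulVec_mulVec, hX.inv_mul] using h.conj hX.inv hX.inv_mul

theorem Orb.card_Phi (h : ρ.Orb c v) : Nat.card (ρ.Phi v) = Nat.card (ρ.Phi c) := by
  obtain ⟨y, Y, hY, rfl⟩ := h
  refine Nat.card_congr ⟨fun φ => ⟨φ.1 ᵥ* Y, El.conj' (φ := φ.1) φ.2 hY⟩,
    fun φ => ⟨φ.1 ᵥ* Y⁻¹, El.conj (φ := φ.1) φ.2 hY hY.mul_inv⟩,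
    fun φ => ?_, fun φ => ?_⟩ <;> simp [vecMul_vecMul, hY.mul_inv, hY.inv_mul]

theorem Hyp.exists_ind (H : ρ.Hyp) (hc : c ≠ 0) : ∃ v, ρ.Orb c v ∧ Ind c v := by
  obtain ⟨x, X, h1, h2⟩ := H.pt c hc
  exact ⟨_, ⟨x, X, h1, rfl⟩, (ind_iff hc).2 h2⟩

theorem Hyp.exists_off (H : ρ.Hyp) (hc : c ≠ 0) (hφ : φ ≠ 0) : ∃ v, ρ.Orb c v ∧ φ ⬝ᵥ v ≠ 0 := by
  by_contra hn
  push Not at hn
  obtain ⟨v, h1, h2⟩ := H.exists_ind hc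
  obtain ⟨x, X, h3, h4⟩ := H.ln φ hφ
  obtain ⟨a, e⟩ := h2.eq_smul (φ := φ ᵥ* X) hφ
    (by rw [← dotProduct_mulVec]; exact hn _ ((Orb.refl ρ c).map h3))
    (by rw [← dotProduct_mulVec]; exact hn _ (h1.map h3)) (hn _ (Orb.refl ρ c)) (hn _ h1)
  exact h4 a e

theorem Hyp.exists_basis (H : ρ.Hyp) (hc : c ≠ 0) :
    ∃ v w, ρ.Orb c v ∧ ρ.Orb c w ∧ (col3 c v w).det ≠ 0 := by
  obtain ⟨v, h1, h2⟩ := H.exists_ind hc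
  obtain ⟨w, h3, h4⟩ := H.exists_off hc h2.cross_ne
  exact ⟨v, w, h1, h3, by rwa [det_col3_eq]⟩

theorem ind12 (h : (col3 u v w).det ≠ 0) : Ind u v := fun a b e =>
  ⟨(indep_of_det h (a := a) (b := b) (c := 0) (by simpa using e)).1,
    (indep_of_det h (a := a) (b := b) (c := 0) (by simpa using e)).2.1⟩

theorem ind13 (h : (col3 u v w).det ≠ 0) : Ind u w := fun a b e =>
  ⟨(indep_of_det h (a := a) (b := 0) (c := b) (by simpa using e)).1,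
    (indep_of_det h (a := a) (b := 0) (c := b) (by simpa using e)).2.2⟩

theorem ind23 (h : (col3 u v w).det ≠ 0) : Ind v w := fun a b e =>
  ⟨(indep_of_det h (a := 0) (b := a) (c := b) (by simpa using e)).2.1,
    (indep_of_det h (a := 0) (b := a) (c := b) (by simpa using e)).2.2⟩

/-- a centre with two axes -/
def Large (ρ : PRep Γ K) (v : V3 K) : Prop := ∃ φ ψ, ρ.El v φ ∧ ρ.El v ψ ∧ Ind φ ψ

theorem Large.orb (h : ρ.Large c) (hv : ρ.Orb c v) : ρ.Large v := by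
  obtain ⟨y, Y, hY, rfl⟩ := hv
  obtain ⟨φ, ψ, h1, h2, h3⟩ := h
  exact ⟨_, _, h1.conj hY hY.mul_inv, h2.conj hY hY.mul_inv, h3.map' hY.inv_mul⟩

theorem Large.exists_ne (h : ρ.Large v) (hw : Ind v w) : ∃ χ, ρ.El v χ ∧ χ ⬝ᵥ w ≠ 0 := by
  obtain ⟨φ, ψ, h1, h2, h3⟩ := h
  by_contra hn
  push Not at hn
  exact hw.not_dot h3 h1.1 (hn _ h1) h2.1 (hn _ h2)

/-- the line `vw` is not an axis for `v` -/
def Far (ρ : PRep Γ K) (v w : V3 K) : Prop := ∀ φ, ρ.El v φ → φ ⬝ᵥ w = 0 → φ = 0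

theorem Far.eq (h : ρ.Far v w) (h1 : ρ.El v φ) (h2 : ρ.El v ψ) (e : φ ⬝ᵥ w = ψ ⬝ᵥ w) : φ = ψ :=
  sub_eq_zero.1 (h _ (h1.sub h2) (by rw [sub_dotProduct, e, sub_self]))

theorem Far.ne (h : ρ.Far v w) (h1 : ρ.El v φ) (h0 : φ ≠ 0) : φ ⬝ᵥ w ≠ 0 := fun e => h0 (h _ h1 e)

theorem far_field [Finite K] {φ0 φ1 χ0 : V3 K} (hvw : Ind v w) (hf : ρ.Far v w) (h0 : ρ.El v φ0) (h1 : ρ.El v φ1)
    (h2 : ρ.El w χ0) (a0 : φ0 ≠ 0) (a1 : φ1 ≠ 0) (a01 : φ1 ≠ φ0) (a2 : χ0 ⬝ᵥ v ≠ 0) :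
    (∃ E : Subfield K, Nat.card E = Nat.card (ρ.Phi v) ∧ (∀ φ χ, ρ.El v φ → ρ.El w χ → (φ ⬝ᵥ w) * (χ ⬝ᵥ v) ∈ E) ∧
      ∀ κ ∈ E, κ ≠ 0 → ∃ x X, ρ.R x X ∧ X *ᵥ v = κ ^ 2 • v ∧ X *ᵥ w = w) ∨
    ((3 : K) = 0 ∧ (∀ φ, ρ.El v φ → φ = 0 ∨ φ = φ0 ∨ φ = -φ0) ∧
      ∀ φ χ, ρ.El v φ → ρ.El w χ → φ ≠ 0 → χ ⬝ᵥ v ≠ 0 → ((φ ⬝ᵥ w) * (χ ⬝ᵥ v)) ^ 4 = 1) := by
  have b0 := hf.ne h0 a0
  rcases lc hvw h0 h1 h2 b0 (hf.ne h1 a1) (fun e => a01 (hf.eq h1 h0 e)) a2 with ⟨E, e1, e2⟩ | ⟨e1, e2, e3⟩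
  · refine Or.inl ⟨E, (Nat.card_congr (Equiv.ofBijective
      (fun φ : ρ.Phi v => (⟨_, e1 φ χ0 φ.2 h2⟩ : E)) ⟨fun φ ψ e => ?_, fun e => ?_⟩)).symm, e1, e2⟩
    · exact Subtype.ext (hf.eq φ.2 ψ.2 (mul_right_cancel₀ a2 (congrArg Subtype.val e)))
    · obtain ⟨φ, h3, h4⟩ := torus_surj e2 (ρ.Phi v) (fun x X Y c hX hY e φ hφ => El.stab hφ hX hY e) h0
        (E.div_mem e.2 (e1 _ _ h0 h2))
      refine ⟨⟨φ, h3⟩, Subtype.ext ?_⟩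
      simp only [h4]
      field_simp
  · refine Or.inr ⟨e1, fun φ hφ => ?_, fun φ χ hφ hχ h3 => e3 φ χ hφ hχ (hf.ne hφ h3)⟩
    rcases e2 φ hφ with e | e | e
    · exact Or.inl (hf _ hφ e)
    · exact Or.inr (Or.inl (hf.eq hφ h0 e))
    · exact Or.inr (Or.inr (hf.eq hφ h0.neg (by rw [e, neg_dotProduct])))

theorem far_field_large [Finite K] (hvw : Ind v w) (hf : ρ.Far v w) (hv : ρ.Large v) (hw : ρ.Large w) :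
    ∃ E : Subfield K, Nat.card E = Nat.card (ρ.Phi v) ∧ (∀ φ χ, ρ.El v φ → ρ.El w χ → (φ ⬝ᵥ w) * (χ ⬝ᵥ v) ∈ E) ∧
      ∀ κ ∈ E, κ ≠ 0 → ∃ x X, ρ.R x X ∧ X *ᵥ v = κ ^ 2 • v ∧ X *ᵥ w = w := by
  obtain ⟨φ, ψ, h1, h2, h3⟩ := hv
  obtain ⟨χ, h4, h5⟩ := hw.exists_ne hvw.symm
  have h6 := (ind_iff h3.ne).1 h3
  refine (far_field hvw hf h1 h2 h4 h3.ne h3.ne' (by simpa using h6 1) h5).resolve_right fun ⟨_, e, _⟩ => ?_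
  rcases e ψ h2 with e | e | e
  · exact h3.ne' e
  · exact h6 1 (by simpa using e)
  · exact h6 (-1) (by simpa using e)

theorem far_transport (h : ∀ w, ρ.Orb c w → Ind c w → ρ.Far c w) (hv : ρ.Orb c v) (hw : ρ.Orb c w)
    (hvw : Ind v w) : ρ.Far v w := by
  obtain ⟨y, Y, hY, rfl⟩ := hv
  intro φ h1 h2
  have := h _ (hw.map hY.inv) (by simpa [mulVec_mulVec, hY.inv_mul] using hvw.map hY.mul_inv) _ (h1.conj' hY)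
    (by rwa [dot_conj hY.inv_mul])
  by_contra h0
  exact hY.vecMul_ne h0 this

/-- all pairs of centres in the orbit generate an `SL₂(E)` -/
structure AllFar (ρ : PRep Γ K) (c : V3 K) (E : Subfield K) : Prop where
  far : ∀ {v w}, ρ.Orb c v → ρ.Orb c w → Ind v w → ρ.Far v w
  mem : ∀ {v w φ χ}, ρ.Orb c v → ρ.Orb c w → ρ.El v φ → ρ.El w χ → (φ ⬝ᵥ w) * (χ ⬝ᵥ v) ∈ E
  surj : ∀ {v w φ}, ρ.Orb c v → ρ.Orb c w → Ind v w → ρ.El v φ → ∀ e ∈ E, ∃ φ', ρ.El v φ' ∧ φ' ⬝ᵥ w = e * (φ ⬝ᵥ w)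

theorem allFar_of [Finite K] (H : ρ.Hyp) (hc : c ≠ 0) (h : ∀ w, ρ.Orb c w → Ind c w → ρ.Far c w)
    (hE : ∀ v w, ρ.Orb c v → ρ.Orb c w → Ind v w → ρ.Far v w → ∃ E : Subfield K,
      Nat.card E = Nat.card (ρ.Phi v) ∧ (∀ φ χ, ρ.El v φ → ρ.El w χ → (φ ⬝ᵥ w) * (χ ⬝ᵥ v) ∈ E) ∧
      ∀ κ ∈ E, κ ≠ 0 → ∃ x X, ρ.R x X ∧ X *ᵥ v = κ ^ 2 • v ∧ X *ᵥ w = w) :
    ∃ E : Subfield K, Nat.card E = Nat.card (ρ.Phi c) ∧ ρ.AllFar c E := by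
  obtain ⟨w0, h1, h2⟩ := H.exists_ind hc
  obtain ⟨E, e1, -⟩ := hE c w0 (Orb.refl ρ c) h1 h2 (h _ h1 h2)
  have key : ∀ v w, ρ.Orb c v → ρ.Orb c w → Ind v w →
      (∀ φ χ, ρ.El v φ → ρ.El w χ → (φ ⬝ᵥ w) * (χ ⬝ᵥ v) ∈ E) ∧
      ∀ κ ∈ E, κ ≠ 0 → ∃ x X, ρ.R x X ∧ X *ᵥ v = κ ^ 2 • v ∧ X *ᵥ w = w := fun v w hv hw hvw => by
    obtain ⟨E', e2, e3⟩ := hE v w hv hw hvw (far_transport h hv hw hvw)
    rwa [subfield_eq (e1.trans (e2.trans hv.card_Phi).symm)]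
  refine ⟨E, e1, far_transport h, fun {v w φ χ} hv hw hφ hχ => ?_, fun {v w φ} hv hw hvw hφ e he => ?_⟩
  · rcases ind_or (hv.ne hc) w with h3 | ⟨a, rfl⟩
    · exact (key v w hv hw h3).1 φ χ hφ hχ
    · simp [hφ.1]
  · exact torus_surj (key v w hv hw hvw).2 (ρ.Phi v) (fun x X Y c hX hY e φ hφ => El.stab hφ hX hY e) hφ he

section triple

variable {E : Subfield K} {v1 v2 v3 φ1 φ2 φ3 : V3 K}

theorem AllFar.triple (h : ρ.AllFar c E) (o1 : ρ.Orb c v1) (o2 : ρ.Orb c v2) (o3 : ρ.Orb c v3)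
    (e1 : ρ.El v1 φ1) (e2 : ρ.El v2 φ2) (e3 : ρ.El v3 φ3) :
    (φ1 ⬝ᵥ v3) * (φ3 ⬝ᵥ v2) * (φ2 ⬝ᵥ v1) - (φ1 ⬝ᵥ v2) * (φ2 ⬝ᵥ v3) * (φ3 ⬝ᵥ v1) ∈ E := by
  have h1 := h.mem o1 (o2.move e3) e1 (e2.conj_El e3)
  convert E.add_mem (E.sub_mem h1 (h.mem o1 o2 e1 e2)) (E.mul_mem (h.mem o1 o3 e1 e3) (h.mem o2 o3 e2 e3)) using 1
  simp only [dotProduct_add, dotProduct_smul, sub_dotProduct, smul_dotProduct, smul_eq_mul]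
  ring

theorem AllFar.not_mem (h : ρ.AllFar c E) (o1 : ρ.Orb c v1) (o2 : ρ.Orb c v2) (o3 : ρ.Orb c v3)
    (e1 : ρ.El v1 φ1) (e2 : ρ.El v2 φ2) (e3 : ρ.El v3 φ3) (n1 : φ1 ≠ 0) (n2 : φ2 ≠ 0) (n3 : φ3 ≠ 0)
    (hd : (col3 v1 v2 v3).det ≠ 0) : (φ1 ⬝ᵥ v2) * (φ2 ⬝ᵥ v3) * (φ3 ⬝ᵥ v1) ∉ E := by
  intro hw
  have x13 := (h.far o1 o3 (ind13 hd)).ne e1 n1
  have x31 := (h.far o3 o1 (ind13 hd).symm).ne e3 n3
  have x23 := (h.far o2 o3 (ind23 hd)).ne e2 n2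
  have x32 := (h.far o3 o2 (ind23 hd).symm).ne e3 n3
  obtain ⟨χ, h1, h2⟩ := h.surj o3 o2 (ind23 hd).symm e3 _
    (E.neg_mem (E.div_mem hw (E.mul_mem (h.mem o1 o3 e1 e3) (h.mem o2 o3 e2 e3))))
  refine n1 (h.far o1 (o2.move h1) (fun a b e => ?_) _ e1 ?_)
  · have := indep_of_det hd (a := a) (b := b) (c := b * (χ ⬝ᵥ v2)) (by rw [← e, smul_add, mul_smul, add_assoc])
    exact ⟨this.1, this.2.1⟩
  · rw [dotProduct_add, dotProduct_smul, h2, smul_eq_mul]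
    field_simp
    ring

end triple

theorem Large.exists_near [Finite K] (H : ρ.Hyp) (hc : c ≠ 0) (h : ρ.Large c) :
    ∃ w ψ, ρ.Orb c w ∧ Ind c w ∧ ρ.El c ψ ∧ ψ ≠ 0 ∧ ψ ⬝ᵥ w = 0 := by
  by_contra hn
  obtain ⟨E, -, hE⟩ := allFar_of H hc (fun w h1 h2 φ h3 h4 => by_contra fun h5 => hn ⟨w, φ, h1, h2, h3, h5, h4⟩)
    fun v w hv hw hvw hf => far_field_large hvw hf (h.orb hv) (h.orb hw)
  obtain ⟨v2, v3, o2, o3, hd⟩ := H.exists_basis hc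
  have o1 := Orb.refl ρ c
  obtain ⟨φ2, e2, x21⟩ := (h.orb o2).exists_ne (ind12 hd).symm
  obtain ⟨φ3, e3, x31⟩ := (h.orb o3).exists_ne (ind13 hd).symm
  have n2 : φ2 ≠ 0 := by rintro rfl; simp at x21
  have n3 : φ3 ≠ 0 := by rintro rfl; simp at x31
  have x23 := (hE.far o2 o3 (ind23 hd)).ne e2 n2
  have x32 := (hE.far o3 o2 (ind23 hd).symm).ne e3 n3
  obtain ⟨φ, ψ, h1, h2, h3⟩ := h
  have y1 := (hE.far o1 o2 (ind12 hd)).ne h1 h3.ne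
  have y2 := (hE.far o1 o2 (ind12 hd)).ne h2 h3.ne'
  have k := hE.not_mem o1 o2 o3 h1 e2 e3 h3.ne n2 n3 hd
  have key : (φ ⬝ᵥ v3) * (ψ ⬝ᵥ v2) - (ψ ⬝ᵥ v3) * (φ ⬝ᵥ v2) = 0 := by
    by_contra h0
    apply k
    have a1 := hE.mem o1 o2 h1 e2
    have a2 := hE.mem o1 o2 h2 e2
    have m1 := E.sub_mem (E.mul_mem (hE.triple o1 o2 o3 h1 e2 e3) a2) (E.mul_mem (hE.triple o1 o2 o3 h2 e2 e3) a1)
    have m2 := E.sub_mem (E.mul_mem (hE.mem o1 o3 h1 e3) a2) (E.mul_mem (hE.mem o1 o3 h2 e3) a1)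
    convert E.div_mem (E.mul_mem (E.mul_mem m2 (hE.mem o2 o3 e2 e3)) a1) m1 using 1
    rw [eq_div_iff]
    · ring
    · convert mul_ne_zero h0 (mul_ne_zero x32 (pow_ne_zero 2 x21)) using 1
      ring
  have := eq_zero_of_dot (φ := (ψ ⬝ᵥ v2) • φ + (-(φ ⬝ᵥ v2)) • ψ) hd (by simp [h1.1, h2.1])
    (by simp [mul_comm]) (by simp; linear_combination key)
  exact y2 (h3 _ _ this).1

theorem Large.exists_two [Finite K] (H : ρ.Hyp) (hc : c ≠ 0) (h : ρ.Large c) :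
    ∃ w u ψ φ, ρ.Orb c w ∧ ρ.Orb c u ∧ Ind c w ∧ ρ.El c ψ ∧ ρ.El c φ ∧ φ ≠ 0 ∧ ψ ⬝ᵥ w = 0 ∧ φ ⬝ᵥ u = 0 ∧
      ψ ⬝ᵥ u ≠ 0 := by
  obtain ⟨w, ψ, ow, iw, eψ, nψ, hψ⟩ := h.exists_near H hc
  by_contra hn
  have hn' : ∀ u φ, ρ.Orb c u → ρ.El c φ → φ ≠ 0 → φ ⬝ᵥ u = 0 → ψ ⬝ᵥ u = 0 := fun u φ h1 h2 h3 h4 =>
    by_contra fun h5 => hn ⟨w, u, ψ, φ, ow, h1, iw, eψ, h2, h3, hψ, h4, h5⟩
  obtain ⟨u, ou, hu⟩ := H.exists_off hc nψ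
  have iu := ind_of_dot hc eψ.1 hu
  have hf : ρ.Far c u := fun φ h1 h2 => by_contra fun h3 => hu (hn' u φ ou h1 h3 h2)
  obtain ⟨E, -, e1, e2⟩ := far_field_large iu hf h (h.orb ou)
  obtain ⟨χ, eχ, hχ⟩ := (h.orb ou).exists_ne iu.symm
  let S : AddSubgroup (V3 K) :=
    { carrier := {φ | ρ.El c φ ∧ φ ⬝ᵥ w = 0}
      add_mem' := fun h1 h2 => ⟨h1.1.add h2.1, by rw [add_dotProduct, h1.2, h2.2, add_zero]⟩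
      zero_mem' := ⟨El.zero ρ c, by simp⟩
      neg_mem' := fun h1 => ⟨h1.1.neg, by rw [neg_dotProduct, h1.2, neg_zero]⟩ }
  obtain ⟨θ, eθ, hθ⟩ := h.exists_ne iw
  obtain ⟨φ', h1, h2⟩ := torus_surj e2 S (fun x X Y a hX hY e φ hφ => by
    have h3 := El.stab hφ.1 hX hY e
    refine ⟨h3, ?_⟩
    by_cases h0 : a • φ ᵥ* Y = 0
    · simp [h0]
    have h4 : (a • φ ᵥ* Y) ⬝ᵥ (X *ᵥ w) = 0 := by rw [smul_dotProduct, dot_conj hY, hφ.2, smul_zero]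
    have h5 : Ind c (X *ᵥ w) := by
      have := iw.map (mul_eq_one_comm.1 hY)
      have ha : a ≠ 0 := by rintro rfl; simp at h0
      simpa [e, smul_smul, ha] using this.smul (inv_ne_zero ha) one_ne_zero
    obtain ⟨b, e'⟩ := h5.eq_smul nψ h3.1 h4 eψ.1 (hn' _ _ (ow.map hX) h3 h0 h4)
    simp [e', hψ]) (φ := ψ) ⟨eψ, hψ⟩ (E.div_mem (e1 θ χ eθ eχ) (e1 ψ χ eψ eχ))
  have : φ' = θ := hf.eq h1.1 eθ (by rw [h2]; field_simp)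
  exact hθ (this ▸ h1.2)

end PRep

end Cfsg.Agent.MH
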