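import Cfsg.Agent.MH.OSum

/-! The identification of the groups preserving a conic and of the data for `A₇`. -/

set_option autoImplicit false

namespace Cfsg.Agent.MH

open Matrix Equiv Subgroup

variable {Γ K : Type*} [Group Γ] [Field K]

theorem CA.free [Finite Γ] {H : Subgroup Γ} (h : CA H) {s z : Γ} (hs : s ∉ Nm H) (hz : z ∈ H)
    (h1 : s⁻¹ * z * s ∈ Nm H) : z = 1 := by_contra fun k => hs (by
  simpa using inv_mem (h.mem_Nm (g := s⁻¹) hz k (h.mem_of_pow (by simpa using h1) (by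
    rw [conj_pow, show z ^ Nat.card H = 1 from congrArg Subtype.val (pow_card_eq_one' (x := (⟨z, hz⟩ : H)))]; simp))))

theorem CA.dec [Finite Γ] {H : Subgroup Γ} (h : CA H) (hN : Nat.card Γ = Nat.card (Nm H) * (1 + Nat.card H)) {s : Γ}
    (hs : s ∉ Nm H) (x : Γ) : x ∈ Nm H ∨ ∃ y ∈ H, ∃ b ∈ Nm H, x = y * s * b := by
  let f : Option H → Γ ⧸ Nm H := fun o => o.elim (1 : Γ) fun y => (y * s : Γ)
  have k : ∀ y : H, ((1 : Γ) : Γ ⧸ Nm H) ≠ (y * s : Γ) := fun y e =>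
    hs ((mul_mem_cancel_left (le_normalizer y.2)).1 (by simpa using QuotientGroup.eq.1 e))
  have : Function.Bijective f := (Nat.bijective_iff_injective_and_card f).2 ⟨by
    rintro (_ | y) (_ | y') e
    exacts [rfl, absurd e (k _), absurd e.symm (k _), congrArg _ (Subtype.ext (inv_mul_eq_one.1
      (h.free hs (mul_mem (inv_mem y.2) y'.2) (by simpa [mul_assoc] using QuotientGroup.eq.1 e))))], by
    rw [Finite.card_option, add_comm]
    exact Nat.eq_of_mul_eq_mul_left Nat.card_pos (hN.symm.trans (Nm H).card_mul_index.symm)⟩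
  rcases this.2 x with ⟨_ | y, e⟩
  exacts [Or.inl (by simpa using QuotientGroup.eq.1 e), Or.inr ⟨y, y.2, _, QuotientGroup.eq.1 e, by group⟩]

theorem CA.sq_le [Finite Γ] {H C : Subgroup Γ} (h : CA H) {s : Γ} (hs : s ∉ Nm H) (h1 : H ≤ C) (h2 : s ∈ C) :
    Nat.card H * Nat.card H ≤ Nat.card C := by
  rw [← Nat.card_prod]
  refine Nat.card_le_card_of_injective (fun z : H × H => (⟨z.1 * s * z.2, mul_mem (mul_mem (h1 z.1.2) h2) (h1 z.2.2)⟩ : C))
    fun a b e => ?_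
  have e' : (a.1 : Γ) * s * a.2 = b.1 * s * b.2 := congrArg Subtype.val e
  have := inv_mul_eq_one.1 (h.free hs (mul_mem (inv_mem b.1.2) a.1.2) (by
    rw [show s⁻¹ * ((b.1 : Γ)⁻¹ * a.1) * s = s⁻¹ * (b.1 : Γ)⁻¹ * (a.1 * s * a.2) * (a.2 : Γ)⁻¹ by group, e']
    simpa [mul_assoc] using le_normalizer (mul_mem b.2.2 (inv_mem a.2.2))))
  exact Prod.ext (Subtype.ext this.symm) (Subtype.ext (by simpa [this] using e'))

theorem mn_sw1 (d : V3 K) : mn (sw 1) d = !![0, 0, d 2; 0, d 1, 0; d 0, 0, 0] := by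
  ext i j
  fin_cases i <;> fin_cases j <;> simp [mn, sw, swap_apply_def]

/-- power sums of `1, β, β⁻¹` -/
def ps (τ : K) : ℕ → K
  | 0 => 3
  | 1 => τ
  | 2 => τ ^ 2 - 2 * τ
  | n + 3 => τ * ps τ (n + 2) - τ * ps τ (n + 1) + ps τ n

theorem trace_pow {X : M3 K} {τ : K} (h1 : X.trace = τ) (h2 : e2 X = τ) (h3 : X.det = 1) : ∀ n, (X ^ n).trace = ps τ n
  | 0 => by simp [ps]
  | 1 => by simp [ps, h1]
  | 2 => by
    simp [e2, trace, Fin.sum_univ_three, pow_two, mul_apply, ps] at *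
    linear_combination (X 0 0 + X 1 1 + X 2 2 + τ) * h1 - 2 * h2
  | n + 3 => by
    rw [pow_add, pow_three' X, cayley, h1, h2, h3, ps, ← trace_pow h1 h2 h3, ← trace_pow h1 h2 h3, ← trace_pow h1 h2 h3]
    simp [mul_add, mul_sub, pow_succ, mul_assoc]

namespace PRep

variable {ρ ρ' : PRep Γ K} {x y z g u s t : Γ} {γ : Kˣ} {X B : M3 K} {v φ : V3 K} {a b c κ l : K}

/-- the stabiliser of a conic -/
def Co (ρ : PRep Γ K) (B : M3 K) : Subgroup Γ where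
  carrier := {x | ∃ X, ∃ c : K, c ≠ 0 ∧ ρ.R x X ∧ Xᵀ * B * X = c • B}
  mul_mem' := fun ⟨X, c, a1, a2, a3⟩ ⟨Y, d, b1, b2, b3⟩ => ⟨X * Y, c * d, mul_ne_zero a1 b1, a2.mul b2, by
    rw [transpose_mul, show Yᵀ * Xᵀ * B * (X * Y) = Yᵀ * (Xᵀ * B * X) * Y by simp only [mul_assoc], a3,
      Matrix.mul_smul, Matrix.smul_mul, b3, smul_smul]⟩
  one_mem' := ⟨1, 1, one_ne_zero, ρ.one, by simp⟩
  inv_mem' := fun ⟨X, c, a1, a2, a3⟩ => ⟨X⁻¹, c⁻¹, inv_ne_zero a1, a2.inv, by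
    rw [eq_inv_smul_iff₀ a1, ← Matrix.smul_mul, ← Matrix.mul_smul, ← a3,
      show X⁻¹ᵀ * (Xᵀ * B * X) * X⁻¹ = (X * X⁻¹)ᵀ * B * (X * X⁻¹) by simp only [transpose_mul, mul_assoc], a2.mul_inv]
    simp⟩

theorem conic_of (h2 : (2 : K) ≠ 0) (h3 : Bᵀ = B) (h4 : B.det ≠ 0) (h : ∀ x, x ∈ ρ.Co B) : ρ.IsConic :=
  ⟨h2, B, h3, h4, fun x X hX => by
    obtain ⟨Y, c, -, a2, a3⟩ := h x
    obtain ⟨d, -, rfl⟩ := a2.uniq hX
    exact ⟨d * d * c, by simp [a3, smul_smul, mul_assoc]⟩⟩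

/-- the deviation from the standard one-parameter group -/
def Lr (ρ : PRep Γ K) (κ : K) (y : Γ) (b l : K) : Prop := ρ.R y (un (κ * b) b (l + κ * b ^ 2 / 2))

theorem UD.lr_zero [Finite Γ] (h : ρ.UD u g γ) (hm : orderOf γ % 2 = 0 ∨ Nat.card (Cn u) = 2 * orderOf γ + 1)
    (hy : ρ.Lr κ y b l) : l = 0 := by
  have h2 := h.two
  have mul : ∀ {y y' b b' l l'}, ρ.Lr κ y b l → ρ.Lr κ y' b' l' → ρ.Lr κ (y * y') (b + b') (l + l') := fun p q =>
    (p.un_mul q).congr (by congr 1 <;> field_simp <;> ring)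
  have inv : ∀ {y b l}, ρ.Lr κ y b l → ρ.Lr κ y⁻¹ (-b) (-l) := fun p => p.un_inv.congr (by congr 1 <;> field_simp <;> ring)
  have cj : ∀ {y b l}, ρ.Lr κ y b l → ρ.Lr κ (g * y * g⁻¹) (γ * b) (γ ^ 2 * l) := fun p =>
    h.diag.conj_of p (by rw [diag_up]; mat)
  have uq : ∀ {y y' b l l'}, ρ.Lr κ y b l → ρ.Lr κ y' b l' → l = l' := fun p q => by
    have r := mul p (inv q)
    have := r.un_one_iff.1 (by_contra fun k => by
      obtain ⟨a, b, c, -, e, w⟩ := h.b.uni_of h2 ⟨_, _, _, r⟩ k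
      exact e (by simpa using ((w.un_eq_iff r).1 rfl).2.1))
    simpa [add_neg_eq_zero] using this.2.2
  have p1 := h.pow_ne (n := 1) (by omega) (by omega)
  have p2 := h.pow_ne (n := 2) (by omega) (by omega)
  have p3 := h.pow_ne (n := 3) (by omega) (by omega)
  have g0 := γ.ne_zero
  by_cases ho : orderOf γ % 2 = 0
  · have pw : ∀ i : ℕ, ∃ y, ρ.Lr κ y (γ ^ i * b) ((γ ^ i) ^ 2 * l) := fun i => by
      induction i with
      | zero => exact ⟨y, by simpa using hy⟩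
      | succ i ih => exact ⟨_, by convert cj ih.choose_spec using 1 <;> ring⟩
    obtain ⟨k, hk⟩ : ∃ k, orderOf γ = k + k := ⟨orderOf γ / 2, by omega⟩
    have e : (γ : K) ^ k = -1 := (mul_self_eq_one_iff.1 (by
      rw [← pow_add, ← hk, ← Units.val_pow_eq_pow_val, pow_orderOf_eq_one, Units.val_one])).resolve_left fun e => by
        have := h.four
        have := Nat.le_of_dvd (by omega) (orderOf_dvd_of_pow_eq_one (x := γ) (n := k) (Units.ext (by simpa using e)))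
        omega
    obtain ⟨y', e'⟩ := pw k
    rw [e, neg_one_mul] at e'
    have := uq e' (inv hy)
    grind
  by_cases hb : b = 0
  · subst hb
    exact uq hy (y' := 1) (by simpa [Lr] using ρ.un_one)
  have pw : ∀ i : ℕ, ∃ y, ρ.Lr κ y ((-γ : Kˣ) ^ i * b) ((-1) ^ i * ((-γ : Kˣ) ^ i) ^ 2 * l) := fun i => by
    induction i with
    | zero => exact ⟨y, by simpa using hy⟩
    | succ i ih => exact ⟨_, by convert inv (cj ih.choose_spec) using 1 <;> simp <;> ring⟩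
  choose f hf using pw
  have mem : ∀ {y b l}, ρ.Lr κ y b l → b ≠ 0 → y ∈ {y | y ∈ Cn u ∧ y ≠ 1} := fun p e =>
    ⟨h.Cn_eq ▸ ⟨_, _, _, p⟩, fun k => e (p.un_one_iff.1 k).2.1⟩
  have o : orderOf (-γ) = 2 * orderOf γ := by
    have : orderOf (-1 : Kˣ) = 2 := orderOf_eq_prime (by simp) fun e => h2 (by
      have := congrArg Units.val e; simp at this; grind)
    rw [← neg_one_mul, (Commute.all _ _).orderOf_mul_eq_mul_orderOf_of_coprime, this]
    rw [this]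
    exact (Nat.Prime.coprime_iff_not_dvd Nat.prime_two).2 (by omega)
  have : f '' Set.Iio (orderOf (-γ)) = {y | y ∈ Cn u ∧ y ≠ 1} := Set.eq_of_subset_of_ncard_le
    (by rintro _ ⟨i, -, rfl⟩; exact mem (hf i) (by simp [hb])) (by
      rw [Set.InjOn.ncard_image fun i hi j hj e => pow_injOn_Iio_orderOf hi hj (Units.ext (by
        simpa [hb] using (((hf i).un_eq_iff (hf j)).1 e).2.1)), ← Finset.coe_range, Set.ncard_coe_finset,
        Finset.card_range]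
      have := ncard_sharp (Cn u)
      omega)
  have r := mul hy (cj hy)
  obtain ⟨i, -, e⟩ := this.ge (mem r (by grind))
  obtain ⟨-, e1, e2⟩ := ((hf i).un_eq_iff r).1 e
  rw [e1] at e2
  generalize ((-γ : Kˣ) : K) ^ i = δ at e1 e2
  rcases neg_one_pow_eq_or K i with e | e <;> rw [e] at e2 <;> grind

theorem UD.conic [Finite Γ] (h : ρ.UD u g γ) (hm : orderOf γ % 2 = 0 ∨ Nat.card (Cn u) = 2 * orderOf γ + 1)
    (hN : Nat.card Γ = Nat.card (Cn u) * orderOf γ * (1 + Nat.card (Cn u))) (hs : s ∈ Nm (Cn g)) (hs' : s ∉ Cn g) :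
    ρ.IsConic := by
  have h2 := h.two
  rw [h.Cn_g] at hs hs'
  obtain ⟨σ, hσ⟩ := h.reg.mon (Nm_conj hs h.reg.mem)
  obtain rfl := (h.mon hσ).resolve_left fun e => hs' (Mon.one_iff.1 (e ▸ hσ))
  obtain ⟨d, hd⟩ := hσ
  have d0 := mn_ne hd.det
  rw [mn_sw1] at hd
  obtain ⟨a, b, c, ha, hb, hu⟩ := h.uni
  obtain ⟨κ, rfl⟩ : ∃ κ, a = κ * b := ⟨a / b, by field_simp⟩
  have κ0 : κ ≠ 0 := left_ne_zero_of_mul ha
  have key : ∀ y ∈ Cn u, ∃ b, ρ.R y (un (κ * b) b (κ * b ^ 2 / 2)) := fun y hy => by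
    obtain ⟨a', b', c', hy⟩ := h.Cn_eq ▸ hy
    obtain rfl : a' = κ * b' := mul_right_cancel₀ hb (by linear_combination -h.b.un_rel h2 hu hy)
    exact ⟨b', by rwa [← sub_eq_zero.1 (h.lr_zero hm (κ := κ) (y := y) (b := b') (l := c' - κ * b' ^ 2 / 2) (by simpa [Lr] using hy))]⟩
  have dec := h.ca.dec (h.cardN ▸ hN) (s := s) fun e => by
    obtain ⟨_, _, _, _, _, _, e⟩ := h.Nm_eq ▸ e
    obtain ⟨κ, -, e⟩ := e.uniq hd
    simp [d0] at e
  have c1 : Cn u ≤ ρ.Co !![0, 0, 1; 0, -κ, 0; 1, 0, 0] := fun y hy => by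
    obtain ⟨b, hy⟩ := key y hy
    refine ⟨_, 1, one_ne_zero, hy, ?_⟩
    ext i j
    fin_cases i <;> fin_cases j <;> simp [Matrix.mul_apply, Fin.sum_univ_three] <;> field_simp <;> ring
  have c2 : Nm (Cn u) ≤ ρ.Co !![0, 0, 1; 0, -κ, 0; 1, 0, 0] := fun x hx => by
    obtain ⟨i, hi⟩ := h.gen x hx
    refine (mul_mem_cancel_right (inv_mem (pow_mem ?_ i))).1 (c1 hi)
    exact ⟨_, (γ : K) ^ 2, by simp, h.diag, by rw [diag_up]; mat⟩
  have c3 : d 0 * d 2 = d 1 ^ 2 := by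
    obtain ⟨b', e⟩ := key u (self_mem_Cn u)
    obtain rfl : b = b' := ((hu.un_eq_iff e).1 rfl).2.1
    have r := (hd.mul e).mul hd
    rcases dec (s * u * s) with k | ⟨y, hy, w, hw, k⟩
    · obtain ⟨_, _, _, _, _, _, k⟩ := h.Nm_eq ▸ k
      obtain ⟨κ, -, k⟩ := k.uniq r
      simp [d0, hb] at k
    obtain ⟨b', hy⟩ := key y hy
    obtain ⟨l1, _, _, _, _, _, hw⟩ := h.Nm_eq ▸ hw
    obtain ⟨μ, -, k⟩ := ((hy.mul hd).mul hw).uniq (k ▸ r)
    have k0 := congrFun (congrFun k 0) 0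
    have k1 := congrFun (congrFun k 1) 0
    have k2 := congrFun (congrFun k 2) 0
    simp [Matrix.mul_apply, Fin.sum_univ_three] at k0 k1 k2
    have := d0 0
    field_simp at k0 k1 k2
    apply mul_left_cancel₀ (pow_ne_zero 2 hb)
    apply mul_left_cancel₀ κ0
    grind
  have c4 : s ∈ ρ.Co !![0, 0, 1; 0, -κ, 0; 1, 0, 0] := ⟨_, d 1 ^ 2, pow_ne_zero _ (d0 1), hd, by
    ext i j
    fin_cases i <;> fin_cases j <;> simp [Matrix.mul_apply, Fin.sum_univ_three] <;> grind⟩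
  refine conic_of (B := !![0, 0, 1; 0, -κ, 0; 1, 0, 0]) h2 (by mat) (by simpa [det_fin_three] using κ0) fun x => ?_
  rcases dec x with k | ⟨y, hy, w, hw, rfl⟩
  exacts [c2 k, mul_mem (mul_mem (c1 hy) c4) (c2 hw)]

theorem R.tt_Hm {k : Fin 3} (h : ρ.R t (tt k)) : ρ.Hm (-2) t (Pi.single k 1) (Pi.single k (-2)) :=
  ⟨(h.smul (c := -1) (by simp)).congr (by
    ext i j
    fin_cases k <;> fin_cases i <;> fin_cases j <;> simp [T, vecMulVec, tt] <;> norm_num), by simp⟩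

theorem B.comm_tt {k : Fin 3} (h : ρ.B) (h2 : (2 : K) ≠ 0) (ht : ρ.R t (tt k)) (hs : ρ.Hm (-2) s v φ)
    (e : v k * φ k = 0) : s ∈ Cn t := by
  have n := neg_ne_zero.2 h2
  rcases mul_eq_zero.1 e with e | e
  · exact mem_Cn.2 ((Hm.comm_iff h.s n ht.tt_Hm hs).2 (Or.inr (by simp [e])))
  · exact mem_Cn.2 ((Hm.comm_iff h.s n hs ht.tt_Hm).2 (Or.inr (by simp [e]))).symm

theorem B.sixty [Finite Γ] [Finite K] (h : ρ.B) (h2 : (2 : K) ≠ 0) (ht : Inv t) {A : Subgroup Γ} (hD : TD t A 1)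
    (hN : Nat.card Γ = 60) : ρ.OutB := by
  obtain ⟨s, hs, a, b⟩ : ∃ s, Inv s ∧ s ∈ Cn t ∧ s ≠ t := by
    by_contra hn
    push Not at hn
    have := (nv_eq_one ht (self_mem_Cn t) hn).symm.trans hD.ni
    omega
  obtain ⟨ρ', e, t0, t1⟩ := h.frame_pair h2 ht hs b a
  refine OutB.of_eqv e (Or.inl ?_)
  replace h := h.eqv e
  have hV := vier_of h2 t0 t1 (by decide)
  have ca : CA ρ'.V := fun y hy h1 => by
    obtain ⟨g, hg⟩ := hD.cls y ⟨h1, hy.2⟩
    exact (eq_of_le_of_card_ge (H := ρ'.V) (fun z hz => D_le_Cn hy.1 hz.1) (by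
      rw [← card_Cn_conj g, hg, hD.card, h.card_V hV])).symm
  obtain ⟨v, φ, -, -, k⟩ := h.inv_T ht
  obtain ⟨g, hg⟩ := k.exists_ncomm h.H h.s (neg_ne_zero.2 h2)
  obtain ⟨v, φ, -, -, k⟩ := h.inv_T (ht.conj g)
  have n : g * t * g⁻¹ ∉ ρ'.V := fun e => hg (D_comm t0.tt_mem e.1)
  have n0 : ∀ i, v i * φ i ≠ 0 := fun i e => by
    obtain ⟨w, hw⟩ := hV.2 i
    exact n (ca w ⟨hw.tt_mem, hw.tt_sq⟩ (hw.tt_inv h2).1 ▸ h.comm_tt h2 hw k e)
  have v0 := fun i => left_ne_zero_of_mul (n0 i)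
  have := ca.sq_le (s := g * t * g⁻¹) (C := ρ'.Co (diagonal fun i => φ i / v i))
    (fun e => n (ca.mem_of_pow e (by rw [h.card_V hV, pow_four_eq, (ht.conj g).2, mul_one]))) (fun y hy => by
      by_cases h1 : y = 1
      · exact h1 ▸ one_mem _
      obtain ⟨-, l, hl⟩ := h.inv_D hy.1 ⟨h1, hy.2⟩
      exact ⟨_, 1, one_ne_zero, hl, by simp [tt, fun (p : Prop) [Decidable p] => em p]; grind⟩) ⟨_, 1, one_ne_zero, k.r, by
      have e := k.e
      have a0 := v0 0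
      have a1 := v0 1
      have a2 := v0 2
      simp [dotProduct, Fin.sum_univ_three] at e
      ext i j
      fin_cases i <;> fin_cases j <;> simp [T, vecMulVec, Matrix.mul_apply, Fin.sum_univ_three, one_apply, diagonal] <;>
        field_simp <;> grind⟩
  refine conic_of h2 (diagonal_transpose fun i => φ i / v i) ?_ fun x => (eq_top_of_index_le h.H.perf ?_).ge (mem_top x)
  · simp only [det_diagonal, Finset.prod_ne_zero_iff]
    exact fun i _ => div_ne_zero (right_ne_zero_of_mul (n0 i)) (v0 i)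
  have e := (ρ'.Co (diagonal fun i => φ i / v i)).card_mul_index
  rw [h.card_V hV] at this
  rw [hN] at e
  nlinarith

theorem Hm.tr {k : Fin 3} (hs : ρ.Hm (-2) s v φ) (ht : ρ.R t (tt k)) {n : ℕ} (hn : (s * t) ^ n = 1) :
    ps (-1 - 2 * (v k * φ k)) n = 3 := by
  have r := (hs.r.smul (c := -1) (by simp)).mul ht
  have e := hs.e
  simp [dotProduct, Fin.sum_univ_three] at e
  have h1 : ((-1 : K) • T v φ * tt k).trace = -1 - 2 * (v k * φ k) := by
    fin_cases k <;> simp [T, vecMulVec, tt, trace, Fin.sum_univ_three] <;> grind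
  have h2 : e2 ((-1 : K) • T v φ * tt k) = -1 - 2 * (v k * φ k) := by
    fin_cases k <;> simp [T, vecMulVec, tt, e2] <;> grind
  have h3 : ((-1 : K) • T v φ * tt k).det = 1 := by
    rw [det_mul, det_smul, det_T, hs.e]
    fin_cases k <;> simp [tt, Fin.prod_univ_three] <;> norm_num
  obtain ⟨c, hc⟩ := (r.pow n).eq_one_iff.1 hn
  obtain ⟨w, w0, hw⟩ := exists_eig (M := (-1 : K) • T v φ * tt k) (a := 1) (by
    generalize (-1 : K) • T v φ * tt k = M at *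
    simp [e2, trace, Fin.sum_univ_three, det_fin_three] at h1 h2 h3 ⊢
    linear_combination h3 - h2 + h1)
  have : ∀ m, ((-1 : K) • T v φ * tt k) ^ m *ᵥ w = w := fun m => by
    induction m with
    | zero => simp
    | succ m ih => rw [pow_succ, ← mulVec_mulVec, hw, one_smul, ih]
  have c1 : c = 1 := smul_left_injective K w0 (by simpa only [hc, smul_mulVec, one_mulVec, one_smul] using this n)
  rw [← trace_pow h1 h2 h3, hc, c1]
  simp

theorem TA7.isA7 [Finite Γ] [Finite K] (e : ρ.Eqv ρ') (h : ρ'.TA7 t) (h5 : (5 : K) = 0) (hN : Nat.card Γ = 2520)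
    {j : Γ} (hj : Inv j) (hu : j * u * j⁻¹ = u⁻¹) (u1 : u ≠ 1) (u5 : u ^ 5 = 1)
    (hO : ∀ x ∈ OO Γ, (∃ s, Inv s ∧ s * x * s⁻¹ = x⁻¹) → x ^ 3 = 1 ∨ x ^ 5 = 1) : ρ.IsA7 := by
  obtain ⟨h2, hV⟩ := h.vier
  choose r hr using hV
  obtain ⟨z, -, -, ⟨ω, ω1, -, hz⟩, -⟩ := h.nine
  obtain ⟨g1, e1⟩ := h.cls j hj
  obtain ⟨g2, e2⟩ := h.cls _ ((hr 2).tt_inv h2)
  obtain ⟨y, y1, y5, hy⟩ : ∃ y, y ≠ 1 ∧ y ^ 5 = 1 ∧ r 2 * y * (r 2)⁻¹ = y⁻¹ :=
    ⟨g2⁻¹ * g1 * u * (g2⁻¹ * g1)⁻¹, by simpa only [Ne, conj_eq_one_iff] using u1, by simp only [conj_pow, u5]; simp, by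
      rw [show r 2 = g2⁻¹ * g1 * j * (g2⁻¹ * g1)⁻¹ by
        rw [show r 2 = g2⁻¹ * (g2 * r 2 * g2⁻¹) * g2 by group, e2, ← e1]; group]
      calc _ = g2⁻¹ * g1 * (j * u * j⁻¹) * (g2⁻¹ * g1)⁻¹ := by group
        _ = _ := by rw [hu]; group⟩
  have i2 := (hr 2).tt_inv h2
  have nc : y ∉ Cn (r 2) := fun k => y1 (by
    rw [mem_Cn.1 k, mul_inv_cancel_right] at hy
    rw [show 5 = 1 + 2 * 2 by rfl, pow_add, pow_mul, pow_two y, mul_eq_one_iff_eq_inv.2 hy] at y5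
    simpa using y5)
  have hs : Inv (y * r 2) := ⟨fun k => nc (by rw [eq_inv_of_mul_eq_one_left k]; exact inv_mem (self_mem_Cn _)), by
    rw [i2.inv_eq] at hy
    rw [mul_assoc, ← mul_assoc (r 2), hy, mul_inv_cancel]⟩
  obtain ⟨v, φ, -, -, k⟩ := h.b.inv_T hs
  have k2 := k.tr (hr 2) (n := 5) (by rwa [mul_assoc, i2.2, mul_one])
  have ke := k.e
  simp [dotProduct, Fin.sum_univ_three] at ke
  simp only [ps] at k2
  have a2 : v 2 * φ 2 = -2 := eq_neg_of_add_eq_zero_left (pow_eq_zero_iff (n := 5) (by decide) |>.1 (by grind))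
  have a0 : v 0 * φ 0 ≠ 0 := fun a0 => nc ((mul_mem_cancel_right (self_mem_Cn _)).1 (by
    have := mem_Cn_comm.1 (h.b.comm_tt h2 (hr 0) k a0)
    have := mul_mem this (mem_Cn_comm.1 (h.b.comm_tt h2 (hr 1) k (by grind)))
    rw [(tt_third (k := 2) (hr 0) (hr 1)).inj (hr 2)] at this
    exact mem_Cn_comm.1 this))
  have a5 : (v 0 * φ 0) ^ 5 = v 0 * φ 0 := by
    have : ∃ n, (n = 4 ∨ n = 6 ∨ n = 5) ∧ (y * r 2 * r 0) ^ n = 1 := by
      generalize hx : y * r 2 * r 0 = x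
      by_cases x2 : x * x = 1
      · exact ⟨4, by simp, by rw [pow_four_eq, x2, mul_one]⟩
      by_cases x0 : nv x = 0
      · rcases hO x ⟨x2, x0⟩ ⟨_, hs, by
          rw [← hx, ← mul_assoc, hs.2, _root_.mul_inv_rev (y * r 2), ((hr 0).tt_inv h2).inv_eq, one_mul]⟩ with a | a
        exacts [⟨6, by simp, by rw [show 6 = 3 * 2 by rfl, pow_mul, a, one_pow]⟩, ⟨5, by simp, a⟩]
      obtain ⟨g, hg⟩ := h.cls.conj_mem x0
      rcases h.alt _ hg (mt conj_mul_self.1 x2) with a | a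
      exacts [⟨4, by simp, by simpa using a.1⟩, ⟨6, by simp, by simpa using a.1⟩]
    obtain ⟨n, h1, h3⟩ := this
    have := k.tr (hr 0) h3
    generalize v 0 * φ 0 = a at this
    rcases h1 with rfl | rfl | rfl <;> simp only [ps] at this
    · have : a * (a + 1) * (a + 2) = 0 := pow_eq_zero_iff (n := 2) (by decide) |>.1 (by grind)
      grind
    · have : (a * (a - 1) * (a - 2) * (a - 3)) ^ 2 = 0 := by grind
      grind
    · have : (a - 3) ^ 5 = 0 := by grind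
      grind
  obtain ⟨P, Q, hP, rfl⟩ := e
  refine ⟨h5, hN, P, Q, hP, ω, 2 * (v 0 * φ 0), v, (2 : K) • φ, ω1, by grind, by simp; ring, by simp; grind,
    by simp; grind, ⟨_, (hr 2).congr ?_⟩, ⟨_, (hr 0).congr ?_⟩, ⟨_, hz⟩, _, (k.r.smul (c := -1) (by simp)).congr ?_⟩
  · ext i j
    fin_cases i <;> fin_cases j <;> simp [tt]
  · ext i j
    fin_cases i <;> fin_cases j <;> simp [tt]
  · ext i j
    simp [T, vecMulVec]
    grind

end PRep

end Cfsg.Agent.MH
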