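import Cfsg.Agent.MH.Grp

/-! More group theory: subgroups that are the centralisers of their elements, classes. -/

set_option autoImplicit false

namespace Cfsg.Agent.MH

open Subgroup

variable {Γ : Type*} [Group Γ]

theorem ncard_sharp [Finite Γ] (H : Subgroup Γ) : {y | y ∈ H ∧ y ≠ 1}.ncard + 1 = Nat.card H := by
  rw [← ncard_coe, ← Set.ncard_diff_singleton_add_one (s := (H : Set Γ)) H.one_mem]
  rfl

theorem free_dvd [Finite Γ] {H : Subgroup Γ} (h : ∀ y ∈ H, y ≠ 1 → ∀ g ∈ Nm H, g ∈ Cn y ↔ g ∈ H) :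
    ∃ m, Nat.card (Nm H) = Nat.card H * m ∧ m ∣ Nat.card H - 1 := by
  obtain ⟨m, hm⟩ := card_dvd_of_le (le_normalizer (H := H))
  obtain ⟨k, hk⟩ := card_dvd_of_conj_free (Nm H) H le_normalizer {y | y ∈ H ∧ y ≠ 1}
    (fun g hg y hy => ⟨Nm_conj hg hy.1, by simpa using hy.2⟩) fun g hg y hy => h y hy.1 hy.2 g hg
  refine ⟨m, hm, k, ?_⟩
  rw [hm, mul_left_comm] at hk
  have := Nat.eq_of_mul_eq_mul_left Nat.card_pos hk
  have := ncard_sharp H
  rw [mul_comm]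
  omega

theorem CA.card_Nm [Finite Γ] {H : Subgroup Γ} (h : CA H) :
    ∃ m, Nat.card (Nm H) = Nat.card H * m ∧ m ∣ Nat.card H - 1 := free_dvd fun y hy h1 g _ => by rw [h y hy h1]

theorem CA.mem_of_pow [Finite Γ] {H : Subgroup Γ} (h : CA H) {y : Γ} (hy : y ∈ Nm H) (h1 : y ^ Nat.card H = 1) :
    y ∈ H := by
  obtain ⟨m, hm, k, hk⟩ := h.card_Nm
  have h2 : (H.subgroupOf (Nm H)).index = m := by
    have := (H.subgroupOf (Nm H)).card_mul_index
    rw [Nat.card_congr (subgroupOfEquivOfLe le_normalizer).toEquiv, hm] at this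
    exact Nat.eq_of_mul_eq_mul_left Nat.card_pos this
  have h3 : y ^ m ∈ H := h2 ▸ (H.subgroupOf (Nm H)).pow_index_mem ⟨y, hy⟩
  have h4 : Nat.card H = m * k + 1 := by have := Nat.card_pos (α := H); omega
  rw [h4, pow_succ, pow_mul] at h1
  rw [eq_inv_of_mul_eq_one_right h1]
  exact H.inv_mem (H.pow_mem h3 k)

theorem CA.card_eq [Finite Γ] {H : Subgroup Γ} (h : CA H) :
    ∃ μ, Nat.card Γ = Nat.card (Nm H) * (1 + Nat.card H * μ) := by
  obtain ⟨k, hk⟩ := card_dvd_of_free H (X := Γ ⧸ Nm H) {c | c ≠ ((1 : Γ) : Γ ⧸ Nm H)} (fun g hg c hc e => hc (by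
    rw [← inv_smul_smul g c, e]
    exact QuotientGroup.eq.2 (by simpa using le_normalizer hg))) ⊥ (fun u hu c hc => by
      obtain ⟨g, rfl⟩ := QuotientGroup.mk_surjective c
      refine ⟨fun e => by_contra fun h1 => hc ?_, by rintro rfl; simp⟩
      have e1 : g⁻¹ * u⁻¹ * g⁻¹⁻¹ ∈ Nm H := by simpa [mul_assoc] using QuotientGroup.eq.1 e
      have e2 := h.mem_of_pow e1 (by
        rw [conj_pow, inv_pow, show u ^ Nat.card H = 1 from congrArg Subtype.val (pow_card_eq_one' (x := (⟨u, hu⟩ : H)))]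
        simp)
      exact QuotientGroup.eq.2 (by simpa using h.mem_Nm (H.inv_mem hu) (by simpa using h1) e2)) bot_le (Set.toFinite _)
  refine ⟨k, ?_⟩
  rw [← (Nm H).card_mul_index, index, ← Set.ncard_univ (Γ ⧸ Nm H), ← Set.ncard_diff_singleton_add_one (Set.mem_univ
    ((1 : Γ) : Γ ⧸ Nm H)), mul_comm _ k, ← hk, add_comm]
  simp [Set.diff_eq, Set.compl_def]

theorem conj_mem_Nm_Cn [Finite Γ] {g x y : Γ} (h : y ∈ Nm (Cn x)) : g * y * g⁻¹ ∈ Nm (Cn (g * x * g⁻¹)) :=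
  mem_Nm fun z hz => by
    have : g⁻¹ * z * g ∈ Cn x := conj_mem_Cn.1 (by simpa [mul_assoc] using hz : g * (g⁻¹ * z * g) * g⁻¹ ∈ _)
    simpa [mul_assoc] using (conj_mem_Cn (g := g)).2 (Nm_conj h this)

theorem card_Nm_conj [Finite Γ] (g x : Γ) : Nat.card (Nm (Cn (g * x * g⁻¹))) = Nat.card (Nm (Cn x)) := by
  rw [← ncard_coe, ← ncard_coe, ← ncard_conj g]
  congr 1
  ext y
  exact ⟨fun h => by simpa [mul_assoc] using conj_mem_Nm_Cn (g := g⁻¹) h, conj_mem_Nm_Cn⟩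

theorem five_le_card [Finite Γ] {C : Subgroup Γ} {x y : Γ} (hx : x ∈ C) (hy : y ∈ C) (h : x * y ≠ y * x) :
    5 ≤ Nat.card C := by
  classical
  have x1 : x ≠ 1 := by rintro rfl; simp at h
  have y1 : y ≠ 1 := by rintro rfl; simp at h
  have xy : x ≠ y := by rintro rfl; simp at h
  have a1 : x * y ≠ 1 := fun e => h (by rw [e, mul_eq_one_comm.1 e])
  have a2 : y * x ≠ 1 := fun e => h (by rw [e, mul_eq_one_comm.1 e])
  have : ({1, x, y, x * y, y * x} : Finset Γ).card = 5 := by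
    rw [Finset.card_insert_of_notMem, Finset.card_insert_of_notMem, Finset.card_insert_of_notMem,
      Finset.card_pair h] <;> simp [x1, y1, xy, x1.symm, y1.symm, a1.symm, a2.symm]
  rw [← this, ← ncard_coe, ← Set.ncard_coe_finset]
  exact Set.ncard_le_ncard (by simp [Set.insert_subset_iff, hx, hy, C.mul_mem, C.one_mem])

theorem nv_eq_zero [Finite Γ] {x : Γ} : nv x = 0 ↔ ∀ s, Inv s → s ∉ Cn x := by
  simp [nv, Set.ncard_eq_zero (Set.toFinite _), Set.eq_empty_iff_forall_notMem]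

theorem nv_eq_one {x t : Γ} (ht : Inv t) (hx : t ∈ Cn x) (h : ∀ s, Inv s → s ∈ Cn x → s = t) : nv x = 1 :=
  Set.ncard_eq_one.2 ⟨t, Set.ext fun s => ⟨fun k => h s k.1 k.2, by rintro rfl; exact ⟨ht, hx⟩⟩⟩

theorem odd_card [Finite Γ] {H : Subgroup Γ} (h : ∀ s, Inv s → s ∉ H) : Nat.card H % 2 = 1 := by
  by_contra hn
  obtain ⟨s, h1, h2⟩ := exists_mem_inv (H := H) (by omega)
  exact h s h2 h1

theorem two_dvd_card {H : Subgroup Γ} {s : Γ} (h : Inv s) (hs : s ∈ H) : 2 ∣ Nat.card H :=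
  h.orderOf ▸ orderOf_dvd_card_of_mem hs

theorem three_dvd_card {H : Subgroup Γ} {s : Γ} (h1 : s ≠ 1) (h : s ^ 3 = 1) (hs : s ∈ H) : 3 ∣ Nat.card H :=
  haveI := Fact.mk Nat.prime_three
  orderOf_eq_prime h h1 ▸ orderOf_dvd_card_of_mem hs

theorem two_le_card [Finite Γ] {H : Subgroup Γ} {s : Γ} (h1 : s ≠ 1) (hs : s ∈ H) : 2 ≤ Nat.card H :=
  (one_lt_card_iff_ne_bot H).2 fun e => h1 (by simpa [e] using hs)

/-- an involution acting without fixed points inverts -/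
theorem inverts {H : Subgroup Γ} {j y : Γ} (hj : j * j = 1) (hN : j ∈ Nm H) (hy : y ∈ H)
    (hc : ∀ x ∈ H, ∀ y ∈ H, x * y = y * x) (h : ∀ y ∈ H, j ∈ Cn y → y = 1) : j * y * j⁻¹ = y⁻¹ := by
  have h1 := Nm_conj hN hy
  refine eq_inv_of_mul_eq_one_left (h _ (H.mul_mem h1 hy) (mem_Cn.2 ?_))
  have e := hc _ h1 _ hy
  rw [inv_eq_of_mul_eq_one_right hj] at e ⊢
  calc j * y * j * y * j = y * (j * y * j) * j := by rw [e]
    _ = y * j * y * (j * j) := by group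
    _ = (j * j) * y * j * y := by rw [hj, mul_one, one_mul]
    _ = _ := by simp only [mul_assoc]

/-- the elements that are not involutions and commute with no involution -/
def OO (Γ : Type*) [Group Γ] : Set Γ := {x | x * x ≠ 1 ∧ nv x = 0}

theorem OO_conj (g : Γ) {x : Γ} (h : x ∈ OO Γ) : g * x * g⁻¹ ∈ OO Γ := ⟨mt conj_mul_self.1 h.1, (nv_conj g x).trans h.2⟩

theorem OO_ne {x : Γ} (h : x ∈ OO Γ) : x ≠ 1 := by rintro rfl; exact h.1 (mul_one 1)

theorem mem_OO [Finite Γ] {x : Γ} (h1 : x ≠ 1) (h : ∀ s, Inv s → s ∉ Cn x) : x ∈ OO Γ :=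
  ⟨fun e => h x ⟨h1, e⟩ (self_mem_Cn x), nv_eq_zero.2 h⟩

theorem CA.mem_OO [Finite Γ] {H : Subgroup Γ} (h : CA H) (ho : Nat.card H % 2 = 1) {y : Γ} (hy : y ∈ H) (h1 : y ≠ 1) :
    y ∈ OO Γ := MH.mem_OO h1 fun s hs e => by have := two_dvd_card hs (h y hy h1 ▸ e); omega

theorem CA.card_OO [Finite Γ] {H : Subgroup Γ} (h : CA H) (ho : Nat.card H % 2 = 1) :
    (OO Γ ∩ H).ncard + 1 = Nat.card H := by
  rw [← ncard_sharp]
  congr 2
  ext y
  exact ⟨fun k => ⟨k.2, OO_ne k.1⟩, fun k => ⟨h.mem_OO ho k.1 k.2, k.1⟩⟩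

theorem card_OO_conj (g x : Γ) : (OO Γ ∩ Cn (g * x * g⁻¹)).ncard = (OO Γ ∩ Cn x).ncard := by
  rw [← ncard_conj g]
  congr 1
  ext y
  exact and_congr ⟨fun h => by simpa [mul_assoc] using OO_conj g⁻¹ h, OO_conj g⟩ conj_mem_Cn

theorem CA.coprime_Cn [Finite Γ] {H : Subgroup Γ} (h : CA H) (ho : Nat.card H % 2 = 1) {t : Γ} (ht : Inv t) :
    (Nat.card H).Coprime (Nat.card (Cn t)) := Nat.coprime_of_dvd fun r hr h1 h2 => by
  obtain ⟨y, hy, e⟩ := exists_mem_orderOf hr h2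
  obtain ⟨g, hg⟩ := h.exists_conj hr h1 (e ▸ pow_orderOf_eq_one y)
  have y1 : y ≠ 1 := by rintro rfl; exact hr.one_lt.ne (by simpa using e)
  exact nv_eq_zero.1 (h.mem_OO ho hg (by simpa using y1)).2 _ (ht.conj g) (conj_mem_Cn.2 (mem_Cn_comm.1 hy))

theorem CA.real_le [Finite Γ] {H : Subgroup Γ} (h : CA H) (ho : Nat.card H % 2 = 1) (he : 2 ∣ Nat.card (Nm H)) :
    (cls (OO Γ) H).ncard * Nat.card H ≤ {s : Γ | Inv s}.ncard ^ 2 := by
  obtain ⟨j, hN, hj⟩ := exists_mem_inv he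
  have jH : j ∉ H := fun e => by have := two_dvd_card hj e; omega
  have inv : ∀ y ∈ H, Inv (j * y) := fun y hy => ⟨fun e => jH (by
      rw [eq_inv_of_mul_eq_one_left e]; exact H.inv_mem hy), by
    have := inverts hj.2 hN hy (fun _ a _ b => h.comm a b) fun y hy e => by_contra fun k => jH (h y hy k ▸ e)
    rw [hj.inv_eq] at this
    rw [← mul_assoc, this, inv_mul_cancel]⟩
  refine pair_count fun x ⟨_, g, hg⟩ => ?_
  rw [← ncard_coe]
  refine Set.ncard_le_ncard_of_injOn (fun y => g⁻¹ * (j * y) * g⁻¹⁻¹) (fun y hy => ⟨(inv y hy).conj _, ?_⟩)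
    (fun a _ b _ e => by simpa using e)
  simpa [mul_assoc] using (inv _ (H.mul_mem hy hg)).conj g⁻¹

end Cfsg.Agent.MH
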