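import Cfsg.Agent.MH.Blk

/-! Pairs of homologies. -/

set_option autoImplicit false

namespace Cfsg.Agent.MH

open Matrix MulAction Cfsg.Agent.H4 Cfsg.Agent.H4.Mob Cfsg.Agent.H4.Bar Cfsg.Agent.H4.Pair Cfsg.Agent.H4.Dick

variable {Γ K : Type*} [Group Γ] [Field K]

/-- possible ratios of homologies -/
def Ord (l : K) : Prop := l + 1 = 0 ∨ l ^ 2 + l + 1 = 0 ∨ l ^ 2 + 1 = 0 ∨ l ^ 4 + l ^ 3 + l ^ 2 + l + 1 = 0

theorem not_ord_neg {l : K} (h2 : (2 : K) ≠ 0) (h : l ^ 2 + l + 1 = 0) (h1 : l ≠ 1) : ¬ Ord (-l) := by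
  have l0 : l ≠ 0 := by rintro rfl; simp at h
  rintro (e | e | e | e)
  · exact h1 (by linear_combination -e)
  · exact mul_ne_zero h2 l0 (by linear_combination h - e)
  · exact l0 (by linear_combination h - e)
  · exact pow_ne_zero 2 l0 (by linear_combination e - (l ^ 2 - 2 * l + 1) * h)

theorem S4_mul : ∀ a b : Equiv.Perm (Fin 4), a ^ 2 ≠ 1 → b ^ 2 ≠ 1 → (a ^ 3 = 1 ↔ b ^ 3 = 1) →
    (a * b) ^ 2 = 1 ∨ (a * b) ^ 3 = 1 := by
  have : ∀ a b : Equiv.Perm (Fin 4), a ^ 2 = 1 ∨ b ^ 2 = 1 ∨ (a ^ 3 = 1 ∧ b ^ 3 ≠ 1) ∨ (a ^ 3 ≠ 1 ∧ b ^ 3 = 1) ∨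
    (a * b) ^ 2 = 1 ∨ (a * b) ^ 3 = 1 := by decide +kernel
  intro a b h1 h2 h3
  rcases this a b with k | k | k | k | k
  exacts [absurd k h1, absurd k h2, absurd (h3.1 k.1) k.2, absurd (h3.2 k.2) k.1, k]

theorem mob_pow3' {a b c d : K} {h : a * d - b * c ≠ 0} (e : (a + d) ^ 2 - (a * d - b * c) = 0) :
    mob a b c d h ^ 3 = 1 := by
  simp only [pow_succ, pow_zero, one_mul, mob_mul, mob_eq_one]
  exact ⟨by linear_combination b * e, by linear_combination c * e, by linear_combination (a - d) * e⟩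

theorem small_facts {M : Type*} [Group M]
    (h : Nonempty (M ≃* alternatingGroup (Fin 4)) ∨ Nonempty (M ≃* Equiv.Perm (Fin 4))) :
    (∀ g : M, g ^ 3 = 1 ∨ g ^ 4 = 1) ∧ ∀ a b : M, a ^ 2 ≠ 1 → b ^ 2 ≠ 1 → (a ^ 3 = 1 ↔ b ^ 3 = 1) →
      (a * b) ^ 2 = 1 ∨ (a * b) ^ 3 = 1 := by
  obtain ⟨f, hf⟩ : ∃ f : M →* Equiv.Perm (Fin 4), Function.Injective f := by
    rcases h with ⟨⟨e⟩⟩ | ⟨⟨e⟩⟩
    · exact ⟨(alternatingGroup _).subtype.comp e, (Subgroup.subtype_injective _).comp e.injective⟩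
    · exact ⟨e, e.injective⟩
  refine ⟨fun g => ?_, fun a b => ?_⟩
  · simpa only [← map_pow, map_eq_one_iff _ hf] using Small.S4_pow (f g)
  · simpa only [← map_mul, ← map_pow, map_eq_one_iff _ hf, ne_eq] using S4_mul (f a) (f b)

theorem det_ne_of_pair {v w φ ψ O : V3 K} {d : K} (h1 : φ ⬝ᵥ v = d) (h2 : ψ ⬝ᵥ w = d)
    (h : (φ ⬝ᵥ w) * (ψ ⬝ᵥ v) ≠ d ^ 2) (hO : O ≠ 0) (h3 : φ ⬝ᵥ O = 0) (h4 : ψ ⬝ᵥ O = 0) : (col3 v w O).det ≠ 0 :=
  det_col3_ne fun a b c e => by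
    have e1 := congrArg (φ ⬝ᵥ ·) e
    have e2 := congrArg (ψ ⬝ᵥ ·) e
    simp only [dotProduct_add, dotProduct_smul, h1, h2, h3, h4, smul_eq_mul, dotProduct_zero] at e1 e2
    have ha : a = 0 := mul_left_cancel₀ (sub_ne_zero.2 h) (by linear_combination (φ ⬝ᵥ w) * e2 - d * e1)
    have hb : b = 0 := mul_left_cancel₀ (sub_ne_zero.2 h) (by linear_combination (ψ ⬝ᵥ v) * e1 - d * e2)
    exact ⟨ha, hb, by simpa [ha, hb, hO] using e⟩

theorem exists_common (φ ψ : V3 K) : ∃ u : V3 K, u ≠ 0 ∧ φ ⬝ᵥ u = 0 ∧ ψ ⬝ᵥ u = 0 := by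
  have : (Matrix.of ![φ, ψ, 0]).det = 0 := det_eq_zero_of_row_eq_zero 2 (by simp)
  obtain ⟨u, hu, e⟩ := exists_mulVec_eq_zero_iff.2 this
  exact ⟨u, hu, by simpa [mulVec] using congrFun e 0, by simpa [mulVec] using congrFun e 1⟩

namespace PRep

variable {ρ : PRep Γ K} {x y s s' : Γ} {X Y : M3 K} {c u v w φ ψ χ θ : V3 K} {d : K}

theorem two_coord {t e t' e' : K} (h1 : ρ.Pe ![t, 1, 0] ![0, d, e]) (h2 : ρ.Pe ![t', 1, 0] ![0, d, e']) :
    ∃ y c, ρ.R y !![1, (t - t') * d / (1 + d), c; 0, 1, e - e'; 0, 0, 1] := by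
  have hl : 1 + d ≠ 0 := by simpa using h1.ne
  obtain ⟨x, hx⟩ := h1
  obtain ⟨y, hy⟩ := h2
  refine ⟨_, t * e - t' * e' - (t - t') * d / (1 + d) * e', hy.of_mul_right (hx.congr ?_)⟩
  ext i j
  fin_cases i <;> fin_cases j <;> simp [T, vecMulVec, Matrix.mul_apply, Fin.sum_univ_three, one_apply]
  field_simp
  ring

theorem Small.e_ne (h : ρ.Small) (hd : d ≠ 0) {t e t' e' : K} (h1 : ρ.Pe ![t, 1, 0] ![0, d, e])
    (h2 : ρ.Pe ![t', 1, 0] ![0, d, e']) (ht : t ≠ t') : e - e' ≠ 0 := fun k => by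
  rw [sub_eq_zero.1 k] at h1
  exact ht (by simpa using h.centre h2 h1 (by simpa using hd) (by simp))

theorem Small.pair_coord (h : ρ.Small) (hd : d ≠ 0) (hd2 : 1 + d + 1 ≠ 0) {t e : K} (h1 : ρ.Pe ![0, 1, 0] ![0, d, 0])
    (h2 : ρ.Pe ![t, 1, 0] ![0, d, e]) (ht : t ≠ 0) : (2 : K) = 0 ∧ (1 + d) ^ 2 + (1 + d) + 1 = 0 := by
  have hl : 1 + d ≠ 0 := by simpa using h1.ne
  have he := h.e_ne hd h2 h1 ht
  obtain ⟨y, c, hy⟩ := two_coord h2 h1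
  have ha : (t - 0) * d / (1 + d) ≠ 0 := by simp [ht, hd, hl]
  generalize (t - 0) * d / (1 + d) = a at *
  generalize e - 0 = b at *
  obtain ⟨x, hx⟩ := h1
  have hz := hx.conj_of hy (Z := !![1, a / (1 + d), c; 0, 1, (1 + d) * b; 0, 0, 1]) (by
    ext i j
    fin_cases i <;> fin_cases j <;> simp [T, vecMulVec, Matrix.mul_apply, Fin.sum_univ_three, one_apply, hl])
  have e1 := uni_comm' hy hz
  have n : a * ((1 + d) * b) - a / (1 + d) * b ≠ 0 := fun k => by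
    field_simp at k
    exact mul_ne_zero (mul_ne_zero ha he) (mul_ne_zero hd hd2) (by linear_combination k)
  have h2 := h.two e1 (by simp) (by simpa using n)
  refine ⟨h2, ?_⟩
  have := (h.el13 ⟨by simp, _, uni_sq h2 hy⟩ e1 (mul_ne_zero ha he)).resolve_left n
  field_simp at this
  linear_combination this + (2 + d) * h2

theorem Small.three_coord (h : ρ.Small) (h2 : (2 : K) = 0) (hd : d ≠ 0) {t e t' e' : K}
    (h0 : ρ.Pe ![0, 1, 0] ![0, d, 0]) (h1 : ρ.Pe ![t, 1, 0] ![0, d, e]) (h3 : ρ.Pe ![t', 1, 0] ![0, d, e'])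
    (ht : t ≠ 0) (ht' : t' ≠ 0) (htt : t ≠ t') : t ^ 2 + t * t' + t' ^ 2 = 0 := by
  have hl : 1 + d ≠ 0 := by simpa using h1.ne
  have key : ∀ {t e t' e' : K}, ρ.Pe ![t, 1, 0] ![0, d, e] → ρ.Pe ![t', 1, 0] ![0, d, e'] → t ≠ t' →
      ρ.El ![1, 0, 0] ![0, 0, (t - t') * d / (1 + d) * (e - e')] ∧ (t - t') * d / (1 + d) * (e - e') ≠ 0 :=
    fun h1 h3 ht => by
      obtain ⟨y, c, hy⟩ := two_coord h1 h3
      exact ⟨⟨by simp, _, uni_sq h2 hy⟩, mul_ne_zero (by simp [sub_ne_zero.2 ht, hd, hl]) (h.e_ne hd h1 h3 ht)⟩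
  obtain ⟨a1, a2⟩ := key h1 h0 ht
  obtain ⟨b1, b2⟩ := key h3 h0 ht'
  obtain ⟨c1, c2⟩ := key h1 h3 htt
  have e1 := (h.el13 a1 b1 a2).resolve_left b2
  have e2 := (h.el13 a1 c1 a2).resolve_left c2
  have he := h.e_ne hd h1 h0 ht
  field_simp at e1 e2
  apply mul_left_cancel₀ he
  linear_combination -t' * e2 + (t' - t) * e1 + (t * t' * e) * h2

theorem coord_one (hd : d ≠ 0) (h1 : ρ.Pe v φ) (e1 : φ ⬝ᵥ v = d) {O : V3 K} (i : Ind O v) (e2 : φ ⬝ᵥ O = 0) :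
    ∃ P Q, ∃ h : P * Q = 1, (ρ.cj P Q h).Pe ![0, 1, 0] ![0, d, 0] ∧ ∀ (t : K) θ, ρ.Pe (v + t • O) θ →
      θ ⬝ᵥ (v + t • O) = d → θ ⬝ᵥ O = 0 → ∃ e, (ρ.cj P Q h).Pe ![t, 1, 0] ![0, d, e] := by
  obtain ⟨z, hz⟩ := i.exists_third
  have hz' : (col3 O v (z - (φ ⬝ᵥ z / d) • v)).det ≠ 0 := by
    rw [det_col3_eq] at hz ⊢
    rwa [dotProduct_sub, dotProduct_smul, dotProduct_comm _ v, dot_cross_self, smul_zero, sub_zero]
  obtain ⟨Q, hQ⟩ := exists_inv hz'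
  refine ⟨_, Q, hQ, (Pe.cj' (φ := φ) (by rwa [col3_e1])).congr rfl (by simp [vecMul_col3, e1, e2, hd]),
    fun t θ k1 k2 k3 => ⟨θ ⬝ᵥ (z - (φ ⬝ᵥ z / d) • v),
      (Pe.cj' (φ := θ) (k1.congr (by simp [col3_mulVec, add_comm]) rfl)).congr rfl ?_⟩⟩
  simp only [dotProduct_add, dotProduct_smul, k3, smul_zero, add_zero] at k2
  rw [vecMul_col3, k2, k3]

theorem Small.pair_one (h : ρ.Small) (hd : d ≠ 0) (hd2 : 1 + d + 1 ≠ 0) (h1 : ρ.Pe v φ) (h2 : ρ.Pe w ψ)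
    (e1 : φ ⬝ᵥ v = d) (e2 : ψ ⬝ᵥ w = d) (i : Ind v w) (e : (φ ⬝ᵥ w) * (ψ ⬝ᵥ v) = d ^ 2) :
    (2 : K) = 0 ∧ (1 + d) ^ 2 + (1 + d) + 1 = 0 ∧ ∀ (α β : K) θ, ρ.Pe (α • v + β • w) θ →
      θ ⬝ᵥ (α • v + β • w) = d → α * d + β * (φ ⬝ᵥ w) ≠ 0 → (φ ⬝ᵥ w) * (θ ⬝ᵥ v) = d * (θ ⬝ᵥ w) → α = 0 ∨ β = 0 ∨
      α * d + β * (φ ⬝ᵥ w) = (1 + d) * (β * (φ ⬝ᵥ w)) ∨ α * d + β * (φ ⬝ᵥ w) = (1 + d) ^ 2 * (β * (φ ⬝ᵥ w)) := by
  have ha : φ ⬝ᵥ w ≠ 0 := fun k => hd (by simpa [k] using e.symm)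
  obtain ⟨P, Q, hP, k0, k⟩ := coord_one hd h1 e1 (O := (φ ⬝ᵥ w) • v - d • w) (fun a b e => by
    obtain ⟨k1, k2⟩ := i (a * (φ ⬝ᵥ w) + b) (-(a * d)) (by
      rw [← e]; simp only [smul_sub, smul_smul, add_smul, neg_smul]; abel)
    have : a = 0 := by simpa [hd] using k2
    exact ⟨this, by simpa [this] using k1⟩) (by simp [e1, mul_comm])
  have key : ∀ (α β : K) θ, ρ.Pe (α • v + β • w) θ → θ ⬝ᵥ (α • v + β • w) = d → α * d + β * (φ ⬝ᵥ w) ≠ 0 →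
      (φ ⬝ᵥ w) * (θ ⬝ᵥ v) = d * (θ ⬝ᵥ w) →
      ∃ e, (ρ.cj P Q hP).Pe ![-β / (α * d + β * (φ ⬝ᵥ w)), 1, 0] ![0, d, e] := fun α β θ a1 a2 a3 a4 => by
    have : v + (-β / (α * d + β * (φ ⬝ᵥ w))) • ((φ ⬝ᵥ w) • v - d • w) =
        (d / (α * d + β * (φ ⬝ᵥ w))) • (α • v + β • w) := by
      match_scalars <;> field_simp <;> ring
    refine k _ (((α * d + β * (φ ⬝ᵥ w)) / d) • θ) ?_ ?_ (by
      simp only [dotProduct_sub, dotProduct_smul, smul_dotProduct, smul_eq_mul]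
      linear_combination (α * d + β * φ ⬝ᵥ w) / d * a4)
    · rw [this, pe_smul, smul_smul]
      exact a1.congr rfl (by rw [div_mul_div_cancel₀ a3, div_self hd, one_smul])
    · rw [this, dotProduct_smul, smul_dotProduct, a2, smul_eq_mul, smul_eq_mul, ← mul_assoc,
        div_mul_div_cancel₀ a3, div_self hd, one_mul]
  obtain ⟨e0, k1⟩ := key 0 1 ψ (by simpa using h2) (by simpa using e2) (by simpa using ha) (by rw [e, e2, pow_two])
  have t0 : -1 / (0 * d + 1 * φ ⬝ᵥ w) ≠ 0 := by simp [ha]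
  obtain ⟨c1, c2⟩ := (h.cj hP).pair_coord hd hd2 k0 k1 t0
  refine ⟨c1, c2, fun α β θ a1 a2 a3 a4 => ?_⟩
  obtain ⟨e', k2⟩ := key α β θ a1 a2 a3 a4
  by_cases hα : α = 0
  · exact Or.inl hα
  by_cases hβ : β = 0
  · exact Or.inr (Or.inl hβ)
  have := (h.cj hP).three_coord c1 hd k0 k1 k2 t0 (by simp [hβ, a3]) (fun k => by
    rw [div_eq_div_iff (by simpa using ha) a3] at k
    exact mul_ne_zero hα hd (by linear_combination -k))
  simp only [zero_mul, one_mul, zero_add] at this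
  refine Or.inr (Or.inr ?_)
  rw [← sub_eq_zero, ← sub_eq_zero (a := α * d + β * (φ ⬝ᵥ w)), ← mul_eq_zero]
  generalize α * d + β * (φ ⬝ᵥ w) = A at *
  field_simp at this
  linear_combination this + (d * (β * φ ⬝ᵥ w) ^ 2 - A * (β * φ ⬝ᵥ w)) * c2

theorem Small.blk_pair [Finite K] (h : ρ.Small) {l a b : K} (hs : ρ.R s !![l, a, 0; 0, 1, 0; 0, 0, 1])
    (hs' : ρ.R s' !![1, 0, 0; b, l, 0; 0, 0, 1]) (ha : a ≠ 0) (hb : b ≠ 0) (hab : a * b ≠ (l - 1) ^ 2)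
    (h1 : l ≠ 1) (h2 : l + 1 ≠ 0) :
    (2 : K) ≠ 0 ∧ (Nonempty (ρ.piM ρ.blk ≃* alternatingGroup (Fin 4)) ∨
      Nonempty (ρ.piM ρ.blk ≃* Equiv.Perm (Fin 4)) ∨ Nonempty (ρ.piM ρ.blk ≃* alternatingGroup (Fin 5))) := by
  have m1 := hs.mob_mem' hs.mem_blk
  have m2 := hs'.mob_mem' hs'.mem_blk
  rcases h.blk_cases le_rfl with ⟨x, k⟩ | ⟨x, y, hxy, k⟩ | k
  · exfalso
    have e1 : _ • x = x := k m1
    have e2 : _ • x = x := k m2
    rcases P1_cases x with rfl | ⟨t, rfl⟩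
    · exact hb (mob_smul_inf_eq_inf.1 e2)
    · rw [mob_smul_pt_eq_pt] at e1 e2
      have : t ≠ 0 := by rintro rfl; exact ha (by simpa using e1)
      apply hab
      have e3 : b * t + l = 1 := mul_right_cancel₀ this (by linear_combination -e2)
      linear_combination b * e1 + (1 - l) * e3
  · exfalso
    have t : ∀ g ∈ ρ.piM ρ.blk, g ^ 2 ≠ 1 → g ∈ Tor x y := fun g hg h2 =>
      by_contra fun hn => h2 (by rw [pow_two]; exact mul_self_eq_one hxy.ne (k hg) hn)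
    have := Tor_comm hxy.ne (t _ m1 fun e => by simpa [ha, h2] using mob_pow2 e)
      (t _ m2 fun e => by simpa [hb, h2, add_comm] using mob_pow2 e)
    simp only [mob_mul, mob_eq_mob] at this
    obtain ⟨u, -, e2, e3, -⟩ := this
    have e4 : u * l = 1 := mul_left_cancel₀ ha (by linear_combination -e2)
    have e5 : u = l := mul_left_cancel₀ hb (by linear_combination -e3)
    exact mul_ne_zero (sub_ne_zero.2 h1) h2 (by linear_combination e4 - l * e5)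
  · exact k

theorem blk_coord (h1 : ρ.Pe v φ) (h2 : ρ.Pe w ψ) (e1 : φ ⬝ᵥ v = d) (e2 : ψ ⬝ᵥ w = d) {O : V3 K}
    (h3 : φ ⬝ᵥ O = 0) (h4 : ψ ⬝ᵥ O = 0) {Q : M3 K} (hQ : col3 v w O * Q = 1) :
    ∃ s s', (ρ.cj _ Q hQ).R s !![1 + d, φ ⬝ᵥ w, 0; 0, 1, 0; 0, 0, 1] ∧
      (ρ.cj _ Q hQ).R s' !![1, 0, 0; ψ ⬝ᵥ v, 1 + d, 0; 0, 0, 1] := by
  obtain ⟨s, hs⟩ := Pe.cj' (h := hQ) (v := ![1, 0, 0]) (φ := φ) (by rwa [col3_e0])
  obtain ⟨s', hs'⟩ := Pe.cj' (h := hQ) (v := ![0, 1, 0]) (φ := ψ) (by rwa [col3_e1])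
  rw [vecMul_col3] at hs hs'
  exact ⟨s, s', hs.congr (by rw [e1, h3]; mat), hs'.congr (by rw [e2, h4]; mat)⟩

/-- `x` is the homology with centre `v` and axis `φ` -/
structure Hm (ρ : PRep Γ K) (d : K) (x : Γ) (v φ : V3 K) : Prop where
  r : ρ.R x (T v φ)
  e : φ ⬝ᵥ v = d

theorem Hm.pe (h : ρ.Hm d x v φ) : ρ.Pe v φ := ⟨x, h.r⟩

theorem Hm.ne (h : ρ.Hm d x v φ) (hd : d ≠ 0) : v ≠ 0 := by rintro rfl; exact hd (by simpa using h.e.symm)

theorem Hm.ne' (h : ρ.Hm d x v φ) (hd : d ≠ 0) : φ ≠ 0 := by rintro rfl; exact hd (by simpa using h.e.symm)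

theorem Hm.conj (h : ρ.Hm d x v φ) {g : Γ} (hX : ρ.R g X) (hY : X * Y = 1) :
    ρ.Hm d (g * x * g⁻¹) (X *ᵥ v) (φ ᵥ* Y) := ⟨hX.conj_of h.r (mul_T hY v φ), by rw [dot_conj hY, h.e]⟩

theorem Hm.conj_Hm {d' : K} (h : ρ.Hm d y w ψ) (h' : ρ.Hm d' x v φ) :
    ρ.Hm d (x * y * x⁻¹) (w + (φ ⬝ᵥ w) • v) (ψ - ((1 + d')⁻¹ * (ψ ⬝ᵥ v)) • φ) := by
  have := h.conj h'.r (T_mul_inv h'.pe.ne)
  rwa [T_mulVec, vecMul_T, smul_smul, mul_neg, neg_smul, ← sub_eq_add_neg, mul_comm (ψ ⬝ᵥ v), h'.e] at this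

theorem Hm.eq (h : ρ.Small) (hd : d ≠ 0) (h1 : ρ.Hm d x v φ) {a : K} (h2 : ρ.Hm d y (a • v) ψ) : x = y := by
  have := h.axis h1.pe (pe_smul.1 h2.pe) (h1.e ▸ hd) (by rw [h1.e, ← h2.e]; simp)
  exact h1.r.inj (h2.r.congr (by rw [T_smul, this]))

theorem Hm.uniq {d' : K} (hd : d ≠ 0) (h1 : ρ.Hm d x v φ) (h2 : ρ.Hm d' x w ψ) :
    ∃ a : K, a ≠ 0 ∧ v = a • w ∧ ψ = a • φ := by
  obtain ⟨c, -, e⟩ := h2.r.uniq h1.r
  rw [T_eq_smul e, one_smul] at e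
  exact vmv_eq (T_inj e) (h1.ne hd) (h1.ne' hd)

theorem Hm.comm_iff (h : ρ.Small) (hd : d ≠ 0) (h1 : ρ.Hm d x v φ) (h2 : ρ.Hm d y w ψ) :
    x * y = y * x ↔ (∃ a : K, w = a • v) ∨ φ ⬝ᵥ w = 0 := by
  constructor
  · intro e
    have h3 := h2.conj_Hm h1
    rw [e, mul_inv_cancel_right] at h3
    obtain ⟨a, -, e1, -⟩ := h3.uniq hd h2
    by_cases h0 : φ ⬝ᵥ w = 0
    · exact Or.inr h0
    rcases ind_or (h1.ne hd) w with i | k
    · exact absurd (i (φ ⬝ᵥ w) (1 - a) (by rw [sub_smul, ← e1, one_smul]; abel)).1 h0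
    · exact Or.inl k
  · rintro (⟨a, rfl⟩ | e)
    · rw [h1.eq h hd h2]
    · have e' := h.orth h1.pe h2.pe (h1.e ▸ hd) (h2.e ▸ hd) e
      have h3 := h2.conj_Hm h1
      simp only [e, e', zero_smul, add_zero, mul_zero, sub_zero] at h3
      exact mul_inv_eq_iff_eq_mul.1 (h3.r.inj h2.r)

theorem Hm.not_central (H : ρ.Hyp) (hd : d ≠ 0) (h1 : ρ.Hm d x v φ) : ∃ g, g * x * g⁻¹ ≠ x := by
  obtain ⟨g, X, hX, h2⟩ := H.pt v (h1.ne hd)
  refine ⟨g, fun e => ?_⟩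
  obtain ⟨a, -, e1, -⟩ := (e ▸ h1.conj hX hX.mul_inv).uniq hd h1
  exact h2 a e1

theorem Hm.exists_ncomm [Finite Γ] (H : ρ.Hyp) (h : ρ.Small) (hd : d ≠ 0) (h1 : ρ.Hm d x v φ) :
    ∃ g, x * (g * x * g⁻¹) ≠ (g * x * g⁻¹) * x := by
  by_contra hn
  push Not at hn
  have hn' : ∀ g k, (g * x * g⁻¹) * (k * x * k⁻¹) = (k * x * k⁻¹) * (g * x * g⁻¹) := fun g k => by
    have := congrArg (fun z => g * z * g⁻¹) (hn (g⁻¹ * k))
    simpa [mul_assoc] using this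
  obtain ⟨_, _, ⟨g2, X2, r2, rfl⟩, ⟨g3, X3, r3, rfl⟩, hdet⟩ := H.exists_basis (h1.ne hd)
  have h1' := h1.conj ρ.one (mul_one 1)
  rw [one_mulVec] at h1'
  have h2 := h1.conj r2 r2.mul_inv
  have h3 := h1.conj r3 r3.mul_inv
  have key : ∀ {g k a b α β}, ρ.Hm d (g * x * g⁻¹) a α → ρ.Hm d (k * x * k⁻¹) b β → Ind a b → α ⬝ᵥ b = 0 :=
    fun k1 k2 i => ((k1.comm_iff h hd k2).1 (hn' _ _)).resolve_left fun ⟨c, e⟩ => (ind_iff i.ne).1 i c e
  obtain ⟨g, hg⟩ := h1.not_central H hd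
  refine hg (perfect_rel H.perf (S := {y | ∃ g, y = g * x * g⁻¹}) (by
      rintro g _ ⟨k, rfl⟩; exact ⟨g * k, by group⟩) Eq (by rintro g _ _ rfl; rfl) (fun _ _ => rfl)
      (by rintro _ _ _ _ _ _ rfl rfl; rfl) ⟨1, rfl⟩ ⟨g2, rfl⟩ ⟨g3, rfl⟩ ⟨g3, rfl⟩ ?_ ⟨1, by group⟩ g).symm
  rintro _ ⟨k, rfl⟩
  obtain ⟨Y, hY⟩ := ρ.ex k
  have h4 := h1.conj hY hY.mul_inv
  rcases ind_or (h1.ne hd) (Y *ᵥ v) with i1 | ⟨a, e⟩
  swap
  · exact Or.inl (h1'.eq h hd (e ▸ h4)).symm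
  rcases ind_or (h2.ne hd) (Y *ᵥ v) with i2 | ⟨a, e⟩
  swap
  · exact Or.inr (Or.inl (h2.eq h hd (e ▸ h4)).symm)
  rcases ind_or (h3.ne hd) (Y *ᵥ v) with i3 | ⟨a, e⟩
  swap
  · exact Or.inr (Or.inr (Or.inl (h3.eq h hd (e ▸ h4)).symm))
  exact absurd (eq_zero_of_dot hdet (key h4 h1' i1.symm) (key h4 h2 i2.symm) (key h4 h3 i3.symm)) (h4.ne' hd)

theorem Hm.exists_pair [Finite Γ] (H : ρ.Hyp) (h : ρ.Small) (hd : d ≠ 0) (h1 : ρ.Hm d x v φ) :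
    ∃ y w ψ, ρ.Hm d y w ψ ∧ Ind v w ∧ φ ⬝ᵥ w ≠ 0 := by
  obtain ⟨g, hg⟩ := h1.exists_ncomm H h hd
  obtain ⟨X, hX⟩ := ρ.ex g
  have h2 := h1.conj hX hX.mul_inv
  rw [Ne, h1.comm_iff h hd h2, not_or, not_exists] at hg
  exact ⟨_, _, _, h2, (ind_iff (h1.ne hd)).2 hg.1, hg.2⟩

theorem pow_of_iso {M : Subgroup (PG K)} (h : Nonempty (M ≃* alternatingGroup (Fin 5))) {g : PG K} (hg : g ∈ M) :
    g ^ 2 = 1 ∨ g ^ 3 = 1 ∨ g ^ 5 = 1 := by
  obtain ⟨e⟩ := h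
  have := Small.A5_pow (e ⟨g, hg⟩)
  simp only [← map_pow, map_eq_one_iff _ e.injective, Subtype.ext_iff] at this
  exact this

theorem Small.ord [Finite Γ] [Finite K] (H : ρ.Hyp) (h : ρ.Small) (hd : d ≠ 0) (h1 : ρ.Hm d x v φ) : Ord (1 + d) := by
  by_cases hd2 : 1 + d + 1 = 0
  · exact Or.inl hd2
  obtain ⟨y, w, ψ, h2, i, ha⟩ := h1.exists_pair H h hd
  have hb : ψ ⬝ᵥ v ≠ 0 := fun e => ha (h.orth h2.pe h1.pe (h2.e ▸ hd) (h1.e ▸ hd) e)
  by_cases e : (φ ⬝ᵥ w) * (ψ ⬝ᵥ v) = d ^ 2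
  · exact Or.inr (Or.inl (h.pair_one hd hd2 h1.pe h2.pe h1.e h2.e i e).2.1)
  obtain ⟨O, hO, o1, o2⟩ := exists_common φ ψ
  obtain ⟨Q, hQ⟩ := exists_inv (det_ne_of_pair h1.e h2.e e hO o1 o2)
  obtain ⟨s, s', hs, hs'⟩ := blk_coord h1.pe h2.pe h1.e h2.e o1 o2 hQ
  have m := hs.mob_mem' hs.mem_blk
  have k3 : mob _ _ _ _ hs.blk_det ^ 3 = 1 → Ord (1 + d) := fun k =>
    Or.inr (Or.inl (by linear_combination (mob_pow3 k).resolve_left (by simp [ha])))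
  rcases or_assoc.2 ((h.cj hQ).blk_pair hs hs' ha hb (by simpa using e) (by simpa using hd) hd2).2 with k | k
  · rcases (small_facts k).1 ⟨_, m⟩ with k | k
    · exact k3 (congrArg Subtype.val k)
    · have := (mob_pow4 (congrArg Subtype.val k)).resolve_left (by simp [ha])
      exact Or.inr (Or.inr (Or.inl (by linear_combination (mul_eq_zero.1 this).resolve_left hd2)))
  rcases pow_of_iso k m with k | k | k
  · exact absurd ((mob_pow2 k).resolve_left (by simp [ha])) hd2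
  · exact k3 k
  · exact Or.inr (Or.inr (Or.inr (by linear_combination (mob_pow5 k).resolve_left (by simp [ha]))))

theorem Small.ord' [Finite Γ] [Finite K] (H : ρ.Hyp) (h : ρ.Small) {a e : K}
    (hx : ρ.R x !![a, 0, 0; 0, a, 0; 0, 0, e]) : e = a ∨ Ord (e / a) := by
  have ha : a ≠ 0 := fun e => hx.blk_det (by simp [e])
  by_cases k : e / a - 1 = 0
  · exact Or.inl ((div_eq_one_iff_eq ha).1 (sub_eq_zero.1 k))
  · have := h.ord H k (x := x) (v := ![0, 0, 1]) (φ := ![0, 0, e / a - 1]) ⟨(hx.smul (inv_ne_zero ha)).congr (by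
      ext i j; fin_cases i <;> fin_cases j <;> simp [T, vecMulVec, ha, div_eq_inv_mul]), by simp⟩
    exact Or.inr (by simpa using this)

theorem Small.blk_pair' [Finite Γ] [Finite K] (H : ρ.Hyp) (h : ρ.Small) {l a b : K}
    (hs : ρ.R s !![l, a, 0; 0, 1, 0; 0, 0, 1]) (hs' : ρ.R s' !![1, 0, 0; b, l, 0; 0, 0, 1]) (ha : a ≠ 0) (hb : b ≠ 0)
    (hab : a * b ≠ (l - 1) ^ 2) (h1 : l ≠ 1) (h2 : l + 1 ≠ 0) :
    (2 : K) ≠ 0 ∧ a * b = -l ∧ (l ^ 2 + l + 1 = 0 ∨ l ^ 2 + 1 = 0) := by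
  obtain ⟨t2, k⟩ := h.blk_pair hs hs' ha hb hab h1 h2
  have m1 := hs.mob_mem' hs.mem_blk
  have m2 := hs'.mob_mem' hs'.mem_blk
  have l0 : l ≠ 0 := by simpa using hs.blk_det
  refine ⟨t2, ?_⟩
  rw [← or_assoc] at k
  rcases k with k | k
  · obtain ⟨k1, k2⟩ := small_facts k
    have n1 : mob _ _ _ _ hs.blk_det ^ 2 ≠ 1 := fun e => by simpa [ha, h2] using mob_pow2 e
    have n2 : mob _ _ _ _ hs'.blk_det ^ 2 ≠ 1 := fun e => by simpa [hb, h2, add_comm] using mob_pow2 e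
    have c1 : mob _ _ _ _ hs.blk_det ^ 3 = 1 ↔ l ^ 2 + l + 1 = 0 :=
      ⟨fun k => by linear_combination (mob_pow3 k).resolve_left (by simp [ha]),
        fun k => mob_pow3' (by linear_combination k)⟩
    have c2 : mob _ _ _ _ hs'.blk_det ^ 3 = 1 ↔ l ^ 2 + l + 1 = 0 :=
      ⟨fun k => by linear_combination (mob_pow3 k).resolve_left (by simp [hb]),
        fun k => mob_pow3' (by linear_combination k)⟩
    have p1 := k2 ⟨_, m1⟩ ⟨_, m2⟩ (fun e => n1 (congrArg Subtype.val e)) (fun e => n2 (congrArg Subtype.val e))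
      (by rw [Subtype.ext_iff, Subtype.ext_iff]; exact c1.trans c2.symm)
    have p2 := k2 ⟨_, m1⟩ ⟨_, m2⟩⁻¹ (fun e => n1 (congrArg Subtype.val e))
      (fun e => by rw [inv_pow, inv_eq_one] at e; exact n2 (congrArg Subtype.val e))
      (by rw [inv_pow, inv_eq_one, Subtype.ext_iff, Subtype.ext_iff]; exact c1.trans c2.symm)
    simp only [Subtype.ext_iff, Subgroup.coe_pow, Subgroup.coe_mul, Subgroup.coe_inv, mob_inv, mob_mul,
      Subgroup.coe_one] at p1 p2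
    have q1 : a * b = -2 * l ∨ a * b = -l ∨ a * b = -3 * l := by
      rcases p1 with e | e
      · exact Or.inl (by linear_combination (mob_pow2 e).resolve_left (by simp [hb]))
      · have := (mob_pow3 e).resolve_left (by simp [hb])
        rw [← sub_eq_zero, ← sub_eq_zero (a := a * b), ← sub_eq_zero (a := a * b), ← mul_eq_zero]
        exact Or.inr (by linear_combination this)
    by_cases c : l ^ 2 + l + 1 = 0
    · refine ⟨?_, Or.inl c⟩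
      rcases q1 with e | e | e
      · exfalso
        have := (hs.blk_mul hs').blk_mul (hs.blk_mul hs')
        rcases h.ord' H (this.congr (Y := !![-l ^ 2, 0, 0; 0, -l ^ 2, 0; 0, 0, 1]) (by
          ext i j
          fin_cases i <;> fin_cases j <;> simp
          exacts [by linear_combination -(a * b + l) * e, by linear_combination -a * l * e,
            by linear_combination -b * e, by linear_combination -l * e])) with k | k
        · exact l0 (by linear_combination c - k)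
        · refine not_ord_neg t2 c h1 (by
            convert k using 1
            field_simp
            linear_combination (1 - l) * c)
      · exact e
      · exact absurd (by linear_combination e - c) hab
    · have c4 : l ^ 2 + 1 = 0 := by
        have := (k1 ⟨_, m1⟩).resolve_left fun e => c (c1.1 (congrArg Subtype.val e))
        have := (mob_pow4 (congrArg Subtype.val this)).resolve_left (by simp [ha])
        linear_combination (mul_eq_zero.1 this).resolve_left h2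
      refine ⟨?_, Or.inr c4⟩
      rcases q1 with e | e | e
      · exact absurd (by linear_combination e - c4) hab
      · exact e
      · exfalso
        rcases p2 with e' | e'
        · exact mul_ne_zero ha hb (by linear_combination c4 - (mob_pow2 e').resolve_left (by simp [hb]))
        · have := (mob_pow3 e').resolve_left (by simp [hb])
          exact pow_ne_zero 3 t2 (by
            linear_combination -this + (l ^ 2 + 1 - 2 * a * b + 8) * c4 + (a * b - 3 * l) * e)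
  · exfalso
    have hp : ⁅ρ.piM ρ.blk, ρ.piM ρ.blk⁆ = ρ.piM ρ.blk := by
      obtain ⟨e⟩ := k
      have := range_perfect (Γ := alternatingGroup (Fin 5)) (commutator_alternatingGroup_eq_top (by simp))
        ((ρ.piM ρ.blk).subtype.comp e.symm)
      rwa [MonoidHom.range_comp, MonoidHom.range_eq_top.2 e.symm.surjective, ← MonoidHom.range_eq_map,
        Subgroup.range_subtype] at this
    obtain ⟨j, -, a1, b1, c1, d1, hj, e1, e2⟩ : ∃ x ∈ ρ.blk, ∃ a b c d, ∃ h : ρ.R x !![a, b, 0; c, d, 0; 0, 0, 1],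
        a * d - b * c = 1 ∧ a + d = 0 := by
      obtain ⟨e⟩ := k
      obtain ⟨i, -, i1, -, -, i2, -⟩ := Small.A5_facts
      obtain ⟨x, hx, a, b, c, d, h, e1, e2⟩ := exists_det_one le_rfl (hp.ge (e.symm i).2)
      refine ⟨x, hx, a, b, c, d, h, e1, (mob_pow2 (h := h.blk_det) ?_).resolve_left fun k => i1 ?_⟩
      · rw [← e2, ← Subgroup.coe_pow, ← map_pow, pow_two, i2, map_one, Subgroup.coe_one]
      · rw [← map_eq_one_iff _ e.symm.injective, Subtype.ext_iff, e2]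
        exact mob_eq_one.2 k
    have hj2 := (hj.blk_mul hj).congr (Y := !![-1, 0, 0; 0, -1, 0; 0, 0, 1]) (by
      ext i j
      fin_cases i <;> fin_cases j <;> simp
      exacts [by linear_combination e1 - a1 * e2, by linear_combination -b1 * e2, by linear_combination -c1 * e2,
        by linear_combination e1 - d1 * e2])
    obtain ⟨z, -, a2, b2, c2, d2, hz, e3, e4⟩ := exists_det_one le_rfl (hp.ge m1)
    obtain ⟨u, rfl, rfl, rfl, rfl⟩ := mob_eq_mob.1 e4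
    have hw := (hz.blk_mul hs.blk_inv).congr (Y := !![u * l, 0, 0; 0, u * l, 0; 0, 0, l]) (by mat)
    have u0 : u ≠ 0 := by rintro rfl; simp at e3
    have e5 : (u * l) ^ 2 = l := by linear_combination l * e3
    have f1 : l / (u * l) = u * l := by field_simp; linear_combination -e3
    have f2 : 1 * l / -(u * l) = -(u * l) := by field_simp; linear_combination e3
    have o1 := h.ord' H hw
    have o2 := h.ord' H ((hj2.blk_mul hw).congr (Y := !![-(u * l), 0, 0; 0, -(u * l), 0; 0, 0, 1 * l]) (by mat))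
    rw [f1] at o1
    rw [f2] at o2
    generalize u * l = c at *
    subst e5
    have c0 : c ≠ 0 := by rintro rfl; simp at l0
    have n1 : c ≠ 1 := by rintro rfl; simp at h1
    have n2 : c ≠ -1 := by rintro rfl; simp at h1
    have n3 : ∀ c' : K, c' ^ 2 = c ^ 2 → Ord c' → c' ^ 3 = 1 ∨ c' ^ 5 = 1 := by
      rintro c' e (k | k | k | k)
      · exact absurd (by linear_combination -e + (c' - 1) * k) h1
      · exact Or.inl (by linear_combination (c' - 1) * k)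
      · exact absurd (by linear_combination k - e) h2
      · exact Or.inr (by linear_combination (c' - 1) * k)
    rcases n3 _ rfl (o1.resolve_left fun e => n1 (mul_left_cancel₀ c0 (by linear_combination e))) with k1 | k1 <;>
    rcases n3 _ (by ring) (o2.resolve_left fun e => n2 (mul_left_cancel₀ c0 (by linear_combination e))) with k2 | k2
    · exact t2 (by linear_combination -k1 - k2)
    · exact h2 (by linear_combination -c ^ 2 * k1 - k2)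
    · exact h2 (by linear_combination c ^ 2 * k2 + k1 - 2 * k1 - 2 * c ^ 2 * k2)
    · exact t2 (by linear_combination -k1 - k2)

theorem Small.tri [Finite Γ] [Finite K] (H : ρ.Hyp) (h : ρ.Small) (hd : d ≠ 0) (hd2 : 1 + d + 1 ≠ 0)
    (h1 : ρ.Hm d x v φ) (h2 : ρ.Hm d y w ψ) : x * y = y * x ∨ (Ind v w ∧ (φ ⬝ᵥ w) * (ψ ⬝ᵥ v) = -(1 + d) ∧
      ((1 + d) ^ 2 + (1 + d) + 1 = 0 ∨ ((2 : K) ≠ 0 ∧ (1 + d) ^ 2 + 1 = 0))) := by
  rw [h1.comm_iff h hd h2]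
  rcases ind_or (h1.ne hd) w with i | k
  swap
  · exact Or.inl (Or.inl k)
  by_cases ha : φ ⬝ᵥ w = 0
  · exact Or.inl (Or.inr ha)
  refine Or.inr ⟨i, ?_⟩
  have hb : ψ ⬝ᵥ v ≠ 0 := fun e => ha (h.orth h2.pe h1.pe (h2.e ▸ hd) (h1.e ▸ hd) e)
  by_cases e : (φ ⬝ᵥ w) * (ψ ⬝ᵥ v) = d ^ 2
  · obtain ⟨k1, k2, -⟩ := h.pair_one hd hd2 h1.pe h2.pe h1.e h2.e i e
    exact ⟨by linear_combination e + k2 - (d + 1) * k1, Or.inl k2⟩
  obtain ⟨O, hO, o1, o2⟩ := exists_common φ ψ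
  obtain ⟨Q, hQ⟩ := exists_inv (det_ne_of_pair h1.e h2.e e hO o1 o2)
  obtain ⟨s, s', hs, hs'⟩ := blk_coord h1.pe h2.pe h1.e h2.e o1 o2 hQ
  obtain ⟨k1, k2, k3⟩ := (h.cj hQ).blk_pair' (H.cj hQ) hs hs' ha hb (by simpa using e) (by simpa using hd) hd2
  exact ⟨k2, k3.imp_right fun k => ⟨k1, k⟩⟩

end PRep

end Cfsg.Agent.MH
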