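import Cfsg.Agent.MH.Hom

/-! There are no homologies of order greater than two. -/

set_option autoImplicit false

namespace Cfsg.Agent.MH

open Matrix MulAction Cfsg.Agent.H4 Cfsg.Agent.H4.Mob Cfsg.Agent.H4.Bar Cfsg.Agent.H4.Pair Cfsg.Agent.H4.Dick

variable {Γ K : Type*} [Group Γ] [Field K]

namespace PRep

variable {ρ : PRep Γ K} {x y s s' : Γ} {X Y : M3 K} {c u v w φ ψ χ θ : V3 K} {d : K}

theorem cube_blk {l a b : K} (hs : ρ.R s !![l, a, 0; 0, 1, 0; 0, 0, 1]) (hs' : ρ.R s' !![1, 0, 0; b, l, 0; 0, 0, 1])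
    (e : a * b = -l) : ρ.R (s * s' * (s * s') * (s * s')) !![-l ^ 3, 0, 0; 0, -l ^ 3, 0; 0, 0, 1] :=
  (((hs.blk_mul hs').blk_mul (hs.blk_mul hs')).blk_mul (hs.blk_mul hs')).congr (by
    ext i j
    fin_cases i <;> fin_cases j <;> simp
    exacts [by linear_combination -((a * b) ^ 2 + 4 * a * b * l + 2 * l ^ 2) * e,
      by linear_combination -(a * l * (a * b + 3 * l)) * e, by linear_combination -(b * (a * b + 3 * l)) * e,
      by linear_combination -(l * (a * b + 2 * l)) * e])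

theorem Small.no_three [Finite Γ] [Finite K] (H : ρ.Hyp) (h : ρ.Small) (hd : d ≠ 0)
    (h3 : (1 + d) ^ 2 + (1 + d) + 1 = 0) (h1 : ρ.Hm d x v φ) : False := by
  have l0 : 1 + d ≠ 0 := fun e => by simp [e] at h3
  have hd2 : 1 + d + 1 ≠ 0 := fun e => l0 (pow_eq_zero_iff two_ne_zero |>.1 (by linear_combination h3 - e))
  have tri : ∀ {x y v φ w ψ}, ρ.Hm d x v φ → ρ.Hm d y w ψ → x * y = y * x ∨
      (Ind v w ∧ (φ ⬝ᵥ w) * (ψ ⬝ᵥ v) = -(1 + d)) := fun k1 k2 =>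
    (h.tri H hd hd2 k1 k2).imp_right fun k => ⟨k.1, k.2.1⟩
  obtain ⟨y, w, ψ, h2, i, ha⟩ := h1.exists_pair H h hd
  have hab := ((tri h1 h2).resolve_left fun e => ((h1.comm_iff h hd h2).1 e).elim
    (fun ⟨c, e⟩ => (ind_iff i.ne).1 i c e) ha).2
  have h4 := h2.conj_Hm h1
  have h5 := h4.conj_Hm h1
  obtain ⟨g, hg⟩ := h1.exists_ncomm H h hd
  refine hg (perfect_rel H.perf (S := {y | ∃ v φ, ρ.Hm d y v φ}) ?_ (fun a b => a * b = b * a) ?_ (fun _ _ => rfl) ?_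
    ⟨_, _, h1⟩ ⟨_, _, h2⟩ ⟨_, _, h4⟩ ⟨_, _, h5⟩ ?_ ⟨_, _, h1⟩ g)
  · rintro g y ⟨v, φ, k⟩
    obtain ⟨X, hX⟩ := ρ.ex g
    exact ⟨_, _, k.conj hX hX.mul_inv⟩
  · intro g a b e
    have := congrArg (fun z => g * z * g⁻¹) e
    simpa [mul_assoc] using this
  · rintro x ⟨u, θ, k0⟩ y ⟨v, φ, k1⟩ z ⟨w, ψ, k2⟩ e1 e2
    rcases (k0.comm_iff h hd k1).1 e1 with ⟨a, rfl⟩ | a1
    · rwa [← k0.eq h hd k1]
    rcases (k0.comm_iff h hd k2).1 e2 with ⟨a, rfl⟩ | a2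
    · rw [← k0.eq h hd k2, e1]
    refine (tri k1 k2).resolve_right fun ⟨i, e⟩ => ?_
    have b1 := h.orth k0.pe k1.pe (k0.e ▸ hd) (k1.e ▸ hd) a1
    have b2 := h.orth k0.pe k2.pe (k0.e ▸ hd) (k2.e ▸ hd) a2
    have hdet := det_ne_of_dot i a1 a2 (k0.e ▸ hd : θ ⬝ᵥ u ≠ 0)
    by_cases t2 : (2 : K) = 0
    · have e' : (φ ⬝ᵥ w) * (ψ ⬝ᵥ v) = d ^ 2 := by linear_combination e - h3 + (d + 1) * t2
      have := eq_zero_of_dot (φ := (ψ ⬝ᵥ v) • φ - d • ψ) hdet (by simp [k1.e, mul_comm])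
        (by simp [k2.e]; linear_combination e') (by simp [b1, b2])
      have e2 : ψ = (ψ ⬝ᵥ v / d) • φ := by
        rw [div_eq_inv_mul, mul_smul, sub_eq_zero.1 this, smul_smul, inv_mul_cancel₀ hd, one_smul]
      have := h.centre k1.pe (w := (ψ ⬝ᵥ v / d) • w) (pe_smul.2 (e2 ▸ k2.pe)) (k1.e ▸ hd) (by
        rw [dotProduct_smul, k1.e, smul_eq_mul]; field_simp; linear_combination e')
      exact (ind_iff i.ne').1 i.symm _ this.symm
    · obtain ⟨Q, hQ⟩ := exists_inv hdet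
      obtain ⟨s, s', hs, hs'⟩ := blk_coord k1.pe k2.pe k1.e k2.e b1 b2 hQ
      obtain ⟨t, ht⟩ := Pe.cj' (h := hQ) (v := ![0, 0, 1]) (φ := θ) (by rw [col3_e2]; exact k0.pe)
      rw [vecMul_col3, a1, a2, k0.e] at ht
      have e3 : (1 + d) ^ 3 = 1 := by linear_combination d * h3
      have := (cube_blk hs hs' e).blk_mul (ht.congr (Y := !![1, 0, 0; 0, 1, 0; 0, 0, 1 + d]) (by mat))
      rcases (h.cj hQ).ord' (H.cj hQ) (this.congr (Y := !![-1, 0, 0; 0, -1, 0; 0, 0, 1 + d]) (by simp [e3])) with k | k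
      · exact hd2 (by linear_combination k)
      · exact not_ord_neg t2 h3 (by simpa using hd) (by simpa [div_neg] using k)
  · rintro z ⟨u, θ, k⟩
    by_contra hn
    simp only [not_or] at hn
    obtain ⟨i0, e0⟩ := (tri k h1).resolve_left hn.1
    obtain ⟨i1, e1⟩ := (tri k h2).resolve_left hn.2.1
    obtain ⟨i2, e2⟩ := (tri k h4).resolve_left hn.2.2.1
    obtain ⟨i3, e3⟩ := (tri k h5).resolve_left hn.2.2.2
    have il : (1 + d)⁻¹ = (1 + d) ^ 2 := by field_simp; linear_combination -d * h3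
    simp only [dotProduct_add, dotProduct_smul, sub_dotProduct, smul_dotProduct, smul_eq_mul, h1.e, il] at e2 e3 i3
    have t3 : (3 : K) ≠ 0 := fun e => hd (pow_eq_zero_iff two_ne_zero |>.1 (by linear_combination h3 - (1 + d) * e))
    have n1 : θ ⬝ᵥ v ≠ 0 := fun e => l0 (by rw [e] at e0; linear_combination e0)
    have n2 : φ ⬝ᵥ u ≠ 0 := fun e => l0 (by rw [e] at e0; linear_combination e0)
    have hb : ψ ⬝ᵥ v ≠ 0 := fun e => l0 (by rw [e] at hab; linear_combination hab)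
    generalize hA : d * (θ ⬝ᵥ w) - (φ ⬝ᵥ w) * (θ ⬝ᵥ v) = A
    generalize hC : d * (ψ ⬝ᵥ u) - (ψ ⬝ᵥ v) * (φ ⬝ᵥ u) = C
    generalize hB : (φ ⬝ᵥ w) * (θ ⬝ᵥ v) = B
    generalize hD : (ψ ⬝ᵥ v) * (φ ⬝ᵥ u) = D
    have B0 : B ≠ 0 := hB ▸ mul_ne_zero ha n1
    have D0 : D ≠ 0 := hD ▸ mul_ne_zero hb n2
    have g0 : (A + B) * (C + D) = -(1 + d) * d ^ 2 := by
      rw [← hA, ← hC, ← hB, ← hD]; linear_combination d ^ 2 * e1
    have g1 : (A + (1 + d) * B) * (C + (1 + d) ^ 2 * D) = -(1 + d) * d ^ 2 := by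
      rw [← hA, ← hC, ← hB, ← hD]
      linear_combination d ^ 2 * e2 + d ^ 2 * (θ ⬝ᵥ w + φ ⬝ᵥ w * θ ⬝ᵥ v) * (ψ ⬝ᵥ v * φ ⬝ᵥ u) * h3
    have g2 : (A + (1 + d) ^ 2 * B) * (C + (1 + d) * D) = -(1 + d) * d ^ 2 := by
      rw [← hA, ← hC, ← hB, ← hD]
      linear_combination d ^ 2 * e3 + d ^ 2 * (θ ⬝ᵥ w + (2 + d) * φ ⬝ᵥ w * θ ⬝ᵥ v) * (ψ ⬝ᵥ v * φ ⬝ᵥ u) *
        (1 - d ^ 2 - d ^ 3) * h3
    have A0 : A = 0 := mul_left_cancel₀ (mul_ne_zero t3 D0) (by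
      linear_combination g0 + (1 + d) * g1 + (1 + d) ^ 2 * g2 + (-A * C - B * D - B * C * (1 + d * (1 + d)) -
        B * D * d * (2 + d) * (1 + d) - 2 * A * D * d - (1 + d) * d ^ 2) * h3)
    have C0 : C = 0 := mul_left_cancel₀ (mul_ne_zero t3 B0) (by
      linear_combination g0 + (1 + d) ^ 2 * g1 + (1 + d) * g2 + (-A * C - B * D - A * D * (1 + d * (1 + d)) -
        B * D * d * (2 + d) * (1 + d) - 2 * B * C * d - (1 + d) * d ^ 2) * h3)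
    have t2 : (2 : K) = 0 := mul_left_cancel₀ (pow_ne_zero 2 l0) (by
      rw [A0, C0, ← hB, ← hD] at g0
      linear_combination -g0 + (θ ⬝ᵥ v * φ ⬝ᵥ u) * hab - (1 + d) * e0 + (1 + d) * h3)
    have e' : (φ ⬝ᵥ w) * (ψ ⬝ᵥ v) = d ^ 2 := by linear_combination hab - h3 + (d + 1) * t2
    have nχ : (ψ ⬝ᵥ v) • φ - d • ψ ≠ 0 := fun this => by
      have e2 : ψ = (ψ ⬝ᵥ v / d) • φ := by
        rw [div_eq_inv_mul, mul_smul, sub_eq_zero.1 this, smul_smul, inv_mul_cancel₀ hd, one_smul]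
      have := h.centre h1.pe (w := (ψ ⬝ᵥ v / d) • w) (pe_smul.2 (e2 ▸ h2.pe)) (h1.e ▸ hd) (by
        rw [dotProduct_smul, h1.e, smul_eq_mul]; field_simp; linear_combination e')
      exact (ind_iff i.ne').1 i.symm _ this.symm
    obtain ⟨α, β, rfl⟩ := i.mem_span (x := u) nχ (by simp [h1.e, mul_comm])
      (by simp [h2.e]; linear_combination e') (by simp; linear_combination -hC - C0)
    have n3 : α * d + β * (φ ⬝ᵥ w) ≠ 0 := by simpa [h1.e] using n2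
    rcases (h.pair_one hd hd2 h1.pe h2.pe h1.e h2.e i e').2.2 α β θ k.pe k.e n3 (by linear_combination -hA - A0)
      with e | e | e | e
    · exact (ind_iff i1.ne').1 i1.symm β (by simp [e])
    · exact (ind_iff i0.ne').1 i0.symm α (by simp [e])
    · refine (ind_iff i2.ne').1 i2.symm β ?_
      rw [mul_left_cancel₀ hd (show d * α = d * (β * φ ⬝ᵥ w) by linear_combination e)]
      module
    · refine (ind_iff i3.ne').1 i3.symm β ?_
      rw [mul_left_cancel₀ hd (show d * α = d * ((2 + d) * β * φ ⬝ᵥ w) by linear_combination e)]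
      module

theorem Small.no_four [Finite Γ] [Finite K] (H : ρ.Hyp) (h : ρ.Small) (hd : d ≠ 0) (t2 : (2 : K) ≠ 0)
    (h4 : (1 + d) ^ 2 + 1 = 0) (h1 : ρ.Hm d x v φ) : False := by
  have l0 : 1 + d ≠ 0 := fun e => by simp [e] at h4
  have hd2 : 1 + d + 1 ≠ 0 := fun e => t2 (by linear_combination h4 - d * e)
  have tri : ∀ {x y v φ w ψ}, ρ.Hm d x v φ → ρ.Hm d y w ψ → (∃ a : K, w = a • v) ∨ (φ ⬝ᵥ w = 0 ∧ ψ ⬝ᵥ v = 0) ∨
      (φ ⬝ᵥ w) * (ψ ⬝ᵥ v) = -(1 + d) := fun k1 k2 => by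
    rcases h.tri H hd hd2 k1 k2 with e | e
    · exact ((k1.comm_iff h hd k2).1 e).imp_right fun e =>
        Or.inl ⟨e, h.orth k1.pe k2.pe (k1.e ▸ hd) (k2.e ▸ hd) e⟩
    · exact Or.inr (Or.inr e.2.1)
  obtain ⟨y, w, ψ, h2, i, ha⟩ := h1.exists_pair H h hd
  have hab := ((tri h1 h2).resolve_left fun ⟨c, e⟩ => (ind_iff i.ne).1 i c e).resolve_left fun e => ha e.1
  obtain ⟨O, hO, o1, o2⟩ := exists_common φ ψ
  obtain ⟨Q, hQ⟩ := exists_inv (det_ne_of_pair h1.e h2.e (fun e => l0 (by linear_combination h4 - hab + e)) hO o1 o2)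
  obtain ⟨s, s', hs, hs'⟩ := blk_coord h1.pe h2.pe h1.e h2.e o1 o2 hQ
  obtain ⟨t, ht⟩ : (ρ.cj _ Q hQ).Pe ![0, 0, 1] ![0, 0, d] := by
    refine ⟨_, (cube_blk hs hs' hab).inv_of_mul l0 ?_⟩
    ext i j
    fin_cases i <;> fin_cases j <;> simp [T, vecMulVec, Matrix.mul_apply, Fin.sum_univ_three, one_apply]
    all_goals linear_combination -(1 + d) * h4
  obtain ⟨θ, h3, a1, a2⟩ : ∃ θ, ρ.Hm d t O θ ∧ θ ⬝ᵥ v = 0 ∧ θ ⬝ᵥ w = 0 := by
    refine ⟨![0, 0, d] ᵥ* Q, ⟨by simpa only [conj_T hQ, col3_e2] using cj_R.1 ht, ?_⟩, ?_, ?_⟩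
    · rw [← col3_e2 v w O, dot_conj hQ]; simp
    · rw [← col3_e0 v w O, dot_conj hQ]; simp
    · rw [← col3_e1 v w O, dot_conj hQ]; simp
  have h5 := (h1.conj_Hm h2).conj_Hm h2
  have il : (1 + d)⁻¹ = -(1 + d) := by field_simp; linear_combination h4
  have hb : ψ ⬝ᵥ v ≠ 0 := fun e => l0 (by rw [e] at hab; linear_combination hab)
  obtain ⟨v2, φ2, y2, h6, b1, b2, b3, b4, b5, b6⟩ : ∃ v2 φ2 y2, ρ.Hm d y2 v2 φ2 ∧ φ ⬝ᵥ v2 = 0 ∧ φ2 ⬝ᵥ v = 0 ∧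
      θ ⬝ᵥ v2 = 0 ∧ φ2 ⬝ᵥ O = 0 ∧ φ2 ⬝ᵥ w ≠ 0 ∧ ψ ⬝ᵥ v2 ≠ 0 := by
    refine ⟨_, _, _, h5, ?_, ?_, by simp [a1, a2], by simp [o1, o2], ?_, ?_⟩ <;>
      simp only [dotProduct_add, dotProduct_smul, sub_dotProduct, smul_dotProduct, smul_eq_mul, h1.e, h2.e, il]
    · linear_combination (2 + d) * hab - h4
    · linear_combination (1 + d) * (2 + d + d ^ 2) * hab - (d ^ 2 + d + 1) * h4
    · exact fun e => ha (by linear_combination -e + (φ ⬝ᵥ w) * (1 + d ^ 2) * h4)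
    · exact fun e => hb (by linear_combination -e + (ψ ⬝ᵥ v) * h4)
  clear h5 hs hs' ht
  have hdet : (col3 v v2 O).det ≠ 0 := det_ne_of_dot (ind_of_dot (h6.ne hd) b1 (h1.e ▸ hd)).symm a1 b3 (h3.e ▸ hd)
  have key : ∀ z u χ, ρ.Hm d z u χ → θ ⬝ᵥ u ≠ 0 → ∃ a : K, u = a • O := by
    intro z u χ k n
    refine (tri h3 k).resolve_right fun e0 => ?_
    replace e0 := e0.resolve_left fun e => n e.1
    have e1 := (tri h1 k).resolve_left fun ⟨a, e⟩ => n (by simp [e, a1])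
    have e2 := (tri h6 k).resolve_left fun ⟨a, e⟩ => n (by simp [e, b3])
    have e3 := (tri h2 k).resolve_left fun ⟨a, e⟩ => n (by simp [e, a2])
    have w1 := ((tri h1 h2).resolve_left fun ⟨c, e⟩ => (ind_iff i.ne).1 i c e).resolve_left fun e => ha e.1
    have w2 := ((tri h6 h2).resolve_left fun ⟨c, e⟩ => ha (by simp [e, b1])).resolve_left fun e => b5 e.1
    obtain ⟨α, β, γ, rfl⟩ := span_of_det hdet u
    obtain ⟨α', β', γ', rfl⟩ := span_of_det hdet w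
    have e4 := k.e
    simp only [dotProduct_add, dotProduct_smul, smul_eq_mul, h1.e, h6.e, h3.e, a1, b1, b2, b3, b4, o1, o2,
      mul_zero, add_zero, zero_add] at e0 e1 e2 e3 e4 w1 w2 a2
    have γ0 : γ' = 0 := by simpa [hd] using a2
    simp only [γ0, zero_mul, add_zero] at e3
    have l2 := pow_ne_zero 2 l0
    rcases e1 with ⟨e1, e1'⟩ | e1 <;> rcases e2 with ⟨e2, e2'⟩ | e2
    · rw [e1', e2'] at e4
      exact l0 (by linear_combination d * e4 - e0 + h4 * 1 - 0 * e1)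
    · have α0 : α = 0 := by simpa [hd] using e1
      simp only [α0, e1', zero_mul, mul_zero, zero_add] at e3
      rcases e3 with e3 | e3
      · exact l0 (by
          have : β * ψ ⬝ᵥ v2 ≠ 0 := mul_ne_zero (fun e => l0 (by rw [e] at e2; linear_combination e2)) b6
          exact absurd e3.1 this)
      · exact l2 (by linear_combination -d ^ 2 * e3 + (β * d * χ ⬝ᵥ v2) * w2 - (1 + d) * e2 + (1 + d) * h4)
    · have β0 : β = 0 := by simpa [hd] using e2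
      simp only [β0, e2', zero_mul, mul_zero, add_zero] at e3
      rcases e3 with e3 | e3
      · exact absurd e3.1 (mul_ne_zero (fun e => l0 (by rw [e] at e1; linear_combination e1)) hb)
      · exact l2 (by linear_combination -d ^ 2 * e3 + (α * d * χ ⬝ᵥ v) * w1 - (1 + d) * e1 + (1 + d) * h4)
    · exact l0 (by linear_combination -d * e4 + e0 + e1 + e2 - h4)
  obtain ⟨g, X, hX, hn⟩ := H.ln θ (h3.ne' hd)
  have cj : ∀ {z u χ}, ρ.Hm d z u χ → θ ⬝ᵥ (X *ᵥ u) ≠ 0 → ∃ a : K, X *ᵥ u = a • O := fun k n =>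
    key _ _ _ (k.conj hX hX.mul_inv) n
  obtain ⟨α, β, γ, rfl⟩ := span_of_det hdet w
  have γ0 : γ = 0 := by simpa [a1, b3, h3.e, hd] using a2
  have α0 : α ≠ 0 := fun e => ha (by simp [e, γ0, b1])
  have β0 : β ≠ 0 := fun e => b5 (by simp [e, γ0, b2])
  have iX := (ind12 hdet).map hX.inv_mul
  simp only [γ0, zero_smul, add_zero] at h2
  have two : ∀ {z1 z2 u1 u2 χ1 χ2}, ρ.Hm d z1 u1 χ1 → ρ.Hm d z2 u2 χ2 → Ind u1 u2 → θ ⬝ᵥ (X *ᵥ u1) ≠ 0 →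
      θ ⬝ᵥ (X *ᵥ u2) = 0 := fun k1 k2 i n => by_contra fun n' => by
    obtain ⟨a, e1⟩ := cj k1 n
    obtain ⟨b, e2⟩ := cj k2 n'
    have i' := i.map hX.inv_mul
    exact i'.ne (by simp [e1, (i' b (-a) (by rw [e1, e2]; module)).2 |> neg_eq_zero.1])
  have i1 : Ind v (α • v + β • v2) := i.smul one_ne_zero one_ne_zero |> fun k => by simpa [γ0] using k
  have i2 : Ind v2 (α • v + β • v2) := fun a b e => by
    obtain ⟨k1, k2⟩ := ind12 hdet (b * α) (a + b * β) (by rw [← e]; module)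
    have : b = 0 := by simpa [α0] using k1
    exact ⟨by simpa [this] using k2, this⟩
  by_cases n1 : θ ⬝ᵥ (X *ᵥ v) = 0
  · by_cases n2 : θ ⬝ᵥ (X *ᵥ v2) = 0
    · obtain ⟨a, e⟩ := (ind12 hdet).eq_smul (φ := θ ᵥ* X) (h3.ne' hd) (by rwa [← dotProduct_mulVec])
        (by rwa [← dotProduct_mulVec]) a1 b3
      exact hn a e
    · have := two h6 h2 i2 n2
      simp [mulVec_add, mulVec_smul, n1, n2, β0] at this
  · have := two h1 h2 i1 n1
    simp [mulVec_add, mulVec_smul, n1, two h1 h6 (ind12 hdet) n1, α0] at this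

/-- the only homologies are involutions -/
theorem Small.no_hom [Finite Γ] [Finite K] (H : ρ.Hyp) (h : ρ.Small) (h1 : ρ.Pe v φ) :
    φ ⬝ᵥ v = 0 ∨ φ ⬝ᵥ v = -2 := by
  by_contra hn
  rw [not_or] at hn
  obtain ⟨x, hx⟩ := h1
  have h1 : ρ.Hm (φ ⬝ᵥ v) x v φ := ⟨hx, rfl⟩
  obtain ⟨g, hg⟩ := h1.exists_ncomm H h hn.1
  obtain ⟨X, hX⟩ := ρ.ex g
  rcases ((h.tri H hn.1 (fun e => hn.2 (by linear_combination e)) h1 (h1.conj hX hX.mul_inv)).resolve_left hg).2.2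
    with k | k
  · exact h.no_three H hn.1 k h1
  · exact h.no_four H hn.1 k.1 k.2 h1

end PRep

end Cfsg.Agent.MH
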