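import Cfsg.Agent.H4.Dick
import Cfsg.Agent.H4.Subf
import Cfsg.Agent.H4.Small

/-! Consequences of Dickson's theorem used for the plane. -/

set_option autoImplicit false

namespace Cfsg.Agent.MH

open MulAction Cfsg.Agent.H4 Cfsg.Agent.H4.Mob Cfsg.Agent.H4.Bar Cfsg.Agent.H4.Pair Cfsg.Agent.H4.Dick

variable {K : Type*} [Field K]

section pow

variable {a b c d : K} {h : a * d - b * c ≠ 0}

theorem scal_or {a' b' c' d' u : K} {h' : a' * d' - b' * c' ≠ 0} (e : mob a' b' c' d' h' = 1) (h1 : b' = u * b)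
    (h2 : c' = u * c) (h3 : a' - d' = u * (a - d)) : (b = 0 ∧ c = 0 ∧ a = d) ∨ u = 0 := by
  obtain ⟨e1, e2, e3⟩ := mob_eq_one.1 e
  by_cases hu : u = 0
  · exact Or.inr hu
  · exact Or.inl ⟨by simpa [hu] using h1.symm.trans e1, by simpa [hu] using h2.symm.trans e2,
      sub_eq_zero.1 (by simpa [hu, e3] using h3.symm)⟩

theorem mob_pow2 (e : mob a b c d h ^ 2 = 1) : (b = 0 ∧ c = 0 ∧ a = d) ∨ a + d = 0 := by
  simp only [pow_succ, pow_zero, one_mul, mob_mul] at e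
  exact scal_or e (by ring) (by ring) (by ring)

theorem mob_pow3 (e : mob a b c d h ^ 3 = 1) : (b = 0 ∧ c = 0 ∧ a = d) ∨ (a + d) ^ 2 - (a * d - b * c) = 0 := by
  simp only [pow_succ, pow_zero, one_mul, mob_mul] at e
  exact scal_or e (by ring) (by ring) (by ring)

theorem mob_pow4 (e : mob a b c d h ^ 4 = 1) :
    (b = 0 ∧ c = 0 ∧ a = d) ∨ (a + d) * ((a + d) ^ 2 - 2 * (a * d - b * c)) = 0 := by
  simp only [pow_succ, pow_zero, one_mul, mob_mul] at e
  exact scal_or e (by ring) (by ring) (by ring)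

theorem mob_pow5 (e : mob a b c d h ^ 5 = 1) :
    (b = 0 ∧ c = 0 ∧ a = d) ∨ (a + d) ^ 4 - 3 * (a + d) ^ 2 * (a * d - b * c) + (a * d - b * c) ^ 2 = 0 := by
  simp only [pow_succ, pow_zero, one_mul, mob_mul] at e
  exact scal_or e (by ring) (by ring) (by ring)

end pow

/-- lower unitriangular element -/
noncomputable def low (c : K) : PG K := mob 1 0 c 1 (by simp)

theorem mem_of_sq [Finite K] {E : Subfield K} {x : K} (h1 : x ^ 2 ∈ E) (h2 : 2 * x ∈ E) : x ∈ E := by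
  by_cases h : (2 : K) = 0
  · rw [Subf.mem_iff_pow] at h1 ⊢
    have : (x ^ Nat.card E - x) ^ 2 = 0 := by
      rw [← pow_mul, mul_comm, pow_mul] at h1
      linear_combination h1 + (x ^ 2 - x ^ Nat.card E * x) * h
    exact sub_eq_zero.1 (pow_eq_zero_iff two_ne_zero |>.1 this)
  · have : x = 2 * x / (1 + 1) := by rw [one_add_one_eq_two]; field_simp
    rw [this]
    exact E.div_mem h2 (E.add_mem E.one_mem E.one_mem)

theorem rat_pt [Finite K] {E : Subfield K} {p r u : K} (hu : u ≠ 0) (h0 : p ≠ 0 ∨ r ≠ 0) (h1 : u * p ^ 2 ∈ E)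
    (h2 : u * r ^ 2 ∈ E) (h3 : 2 * u * p * r ∈ E) : ∃ l p' r', l ≠ 0 ∧ p' ∈ E ∧ r' ∈ E ∧ p = l * p' ∧ r = l * r' := by
  by_cases hr : r = 0
  · exact ⟨p, 1, 0, h0.resolve_right (by simpa using hr), E.one_mem, E.zero_mem, by ring, by simp [hr]⟩
  · refine ⟨r, p / r, 1, hr, mem_of_sq ?_ ?_, E.one_mem, by field_simp, by ring⟩
    · convert E.div_mem h1 h2 using 1
      field_simp
    · convert E.div_mem h3 h2 using 1
      field_simp

theorem tr_not_Tor {x y : P1 (Kb K)} (hxy : x ≠ y) {b : K} (hb : b ≠ 0) : tr b ∉ Tor x y := fun h => by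
  have h1 : x ∈ fixedBy (P1 (Kb K)) (tr b) := (mem_Tor.1 h).1
  have h2 : y ∈ fixedBy (P1 (Kb K)) (tr b) := (mem_Tor.1 h).2
  rw [tr_fixed hb] at h1 h2
  exact hxy (h1.trans h2.symm)

theorem lc0 [Finite K] (M : Subgroup (PG K)) {b b' c : K} (hb : b ≠ 0) (hb' : b' ≠ 0) (hbb : b' ≠ b) (hc : c ≠ 0)
    (h1 : tr b ∈ M) (h2 : tr b' ∈ M) (h3 : low c ∈ M) :
    (∃ (E : Subfield K) (a : K), a ≠ 0 ∧ (∀ β, tr β ∈ M → a * β ∈ E) ∧ (∀ γ, low γ ∈ M → γ / a ∈ E) ∧
      ∀ κ ∈ E, ∀ h : κ ≠ 0, aff (κ ^ 2) 0 (pow_ne_zero 2 h) ∈ M) ∨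
    ((3 : K) = 0 ∧ (∀ β, tr β ∈ M → β = 0 ∨ β = b ∨ β = -b) ∧
      ∀ β γ, tr β ∈ M → low γ ∈ M → β ≠ 0 → γ ≠ 0 → (β * γ) ^ 4 = 1) := by
  have ht : ¬ Tame M := fun h => h _ h1 inf (tr_fixed hb)
  rcases dickson M with ⟨x, hx⟩ | ⟨x, y, hxy, h⟩ | ⟨-, h, -⟩ | ⟨-, -, h, ⟨e⟩⟩ | ⟨g, E, -, hl, hu⟩
  · exfalso
    have e1 : tr b • x = x := hx h1
    have e2 : low c • x = x := hx h3
    rcases P1_cases x with rfl | ⟨t, rfl⟩
    · exact hc (mob_smul_inf_eq_inf.1 e2)
    · have := mob_smul_pt_eq_pt.1 e1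
      exact hb (by linear_combination this)
  · exfalso
    have := mul_mem_Tor (h h2) (h (M.inv_mem h1)) (tr_not_Tor hxy.ne hb')
      (by rw [tr_inv]; exact tr_not_Tor hxy.ne (neg_ne_zero.2 hb))
    rw [tr_inv, tr_mul] at this
    exact tr_not_Tor hxy.ne (by rwa [← sub_eq_add_neg, sub_ne_zero]) this
  · exact absurd h ht
  · right
    have p3 := h.resolve_left ht
    have ord : ∀ g ∈ M, g ^ 2 = 1 ∨ g ^ 3 = 1 ∨ g ^ 5 = 1 := fun g hg => by
      have := Small.A5_pow (e ⟨g, hg⟩)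
      simp only [← map_pow, map_eq_one_iff _ e.injective, Subtype.ext_iff] at this
      exact this
    have k1 : ∀ β γ, tr β ∈ M → low γ ∈ M → β ≠ 0 → γ ≠ 0 →
        β * γ = 1 ∨ β * γ = -1 ∨ (β * γ - 1) ^ 4 + 1 = 0 := by
      intro β γ hβ hγ hβ0 hγ0
      have := ord _ (M.mul_mem hβ hγ)
      simp only [tr, aff, low, mob_mul] at this
      rcases this with e | e | e
      · have := (mob_pow2 e).resolve_left (by simp [hβ0])
        left; linear_combination this - p3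
      · have := (mob_pow3 e).resolve_left (by simp [hβ0])
        right; left
        apply mul_left_cancel₀ (mul_ne_zero hβ0 hγ0)
        linear_combination this - (1 + β * γ) * p3
      · have := (mob_pow5 e).resolve_left (by simp [hβ0])
        right; right
        linear_combination this + (-4 * (β * γ) ^ 3 - 5 * (β * γ) ^ 2 - 8 * (β * γ) - 1) * p3
    have k2 : ∀ β γ, tr β ∈ M → low γ ∈ M → β ≠ 0 → γ ≠ 0 → (β * γ) ^ 4 = 1 := by
      intro β γ hβ hγ hβ0 hγ0
      rcases k1 β γ hβ hγ hβ0 hγ0 with e | e | e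
      · rw [e]; ring
      · rw [e]; ring
      rcases k1 (-β) γ (tr_inv β ▸ M.inv_mem hβ) hγ (neg_ne_zero.2 hβ0) hγ0 with e' | e' | e'
      · rw [show β * γ = -1 by linear_combination -e']; ring
      · rw [show β * γ = 1 by linear_combination -e']; ring
      · have : (β * γ) ^ 2 = -1 := by
          apply mul_left_cancel₀ (mul_ne_zero hβ0 hγ0)
          linear_combination e - e' + (3 * (β * γ) ^ 3 + 3 * (β * γ)) * p3
        rw [show (β * γ) ^ 4 = ((β * γ) ^ 2) ^ 2 by ring, this]; ring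
    refine ⟨p3, fun β hβ => ?_, k2⟩
    by_contra hn
    push Not at hn
    obtain ⟨n0, n1, n2⟩ := hn
    have e1 := k2 b c h1 h3 hb hc
    have e2 := k2 β c hβ h3 n0 hc
    have e3 := k2 (β + b) c (tr_mul β b ▸ M.mul_mem hβ h1) h3 (fun e => n2 (by linear_combination e)) hc
    have e4 : β ^ 2 + b ^ 2 = 0 := by
      apply mul_left_cancel₀ (mul_ne_zero (mul_ne_zero (sub_ne_zero.2 n1) (show β + b ≠ 0 from
        fun e => n2 (by linear_combination e))) (pow_ne_zero 4 hc))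
      linear_combination e2 - e1
    have : (1 : K) = 0 := by
      linear_combination e3 - e1 - e2 - (β * b * c ^ 4) * e4 +
        (1 / 3 * 0 - (β ^ 3 * b + 2 * β ^ 2 * b ^ 2 + β * b ^ 3) * c ^ 4) * p3 - 0 * e1
    exact one_ne_zero this
  · left
    obtain ⟨p, q, r, s, hδ, rfl⟩ := exists_mob g
    have hup : ∀ x ∈ M, mob p q r s hδ * x * (mob p q r s hδ)⁻¹ ∈ PGsub E := fun x hx => hu (conj_mem_cj.2 hx)
    obtain ⟨l, p', r', hl0, hp', hr', rfl, rfl⟩ : ∃ l p' r', l ≠ 0 ∧ p' ∈ E ∧ r' ∈ E ∧ p = l * p' ∧ r = l * r' := by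
      obtain ⟨a1, a2, a3, a4, h', m1, m2, m3, m4, e⟩ := exists_of_mem_PGsub (hup _ h1)
      simp only [tr, aff, mob_inv, mob_mul] at e
      obtain ⟨u, e1, e2, e3, e4⟩ := mob_eq_mob.1 e
      have hu0 : u ≠ 0 := fun e => h' (by rw [e1, e2, e]; ring)
      refine rat_pt (mul_ne_zero hu0 hb) (by by_contra hh; push Not at hh; exact hδ (by simp [hh])) ?_ ?_ ?_
      · convert m2 using 1; rw [e2]; ring
      · convert E.neg_mem m3 using 1; rw [e3]; ring
      · convert E.sub_mem m4 m1 using 1; rw [e1, e4]; ring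
    obtain ⟨m, q', s', hm0, hq', hs', rfl, rfl⟩ : ∃ l q' s', l ≠ 0 ∧ q' ∈ E ∧ s' ∈ E ∧ q = l * q' ∧ s = l * s' := by
      obtain ⟨a1, a2, a3, a4, h', m1, m2, m3, m4, e⟩ := exists_of_mem_PGsub (hup _ h3)
      simp only [low, mob_inv, mob_mul] at e
      obtain ⟨u, e1, e2, e3, e4⟩ := mob_eq_mob.1 e
      have hu0 : u ≠ 0 := fun e => h' (by rw [e1, e2, e]; ring)
      refine rat_pt (mul_ne_zero hu0 hc) (by by_contra hh; push Not at hh; exact hδ (by simp [hh])) ?_ ?_ ?_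
      · convert E.neg_mem m2 using 1; rw [e2]; ring
      · convert m3 using 1; rw [e3]; ring
      · convert E.sub_mem m1 m4 using 1; rw [e1, e4]; ring
    have hδ' : p' * s' - q' * r' ≠ 0 := fun e => hδ (by linear_combination l * m * e)
    have hk : mob p' q' r' s' hδ' ∈ PGsub E := mob_mem_PGsub hp' hq' hr' hs'
    have ha : l / m ≠ 0 := div_ne_zero hl0 hm0
    have hg : mob (l * p') (m * q') (l * r') (m * s') hδ = mob p' q' r' s' hδ' * aff (l / m) 0 ha := by
      rw [aff, mob_mul, mob_eq_mob]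
      exact ⟨m⁻¹, by field_simp; ring, by field_simp; ring, by field_simp; ring, by field_simp; ring⟩
    have hup' : ∀ x ∈ M, aff (l / m) 0 ha * x * (aff (l / m) 0 ha)⁻¹ ∈ PGsub E := fun x hx => by
      have := (PGsub E).mul_mem ((PGsub E).mul_mem ((PGsub E).inv_mem hk) (hup x hx)) hk
      rw [hg] at this
      convert this using 1
      group
    refine ⟨E, l / m, ha, fun β hβ => mem_of_tr_mem (aff_conj_tr ha β ▸ hup' _ hβ), fun γ hγ => ?_, fun κ hκ h0 => ?_⟩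
    · obtain ⟨a1, a2, a3, a4, h', m1, m2, m3, m4, e⟩ := exists_of_mem_PGsub (hup' _ hγ)
      simp only [low, aff, mob_inv, mob_mul] at e
      obtain ⟨u, e1, e2, e3, e4⟩ := mob_eq_mob.1 e
      have hu0 : u ≠ 0 := fun e => h' (by rw [e1, e2, e]; ring)
      convert E.div_mem m3 m1 using 1
      rw [e1, e3]
      simp only [mul_zero, zero_mul, add_zero, zero_add, neg_zero, mul_one, one_mul]
      field_simp
    · refine conj_mem_cj.1 (hl (?_ : mob (l * p') (m * q') (l * r') (m * s') hδ * _ * _ ∈ _))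
      have : mob (l * p') (m * q') (l * r') (m * s') hδ * aff (κ ^ 2) 0 (pow_ne_zero 2 h0) *
          (mob (l * p') (m * q') (l * r') (m * s') hδ)⁻¹ =
          mob p' q' r' s' hδ' * aff (κ ^ 2) 0 (pow_ne_zero 2 h0) * (mob p' q' r' s' hδ')⁻¹ := by
        simp only [aff, mob_inv, mob_mul, mob_eq_mob]
        exact ⟨(l * m)⁻¹, by field_simp; ring, by field_simp; ring, by field_simp; ring, by field_simp; ring⟩
      rw [this]
      simp only [aff, mob_inv, mob_mul]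
      refine mob_mem_PSsub (s := κ * (p' * s' - q' * r')) ?_ ?_ ?_ ?_ ?_ (by ring) <;>
      · repeat (first | assumption | apply E.add_mem | apply E.sub_mem | apply E.mul_mem | apply E.neg_mem |
          apply E.pow_mem | exact E.zero_mem | exact E.one_mem)

end Cfsg.Agent.MH
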