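import Cfsg.Agent.MH.Basic
import Cfsg.Agent.MH.PG

/-! The action on a line; elations. -/

set_option autoImplicit false

namespace Cfsg.Agent.MH

open Matrix Cfsg.Agent.H4 Cfsg.Agent.H4.Mob

variable {Γ K : Type*} [Group Γ] [Field K]

theorem minor_ne {X : M3 K} (h : X.det ≠ 0) (h0 : X 2 0 = 0) (h1 : X 2 1 = 0) :
    X 0 0 * X 1 1 - X 0 1 * X 1 0 ≠ 0 ∧ X 2 2 ≠ 0 := by
  rw [← mul_ne_zero_iff]
  intro e
  apply h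
  rw [det_fin_three, h0, h1]
  linear_combination e

namespace PRep

variable {ρ : PRep Γ K} {x y : Γ} {X Y : M3 K} {v w φ ψ : V3 K}

/-- the stabiliser of the line `z = 0` -/
def stabL (ρ : PRep Γ K) : Subgroup Γ where
  carrier := {x | ∃ X, ρ.R x X ∧ X 2 0 = 0 ∧ X 2 1 = 0}
  mul_mem' := by
    rintro x y ⟨X, h1, h2, h3⟩ ⟨Y, h4, h5, h6⟩
    exact ⟨_, h1.mul h4, by simp [mul_apply, Fin.sum_univ_three, *]⟩
  one_mem' := ⟨1, ρ.one, by simp⟩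
  inv_mem' := by
    rintro x ⟨X, h1, h2, h3⟩
    have := (minor_ne h1.det h2 h3).2
    have e0 := congrFun (congrFun h1.mul_inv 2) 0
    have e1 := congrFun (congrFun h1.mul_inv 2) 1
    exact ⟨_, h1.inv, by simpa [mul_apply, Fin.sum_univ_three, *] using e0,
      by simpa [mul_apply, Fin.sum_univ_three, *] using e1⟩

theorem R.stabL (hX : ρ.R x X) (hx : x ∈ ρ.stabL) : X 2 0 = 0 ∧ X 2 1 = 0 := by
  obtain ⟨Y, h1, h2, h3⟩ := hx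
  obtain ⟨c, -, rfl⟩ := h1.uniq hX
  simp [h2, h3]

theorem R.minor (hX : ρ.R x X) (hx : x ∈ ρ.stabL) : X 0 0 * X 1 1 - X 0 1 * X 1 0 ≠ 0 :=
  (minor_ne hX.det (hX.stabL hx).1 (hX.stabL hx).2).1

/-- the action on the line, as a function -/
noncomputable def piF (ρ : PRep Γ K) (x : ρ.stabL) : PG K :=
  mob _ _ _ _ ((ρ.ex (x : Γ)).choose_spec.minor x.2)

theorem R.piF_eq (hX : ρ.R x X) (hx : x ∈ ρ.stabL) : ρ.piF ⟨x, hx⟩ = mob _ _ _ _ (hX.minor hx) := by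
  obtain ⟨c, -, e⟩ := (ρ.ex x).choose_spec.uniq hX
  exact mob_eq_mob.2 ⟨c, by simp [e], by simp [e], by simp [e], by simp [e]⟩

/-- the action on the line -/
noncomputable def pi (ρ : PRep Γ K) : ρ.stabL →* PG K :=
  MonoidHom.mk' ρ.piF fun ⟨x, hx⟩ ⟨y, hy⟩ => by
    obtain ⟨X, hX⟩ := ρ.ex x
    obtain ⟨Y, hY⟩ := ρ.ex y
    rw [hX.piF_eq hx, hY.piF_eq hy, mob_mul]
    refine ((hX.mul hY).piF_eq (ρ.stabL.mul_mem hx hy)).trans ?_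
    obtain ⟨h1, h2⟩ := hY.stabL hy
    refine mob_congr ?_ ?_ ?_ ?_ <;> simp [mul_apply, Fin.sum_univ_three, h1, h2]

theorem R.pi_eq (hX : ρ.R x X) (hx : x ∈ ρ.stabL) : ρ.pi ⟨x, hx⟩ = mob _ _ _ _ (hX.minor hx) := hX.piF_eq hx

/-- the image of a subgroup in `PGL₂` -/
noncomputable def piM (ρ : PRep Γ K) (C : Subgroup Γ) : Subgroup (PG K) := (C.subgroupOf ρ.stabL).map ρ.pi

theorem R.mob_mem {C : Subgroup Γ} (hX : ρ.R x X) (hx : x ∈ C) (h0 : X 2 0 = 0) (h1 : X 2 1 = 0) {a b c d : K}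
    {h : a * d - b * c ≠ 0} (ha : X 0 0 = a) (hb : X 0 1 = b) (hc : X 1 0 = c) (hd : X 1 1 = d) :
    mob a b c d h ∈ ρ.piM C :=
  ⟨⟨x, X, hX, h0, h1⟩, hx, (hX.pi_eq _).trans (mob_congr ha hb hc hd)⟩

theorem exists_of_mem_piM {C : Subgroup Γ} {a b c d : K} {h : a * d - b * c ≠ 0} (hm : mob a b c d h ∈ ρ.piM C) :
    ∃ x ∈ C, ∃ X, ρ.R x X ∧ X 2 0 = 0 ∧ X 2 1 = 0 ∧ X 0 0 = a ∧ X 0 1 = b ∧ X 1 0 = c ∧ X 1 1 = d := by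
  obtain ⟨⟨x, hx⟩, hC, e⟩ := hm
  obtain ⟨X, hX⟩ := ρ.ex x
  rw [hX.pi_eq hx] at e
  obtain ⟨u, h1, h2, h3, h4⟩ := mob_eq_mob.1 e
  have hu : u ≠ 0 := fun e => h (by rw [h1, h2, e]; ring)
  exact ⟨x, hC, _, hX.smul hu, by simp [hX.stabL hx], by simp [hX.stabL hx], by simp [h1], by simp [h2],
    by simp [h3], by simp [h4]⟩

/-! ### elations -/

/-- the elation with centre `v` and axis `φ` is in the group -/
def El (ρ : PRep Γ K) (v φ : V3 K) : Prop := φ ⬝ᵥ v = 0 ∧ ∃ x, ρ.R x (T v φ)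

theorem El.zero (ρ : PRep Γ K) (v : V3 K) : ρ.El v 0 := ⟨by simp, 1, by rw [T_zero]; exact ρ.one⟩

theorem El.add (h : ρ.El v φ) (h' : ρ.El v ψ) : ρ.El v (φ + ψ) := by
  obtain ⟨h1, x, h2⟩ := h
  obtain ⟨h3, y, h4⟩ := h'
  exact ⟨by simp [h1, h3], _, (h2.mul h4).congr (by simp [T_mul_T, h1])⟩

theorem El.neg (h : ρ.El v φ) : ρ.El v (-φ) := by
  obtain ⟨h1, x, h2⟩ := h
  exact ⟨by simp [h1], _, h2.inv_of_mul' (by simp [T_mul_T, h1, T_zero])⟩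

theorem El.sub (h : ρ.El v φ) (h' : ρ.El v ψ) : ρ.El v (φ - ψ) := by
  rw [sub_eq_add_neg]; exact h.add h'.neg

theorem El.tp (h : ρ.El v φ) : ρ.tp.El φ v := by
  obtain ⟨h1, x, h2⟩ := h
  exact ⟨by rwa [dotProduct_comm], _, T_transpose v φ ▸ h2.tp⟩

theorem El.of_tp (h : ρ.tp.El φ v) : ρ.El v φ := by
  obtain ⟨h1, x, h2⟩ := h
  exact ⟨by rwa [dotProduct_comm], _, T_transpose φ v ▸ tp_R.1 h2⟩

theorem El.add' (h : ρ.El v φ) (h' : ρ.El w φ) : ρ.El (v + w) φ := (h.tp.add h'.tp).of_tp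

theorem El.sub' (h : ρ.El v φ) (h' : ρ.El w φ) : ρ.El (v - w) φ := (h.tp.sub h'.tp).of_tp

theorem el_smul {c : K} : ρ.El (c • v) φ ↔ ρ.El v (c • φ) := by
  simp [El, T_smul]

theorem El.conj (h : ρ.El v φ) (hX : ρ.R x X) (hY : X * Y = 1) : ρ.El (X *ᵥ v) (φ ᵥ* Y) := by
  obtain ⟨h1, y, h2⟩ := h
  refine ⟨?_, _, hX.conj_of h2 (mul_T hY v φ)⟩
  rw [← dotProduct_mulVec, mulVec_mulVec, mul_eq_one_comm.1 hY, one_mulVec, h1]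

theorem T_mul_neg (h : φ ⬝ᵥ v = 0) : T v φ * T v (-φ) = 1 := by simp [T_mul_T, h, T_zero]

theorem El.conj_El {u χ : V3 K} (h : ρ.El w ψ) (h' : ρ.El u χ) :
    ρ.El (w + (χ ⬝ᵥ w) • u) (ψ - (ψ ⬝ᵥ u) • χ) := by
  obtain ⟨h1, x, h2⟩ := h'
  have := h.conj h2 (T_mul_neg h1)
  rwa [T_mulVec, vecMul_T, smul_neg, ← sub_eq_add_neg] at this

/-- the commutator rule -/
theorem El.rule (h : ρ.El v φ) (h' : ρ.El w ψ) (e : ψ ⬝ᵥ v = 0) : ρ.El v ((φ ⬝ᵥ w) • ψ) := by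
  have := (h'.conj_El h).sub' (w := w) (by simpa [e] using h')
  rw [← el_smul]
  simpa [e] using this

theorem El.cj {P Q : M3 K} {h : P * Q = 1} : (ρ.cj P Q h).El v φ ↔ ρ.El (P *ᵥ v) (φ ᵥ* Q) := by
  unfold El
  simp only [cj_R, conj_T h]
  rw [← dotProduct_mulVec, mulVec_mulVec, mul_eq_one_comm.1 h, one_mulVec]

theorem El.cj' {P Q : M3 K} {h : P * Q = 1} (e : ρ.El (P *ᵥ v) φ) : (ρ.cj P Q h).El v (φ ᵥ* P) := by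
  rwa [El.cj, vecMul_vecMul, h, vecMul_one]

/-- the elations with given centre -/
def Phi (ρ : PRep Γ K) (v : V3 K) : AddSubgroup (V3 K) where
  carrier := {φ | ρ.El v φ}
  add_mem' := El.add
  zero_mem' := El.zero ρ v
  neg_mem' := El.neg

theorem col3_e0 (u v w : V3 K) : col3 u v w *ᵥ ![1, 0, 0] = u := by simp [col3_mulVec]
theorem col3_e1 (u v w : V3 K) : col3 u v w *ᵥ ![0, 1, 0] = v := by simp [col3_mulVec]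
theorem col3_e2 (u v w : V3 K) : col3 u v w *ᵥ ![0, 0, 1] = w := by simp [col3_mulVec]

theorem cj_mulVec {P Q : M3 K} (h : P * Q = 1) (X : M3 K) (a : V3 K) :
    (P * X * Q) *ᵥ (P *ᵥ a) = P *ᵥ (X *ᵥ a) := by
  rw [mulVec_mulVec, mul_assoc, mul_eq_one_comm.1 h, mul_one, mulVec_mulVec]

/-- the line lemma -/
theorem lc [Finite K] {φ0 φ1 χ0 : V3 K} (hvw : Ind v w) (h0 : ρ.El v φ0) (h1 : ρ.El v φ1) (h2 : ρ.El w χ0)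
    (a0 : φ0 ⬝ᵥ w ≠ 0) (a1 : φ1 ⬝ᵥ w ≠ 0) (a01 : φ1 ⬝ᵥ w ≠ φ0 ⬝ᵥ w) (a2 : χ0 ⬝ᵥ v ≠ 0) :
    (∃ E : Subfield K, (∀ φ χ, ρ.El v φ → ρ.El w χ → (φ ⬝ᵥ w) * (χ ⬝ᵥ v) ∈ E) ∧
      ∀ κ ∈ E, κ ≠ 0 → ∃ x X, ρ.R x X ∧ X *ᵥ v = κ ^ 2 • v ∧ X *ᵥ w = w) ∨
    ((3 : K) = 0 ∧ (∀ φ, ρ.El v φ → φ ⬝ᵥ w = 0 ∨ φ ⬝ᵥ w = φ0 ⬝ᵥ w ∨ φ ⬝ᵥ w = -(φ0 ⬝ᵥ w)) ∧
      ∀ φ χ, ρ.El v φ → ρ.El w χ → φ ⬝ᵥ w ≠ 0 → χ ⬝ᵥ v ≠ 0 → ((φ ⬝ᵥ w) * (χ ⬝ᵥ v)) ^ 4 = 1) := by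
  obtain ⟨u, hu⟩ := hvw.exists_third
  obtain ⟨Q, hQ⟩ := exists_inv hu
  let σ := ρ.cj _ Q hQ
  have k1 : ∀ φ, ρ.El v φ → tr (φ ⬝ᵥ w) ∈ σ.piM ⊤ := fun φ hφ => by
    obtain ⟨e, x, hx⟩ := El.cj' (h := hQ) (v := ![1, 0, 0]) (by rwa [col3_e0])
    refine hx.mob_mem (Subgroup.mem_top _) ?_ ?_ ?_ ?_ ?_ ?_ <;> simp [T, vecMul_col3, vecMulVec, hφ.1]
  have k2 : ∀ χ, ρ.El w χ → low (χ ⬝ᵥ v) ∈ σ.piM ⊤ := fun φ hφ => by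
    obtain ⟨e, x, hx⟩ := El.cj' (h := hQ) (v := ![0, 1, 0]) (by rwa [col3_e1])
    refine hx.mob_mem (Subgroup.mem_top _) ?_ ?_ ?_ ?_ ?_ ?_ <;> simp [T, vecMul_col3, vecMulVec, hφ.1]
  rcases lc0 _ a0 a1 a01 a2 (k1 _ h0) (k1 _ h1) (k2 _ h2) with ⟨E, a, ha, e1, e2, e3⟩ | ⟨e1, e2, e3⟩
  · refine Or.inl ⟨E, fun φ χ hφ hχ => ?_, fun κ hκ h0 => ?_⟩
    · convert E.mul_mem (e1 _ (k1 _ hφ)) (e2 _ (k2 _ hχ)) using 1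
      field_simp
    · obtain ⟨x, -, X, hX, b1, b2, b3, b4, b5, b6⟩ := exists_of_mem_piM (e3 κ hκ h0)
      refine ⟨x, _, cj_R.1 hX, ?_, ?_⟩
      · have := cj_mulVec hQ X ![1, 0, 0]
        rw [col3_e0, col3_mulVec] at this
        simpa [mulVec, dotProduct, Fin.sum_univ_three, *] using this
      · have := cj_mulVec hQ X ![0, 1, 0]
        rw [col3_e1, col3_mulVec] at this
        simpa [mulVec, dotProduct, Fin.sum_univ_three, *] using this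
  · exact Or.inr ⟨e1, fun φ hφ => e2 _ (k1 _ hφ), fun φ χ hφ hχ => e3 _ _ (k1 _ hφ) (k2 _ hχ)⟩

theorem span_sq [Finite K] (E : Subfield K) (S : AddSubgroup K) (h : ∀ κ ∈ E, κ ≠ 0 → κ ^ 2 ∈ S) {e : K}
    (he : e ∈ E) : e ∈ S := by
  have h' : ∀ κ ∈ E, κ ^ 2 ∈ S := fun κ hκ => by
    by_cases h0 : κ = 0
    · simp [h0]
    · exact h κ hκ h0
  by_cases h2 : (2 : K) = 0
  · obtain ⟨s, rfl⟩ := Bar.exists_sq_of_two h2 e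
    rw [← pow_two] at he ⊢
    exact h' s (mem_of_sq he (by simp [h2]))
  · have m2 : (2 : K) ∈ E := by rw [← one_add_one_eq_two]; exact E.add_mem E.one_mem E.one_mem
    convert S.sub_mem (h' _ (E.div_mem (E.add_mem he E.one_mem) m2)) (h' _ (E.div_mem (E.sub_mem he E.one_mem) m2))
      using 1
    field_simp
    ring

/-- an invariant subgroup of elations is an `E`-space modulo the line -/
theorem torus_surj [Finite K] {E : Subfield K}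
    (hE : ∀ κ ∈ E, κ ≠ 0 → ∃ x X, ρ.R x X ∧ X *ᵥ v = κ ^ 2 • v ∧ X *ᵥ w = w) (S : AddSubgroup (V3 K))
    (hS : ∀ x X Y (c : K), ρ.R x X → X * Y = 1 → X *ᵥ v = c • v → ∀ φ ∈ S, c • (φ ᵥ* Y) ∈ S) (hφ : φ ∈ S) {e : K}
    (he : e ∈ E) : ∃ φ' ∈ S, φ' ⬝ᵥ w = e * (φ ⬝ᵥ w) := by
  let A : AddSubgroup K :=
    { carrier := {e | ∃ φ' ∈ S, φ' ⬝ᵥ w = e * (φ ⬝ᵥ w)}
      add_mem' := by
        rintro a b ⟨φ1, h1, h2⟩ ⟨φ2, h3, h4⟩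
        exact ⟨_, S.add_mem h1 h3, by rw [add_dotProduct, h2, h4, add_mul]⟩
      zero_mem' := ⟨0, S.zero_mem, by simp⟩
      neg_mem' := by
        rintro a ⟨φ1, h1, h2⟩
        exact ⟨_, S.neg_mem h1, by rw [neg_dotProduct, h2, neg_mul]⟩ }
  refine span_sq E A (fun κ hκ h0 => ?_) he
  obtain ⟨x, X, h1, h2, h3⟩ := hE κ hκ h0
  refine ⟨_, hS x X _ _ h1 h1.mul_inv h2 φ hφ, ?_⟩
  rw [smul_dotProduct, ← dotProduct_mulVec, ← h3, mulVec_mulVec, h1.inv_mul, one_mulVec, h3, smul_eq_mul]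

theorem El.stab (h : ρ.El v φ) {c : K} (hX : ρ.R x X) (hY : X * Y = 1) (e : X *ᵥ v = c • v) :
    ρ.El v (c • (φ ᵥ* Y)) := by
  rw [← el_smul, ← e]
  exact h.conj hX hY

end PRep

end Cfsg.Agent.MH
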