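import Cfsg.Agent.MH.Nine

/-! Elements commuting with no involution. -/

set_option autoImplicit false

namespace Cfsg.Agent.MH

open Matrix Equiv Subgroup

variable {Γ K : Type*} [Group Γ] [Field K]

/-- the centraliser is a CA-subgroup of odd order `n` with automiser of order `e ∈ {2, 3}` -/
structure Ecl (x : Γ) (e n : ℕ) : Prop where
  ca : CA (Cn x)
  card : Nat.card (Cn x) = n
  cardN : Nat.card (Nm (Cn x)) = n * e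
  odd : n % 2 = 1
  ty : (e = 2 ∧ 3 ≤ n) ∨ (e = 3 ∧ 7 ≤ n ∧ n % 3 = 1)

theorem Ecl.of [Finite Γ] {x : Γ} (hx : x ∈ OO Γ) (h : CA (Cn x)) {e : ℕ} (he : e = 2 ∨ e = 3)
    (hN : Nat.card (Nm (Cn x)) = Nat.card (Cn x) * e) : Ecl x e (Nat.card (Cn x)) := by
  have h1 := odd_card (nv_eq_zero.1 hx.2)
  have h2 := two_le_card (OO_ne hx) (self_mem_Cn x)
  obtain ⟨m, hm, hd⟩ := h.card_Nm
  obtain rfl : m = e := Nat.eq_of_mul_eq_mul_left Nat.card_pos (hm.symm.trans hN)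
  exact ⟨h, rfl, hN, h1, by rcases he with rfl | rfl <;> omega⟩

theorem Ecl.conj [Finite Γ] {x : Γ} {e n : ℕ} (h : Ecl x e n) (g : Γ) : Ecl (g * x * g⁻¹) e n := by
  refine ⟨fun y hy h1 => ?_, by rw [card_Cn_conj, h.card], by rw [card_Nm_conj, h.cardN], h.odd, h.ty⟩
  obtain ⟨y, rfl⟩ : ∃ z, y = g * z * g⁻¹ := ⟨g⁻¹ * y * g, by group⟩
  ext z
  obtain ⟨z, rfl⟩ : ∃ y, z = g * y * g⁻¹ := ⟨g⁻¹ * z * g, by group⟩
  rw [conj_mem_Cn, conj_mem_Cn, h.ca y (conj_mem_Cn.1 hy) (by simpa using h1)]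

theorem Ecl.congr {x y : Γ} {e n : ℕ} (h : Ecl x e n) (hy : Cn y = Cn x) : Ecl y e n :=
  ⟨hy ▸ h.ca, hy ▸ h.card, hy ▸ h.cardN, h.odd, h.ty⟩

theorem Nine.nv3 {R : Subgroup Γ} {ν : ℕ} (h : Nine R ν) {y : Γ} (h3 : y ^ 3 = 1) (h1 : y ≠ 1) :
    nv y = 0 ∨ nv y = 3 := by
  obtain ⟨g, hg⟩ := h.syl y h3
  rw [← nv_conj g]
  exact (h.cent _ hg (by simpa using h1)).imp_left And.left

namespace PRep

variable {ρ ρ' : PRep Γ K} {x y z g w j s t u : Γ} {X Y : M3 K} {σ τ : S3} {k : Fin 3} {γ : Kˣ}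

theorem Reg.card_Nm [Finite Γ] (h : ρ.Reg x) : Nat.card (Nm ρ.D) = Nat.card ρ.D * Nat.card (ρ.W (Nm ρ.D)) := by
  rw [card_W (ρ := ρ) fun g hg => h.mon (Nm_conj hg h.mem), inf_eq_right.2 le_normalizer, mul_comm]

theorem Reg.W_ne [Finite Γ] (hb : ρ.B) (h : ρ.Reg x) (hc : CA ρ.D) : ρ.W (Nm ρ.D) ≠ ⊥ := fun e =>
  hc.Nm_ne hb.H.perf (fun e => h.sq_ne (by simp [mem_bot.1 (e ▸ h.mem)])) fun g hg => by
    obtain ⟨σ, hσ⟩ := h.mon (Nm_conj hg h.mem)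
    obtain rfl : σ = 1 := mem_bot.1 (e ▸ (⟨g, hg, hσ⟩ : σ ∈ ρ.W (Nm ρ.D)))
    exact Mon.one_iff.1 hσ

theorem B.loc_reg [Finite Γ] [Finite K] (h : ρ.B) (hr : ρ.Reg x) (hx : x ∈ OO Γ) :
    (∃ e n, Ecl x e n) ∨ ((3 : K) ≠ 0 ∧ ∃ ν, Nine (Cn x) ν) := by
  have ni : ∀ s ∈ ρ.D, s * s = 1 → s = 1 := fun s hs e => by_contra fun k =>
    nv_eq_zero.1 hx.2 s ⟨k, e⟩ (D_le_Cn hr.mem hs)
  by_cases h9 : ∃ z w σ, ρ.Z z ∧ ρ.Mon w σ ∧ cyc σ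
  · obtain ⟨z, w, σ, h1, h2, h3⟩ := h9
    have f : ρ.Fr _ z w σ := ⟨h, h1, h2, h3, rfl⟩
    obtain ⟨ν, hν, -⟩ := f.nine
    have e := ((hν.cent z f.zm h1.ne).resolve_right (by rw [h1.reg.nv, ← hr.nv, hx.2]; decide)).2
    have e' := ((hν.cent x (e ▸ D_le_Cn h1.reg.mem hr.mem) (OO_ne hx)).resolve_right (by rw [hx.2]; decide)).2
    exact Or.inr ⟨h1.three, ν, e' ▸ hν⟩
  have hc : CA ρ.D := fun y hy h1 => le_antisymm (fun g hg =>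
    ((h.reg hy fun e => h1 (ni y hy e)).cent hg).resolve_right fun ⟨a, σ, b, c⟩ =>
      h9 ⟨y, g, σ, h.cube_D hy a h1, c, b⟩) (D_le_Cn hy)
  have e := hc x hr.mem (OO_ne hx)
  have hN := hr.card_Nm
  rw [← e] at hc hN
  refine Or.inl ?_
  rcases S3_sub (ρ.W (Nm ρ.D)) with k | ⟨k, -⟩ | ⟨k, -⟩ | ⟨⟨w, -, hw⟩, k, j, -, hj⟩
  · exact absurd k (hr.W_ne h (e ▸ hc))
  · exact ⟨2, _, Ecl.of hx hc (Or.inl rfl) (by rw [hN, e, k])⟩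
  · exact ⟨3, _, Ecl.of hx hc (Or.inr rfl) (by rw [hN, e, k])⟩
  · exact absurd ⟨_, w, c3, h.cube_D (mul_mem hr.mem hr.mem) (by
      rw [← pow_two, ← pow_mul]; exact h.six hw (by decide) hj hr.mem) hr.sq_ne, hw, by decide⟩ h9

/-- a regular unipotent element with a large automiser -/
structure UD (ρ : PRep Γ K) (u g : Γ) (γ : Kˣ) : Prop where
  b : ρ.B
  two : (2 : K) ≠ 0
  uni : ρ.Uni u
  diag : ρ.R g (diagonal ![(γ ^ 2 : K), γ, 1])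
  four : 4 ≤ orderOf γ
  cardN : Nat.card (Nm (Cn u)) = Nat.card (Cn u) * orderOf γ
  gen : ∀ x ∈ Nm (Cn u), ∃ i : ℕ, x * (g ^ i)⁻¹ ∈ Cn u

theorem B.two_of_uni [Finite Γ] (hu : ρ.Uni x) (hx : x ∈ OO Γ) : (2 : K) ≠ 0 := fun h2 => by
  obtain ⟨a, b, c, -, -, h1⟩ := id hu
  have h3 := h1.un_mul h1
  refine nv_eq_zero.1 hx.2 (x * x) ⟨hu.sq_ne, (h3.un_mul h3).un_one_iff.2 ?_⟩ (mul_mem (self_mem_Cn x) (self_mem_Cn x))
  grind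

theorem B.loc [Finite Γ] [Finite K] (h : ρ.B) (hx : x ∈ OO Γ) : (∃ e n, Ecl x e n) ∨
    ((3 : K) ≠ 0 ∧ ∃ ν, Nine (Cn x) ν) ∨ ∃ ρ' g γ, ρ.Eqv ρ' ∧ ρ'.UD x g γ := by
  rcases h.nf x with ⟨v, φ, k⟩ | ⟨ρ', e, k⟩ | ⟨ρ', e, k⟩
  · exact absurd (h.inv_of_T k) hx.1
  · exact ((h.eqv e).loc_reg k hx).imp_right Or.inl
  have h2 := B.two_of_uni k hx
  have h' := h.eqv e
  obtain ⟨g, γ, h3, h4, h5⟩ := h'.exists_gen h2 k
  have hc : CA (Cn x) := h'.Cn_uni h2 k ▸ h'.CA_UT h2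
  by_cases h6 : 4 ≤ orderOf γ
  · obtain ⟨ρ'', e', k', h7⟩ := exists_diag_frame k h3 fun e => by
      have := Nat.le_of_dvd two_pos (orderOf_dvd_of_pow_eq_one (x := γ) (n := 2) (Units.ext (by simpa using e)))
      omega
    exact Or.inr (Or.inr ⟨ρ'', g, γ, e.trans e', h'.eqv e', h2, k', h7, h6, h4, h5⟩)
  refine Or.inl ⟨_, _, Ecl.of hx hc ?_ h4⟩
  have := orderOf_pos γ
  have : orderOf γ ≠ 1 := fun e => hc.Nm_ne h.H.perf (fun e => OO_ne hx (mem_bot.1 (e ▸ self_mem_Cn x)))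
    (eq_of_le_of_card_ge le_normalizer (by rw [h4, e, mul_one])).ge
  omega

theorem UD.Cn_eq (h : ρ.UD u g γ) : Cn u = ρ.UT := h.b.Cn_uni h.two h.uni

theorem UD.ca (h : ρ.UD u g γ) : CA (Cn u) := h.Cn_eq ▸ h.b.CA_UT h.two

theorem UD.Nm_eq [Finite Γ] (h : ρ.UD u g γ) : Nm (Cn u) = ρ.BT := h.Cn_eq ▸ h.b.Nm_UT h.two h.uni

theorem UD.ne (h : ρ.UD u g γ) : u ≠ 1 := fun e => h.uni.sq_ne (by simp [e])

theorem UD.cast [Finite Γ] (h : ρ.UD u g γ) {r : ℕ} (hr : r.Prime) (hd : r ∣ Nat.card (Cn u)) : (r : K) = 0 := by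
  obtain ⟨y, hy, e⟩ := exists_mem_orderOf hr hd
  exact (h.b.uni_of h.two (h.Cn_eq ▸ hy) (by rintro rfl; exact hr.one_lt.ne (by simpa using e))).cast
    (e ▸ pow_orderOf_eq_one y)

theorem UD.odd [Finite Γ] (h : ρ.UD u g γ) : Nat.card (Cn u) % 2 = 1 := by
  by_contra hn
  exact h.two (by simpa using h.cast Nat.prime_two (by omega))

theorem UD.dvd [Finite Γ] (h : ρ.UD u g γ) : orderOf γ ∣ Nat.card (Cn u) - 1 := by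
  obtain ⟨m, h1, h2⟩ := h.ca.card_Nm
  rwa [← Nat.eq_of_mul_eq_mul_left Nat.card_pos (h1.symm.trans h.cardN)]

theorem UD.card [Finite Γ] (h : ρ.UD u g γ) :
    ∃ μ, 1 ≤ μ ∧ Nat.card Γ = Nat.card (Cn u) * orderOf γ * (1 + Nat.card (Cn u) * μ) := by
  obtain ⟨μ, hμ⟩ := h.ca.card_eq
  refine ⟨μ, Nat.pos_of_ne_zero ?_, h.cardN ▸ hμ⟩
  rintro rfl
  rw [h.Nm_eq, mul_zero, add_zero, mul_one] at hμ
  obtain ⟨x, X, h1, h2⟩ := h.b.H.pt ![1, 0, 0] (by simp)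
  obtain ⟨l1, l2, l3, a, b, c, h3⟩ : x ∈ ρ.BT := (card_eq_iff_eq_top _).1 hμ.symm ▸ mem_top x
  obtain ⟨κ, -, rfl⟩ := h3.uniq h1
  exact h2 (κ * l1) (by vec)

theorem UD.pow_ne (h : ρ.UD u g γ) {n : ℕ} (h0 : 0 < n) (h4 : n < 4) : (γ : K) ^ n ≠ 1 := fun e => by
  have := Nat.le_of_dvd h0 (orderOf_dvd_of_pow_eq_one (x := γ) (n := n) (Units.ext (by simpa using e)))
  have := h.four
  omega

theorem UD.reg (h : ρ.UD u g γ) : ρ.Reg g := by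
  have h1 := h.pow_ne (n := 1) (by omega) (by omega)
  have h2 := h.pow_ne (n := 2) (by omega) (by omega)
  have := γ.ne_zero
  exact ⟨_, inj3 (by grind) h2 (by grind), h.diag⟩

theorem UD.pow_iff (h : ρ.UD u g γ) (n : ℕ) : g ^ n = 1 ↔ γ ^ n = 1 := by
  rw [(h.diag.dpow n).done_iff, Units.ext_iff]
  have := pow_ne_zero n γ.ne_zero
  simp only [cons_val_zero, cons_val_one, cons_val, one_pow, pow_right_comm _ 2 n, Units.val_pow_eq_pow_val,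
    Units.val_one]
  grind

theorem UD.orderOf_eq (h : ρ.UD u g γ) : orderOf g = orderOf γ := orderOf_eq_orderOf_iff.2 h.pow_iff

theorem diag_up (d : V3 K) : diagonal d = up (d 0) (d 1) (d 2) 0 0 0 := by
  ext i j
  fin_cases i <;> fin_cases j <;> simp

theorem UD.D_eq [Finite Γ] (h : ρ.UD u g γ) : ρ.D = zpowers g := by
  refine le_antisymm (fun x hx => ?_) (zpowers_le.2 h.reg.mem)
  obtain ⟨i, a, b, c, hi⟩ := h.Cn_eq ▸ h.gen x (h.Nm_eq ▸ ⟨_, _, _, _, _, _, hx.choose_spec.congr (diag_up _).symm⟩)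
  obtain ⟨d, hd⟩ := mul_mem hx (inv_mem (pow_mem h.reg.mem i))
  obtain ⟨κ, -, e⟩ := hd.uniq hi
  rw [diag_up] at e
  simp at e
  rw [mul_inv_eq_one.1 (hi.un_one_iff.2 ⟨e.1.2.1, e.2.1.2, e.1.2.2⟩)]
  exact pow_mem (mem_zpowers g) i

theorem UD.Cn_g [Finite Γ] (h : ρ.UD u g γ) : Cn g = ρ.D :=
  le_antisymm (fun _ hx => (h.reg.cent hx).resolve_right fun e => h.pow_ne (n := 3) (by omega) (by omega)
    (by simpa using congrArg Units.val ((h.pow_iff 3).1 e.1))) (D_le_Cn h.reg.mem)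

theorem UD.card_D [Finite Γ] (h : ρ.UD u g γ) : Nat.card ρ.D = orderOf γ := by
  rw [h.D_eq, Nat.card_zpowers, h.orderOf_eq]

theorem UD.rel [Finite Γ] (h : ρ.UD u g γ) {d : V3 K} (hx : ρ.R x (diagonal d)) : d 0 * d 2 = d 1 ^ 2 := by
  obtain ⟨i, rfl⟩ := (mem_powers_iff_mem_zpowers.2 (h.D_eq ▸ ⟨_, hx⟩ : x ∈ zpowers g))
  obtain ⟨κ, e⟩ := ((h.diag.dpow i).deq_iff hx).1 rfl
  simp [e]
  ring

theorem UD.mon [Finite Γ] (h : ρ.UD u g γ) (hx : ρ.Mon x σ) : σ = 1 ∨ σ = sw 1 := by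
  have h1 := h.rel (hx.conj h.diag)
  have h3 := h.pow_ne (n := 3) (by omega) (by omega)
  have := γ.ne_zero
  have : σ = 1 ∨ σ = sw 1 ∨ (σ⁻¹ 1 = 0 ∧ (σ⁻¹ 0 = 1 ∧ σ⁻¹ 2 = 2 ∨ σ⁻¹ 0 = 2 ∧ σ⁻¹ 2 = 1)) ∨
      (σ⁻¹ 1 = 2 ∧ (σ⁻¹ 0 = 1 ∧ σ⁻¹ 2 = 0 ∨ σ⁻¹ 0 = 0 ∧ σ⁻¹ 2 = 1)) := by
    clear h1 hx
    revert σ
    decide
  rcases this with e | e | ⟨e, ⟨a, b⟩ | ⟨a, b⟩⟩ | ⟨e, ⟨a, b⟩ | ⟨a, b⟩⟩
  exacts [Or.inl e, Or.inr e, by rw [e, a, b] at h1; simp at h1; grind, by rw [e, a, b] at h1; simp at h1; grind,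
    by rw [e, a, b] at h1; simp at h1; grind, by rw [e, a, b] at h1; simp at h1; grind]

theorem UD.ecl [Finite Γ] (h : ρ.UD u g γ) (ho : orderOf γ % 2 = 1) : g ∈ OO Γ ∧ Ecl g 2 (orderOf γ) := by
  have ni : ∀ s, Inv s → s ∉ ρ.D := fun s hs e => by have := h.card_D ▸ two_dvd_card hs e; omega
  have hc : CA ρ.D := fun y hy h1 => le_antisymm (fun x hx =>
    ((h.b.reg hy fun e => ni y ⟨h1, e⟩ hy).cent hx).resolve_right fun ⟨_, σ, b, c⟩ => by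
      rcases h.mon c with rfl | rfl <;> revert b <;> decide) (D_le_Cn hy)
  have hO : g ∈ OO Γ := ⟨h.reg.sq_ne, nv_eq_zero.2 (h.Cn_g ▸ ni)⟩
  refine ⟨hO, h.card_D ▸ h.Cn_g ▸ Ecl.of hO (h.Cn_g ▸ hc) (Or.inl rfl) ?_⟩
  rw [h.Cn_g, h.reg.card_Nm]
  rcases S3_sub (ρ.W (Nm ρ.D)) with k | ⟨k, -⟩ | ⟨-, ⟨w, -, hw⟩⟩ | ⟨⟨w, -, hw⟩, -⟩
  exacts [absurd k (h.reg.W_ne h.b hc), by rw [k], absurd (h.mon hw) (by decide), absurd (h.mon hw) (by decide)]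

theorem UD.nv_one [Finite Γ] (h : ρ.UD u g γ) (ho : orderOf γ % 2 = 0) : nv g = 1 := by
  obtain ⟨t, h1, h2⟩ := exists_mem_inv (H := ρ.D) (by rw [h.card_D]; omega)
  have key : ∀ s, Inv s → s ∈ ρ.D → ρ.R s (tt 1) := fun s hs e => by
    obtain ⟨t2, k, hk⟩ := h.b.inv_D e hs
    have := h.rel hk
    fin_cases k
    · simp at this
      grind
    · exact hk
    · simp at this
      grind
  exact nv_eq_one h2 (h.Cn_g ▸ h1) fun s hs e => (key s hs (h.Cn_g ▸ e)).inj (key t h2 h1)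

theorem B.inv_comm [Finite K] (h : ρ.B) (hx : x * x ≠ 1) (hs : s * s = 1) (ht : t * t = 1) (h1 : s ∈ Cn x)
    (h2 : t ∈ Cn x) : s * t = t * s := by
  rcases h.nf x with ⟨v, φ, k⟩ | ⟨ρ', e, k⟩ | ⟨ρ', e, k⟩
  · exact absurd (h.inv_of_T k) hx
  · exact D_comm (k.inv_mem hs h1) (k.inv_mem ht h2)
  have key : ∀ s, s * s = 1 → s ∈ Cn x → ∃ c, ρ'.R s (un 0 0 c) := fun s hs h1 => by
    obtain ⟨a', b', c', h3⟩ := k.cent h1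
    obtain ⟨a, b, c, ha, hb, h4⟩ := k
    have e1 := (h3.un_mul h3).un_one_iff.1 hs
    have e2 := ((h4.un_mul h3).un_eq_iff (h3.un_mul h4)).1 (mem_Cn.1 h1)
    obtain rfl : a' = 0 := by grind
    obtain rfl : b' = 0 := by grind
    exact ⟨c', h3⟩
  obtain ⟨c, hc⟩ := key s hs h1
  obtain ⟨c', hc'⟩ := key t ht h2
  exact ((hc.un_mul hc').un_eq_iff (hc'.un_mul hc)).2 ⟨rfl, rfl, by ring⟩

end PRep

end Cfsg.Agent.MH
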