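import Cfsg.Agent.MH.CaseB
import Cfsg.Agent.H5.MHMain

/-! The classification of the perfect irreducible subgroups of `PGL₃` over finite fields. -/

set_option autoImplicit false

namespace Cfsg.Agent.MH

universe u

theorem main : Cfsg.Agent.H5.MH.MHMain.{u} := Cfsg.Agent.H5.MH.mhMain_of PRep.caseB

end Cfsg.Agent.MH
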