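import Cfsg.Agent.MH.NF

/-! Diagonal and monomial elements. -/

set_option autoImplicit false

namespace Cfsg.Agent.MH

open Matrix Equiv

variable {Γ K : Type*} [Group Γ] [Field K]

theorem card_label [Finite Γ] {α : Type*} [Finite α] (r : Γ → α → Prop) {A B : Subgroup Γ}
    (h1 : ∀ x ∈ A, ∃! a, r x a) (h2 : ∀ x ∈ A, ∀ a, r x a → ∀ y, y ∈ A ∧ r y a ↔ y * x⁻¹ ∈ B) :
    Nat.card A = {a | ∃ x ∈ A, r x a}.ncard * Nat.card B := by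
  rw [← ncard_coe, ← ncard_double r A _ (m := 1) ?_ ?_, mul_one]
  · intro x hx
    obtain ⟨a, ha, hu⟩ := h1 x hx
    rw [Set.ncard_eq_one]
    exact ⟨a, Set.ext fun b => ⟨fun hb => hu b hb.2, by rintro rfl; exact ⟨⟨x, hx, ha⟩, ha⟩⟩⟩
  · rintro a ⟨x, hx, ha⟩
    rw [← ncard_coset B x]
    congr 1
    ext y
    exact h2 x hx a ha y

/-- permutations of three letters -/
abbrev S3 := Perm (Fin 3)

/-- the three-cycles -/
def cyc (σ : S3) : Prop := ∀ i, σ i ≠ i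

instance : DecidablePred cyc := fun σ => inferInstanceAs (Decidable (∀ i, σ i ≠ i))

/-- the transposition fixing `k` -/
def sw (k : Fin 3) : S3 := swap (k + 1) (k + 2)

/-- the standard three-cycle -/
def c3 : S3 := finRotate 3

theorem S3_cases : ∀ σ : S3, σ = 1 ∨ (∃ k, σ = sw k) ∨ σ = c3 ∨ σ = c3⁻¹ := by decide

theorem cyc_iff : ∀ σ : S3, cyc σ ↔ σ = c3 ∨ σ = c3⁻¹ := by decide

theorem card_S3 : Nat.card S3 = 6 := by simp [Nat.card_eq_fintype_card, Fintype.card_perm, Nat.factorial]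

/-- monomial matrices -/
def mn (σ : S3) (d : V3 K) : M3 K := Matrix.of fun i j => if i = σ j then d j else 0

theorem mn_one (d : V3 K) : mn 1 d = diagonal d := by
  ext i j
  by_cases h : i = j <;> simp [mn, h]

theorem mn_mul (σ τ : S3) (d e : V3 K) : mn σ d * mn τ e = mn (σ * τ) fun j => d (τ j) * e j := by
  ext i j
  simp [mn, Matrix.mul_apply]
  rfl

theorem smul_mn (c : K) (σ : S3) (d : V3 K) : c • mn σ d = mn σ (c • d) := by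
  ext i j
  simp [mn]

theorem mn_ne {σ : S3} {d : V3 K} (h : (mn σ d).det ≠ 0) (j : Fin 3) : d j ≠ 0 := fun e =>
  h (det_eq_zero_of_column_eq_zero j fun i => by simp [mn, e])

theorem exists_mn {G : M3 K} (h : G.det ≠ 0) (h2 : ∀ i j k, j ≠ k → G i j = 0 ∨ G i k = 0) : ∃ σ d, G = mn σ d := by
  rw [det_apply] at h
  obtain ⟨σ, -, hσ⟩ := Finset.exists_ne_zero_of_sum_ne_zero h
  have h3 : ∀ j, G (σ j) j ≠ 0 := fun j e => hσ (by rw [Finset.prod_eq_zero (f := fun i => G (σ i) i) (Finset.mem_univ j) e, smul_zero])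
  refine ⟨σ, fun j => G (σ j) j, Matrix.ext fun i j => ?_⟩
  obtain ⟨k, rfl⟩ := σ.surjective i
  by_cases e : k = j
  · simp [mn, e]
  · simpa [mn, e] using (h2 (σ k) k j e).resolve_left (h3 k)

theorem mn_diag (σ : S3) (d e : V3 K) : mn σ d * diagonal e = diagonal (fun i => e (σ⁻¹ i)) * mn σ d := by
  ext i j
  by_cases h : i = σ j <;> simp [mn, h, mul_comm]

/-- the diagonal involutions -/
def tt (k : Fin 3) : M3 K := diagonal fun i => if i = k then 1 else -1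

theorem diag_scalar {d : V3 K} {c : K} : diagonal d = c • (1 : M3 K) ↔ ∀ i, d i = c := by
  rw [smul_one_eq_diagonal, diagonal_eq_diagonal_iff]

namespace PRep

variable {ρ ρ' : PRep Γ K} {x y z g w j s : Γ} {X Y : M3 K} {d e : V3 K} {σ τ : S3} {k l : Fin 3}

/-- the diagonal subgroup -/
def D (ρ : PRep Γ K) : Subgroup Γ where
  carrier := {x | ∃ d, ρ.R x (diagonal d)}
  mul_mem' := by
    rintro x y ⟨d, h1⟩ ⟨e, h2⟩
    exact ⟨_, diagonal_mul_diagonal d e ▸ h1.mul h2⟩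
  one_mem' := ⟨fun _ => 1, ρ.one.congr diagonal_one⟩
  inv_mem' := by
    rintro x ⟨d, h⟩
    exact ⟨fun i => (d i)⁻¹, h.inv_of_mul' (by
      simp [mul_inv_cancel₀ (mn_ne (σ := 1) (mn_one d ▸ h.det) _)])⟩

theorem R.dne (h : ρ.R x (diagonal d)) (i : Fin 3) : d i ≠ 0 := mn_ne (σ := 1) (mn_one d ▸ h.det) i

theorem R.dmul (h : ρ.R x (diagonal d)) (h' : ρ.R y (diagonal e)) : ρ.R (x * y) (diagonal fun i => d i * e i) :=
  diagonal_mul_diagonal d e ▸ h.mul h'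

theorem R.dinv (h : ρ.R x (diagonal d)) : ρ.R x⁻¹ (diagonal fun i => (d i)⁻¹) :=
  h.inv_of_mul' (by simp [mul_inv_cancel₀ (h.dne _)])

theorem R.dpow (h : ρ.R x (diagonal d)) (n : ℕ) : ρ.R (x ^ n) (diagonal fun i => d i ^ n) :=
  (h.pow n).congr (diagonal_pow d n).symm

theorem R.deq_iff (h : ρ.R x (diagonal d)) (h' : ρ.R y (diagonal e)) : x = y ↔ ∃ c, ∀ i, e i = c * d i := by
  simp only [h.eq_iff h', ← diagonal_smul, diagonal_eq_diagonal_iff, Pi.smul_apply, smul_eq_mul]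

theorem R.done_iff (h : ρ.R x (diagonal d)) : x = 1 ↔ d 0 = d 1 ∧ d 0 = d 2 := by
  simp only [h.eq_one_iff, diag_scalar]
  exact ⟨fun ⟨c, e⟩ => by simp [e], fun e => ⟨d 0, fun i => by fin_cases i <;> simp [e.1.symm, e.2.symm]⟩⟩

theorem D_comm (hx : x ∈ ρ.D) (hy : y ∈ ρ.D) : x * y = y * x := by
  obtain ⟨d, h⟩ := hx
  obtain ⟨e, h'⟩ := hy
  exact h.comm_of h' (by simp [mul_comm])

theorem D_le_Cn (hx : x ∈ ρ.D) : ρ.D ≤ Cn x := fun _ hy => mem_Cn.2 (D_comm hx hy)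

theorem Reg.mem (h : ρ.Reg x) : x ∈ ρ.D := ⟨_, h.choose_spec.2⟩

theorem Reg.sq_ne (h : ρ.Reg x) : x * x ≠ 1 := by
  obtain ⟨d, hd, h⟩ := h
  rw [Ne, (h.dmul h).done_iff]
  rintro ⟨e1, e2⟩
  have a1 := (mul_self_eq_mul_self_iff.1 e1).resolve_left (hd.ne (by decide))
  have a2 := (mul_self_eq_mul_self_iff.1 e2).resolve_left (hd.ne (by decide))
  exact hd.ne (show 1 ≠ 2 by decide) (by linear_combination a1 - a2)

/-- monomial with the given permutation -/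
def Mon (ρ : PRep Γ K) (x : Γ) (σ : S3) : Prop := ∃ d, ρ.R x (mn σ d)

theorem Mon.one_iff : ρ.Mon x 1 ↔ x ∈ ρ.D := by simp only [Mon, mn_one]; rfl

theorem Mon.mul (h : ρ.Mon x σ) (h' : ρ.Mon y τ) : ρ.Mon (x * y) (σ * τ) := by
  obtain ⟨d, h⟩ := h
  obtain ⟨e, h'⟩ := h'
  exact ⟨_, mn_mul σ τ d e ▸ h.mul h'⟩

theorem Mon.inv (h : ρ.Mon x σ) : ρ.Mon x⁻¹ σ⁻¹ := by
  obtain ⟨d, h⟩ := h
  refine ⟨fun j => (d (σ⁻¹ j))⁻¹, h.inv_of_mul' ?_⟩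
  rw [mn_mul, mul_inv_cancel, mn_one]
  simp [mul_inv_cancel₀ (mn_ne h.det _)]

theorem Mon.uniq (h : ρ.Mon x σ) (h' : ρ.Mon x τ) : σ = τ := by
  obtain ⟨d, h⟩ := h
  obtain ⟨e, h'⟩ := h'
  obtain ⟨c, -, k⟩ := h.uniq h'
  ext j
  have := congrFun (congrFun k (τ j)) j
  by_contra hn
  have hn' : τ j ≠ σ j := fun e => hn (by rw [e])
  exact mn_ne h'.det j (by simpa [mn, hn'] using this)

theorem Mon.not_mem (h : ρ.Mon x σ) (h1 : σ ≠ 1) : x ∉ ρ.D := fun e => h1 (h.uniq (Mon.one_iff.2 e))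

theorem Mon.div (h : ρ.Mon x σ) (h' : ρ.Mon y σ) : y * x⁻¹ ∈ ρ.D :=
  Mon.one_iff.1 (by simpa using h'.mul h.inv)

theorem Mon.conj (h : ρ.Mon g σ) (hy : ρ.R y (diagonal e)) : ρ.R (g * y * g⁻¹) (diagonal fun i => e (σ⁻¹ i)) := by
  obtain ⟨d, h⟩ := h
  exact h.conj_of hy (mn_diag σ d e)

theorem Mon.conj_mem (h : ρ.Mon g σ) (hy : y ∈ ρ.D) : g * y * g⁻¹ ∈ ρ.D := ⟨_, h.conj hy.choose_spec⟩

theorem Mon.mem_Nm [Finite Γ] (h : ρ.Mon g σ) : g ∈ Nm ρ.D := MH.mem_Nm fun _ hy => h.conj_mem hy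

theorem mon_of_conj (h : ∀ j k, j ≠ k → ∃ y d, ρ.R y (diagonal d) ∧ d j ≠ d k ∧ g * y * g⁻¹ ∈ ρ.D) :
    ∃ σ, ρ.Mon g σ := by
  obtain ⟨G, hG⟩ := ρ.ex g
  obtain ⟨σ, d, rfl⟩ := exists_mn hG.det fun i j k hjk => by
    obtain ⟨y, d, hy, hd, e, he⟩ := h j k hjk
    obtain ⟨c, -, e1⟩ := (he.mul hG).uniq ((hG.mul hy).congr' (by group))
    have e2 := congrFun (congrFun e1 i) j
    have e3 := congrFun (congrFun e1 i) k
    simp only [mul_diagonal, Matrix.smul_apply, diagonal_mul, smul_eq_mul] at e2 e3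
    rw [← mul_eq_zero]
    exact mul_left_cancel₀ (sub_ne_zero.2 hd) (by linear_combination G i k * e2 - G i j * e3)
  exact ⟨σ, d, hG⟩

theorem Reg.mon (h : ρ.Reg x) (hg : g * x * g⁻¹ ∈ ρ.D) : ∃ σ, ρ.Mon g σ := by
  obtain ⟨d, hd, h⟩ := h
  exact mon_of_conj fun j k hjk => ⟨x, d, h, hd.ne hjk, hg⟩

theorem Reg.mon_Cn (h : ρ.Reg x) (hg : g ∈ Cn x) : ∃ σ, ρ.Mon g σ :=
  h.mon (by rw [← mem_Cn.1 hg, mul_inv_cancel_right]; exact h.mem)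

theorem Mon.cube (h : ρ.Mon w σ) (hσ : cyc σ) : w ^ 3 = 1 := by
  obtain ⟨d, h⟩ := h
  rw [(h.pow 3).eq_one_iff]
  refine ⟨d 0 * d 1 * d 2, ?_⟩
  rw [pow_three, mn_mul, mn_mul]
  rcases (cyc_iff σ).1 hσ with rfl | rfl
  · rw [show c3 * (c3 * c3) = 1 by decide, mn_one, diag_scalar]
    intro i
    fin_cases i <;> simp [c3] <;> ring
  · rw [show c3⁻¹ * (c3⁻¹ * c3⁻¹) = 1 by decide, mn_one, diag_scalar, show c3⁻¹ = c3 * c3 by decide]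
    intro i
    fin_cases i <;> simp [c3] <;> ring

theorem Reg.cent (h : ρ.Reg x) (hg : g ∈ Cn x) : g ∈ ρ.D ∨ (x ^ 3 = 1 ∧ ∃ σ, cyc σ ∧ ρ.Mon g σ) := by
  obtain ⟨σ, hσ⟩ := h.mon_Cn hg
  obtain ⟨d, hd, h⟩ := h
  obtain ⟨c, e⟩ := (h.deq_iff (hσ.conj h)).1 (by rw [← mem_Cn.1 hg, mul_inv_cancel_right])
  by_cases hc : cyc σ
  · refine Or.inr ⟨?_, σ, hc, hσ⟩
    have e0 := e 0
    have e1 := e 1
    have e2 := e 2
    rw [(h.dpow 3).done_iff]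
    rcases (cyc_iff σ).1 hc with rfl | rfl
    · rw [show c3⁻¹ = c3 * c3 by decide] at e0 e1 e2
      simp [c3] at e0 e1 e2
      grind
    · simp [c3] at e0 e1 e2
      grind
  · obtain ⟨i, hi⟩ := not_forall.1 hc
    have c1 : c = 1 := by
      have := e i
      rw [Perm.inv_eq_iff_eq.2 (not_not.1 hi).symm] at this
      exact mul_right_cancel₀ (h.dne i) (by rw [← this, one_mul])
    have : σ⁻¹ = 1 := Equiv.ext fun j => hd (by simpa [c1] using e j)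
    exact Or.inl (Mon.one_iff.1 (inv_eq_one.1 this ▸ hσ))

theorem Reg.inv_mem (h : ρ.Reg x) (hs : s * s = 1) (hg : s ∈ Cn x) : s ∈ ρ.D := by
  refine (h.cent hg).elim id fun ⟨_, σ, h1, h2⟩ => ?_
  have := h2.cube h1
  rw [pow_three, hs, mul_one] at this
  exact this ▸ ρ.D.one_mem

theorem Reg.nv (h : ρ.Reg x) : nv x = {s | Inv s ∧ s ∈ ρ.D}.ncard := by
  unfold MH.nv
  congr 1
  ext s
  exact and_congr_right fun hs => ⟨h.inv_mem hs.2, fun k => D_le_Cn h.mem k⟩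

/-- the permutations of the monomial elements of a subgroup -/
def W (ρ : PRep Γ K) (A : Subgroup Γ) : Subgroup S3 where
  carrier := {σ | ∃ x ∈ A, ρ.Mon x σ}
  mul_mem' := fun ⟨_, h1, h2⟩ ⟨_, h3, h4⟩ => ⟨_, A.mul_mem h1 h3, h2.mul h4⟩
  one_mem' := ⟨1, A.one_mem, Mon.one_iff.2 ρ.D.one_mem⟩
  inv_mem' := fun ⟨_, h1, h2⟩ => ⟨_, A.inv_mem h1, h2.inv⟩

theorem card_W [Finite Γ] {A : Subgroup Γ} (h : ∀ x ∈ A, ∃ σ, ρ.Mon x σ) :
    Nat.card A = Nat.card (ρ.W A) * Nat.card (A ⊓ ρ.D : Subgroup Γ) :=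
  card_label ρ.Mon (fun x hx => (h x hx).imp fun _ hσ => ⟨hσ, fun _ hτ => hτ.uniq hσ⟩) fun x hx σ hσ y =>
    ⟨fun hy => ⟨A.mul_mem hy.1 (A.inv_mem hx), hσ.div hy.2⟩, fun hy =>
      ⟨by simpa using A.mul_mem hy.1 hx, by simpa using (Mon.one_iff.2 hy.2).mul hσ⟩⟩

theorem R.tt_mem (h : ρ.R s (tt k)) : s ∈ ρ.D := ⟨_, h⟩

theorem R.tt_sq (h : ρ.R s (tt k)) : s * s = 1 := (h.dmul h).done_iff.2 (by fin_cases k <;> simp)

theorem R.tt_ne (h2 : (2 : K) ≠ 0) (h : ρ.R s (tt k)) (h' : ρ.R y (tt l)) (hkl : k ≠ l) : s ≠ y := fun e => by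
  obtain ⟨c, e⟩ := (h.deq_iff h').1 e
  have e0 := e 0
  have e1 := e 1
  have e2 := e 2
  fin_cases k <;> fin_cases l <;> simp at hkl e0 e1 e2 <;> grind

theorem R.tt_inv (h2 : (2 : K) ≠ 0) (h : ρ.R s (tt k)) : Inv s :=
  ⟨fun e => by have := h.done_iff.1 e; fin_cases k <;> simp at this <;> grind, h.tt_sq⟩

theorem Mon.conj_tt (h : ρ.Mon g σ) (hs : ρ.R s (tt k)) : ρ.R (g * s * g⁻¹) (tt (σ k)) :=
  (h.conj hs).congr (by simp only [tt, Perm.inv_eq_iff_eq])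

theorem B.two_eq (h : ρ.B) (hx : ρ.R x (diagonal d)) (k : Fin 3) (e : d (k + 1) = d (k + 2)) :
    x = 1 ∨ ((2 : K) ≠ 0 ∧ ρ.R x (tt k)) := by
  have ha := hx.dne (k + 1)
  have h1 : ρ.R x (T (Pi.single k 1) (Pi.single k (d k / d (k + 1) - 1))) := (hx.smul (inv_ne_zero ha)).congr (by
    ext i j
    fin_cases k <;> fin_cases i <;> fin_cases j <;> simp [T, vecMulVec] at e ha ⊢ <;> field_simp <;> exact e)
  have h2 := h.hom ⟨_, h1⟩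
  simp only [single_dotProduct, Pi.single_eq_same, mul_one] at h2
  by_cases h3 : d k / d (k + 1) - 1 = 0
  · exact Or.inl (h1.inj (ρ.one.congr (by rw [h3, Pi.single_zero, T_zero])))
  replace h2 := h2.resolve_left h3
  refine Or.inr ⟨fun e => h3 (by rw [h2, e, neg_zero]), (h1.smul (c := -1) (by simp)).congr ?_⟩
  rw [h2]
  ext i j
  fin_cases k <;> fin_cases i <;> fin_cases j <;> simp [T, vecMulVec, tt] <;> norm_num

theorem B.two_sq (h : ρ.B) (hx : ρ.R x (diagonal d)) (k : Fin 3) (e : d (k + 1) = d (k + 2)) : x * x = 1 := by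
  rcases h.two_eq hx k e with rfl | k
  exacts [mul_one 1, k.2.tt_sq]

theorem B.D_cases (h : ρ.B) (hx : x ∈ ρ.D) : x = 1 ∨ ((2 : K) ≠ 0 ∧ ∃ k, ρ.R x (tt k)) ∨ ρ.Reg x := by
  obtain ⟨d, hx⟩ := hx
  by_cases e : ∃ k, d (k + 1) = d (k + 2)
  · obtain ⟨k, e⟩ := e
    exact (h.two_eq hx k e).imp_right fun e => Or.inl ⟨e.1, k, e.2⟩
  push Not at e
  refine Or.inr (Or.inr ⟨d, ?_, hx⟩)
  rw [vec3_eq d]
  exact inj3 (e 2) (e 1).symm (e 0)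

theorem B.reg (h : ρ.B) (hx : x ∈ ρ.D) (h2 : x * x ≠ 1) : ρ.Reg x := by
  rcases h.D_cases hx with rfl | ⟨-, k, e⟩ | e
  exacts [absurd (mul_one 1) h2, absurd e.tt_sq h2, e]

theorem B.inv_D (h : ρ.B) (hx : x ∈ ρ.D) (h2 : Inv x) : (2 : K) ≠ 0 ∧ ∃ k, ρ.R x (tt k) := by
  rcases h.D_cases hx with rfl | e | e
  exacts [absurd rfl h2.1, e, absurd h2.2 e.sq_ne]

theorem B.sw_sq (h : ρ.B) (hw : ρ.Mon w (sw k)) : w * w = 1 ∨ ((2 : K) ≠ 0 ∧ ρ.R (w * w) (tt k)) := by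
  obtain ⟨d, hw⟩ := hw
  have := hw.mul hw
  rw [mn_mul, sw, Equiv.swap_mul_self, mn_one] at this
  exact h.two_eq this k (by simp [mul_comm])

theorem B.sw_four (h : ρ.B) (hw : ρ.Mon w (sw k)) : w ^ 2 ^ 2 = 1 := by
  rw [show w ^ 2 ^ 2 = w * w * (w * w) by simp [pow_succ, mul_assoc]]
  rcases h.sw_sq hw with e | e
  exacts [by rw [e, mul_one], e.2.tt_sq]

theorem B.sw_conj (h : ρ.B) (hw : ρ.Mon w (sw k)) (hx : ρ.R x (diagonal d)) :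
    d k ^ 4 = (d (k + 1) * d (k + 2)) ^ 2 := by
  have h1 := hx.dmul (hw.conj hx)
  have := (h1.dmul h1).done_iff.1 (h.two_sq h1 k (by simp [sw, mul_comm]))
  fin_cases k <;> simp [sw, swap_apply_def] at this ⊢ <;> grind

/-- all three diagonal involutions are in the group -/
def Vier (ρ : PRep Γ K) : Prop := (2 : K) ≠ 0 ∧ ∀ k, ∃ s, ρ.R s (tt k)

theorem tt_third (h : ρ.R s (tt (k + 1))) (h' : ρ.R y (tt (k + 2))) : ρ.R (s * y) (tt k) :=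
  (h.dmul h').congr (by
    ext i j; fin_cases k <;> fin_cases i <;> fin_cases j <;> simp [tt])

theorem vier_of (h2 : (2 : K) ≠ 0) (h : ρ.R s (tt k)) (h' : ρ.R y (tt l)) (hkl : k ≠ l) : ρ.Vier := by
  refine ⟨h2, fun m => ?_⟩
  by_cases e1 : m = k
  · exact ⟨s, e1 ▸ h⟩
  by_cases e2 : m = l
  · exact ⟨y, e2 ▸ h'⟩
  have : (k = m + 1 ∧ l = m + 2) ∨ (k = m + 2 ∧ l = m + 1) := by clear h h'; revert k l m; decide
  rcases this with ⟨rfl, rfl⟩ | ⟨rfl, rfl⟩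
  exacts [⟨_, tt_third h h'⟩, ⟨_, tt_third h' h⟩]

theorem B.card_inv_D (h : ρ.B) (hV : ρ.Vier) : {s | Inv s ∧ s ∈ ρ.D}.ncard = 3 := by
  obtain ⟨h2, hV⟩ := hV
  choose t ht using hV
  refine Set.ncard_eq_three.2 ⟨t 0, t 1, t 2, (ht 0).tt_ne h2 (ht 1) (by decide), (ht 0).tt_ne h2 (ht 2) (by decide),
    (ht 1).tt_ne h2 (ht 2) (by decide), Set.ext fun s => ⟨fun hs => ?_, ?_⟩⟩
  · obtain ⟨-, k, hk⟩ := h.inv_D hs.2 hs.1
    rw [hk.inj (ht k)]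
    fin_cases k <;> simp
  · rintro (rfl | rfl | rfl) <;> exact ⟨(ht _).tt_inv h2, (ht _).tt_mem⟩

theorem B.no_four (h : ρ.B) (hV : ρ.Vier) (hx : x ∈ ρ.D) (h4 : x * x * (x * x) = 1) : x * x = 1 := by
  by_contra hn
  obtain ⟨-, k, hk⟩ := h.inv_D (ρ.D.mul_mem hx hx) ⟨hn, h4⟩
  obtain ⟨d, hd⟩ := id hx
  obtain ⟨c, e⟩ := (hk.deq_iff (hd.dmul hd)).1 rfl
  have : d (k + 1) * d (k + 1) = d (k + 2) * d (k + 2) := by
    rw [e, e]; fin_cases k <;> simp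
  rcases mul_self_eq_mul_self_iff.1 this with e | e
  · exact hn (h.two_sq hd k e)
  · obtain ⟨t, ht⟩ := hV.2 (k + 1)
    have := h.two_sq (hd.dmul ht) k (by rw [e]; fin_cases k <;> simp)
    rw [mul_assoc, ← mul_assoc t, D_comm ht.tt_mem hx, mul_assoc, ht.tt_sq, mul_one] at this
    exact hn this

/-- the diagonal elements of order three -/
def Z (ρ : PRep Γ K) (z : Γ) : Prop := ∃ ω : K, ω ^ 2 + ω + 1 = 0 ∧ ω ≠ 1 ∧ ρ.R z (diagonal ![1, ω, ω ^ 2])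

theorem Z.reg (h : ρ.Z z) : ρ.Reg z := by
  obtain ⟨ω, h1, h2, h⟩ := h
  exact ⟨_, inj3 h2.symm (by grind) (by grind), h⟩

theorem Z.cube (h : ρ.Z z) : z ^ 3 = 1 := by
  obtain ⟨ω, h1, h2, h⟩ := h
  rw [(h.dpow 3).done_iff]
  simp
  grind

theorem Z.three (h : ρ.Z z) : (3 : K) ≠ 0 := by
  obtain ⟨ω, h1, h2, h⟩ := h
  grind

theorem B.cube_D (h : ρ.B) (hx : x ∈ ρ.D) (h3 : x ^ 3 = 1) (h1 : x ≠ 1) : ρ.Z x := by
  obtain ⟨d, hd, hx⟩ := h.reg hx fun e => h1 (by rwa [pow_three, e, mul_one] at h3)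
  have := (hx.dpow 3).done_iff.1 h3
  have a0 := hx.dne 0
  have n1 : d 0 ≠ d 1 := hd.ne (by decide)
  have n2 : d 0 ≠ d 2 := hd.ne (by decide)
  have n3 : d 1 ≠ d 2 := hd.ne (by decide)
  refine ⟨d 1 / d 0, by field_simp; grind, by rwa [Ne, div_eq_one_iff_eq a0, eq_comm],
    (hx.smul (inv_ne_zero a0)).congr ?_⟩
  ext i j
  fin_cases i <;> fin_cases j <;> simp [a0, div_eq_inv_mul]
  field_simp
  grind

theorem Z.eq (h : ρ.Z z) (h' : ρ.Z y) : y = z ∨ y = z⁻¹ := by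
  obtain ⟨ω, h1, h2, h⟩ := h
  obtain ⟨ω', h3, h4, h'⟩ := h'
  have : ω' = ω ∨ ω' * ω = 1 := by grind
  refine this.imp (fun e => by subst e; exact h'.inj h) fun e => eq_inv_of_mul_eq_one_left ((h'.dmul h).done_iff.2 ?_)
  simp
  grind

theorem Z.cyc (h : ρ.Z z) (hw : ρ.Mon w σ) (hσ : cyc σ) : w ∈ Cn z := by
  obtain ⟨ω, h1, h2, h⟩ := h
  rw [mem_Cn, eq_comm, ← mul_inv_eq_iff_eq_mul, (hw.conj h).deq_iff h]
  rcases (cyc_iff σ).1 hσ with rfl | rfl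
  · refine ⟨ω, fun i => ?_⟩
    rw [show c3⁻¹ = c3 * c3 by decide]
    fin_cases i <;> simp [c3] <;> grind
  · refine ⟨ω ^ 2, fun i => ?_⟩
    fin_cases i <;> simp [c3] <;> grind

theorem B.comm_cube (h : ρ.B) (hw : ρ.Mon w σ) (hσ : cyc σ) (hx : x ∈ ρ.D) (h3 : (w * x * w⁻¹ * x⁻¹) ^ 3 = 1) :
    x ^ 3 = 1 := by
  obtain ⟨d, hx⟩ := hx
  have h1 := (hw.conj hx).dmul hx.dinv
  have a0 := hx.dne 0
  have a1 := hx.dne 1
  have a2 := hx.dne 2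
  obtain ⟨c, ω, e1, e⟩ : ∃ c ω : K, ω ^ 3 = 1 ∧ ∀ i, d (σ⁻¹ i) * (d i)⁻¹ = c * ![1, ω, ω ^ 2] i := by
    by_cases e : w * x * w⁻¹ * x⁻¹ = 1
    · obtain ⟨c, e⟩ := h1.eq_one_iff.1 e
      exact ⟨c, 1, by simp, fun i => by rw [diag_scalar.1 e i]; fin_cases i <;> simp⟩
    · obtain ⟨ω, k1, -, k⟩ := h.cube_D ⟨_, h1⟩ h3 e
      obtain ⟨c, e⟩ := (k.deq_iff h1).1 rfl
      exact ⟨c, ω, by grind, e⟩
  have e0 := e 0
  have e1 := e 1
  have e2 := e 2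
  rw [(hx.dpow 3).done_iff]
  rcases (cyc_iff σ).1 hσ with rfl | rfl
  · rw [show c3⁻¹ = c3 * c3 by decide] at e0 e1 e2
    simp [c3] at e0 e1 e2
    field_simp at e0 e1 e2
    grind
  · simp [c3] at e0 e1 e2
    field_simp at e0 e1 e2
    grind

theorem B.six (h : ρ.B) (hw : ρ.Mon w σ) (hσ : cyc σ) (hj : ρ.Mon j (sw k)) (hx : x ∈ ρ.D) : x ^ 6 = 1 := by
  obtain ⟨d, hx⟩ := hx
  have key : ∀ l, d l ^ 4 = (d (l + 1) * d (l + 2)) ^ 2 := fun l => by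
    have : sw l = sw k ∨ sw l = σ * sw k ∨ sw l = σ⁻¹ * sw k := by clear hw hj; revert hσ σ k l; decide
    rcases this with e | e | e
    exacts [h.sw_conj (e ▸ hj) hx, h.sw_conj (e ▸ hw.mul hj) hx, h.sw_conj (e ▸ hw.inv.mul hj) hx]
  have e0 := key 0
  have e1 := key 1
  have e2 := key 2
  simp at e0 e1 e2
  rw [(hx.dpow 6).done_iff]
  grind

end PRep

end Cfsg.Agent.MH
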