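import Cfsg.Agent.MH.Out

/-! Normal forms of the elements. -/

set_option autoImplicit false

namespace Cfsg.Agent.MH

open Matrix Polynomial

variable {Γ K : Type*} [Group Γ] [Field K]

/-- the second coefficient of the characteristic polynomial -/
def e2 (M : M3 K) : K :=
  M 0 0 * M 1 1 - M 0 1 * M 1 0 + M 0 0 * M 2 2 - M 0 2 * M 2 0 + M 1 1 * M 2 2 - M 1 2 * M 2 1

theorem exists_roots {M : M3 K} (h : M.charpoly.Splits) :
    ∃ a b c, M.trace = a + b + c ∧ e2 M = a * b + a * c + b * c ∧ M.det = a * b * c := by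
  obtain ⟨a, b, c, e⟩ := Multiset.card_eq_three.1 (h.natDegree_eq_card_roots.symm.trans (by simp))
  have h1 := h.eq_prod_roots_of_monic M.charpoly_monic
  rw [e] at h1
  have h2 : M.charpoly = C 1 * X ^ 3 + C (-M.trace) * X ^ 2 + C (e2 M) * X + C (-M.det) := by
    simp [charpoly, det_fin_three, e2, trace, Fin.sum_univ_three, charmatrix_apply]
    ring
  have h3 : (Multiset.map (fun a : K => X - C a) {a, b, c}).prod =
      C 1 * X ^ 3 + C (-(a + b + c)) * X ^ 2 + C (a * b + a * c + b * c) * X + C (-(a * b * c)) := by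
    simp
    ring
  rw [h2, h3] at h1
  have := Cubic.toPoly_injective ⟨1, -M.trace, e2 M, -M.det⟩ ⟨1, -(a + b + c), a * b + a * c + b * c, -(a * b * c)⟩
  have := this.1 h1
  simp only [Cubic.mk.injEq, neg_inj] at this
  exact ⟨a, b, c, this.2⟩

theorem cayley (M : M3 K) : M * M * M = M.trace • (M * M) - e2 M • M + M.det • 1 := by
  ext i j
  fin_cases i <;> fin_cases j <;> simp [det_fin_three, e2, trace, Fin.sum_univ_three, mul_apply] <;> ring

theorem rank_one {M : M3 K} (h : M * M - M.trace • M + e2 M • 1 = 0) : ∃ v φ, M = vecMulVec v φ := by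
  by_cases h0 : M = 0
  · exact ⟨0, 0, by simp [h0]⟩
  obtain ⟨i, j, hij⟩ : ∃ i j, M i j ≠ 0 := by
    by_contra hn
    push Not at hn
    exact h0 (Matrix.ext hn)
  refine ⟨fun k => M k j, fun l => M i l / M i j, Matrix.ext fun k l => ?_⟩
  rw [vecMulVec_apply, ← mul_div_assoc, eq_div_iff hij]
  have e := fun a b => congrFun (congrFun h a) b
  have e00 := e 0 0
  have e01 := e 0 1
  have e02 := e 0 2
  have e10 := e 1 0
  have e11 := e 1 1
  have e12 := e 1 2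
  have e20 := e 2 0
  have e21 := e 2 1
  have e22 := e 2 2
  simp [e2, trace, Fin.sum_univ_three, mul_apply] at e00 e01 e02 e10 e11 e12 e20 e21 e22
  clear h h0 hij e
  fin_cases i <;> fin_cases j <;> fin_cases k <;> fin_cases l <;> simp <;> grind

theorem shift {M : M3 K} {a b c : K} (h1 : M.trace = a + b + c) (h2 : e2 M = a * b + a * c + b * c)
    (h3 : M.det = a * b * c) : (M - a • 1).trace = (b - a) + (c - a) ∧ e2 (M - a • 1) = (b - a) * (c - a) ∧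
      (M - a • 1).det = 0 := by
  simp [e2, trace, Fin.sum_univ_three, det_fin_three] at *
  exact ⟨by linear_combination h1, by linear_combination h2 - 2 * a * h1,
    by linear_combination h3 - a * h2 + a ^ 2 * h1⟩

theorem exists_eig {M : M3 K} {a : K} (h : (M - a • 1).det = 0) : ∃ v, v ≠ 0 ∧ M *ᵥ v = a • v := by
  obtain ⟨v, hv, e⟩ := exists_mulVec_eq_zero_iff.2 h
  exact ⟨v, hv, by rwa [sub_mulVec, smul_mulVec, one_mulVec, sub_eq_zero] at e⟩

theorem det_eig {M : M3 K} {a b c : K} {u v w : V3 K} (hu : u ≠ 0) (hv : v ≠ 0) (hw : w ≠ 0) (e1 : M *ᵥ u = a • u)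
    (e2 : M *ᵥ v = b • v) (e3 : M *ᵥ w = c • w) (hab : a ≠ b) (hac : a ≠ c) (hbc : b ≠ c) : (col3 u v w).det ≠ 0 :=
  det_col3_ne fun α β γ e => by
    have k1 := congrArg (M *ᵥ ·) e
    simp only [mulVec_add, mulVec_smul, e1, e2, e3, mulVec_zero] at k1
    have k2 := congrArg (M *ᵥ ·) k1
    simp only [mulVec_add, mulVec_smul, e1, e2, e3, mulVec_zero] at k2
    have a1 : (α * (a - b) * (a - c)) • u = 0 := by linear_combination (norm := module) k2 - (b + c) • k1 + (b * c) • e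
    have a2 : (β * (b - a) * (b - c)) • v = 0 := by linear_combination (norm := module) k2 - (a + c) • k1 + (a * c) • e
    have a3 : (γ * (c - a) * (c - b)) • w = 0 := by linear_combination (norm := module) k2 - (a + b) • k1 + (a * b) • e
    simp only [smul_eq_zero, mul_eq_zero, sub_eq_zero, hu, hv, hw, hab, hac, hbc, hab.symm, hac.symm, hbc.symm,
      or_false] at a1 a2 a3
    exact ⟨a1, a2, a3⟩

/-- unitriangular matrices -/
abbrev un (a b c : K) : M3 K := !![1, a, c; 0, 1, b; 0, 0, 1]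

namespace PRep

theorem ext' {ρ ρ' : PRep Γ K} (h : ∀ x X, ρ.R x X ↔ ρ'.R x X) : ρ = ρ' := by
  cases ρ
  cases ρ'
  congr
  ext x X
  exact h x X

/-- the same representation in another basis -/
def Eqv (ρ ρ' : PRep Γ K) : Prop := ∃ P Q h, ρ' = ρ.cj P Q h

variable {ρ ρ' ρ'' : PRep Γ K} {x y : Γ} {X Y : M3 K} {v φ : V3 K}

theorem Eqv.cj (ρ : PRep Γ K) {P Q : M3 K} (h : P * Q = 1) : ρ.Eqv (ρ.cj P Q h) := ⟨P, Q, h, rfl⟩

theorem Eqv.refl (ρ : PRep Γ K) : ρ.Eqv ρ := ⟨1, 1, mul_one 1, ext' fun x X => by simp [cj_R]⟩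

theorem cj_cj {P Q P' Q' : M3 K} (h : P * Q = 1) (h' : P' * Q' = 1) :
    (ρ.cj P Q h).cj P' Q' h' = ρ.cj (P * P') (Q' * Q) (by
      rw [mul_assoc, ← mul_assoc P', h', one_mul, h]) := ext' fun x X => by simp only [cj_R, mul_assoc]

theorem Eqv.trans (h : ρ.Eqv ρ') (h' : ρ'.Eqv ρ'') : ρ.Eqv ρ'' := by
  obtain ⟨P, Q, h, rfl⟩ := h
  obtain ⟨P', Q', h', rfl⟩ := h'
  exact ⟨_, _, _, cj_cj h h'⟩

theorem OutB.of_eqv (h : ρ.Eqv ρ') (h' : ρ'.OutB) : ρ.OutB := by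
  obtain ⟨P, Q, h, rfl⟩ := h
  rcases h' with ⟨h2, B, h3, h4, h5⟩ | k | k | ⟨h5, hc, P', Q', h', k⟩
  · refine Or.inl ⟨h2, Qᵀ * B * Q, by simp [h3, mul_assoc], ?_, fun x X hX => ?_⟩
    · have : Q.det ≠ 0 := fun e => by simpa [e] using congrArg det h
      simp [h4, this]
    · obtain ⟨c, e⟩ := h5 x _ hX.cj
      refine ⟨c, ?_⟩
      have h' : Qᵀ * Pᵀ = 1 := by rw [← transpose_mul, h, transpose_one]
      calc Xᵀ * (Qᵀ * B * Q) * X = (Qᵀ * Pᵀ) * Xᵀ * (Qᵀ * B * Q) * X * (P * Q) := by simp [h, h']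
        _ = Qᵀ * ((Q * X * P)ᵀ * B * (Q * X * P)) * Q := by simp only [transpose_mul, mul_assoc]
        _ = _ := by rw [e]; simp
  · exact Or.inr (Or.inl k)
  · exact Or.inr (Or.inr (Or.inl k))
  · rw [cj_cj] at k
    exact Or.inr (Or.inr (Or.inr ⟨h5, hc, _, _, _, k⟩))

/-- the hypotheses of the remaining case -/
structure B (ρ : PRep Γ K) : Prop where
  H : ρ.Hyp
  s : ρ.Small
  hom : ∀ {v φ}, ρ.Pe v φ → φ ⬝ᵥ v = 0 ∨ φ ⬝ᵥ v = -2

theorem B.of [Finite Γ] [Finite K] (H : ρ.Hyp) (h : ρ.Small) : ρ.B := ⟨H, h, fun e => h.no_hom H e⟩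

theorem B.eqv (h : ρ.B) (e : ρ.Eqv ρ') : ρ'.B := by
  obtain ⟨P, Q, hP, rfl⟩ := e
  exact ⟨h.H.cj hP, h.s.cj hP, fun e => by simpa only [dot_conj hP] using h.hom e.of_cj⟩

theorem B.tp (h : ρ.B) : ρ.tp.B :=
  ⟨h.H.tp, h.s.tp, fun ⟨x, e⟩ => by
    rw [dotProduct_comm]; exact h.hom ⟨x⁻¹, by simpa only [T_transpose] using tp_R.1 e⟩⟩

theorem B.pe (h : ρ.B) (e : ρ.Pe v φ) (hv : v ≠ 0) (hφ : φ ≠ 0) : φ ⬝ᵥ v = -2 := by
  rcases h.hom e with k | k
  · rw [k, h.s.two ⟨k, e⟩ hv hφ, neg_zero]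
  · exact k

/-- regular semisimple in the given basis -/
def Reg (ρ : PRep Γ K) (x : Γ) : Prop := ∃ d, Function.Injective d ∧ ρ.R x (diagonal d)

/-- regular unipotent in the given basis -/
def Uni (ρ : PRep Γ K) (x : Γ) : Prop := ∃ a b c, a ≠ 0 ∧ b ≠ 0 ∧ ρ.R x (un a b c)

theorem inj3 {a b c : K} (hab : a ≠ b) (hac : a ≠ c) (hbc : b ≠ c) : Function.Injective ![a, b, c] := by
  intro i j
  fin_cases i <;> fin_cases j <;> simp [hab, hac, hbc, hab.symm, hac.symm, hbc.symm]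

theorem B.mixed [Finite K] (h : ρ.B) {a b e : K} (hx : ρ.R x !![a, b, 0; 0, a, 0; 0, 0, e]) : b = 0 ∨ e = a := by
  have ha : a ≠ 0 := fun e => hx.blk_det (by simp [e])
  refine or_iff_not_imp_left.2 fun hb => ?_
  have hM : !![a, b, 0; 0, a, 0; 0, 0, e] = diagonal ![a, a, e] * T ![1, 0, 0] ![0, b / a, 0] := by
    ext i j
    fin_cases i <;> fin_cases j <;> simp [T, vecMulVec, Matrix.mul_apply, Fin.sum_univ_three, one_apply]
    field_simp
  have e1 := el_of_block (hM ▸ hx) rfl rfl (by simp)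
  have h2 := h.s.two e1 (by simp) (by simp [ha, hb])
  obtain ⟨k, y, hy⟩ := e1
  have h3 := (hy.of_mul_right (hM ▸ hx)).smul (inv_ne_zero ha)
  rcases h.hom (v := ![0, 0, 1]) (φ := ![0, 0, e / a - 1]) ⟨_, h3.congr (by
    ext i j; fin_cases i <;> fin_cases j <;> simp [T, vecMulVec, ha, div_eq_inv_mul])⟩ with k | k <;>
    simp [h2, sub_eq_zero, div_eq_one_iff_eq ha] at k <;> exact k

theorem B.nf_rep [Finite K] (h : ρ.B) (hx : ρ.R x X) {a c : K} (h1 : X.trace = a + a + c)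
    (h2 : e2 X = a * a + a * c + a * c) (h3 : X.det = a * a * c) :
    (∃ v φ, ρ.R x (T v φ)) ∨ ∃ ρ', ρ.Eqv ρ' ∧ ρ'.Uni x := by
  classical
  have ha : a ≠ 0 := fun e => hx.det (by simp [h3, e])
  obtain ⟨k1, k2, k3⟩ := shift h1 h2 h3
  obtain ⟨M, rfl⟩ : ∃ M, X = M + a • 1 := ⟨X - a • 1, by simp⟩
  simp only [add_sub_cancel_right, sub_self, zero_add, zero_mul] at k1 k2 k3
  have ch := cayley M
  rw [k1, k2, k3, zero_smul, zero_smul, sub_zero, add_zero] at ch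
  by_cases hN : M * M - (c - a) • M = 0
  · obtain ⟨v, φ, rfl⟩ := rank_one (M := M) (by rw [k1, k2, hN]; simp)
    exact Or.inl ⟨v, a⁻¹ • φ, (hx.smul (inv_ne_zero ha)).congr (by
      rw [T, smul_add, smul_smul, inv_mul_cancel₀ ha, one_smul, vecMulVec_smul, add_comm])⟩
  obtain ⟨u, hu⟩ : ∃ u, (M * M - (c - a) • M) *ᵥ u ≠ 0 := by
    by_contra hn
    push Not at hn
    exact hN (Matrix.ext_of_mulVec_single fun i => by rw [hn, zero_mulVec])
  obtain ⟨w, hw⟩ : ∃ w, w = M *ᵥ u - (c - a) • u := ⟨_, rfl⟩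
  obtain ⟨v, hv⟩ : ∃ v, v = M *ᵥ w := ⟨_, rfl⟩
  have v0 : v ≠ 0 := by rwa [hv, hw, mulVec_sub, mulVec_mulVec, mulVec_smul, ← smul_mulVec, ← sub_mulVec]
  have e1 : M *ᵥ v = 0 := by
    rw [hv, hw, mulVec_sub, mulVec_sub, mulVec_smul, mulVec_smul, mulVec_mulVec, mulVec_mulVec, ch, smul_mulVec,
      mulVec_mulVec, sub_self]
  have ind : ∀ {z} {τ : K}, M *ᵥ z = τ • z + (if τ = 0 then 1 else 0 : K) • w → z ≠ 0 → (col3 v w z).det ≠ 0 :=
    fun {z τ} hz z0 => det_col3_ne fun α β γ e => by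
      have f1 := congrArg (M *ᵥ ·) e
      simp only [mulVec_add, mulVec_smul, e1, ← hv, hz, mulVec_zero] at f1
      have f2 := congrArg (M *ᵥ ·) f1
      simp only [mulVec_add, mulVec_smul, e1, ← hv, hz, mulVec_zero] at f2
      have γ0 : γ = 0 := by
        by_cases hτ : τ = 0
        · simpa [hτ, v0] using f2
        · simpa [hτ, z0] using f2
      have β0 : β = 0 := by simpa [γ0, v0] using f1
      exact ⟨by simpa [γ0, β0, v0] using e, β0, γ0⟩
  by_cases hτ : c - a = 0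
  · rw [hτ, zero_smul, sub_zero] at hw
    obtain ⟨Q, hQ⟩ := exists_inv (ind (z := u) (τ := 0) (by simp [hw]) (by rintro rfl; simp at hu))
    refine Or.inr ⟨_, Eqv.cj ρ hQ, a⁻¹, a⁻¹, 0, inv_ne_zero ha, inv_ne_zero ha, (hx.smul (inv_ne_zero ha)).cj' ?_⟩
    rw [mul_col3, col3_mul]
    simp [add_mulVec, smul_mulVec, e1, ← hv, ← hw, smul_smul, ha, add_comm]
  · exfalso
    obtain ⟨z, z0, hz⟩ := exists_eig (M := M) (a := c - a) (by
      simp [e2, trace, Fin.sum_univ_three, det_fin_three] at k1 k2 k3 ⊢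
      linear_combination k3 - (c - a) * k2 + (c - a) ^ 2 * k1)
    obtain ⟨Q, hQ⟩ := exists_inv (ind (z := z) (τ := c - a) (by simp [hτ, hz]) z0)
    refine ((h.eqv (Eqv.cj ρ hQ)).mixed (a := a) (b := 1) (e := c) (hx.cj' ?_)).elim one_ne_zero
      fun e => hτ (sub_eq_zero.2 e)
    rw [mul_col3, col3_mul]
    simp [add_mulVec, smul_mulVec, e1, ← hv, hz, add_comm, ← add_smul]

theorem B.nf [Finite K] (h : ρ.B) (x : Γ) :
    (∃ v φ, ρ.R x (T v φ)) ∨ (∃ ρ', ρ.Eqv ρ' ∧ ρ'.Reg x) ∨ ∃ ρ', ρ.Eqv ρ' ∧ ρ'.Uni x := by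
  obtain ⟨X, hx⟩ := ρ.ex x
  obtain ⟨a, b, c, h1, h2, h3⟩ := exists_roots (h.H.split hx)
  by_cases hab : a = b
  · subst hab
    exact (h.nf_rep hx h1 h2 h3).imp_right Or.inr
  by_cases hac : a = c
  · subst hac
    exact (h.nf_rep hx (a := a) (c := b) (by rw [h1]; ring) (by rw [h2]; ring) (by rw [h3]; ring)).imp_right Or.inr
  by_cases hbc : b = c
  · subst hbc
    exact (h.nf_rep hx (a := b) (c := a) (by rw [h1]; ring) (by rw [h2]; ring) (by rw [h3]; ring)).imp_right Or.inr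
  obtain ⟨u, hu, e1⟩ := exists_eig (shift h1 h2 h3).2.2
  obtain ⟨v, hv, e2⟩ := exists_eig (shift (a := b) (b := a) (c := c) (by rw [h1]; ring) (by rw [h2]; ring)
    (by rw [h3]; ring)).2.2
  obtain ⟨w, hw, e3⟩ := exists_eig (shift (a := c) (b := a) (c := b) (by rw [h1]; ring) (by rw [h2]; ring)
    (by rw [h3]; ring)).2.2
  obtain ⟨Q, hQ⟩ := exists_inv (det_eig hu hv hw e1 e2 e3 hab hac hbc)
  refine Or.inr (Or.inl ⟨_, Eqv.cj ρ hQ, _, inj3 hab hac hbc, hx.cj' ?_⟩)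
  rw [mul_col3, col3_mul]
  simp [e1, e2, e3]

theorem B.inv_of_T (h : ρ.B) (hx : ρ.R x (T v φ)) : x * x = 1 := by
  by_cases h0 : v = 0 ∨ φ = 0
  · have : x = 1 := hx.inj (ρ.one.congr (by rcases h0 with rfl | rfl; exacts [zero_T _, T_zero _]))
    simp [this]
  rw [not_or] at h0
  refine (hx.mul hx).inj (ρ.one.congr ?_)
  rw [T_mul_T, h.pe ⟨_, hx⟩ h0.1 h0.2, ← T_zero v]
  congr 1
  module

end PRep

end Cfsg.Agent.MH
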