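import Cfsg.Agent.MH.Uni

/-! The elementary abelian subgroup of order nine. -/

set_option autoImplicit false

namespace Cfsg.Agent.MH

open Matrix Equiv Subgroup

variable {Γ K : Type*} [Group Γ] [Field K]

/-- the properties of a Sylow `3`-subgroup acting irreducibly -/
structure Nine (R : Subgroup Γ) (ν : ℕ) : Prop where
  card : Nat.card R = 9
  cube : ∀ y ∈ R, y ^ 3 = 1
  syl : ∀ z : Γ, z ^ 3 = 1 → ∃ g, g * z * g⁻¹ ∈ R
  cent : ∀ y ∈ R, y ≠ 1 → (nv y = 0 ∧ Cn y = R) ∨ nv y = 3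
  cardN : Nat.card (Nm R) = 9 * ν
  nu : ν = 2 ∨ ν = 4 ∨ ν = 8
  fus : ∀ y ∈ R, y ≠ 1 → {x | x ∈ R ∧ ∃ g, g * y * g⁻¹ = x}.ncard = ν
  four : ν ≠ 2 → ∃ j : Γ, Inv j ∧ ∃ g ∈ Cn j, g * g ≠ 1 ∧ g ^ 4 = 1 ∧
    (ν = 8 → ∃ h ∈ Cn j, h * h ≠ 1 ∧ h ^ 4 = 1 ∧ g * h * (g * h) ≠ 1 ∧ (g * h) ^ 4 = 1)

theorem mem_zpowers_three {z y : Γ} (h : z ^ 3 = 1) (hy : y ∈ zpowers z) : ∃ i, i < 3 ∧ y = z ^ i := by
  obtain ⟨n, rfl⟩ := hy
  refine ⟨(n % 3).toNat, by omega, ?_⟩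
  rw [← zpow_natCast, Int.toNat_of_nonneg (by omega)]
  exact zpow_eq_zpow_emod' n h

theorem inv_of_cube {z : Γ} (h : z ^ 3 = 1) : z⁻¹ = z ^ 2 := inv_eq_of_mul_eq_one_left (by rw [← pow_succ, h])

theorem card_zpowers_three {z : Γ} (h : z ^ 3 = 1) (h1 : z ≠ 1) : Nat.card (zpowers z) = 3 :=
  haveI := Fact.mk Nat.prime_three
  (Nat.card_zpowers z).trans (orderOf_eq_prime h h1)

namespace PRep

variable {ρ ρ' : PRep Γ K} {x y z g w j s : Γ} {X Y : M3 K} {σ τ : S3} {k : Fin 3} {R : Subgroup Γ}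

/-- the commutator of lifts -/
def Km (ρ : PRep Γ K) (x y : Γ) (κ : K) : Prop := ∀ X Y, ρ.R x X → ρ.R y Y → X * Y = κ • (Y * X)

theorem Km.of {κ : K} (hX : ρ.R x X) (hY : ρ.R y Y) (e : X * Y = κ • (Y * X)) : ρ.Km x y κ := fun X' Y' h h' => by
  obtain ⟨a, -, rfl⟩ := hX.uniq h
  obtain ⟨b, -, rfl⟩ := hY.uniq h'
  simp only [Matrix.mul_smul, Matrix.smul_mul, e, smul_smul]
  ring_nf

theorem Km.mul {a b : K} (h : ρ.Km x y a) (h' : ρ.Km x z b) : ρ.Km x (y * z) (a * b) := by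
  obtain ⟨X, hX⟩ := ρ.ex x
  obtain ⟨Y, hY⟩ := ρ.ex y
  obtain ⟨Z, hZ⟩ := ρ.ex z
  refine Km.of hX (hY.mul hZ) ?_
  rw [← mul_assoc, h X Y hX hY, Matrix.smul_mul, mul_assoc, h' X Z hX hZ, Matrix.mul_smul, smul_smul, mul_assoc]

theorem Km.pow {a : K} (h : ρ.Km x y a) (n : ℕ) : ρ.Km x (y ^ n) (a ^ n) := by
  induction n with
  | zero => obtain ⟨X, hX⟩ := ρ.ex x; simpa using Km.of hX ρ.one (κ := 1) (by simp)
  | succ n ih => simpa only [pow_succ] using ih.mul h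

theorem Km.self (ρ : PRep Γ K) (x : Γ) : ρ.Km x x 1 := by
  obtain ⟨X, hX⟩ := ρ.ex x
  exact Km.of hX hX (by simp)

theorem Km.symm {a b : K} (h : ρ.Km x y a) (e : b * a = 1) : ρ.Km y x b := fun Y X hY hX => by
  rw [h X Y hX hY, smul_smul, e, one_smul]

theorem Km.uniq {a b : K} (h : ρ.Km x y a) (h' : ρ.Km x y b) : a = b := by
  obtain ⟨X, hX⟩ := ρ.ex x
  obtain ⟨Y, hY⟩ := ρ.ex y
  have := (h X Y hX hY).symm.trans (h' X Y hX hY)
  rw [← sub_eq_zero, ← sub_smul, smul_eq_zero, sub_eq_zero] at this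
  exact this.resolve_right fun e => (hY.mul hX).det (by simp [e])

theorem Km.conj {a : K} (h : ρ.Km x y a) (g : Γ) : ρ.Km (g * x * g⁻¹) (g * y * g⁻¹) a := by
  obtain ⟨X, hX⟩ := ρ.ex x
  obtain ⟨Y, hY⟩ := ρ.ex y
  obtain ⟨G, hG⟩ := ρ.ex g
  refine Km.of ((hG.mul hX).mul hG.inv) ((hG.mul hY).mul hG.inv) ?_
  have : ∀ X Y : M3 K, G * X * G⁻¹ * (G * Y * G⁻¹) = G * (X * Y) * G⁻¹ := fun X Y => by
    simp only [mul_assoc, ← mul_assoc G⁻¹, hG.inv_mul, one_mul]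
  rw [this, this, h X Y hX hY, Matrix.mul_smul, Matrix.smul_mul]

theorem Z.km (h : ρ.Z z) (hw : ρ.Mon w σ) (hσ : MH.cyc σ) : ∃ κ : K, κ ≠ 1 ∧ κ ^ 3 = 1 ∧ ρ.Km w z κ := by
  obtain ⟨ω, h1, h2, h⟩ := h
  obtain ⟨d, hw⟩ := hw
  rcases (cyc_iff σ).1 hσ with rfl | rfl
  · refine ⟨ω ^ 2, by grind, by grind, Km.of hw h ?_⟩
    rw [mn_diag, ← Matrix.smul_mul, ← diagonal_smul, show c3⁻¹ = c3 * c3 by decide]
    congr 2
    ext i
    fin_cases i <;> simp [c3] <;> grind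
  · refine ⟨ω, h2, by grind, Km.of hw h ?_⟩
    rw [mn_diag, ← Matrix.smul_mul, ← diagonal_smul]
    congr 2
    ext i
    fin_cases i <;> simp [c3] <;> grind

theorem Z.ne (h : ρ.Z z) : z ≠ 1 := fun e => h.reg.sq_ne (by simp [e])

theorem B.cube_mem (h : ρ.B) (hz : ρ.Z z) (hx : x ∈ ρ.D) (h3 : x ^ 3 = 1) : x ∈ zpowers z := by
  by_cases h1 : x = 1
  · exact h1 ▸ one_mem _
  rcases hz.eq (h.cube_D hx h3 h1) with rfl | rfl
  exacts [mem_zpowers _, inv_mem (mem_zpowers _)]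

theorem Reg.cent' (hz : ρ.Reg z) (hw : ρ.Mon w σ) (hσ : cyc σ) (hg : g ∈ Cn z) :
    ∃ d ∈ ρ.D, ∃ i, i < 3 ∧ g = d * w ^ i := by
  rcases hz.cent hg with k | ⟨-, τ, hτ, k⟩
  · exact ⟨g, k, 0, by omega, by simp⟩
  have : τ = σ ∨ τ = σ * σ := by clear k hw; revert σ τ; decide
  rcases this with rfl | rfl
  · exact ⟨_, hw.div k, 1, by omega, by simp⟩
  · exact ⟨_, (hw.mul hw).div k, 2, by omega, by simp [pow_two, mul_assoc]⟩

/-- a frame for the group of order nine -/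
structure Fr (ρ : PRep Γ K) (R : Subgroup Γ) (z w : Γ) (σ : S3) : Prop where
  b : ρ.B
  z3 : ρ.Z z
  mon : ρ.Mon w σ
  cyc : cyc σ
  eq : R = Cn z ⊓ Cn w

theorem Fr.zm (h : ρ.Fr R z w σ) : z ∈ R := h.eq ▸ ⟨self_mem_Cn z, mem_Cn_comm.1 (h.z3.cyc h.mon h.cyc)⟩

theorem Fr.wm (h : ρ.Fr R z w σ) : w ∈ R := h.eq ▸ ⟨h.z3.cyc h.mon h.cyc, self_mem_Cn w⟩

theorem Fr.le (h : ρ.Fr R z w σ) : R ≤ Cn z := h.eq ▸ inf_le_left

theorem Fr.inf (h : ρ.Fr R z w σ) : R ⊓ ρ.D = zpowers z := by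
  refine le_antisymm (fun d hd => h.b.cube_mem h.z3 hd.2 (h.b.comm_cube h.mon h.cyc hd.2 ?_))
    (zpowers_le.2 ⟨h.zm, h.z3.reg.mem⟩)
  rw [show w * d = d * w from mem_Cn.1 (h.eq ▸ hd.1).2]
  simp

theorem Fr.rep (h : ρ.Fr R z w σ) (hy : y ∈ R) : ∃ i j, i < 3 ∧ j < 3 ∧ y = z ^ i * w ^ j := by
  obtain ⟨d, hd, j, hj, rfl⟩ := h.z3.reg.cent' h.mon h.cyc (h.le hy)
  obtain ⟨i, hi, rfl⟩ := mem_zpowers_three h.z3.cube
    (h.inf ▸ ⟨(R.mul_mem_cancel_right (R.pow_mem h.wm j)).1 hy, hd⟩ : d ∈ zpowers z)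
  exact ⟨i, j, hi, hj, rfl⟩

theorem Fr.comm (h : ρ.Fr R z w σ) (hx : x ∈ R) (hy : y ∈ R) : x * y = y * x := by
  obtain ⟨i, j, -, -, rfl⟩ := h.rep hy
  rw [h.eq] at hx
  exact mem_Cn.1 (mul_mem (pow_mem (mem_Cn_comm.1 hx.1) i) (pow_mem (mem_Cn_comm.1 hx.2) j))

theorem Fr.cube (h : ρ.Fr R z w σ) (hy : y ∈ R) : y ^ 3 = 1 := by
  obtain ⟨i, j, -, -, rfl⟩ := h.rep hy
  rw [Commute.mul_pow (h.comm (pow_mem h.zm i) (pow_mem h.wm j)), pow_right_comm, h.z3.cube, pow_right_comm,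
    h.mon.cube h.cyc]
  simp

theorem Fr.card [Finite Γ] (h : ρ.Fr R z w σ) : Nat.card R = 9 := by
  rw [card_W (ρ := ρ) fun x hx => h.z3.reg.mon_Cn (h.le hx), h.inf, card_zpowers_three h.z3.cube h.z3.ne]
  have h1 : σ ∈ ρ.W R := ⟨w, h.wm, h.mon⟩
  have h2 : ∀ k, sw k ∉ ρ.W R := fun k ⟨x, hx, e⟩ => by
    have := (e.mul (e.mul e)).uniq (Mon.one_iff.2 (by rw [← pow_three, h.cube hx]; exact one_mem _))
    exact (by decide : ∀ k, sw k * (sw k * sw k) ≠ 1) k this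
  rcases S3_sub (ρ.W R) with e | ⟨-, k, e⟩ | ⟨e, -⟩ | ⟨-, k, e⟩
  · exact absurd (by simpa [e] using h1 : σ = 1) fun e => h.cyc 0 (by simp [e])
  exacts [absurd e (h2 k), by rw [e], absurd e (h2 k)]

theorem Fr.free (h : ρ.Fr R z w σ) (hg : g ∈ Nm R) (hz : g ∈ Cn z) : g ∈ R := by
  obtain ⟨d, hd, j, -, rfl⟩ := h.z3.reg.cent' h.mon h.cyc hz
  have h1 : d ∈ Nm R := (mul_mem_cancel_right (le_normalizer (pow_mem h.wm j))).1 hg
  have h2 : (w * d * w⁻¹ * d⁻¹) ^ 3 = 1 := h.cube (by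
    simpa [mul_assoc] using R.mul_mem h.wm (Nm_conj h1 (R.inv_mem h.wm)))
  exact mul_mem (h.inf.ge (h.b.cube_mem h.z3 hd (h.b.comm_cube h.mon h.cyc hd h2))).1 (pow_mem h.wm j)

theorem B.exists_Z [Finite K] (h : ρ.B) (h3 : (3 : K) ≠ 0) (hy : y ^ 3 = 1) (h1 : y ≠ 1) :
    ∃ ρ', ρ.Eqv ρ' ∧ ρ'.Z y := by
  rcases h.nf y with ⟨v, φ, k⟩ | ⟨ρ', e, k⟩ | ⟨ρ', e, k⟩
  · exact absurd (by rwa [pow_three, h.inv_of_T k, mul_one] at hy) h1
  · exact ⟨ρ', e, (h.eqv e).cube_D k.mem hy h1⟩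
  · exact absurd (by simpa using k.cast hy) h3

theorem Fr.of_mem [Finite Γ] (h : ρ.Fr R z w σ) (hb : ρ'.B) (hz : ρ'.Z y) (hy : y ∈ R) (hx : x ∈ R) (hD : x ∉ ρ'.D) :
    ∃ τ, ρ'.Fr R y x τ := by
  obtain ⟨-, τ, h1, h2⟩ := (hz.reg.cent (mem_Cn.2 (h.comm hy hx))).resolve_left hD
  exact ⟨τ, hb, hz, h2, h1, eq_of_le_of_card_ge (fun g hg => ⟨mem_Cn.2 (h.comm hy hg), mem_Cn.2 (h.comm hx hg)⟩)
    (by rw [h.card, Fr.card ⟨hb, hz, h2, h1, rfl⟩])⟩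

theorem Fr.move [Finite Γ] [Finite K] (h : ρ.Fr R z w σ) (hy : y ∈ R) (h1 : y ≠ 1) :
    ∃ (ρ' : PRep Γ K) (w' : Γ) (τ : S3), ρ'.Fr R y w' τ := by
  obtain ⟨ρ', e, hz⟩ := h.b.exists_Z h.z3.three (h.cube hy) h1
  obtain ⟨x, hx, hD⟩ : ∃ x ∈ R, x ∉ ρ'.D := by
    by_contra hn
    push Not at hn
    have := card_le_of_le (show R ≤ zpowers y from fun x hx => (h.b.eqv e).cube_mem hz (hn x hx) (h.cube hx))
    rw [h.card, card_zpowers_three hz.cube h1] at this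
    omega
  exact ⟨ρ', x, h.of_mem (h.b.eqv e) hz hy hx hD⟩

theorem Fr.twelve [Finite Γ] (h : ρ.Fr R z w σ) (hg : g ∈ Nm R) : g ^ 12 ∈ Cn z := by
  have key : ∀ n : ℕ, (MulAut.conj g ^ n) z = z → g ^ n ∈ Cn z := fun n e => by
    rw [← map_pow, MulAut.conj_apply, mul_inv_eq_iff_eq_mul] at e
    exact mem_Cn.2 e.symm
  have h1 : MulAut.conj g z ∈ R := Nm_conj hg h.zm
  have z3 := h.z3.cube
  by_cases hD : MulAut.conj g z ∈ ρ.D
  · have := key 2 (by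
      rcases h.z3.eq (h.b.cube_D hD (h.cube h1) (by simpa using h.z3.ne)) with e | e <;>
        simp only [pow_two, MulAut.mul_apply, e, map_inv, inv_inv])
    simpa only [← pow_mul] using pow_mem this 6
  obtain ⟨τ, f⟩ := h.of_mem h.b h.z3 h.zm h1 hD
  obtain ⟨i, j, hi, hj, e⟩ := f.rep (Nm_conj hg h1)
  obtain ⟨κ, k1, k2, k3⟩ := h.z3.km f.mon f.cyc
  have k4 := (k3.symm (b := κ ^ 2) (by rw [← pow_succ, k2])).conj g
  have k5 := (k3.pow i).mul ((Km.self ρ _).pow j)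
  rw [← e, one_pow] at k5
  have k6 := k4.uniq k5
  obtain rfl : i = 2 := by
    interval_cases i
    · exact absurd (by grind) k1
    · exact absurd (by grind) k1
    · rfl
  have w3 := h.cube h1
  have c := h.comm h.zm h1
  replace e : MulAut.conj g (MulAut.conj g z) = z ^ 2 * MulAut.conj g z ^ j := e
  clear f
  generalize MulAut.conj g = f at *
  have c' : Commute z (f z) := c
  interval_cases j
  · have := key 4 (by
      simp only [pow_succ, pow_zero, one_mul, mul_one, MulAut.mul_apply, e, map_mul] at z3 ⊢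
      rw [← mul_assoc, z3, one_mul])
    simpa only [← pow_mul] using pow_mem this 3
  · have e3 : (f ^ 3) z = z ^ 2 := by
      simp only [pow_three, MulAut.mul_apply, e, map_mul, map_pow, pow_one]
      rw [← mul_assoc, ← (c'.pow_pow 2 2).eq, mul_assoc, ← pow_succ, w3, mul_one]
    have := key 6 (by
      rw [show 6 = 3 + 3 by rfl, pow_add, MulAut.mul_apply, e3, map_pow, e3, ← pow_mul, pow_succ, z3, one_mul])
    simpa only [← pow_mul] using pow_mem this 2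
  · have := key 3 (by
      simp only [pow_three, MulAut.mul_apply, e, map_mul, map_pow]
      rw [(c'.pow_pow 2 2).mul_pow, ← pow_mul, ← pow_mul, (c'.pow_pow _ _).eq, ← mul_assoc, ← pow_add,
        show 2 + 2 * 2 = 3 * 2 by rfl, pow_mul, w3, one_pow, one_mul, pow_succ, z3, one_mul])
    simpa only [← pow_mul] using pow_mem this 4

theorem Fr.cent [Finite Γ] (h : ρ.Fr R z w σ) (hj : j * z * j⁻¹ = z⁻¹) : (nv z = 0 ∧ Cn z = R) ∨ nv z = 3 := by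
  obtain ⟨τ, hτ⟩ := h.z3.reg.mon (hj ▸ inv_mem h.z3.reg.mem : j * z * j⁻¹ ∈ _)
  have n : j ∉ Cn z := fun e => h.z3.reg.sq_ne (by
    rw [← mem_Cn.1 e, mul_inv_cancel_right] at hj; exact mul_eq_one_iff_eq_inv.2 hj)
  obtain ⟨k, rfl⟩ : ∃ k, τ = sw k := ((S3_cases τ).resolve_left fun e => n (D_le_Cn h.z3.reg.mem
    (Mon.one_iff.1 (e ▸ hτ)))).resolve_right fun e => n (h.z3.cyc hτ ((cyc_iff τ).2 e))
  rw [h.z3.reg.nv]
  by_cases e : ∃ s, Inv s ∧ s ∈ ρ.D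
  · obtain ⟨s, h1, h2⟩ := e
    obtain ⟨t2, l, hl⟩ := h.b.inv_D h2 h1
    exact Or.inr (h.b.card_inv_D (vier_of t2 (h.mon.conj_tt hl) hl (h.cyc l)))
  refine Or.inl ⟨(Set.ncard_eq_zero (Set.toFinite _)).2 (Set.eq_empty_iff_forall_notMem.2 fun s hs => e ⟨s, hs⟩),
    le_antisymm (fun g hg => ?_) h.le⟩
  obtain ⟨d, hd, i, -, rfl⟩ := h.z3.reg.cent' h.mon h.cyc hg
  refine mul_mem (h.inf.ge (h.b.cube_mem h.z3 hd (by_contra fun k => e ⟨_, ⟨k, ?_⟩, pow_mem hd 3⟩))).1 (pow_mem h.wm i)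
  rw [← pow_add, h.b.six h.mon h.cyc hτ hd]

theorem Fr.nine [Finite Γ] [Finite K] (h : ρ.Fr R z w σ) :
    ∃ ν, Nine R ν ∧ ∃ j, Inv j ∧ ∀ y ∈ R, j * y * j⁻¹ = y⁻¹ := by
  have := Fact.mk Nat.prime_three
  have free : ∀ y ∈ R, y ≠ 1 → ∀ g ∈ Nm R, g ∈ Cn y ↔ g ∈ R := fun y hy h1 g hg => by
    obtain ⟨ρ', w', τ, f⟩ := h.move hy h1
    exact ⟨f.free hg, fun k => f.le k⟩
  obtain ⟨ν, hν, hd⟩ := free_dvd free
  rw [h.card] at hν hd
  have hd' : ν = 1 ∨ ν = 2 ∨ ν = 4 ∨ ν = 8 := by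
    have := Nat.le_of_dvd (by norm_num) hd
    interval_cases ν <;> simp_all
  obtain ⟨S, hS⟩ := (IsPGroup.of_card (p := 3) (n := 2) h.card).exists_le_sylow
  obtain rfl : R = S := by
    obtain ⟨n, hn⟩ := S.isPGroup'.exists_card_eq
    refine eq_of_le_of_card_ge hS ?_
    rw [hn, h.card]
    refine (Nat.pow_le_pow_right (by norm_num) (not_lt.1 fun k => ?_)).trans_eq (show 3 ^ 2 = 9 by rfl)
    have := Sylow.prime_pow_dvd_card_normalizer (p := 3) (n := 2)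
      (((pow_dvd_pow 3 k).trans hn.symm.dvd).trans (card_subgroup_dvd_card _)) h.card
    rw [hν] at this
    omega
  have n1 : ν ≠ 1 := by
    rintro rfl
    have e := eq_of_le_of_card_ge (le_normalizer (H := (S : Subgroup Γ))) (by rw [h.card, hν])
    have := burnside h.b.H.perf Nat.prime_three S fun g hg y hy => h.comm hy (e.ge hg)
    exact h.z3.ne (by simpa [this] using h.zm)
  have inv : ∀ j ∈ Nm (S : Subgroup Γ), Inv j → ∀ y ∈ (S : Subgroup Γ), j * y * j⁻¹ = y⁻¹ := fun j hj h2 y hy =>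
    inverts h2.2 hj hy (fun _ a _ b => h.comm a b) fun y hy e => by_contra fun k => by
      have := two_dvd_card h2 ((free y hy k j hj).1 e)
      rw [h.card] at this
      omega
  obtain ⟨j, hj, hj2⟩ := exists_mem_inv (H := Nm (S : Subgroup Γ)) (by omega)
  refine ⟨ν, ⟨h.card, fun _ => h.cube, fun z hz => exists_conj_mem_sylow (k := 1) Nat.prime_three S hz,
    fun y hy h1 => ?_, hν, hd'.resolve_left n1, fun y hy h1 => ?_, fun h2 => ?_⟩, j, hj2, inv j hj hj2⟩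
  · obtain ⟨ρ', w', τ, f⟩ := h.move hy h1
    exact f.cent (inv j hj hj2 y hy)
  · have := card_label (fun g x => g * y * g⁻¹ = x) (A := Nm (S : Subgroup Γ)) (B := S) (by simp) (by
      rintro g hg _ rfl k
      constructor
      · rintro ⟨a1, a2⟩
        refine (free _ (Nm_conj hg hy) (by simpa using h1) _ (mul_mem a1 (inv_mem hg))).1 (mem_Cn.2 ?_)
        calc _ = k * y * k⁻¹ * (k * g⁻¹) := by rw [a2]
          _ = _ := by group
      · intro a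
        refine ⟨(mul_mem_cancel_right (inv_mem hg)).1 (le_normalizer a), ?_⟩
        calc _ = k * g⁻¹ * (g * y * g⁻¹) * (k * g⁻¹)⁻¹ := by group
          _ = _ := by rw [h.comm a (Nm_conj hg hy), mul_inv_cancel_right])
    rw [hν, h.card, mul_comm] at this
    rw [Nat.eq_of_mul_eq_mul_right (by norm_num) this]
    congr 1
    ext x
    refine ⟨fun ⟨a, g, e⟩ => ?_, by rintro ⟨g, hg, rfl⟩; exact ⟨Nm_conj hg hy, g, rfl⟩⟩
    obtain ⟨n, hn, e'⟩ := S.conj_eq_normalizer_conj_of_mem_centralizer y g⁻¹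
      (mem_centralizer_iff.2 fun _ b => h.comm b hy) (mem_centralizer_iff.2 fun _ b => h.comm b (by simpa [e]))
    exact ⟨n⁻¹, inv_mem hn, by simpa [e] using e'.symm⟩
  obtain ⟨n, hn⟩ : ∃ n, ν = 2 ^ n := by rcases hd' with e | e | e | e; exacts [⟨0, e⟩, ⟨1, e⟩, ⟨2, e⟩, ⟨3, e⟩]
  obtain ⟨Q0, hQ⟩ := Sylow.exists_subgroup_card_pow_prime (G := Nm (S : Subgroup Γ)) 2 (n := n)
    (by rw [hν, hn]; exact dvd_mul_left _ _)
  obtain ⟨Q, hQ, hQN⟩ : ∃ Q : Subgroup Γ, Nat.card Q = ν ∧ Q ≤ Nm (S : Subgroup Γ) :=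
    ⟨Q0.map (Subgroup.subtype _), by rw [card_map_of_injective (subtype_injective _), hQ, hn], map_subtype_le _⟩
  have p8 : ∀ g ∈ Q, g ^ 8 = 1 := fun g hg => orderOf_dvd_iff_pow_eq_one.1
    ((orderOf_dvd_card_of_mem hg).trans (hQ ▸ hd))
  have p4 : ∀ g ∈ Q, g ^ 4 = 1 := fun g hg => by
    have := h.cube (h.free (pow_mem (hQN hg) 12) (h.twelve (hQN hg)))
    rwa [← pow_mul, show 12 * 3 = 8 * 4 + 4 by rfl, pow_add, pow_mul, p8 g hg, one_pow, one_mul] at this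
  obtain ⟨t, ht, ht2⟩ := exists_mem_inv (H := Q) (by omega)
  have uq : ∀ s ∈ Q, s * s = 1 → s = 1 ∨ s = t := fun s hs e => or_iff_not_imp_left.2 fun k => by
    have a1 : s * t ∈ (S : Subgroup Γ) := h.free (hQN (mul_mem hs ht)) (mem_Cn.2 (by
      calc z * (s * t) = s * (s⁻¹ * z * s⁻¹⁻¹) * t := by group
        _ = s * (t * z * t⁻¹) * t := by
          rw [inv_eq_of_mul_eq_one_right e, inv _ (hQN hs) ⟨k, e⟩ z h.zm, inv _ (hQN ht) ht2 z h.zm]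
        _ = _ := by group))
    have a2 := p4 _ (mul_mem hs ht)
    rw [pow_succ, h.cube a1, one_mul] at a2
    rw [eq_inv_of_mul_eq_one_left a2, ht2.inv_eq]
  have ct : ∀ g ∈ Q, g ∈ Cn t := fun g hg => mem_Cn.2 (mul_inv_eq_iff_eq_mul.1 ((uq _ (mul_mem (mul_mem hg ht)
    (inv_mem hg)) (ht2.conj g).2).resolve_left (ht2.conj g).1)).symm
  classical
  have ex : ∀ F : Finset Γ, F.card < ν → ∃ g ∈ Q, g ∉ F := fun F hF => by
    by_contra hn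
    push Not at hn
    have := Set.ncard_le_ncard (s := (Q : Set Γ)) (t := F) hn
    rw [ncard_coe, Set.ncard_coe_finset] at this
    omega
  obtain ⟨g, hg, n2⟩ := ex {1, t} (Finset.card_le_two.trans_lt (by omega))
  refine ⟨t, ht2, g, ct g hg, fun e => n2 (by simpa using uq g hg e), p4 g hg, fun h8 => ?_⟩
  obtain ⟨k, hk, n3⟩ := ex {1, t, g⁻¹, g⁻¹ * t} (Finset.card_le_four.trans_lt (by omega))
  simp only [Finset.mem_insert, Finset.mem_singleton, not_or] at n3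
  refine ⟨k, ct k hk, fun e => (uq k hk e).elim n3.1 n3.2.1, p4 k hk, fun e => ?_, p4 _ (mul_mem hg hk)⟩
  rcases uq _ (mul_mem hg hk) e with e | e
  exacts [n3.2.2.1 (eq_inv_of_mul_eq_one_right e), n3.2.2.2 (by rw [← e, inv_mul_cancel_left])]

end PRep

end Cfsg.Agent.MH
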