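import Cfsg.Agent.MH.Cent3
import Cfsg.Agent.MH.Arith

/-! The elements commuting with no involution, sorted into classes. -/

set_option autoImplicit false

namespace Cfsg.Agent.MH

open Matrix Equiv Subgroup

variable {Γ K : Type*} [Group Γ] [Field K]

/-- `y` is conjugate into the centraliser of `x` -/
def Cj (x y : Γ) : Prop := ∃ g, g * y * g⁻¹ ∈ Cn x

/-- centralisers of elements of `OO` are determined by any of their elements in `OO` -/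
def Gd (Γ : Type*) [Group Γ] : Prop := ∀ x ∈ OO Γ, ∀ y ∈ OO Γ, y ∈ Cn x → Cn y = Cn x

/-- the centraliser is a CA-subgroup with small automiser -/
def EE (x : Γ) : Prop := ∃ e n, Ecl x e n

section

variable {x y z : Γ} {e n c : ℕ}

theorem Cj.of_mem (h : y ∈ Cn x) : Cj x y := ⟨1, by simpa using h⟩

theorem Gd.symm (h : Gd Γ) (hx : x ∈ OO Γ) (hy : y ∈ OO Γ) : Cj x y → Cj y x := fun ⟨g, hg⟩ =>
  ⟨g⁻¹, (conj_mem_Cn (g := g)).1 (by simpa [mul_assoc] using mem_Cn_comm.1 hg)⟩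

theorem Gd.trans (h : Gd Γ) (hx : x ∈ OO Γ) (hy : y ∈ OO Γ) : Cj x y → Cj y z → Cj x z := fun ⟨g, hg⟩ ⟨k, hk⟩ =>
  ⟨g * k, by rw [← h x hx _ (OO_conj g hy) hg]; simpa [mul_assoc] using (conj_mem_Cn (g := g)).2 hk⟩

theorem Gd.card [Finite Γ] (h : Gd Γ) (hx : x ∈ OO Γ) : (({y | y ∈ OO Γ ∧ Cj x y}.ncard : ℚ)) / Nat.card Γ =
    (OO Γ ∩ Cn x).ncard / Nat.card (Nm (Cn x)) := by
  have := card_cls (fun g y => OO_conj g) (H := Cn x) fun y hy a g b => mem_Nm fun z hz =>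
    h x hx _ (OO_conj g hy) b ▸ conj_mem_Cn.2 (h x hx y hy a ▸ hz)
  rw [div_eq_div_iff (by exact_mod_cast Nat.card_pos.ne') (by exact_mod_cast Nat.card_pos.ne'), mul_comm _ (Nat.card Γ : ℚ)]
  exact_mod_cast this

theorem Ecl.cj [Finite Γ] (h : Ecl x e n) (hy : y ∈ OO Γ) : Cj x y → Ecl y e n := fun ⟨g, hg⟩ => by
  simpa [mul_assoc] using (h.congr (h.ca _ hg (OO_ne (OO_conj g hy)))).conj g⁻¹

theorem Ecl.uniq {e' n' : ℕ} (h : Ecl x e n) (h' : Ecl x e' n') : e = e' ∧ n = n' := by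
  obtain rfl := h.card.symm.trans h'.card
  exact ⟨Nat.eq_of_mul_eq_mul_left (by have := h.odd; omega) (h.cardN.symm.trans h'.cardN), rfl⟩

theorem Ecl.cj_of [Finite Γ] (h : Ecl x e n) {r : ℕ} (hr : r.Prime) (hd : r ∣ n) (hy : y ^ r = 1) : Cj x y :=
  h.ca.exists_conj hr (h.card ▸ hd) hy

theorem CA.tau [Finite Γ] (h : CA (Cn x)) (ho : Nat.card (Cn x) % 2 = 1) (hN : Nat.card (Nm (Cn x)) = Nat.card (Cn x) * e) :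
    ((OO Γ ∩ Cn x).ncard : ℚ) / Nat.card (Nm (Cn x)) = (e : ℚ)⁻¹ - (Nat.card (Cn x) : ℚ)⁻¹ * (e : ℚ)⁻¹ := by
  have h1 := h.card_OO ho
  have : (Nat.card (Cn x) : ℚ) ≠ 0 := by exact_mod_cast Nat.card_pos.ne'
  have : (e : ℚ) ≠ 0 := fun k => Nat.card_pos.ne' (hN.trans (by simp_all))
  qify at h1
  rw [hN, eq_sub_of_add_eq h1]
  push_cast
  field_simp

theorem Gd.pick [Finite Γ] (h : Gd Γ) (hc : ∀ x ∈ OO Γ, CA (Cn x) → (Nat.card (Cn x)).Coprime c) {S : Set Γ}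
    (h1 : ∀ x ∈ S, x ∈ OO Γ ∧ EE x) (h2 : ∀ x ∈ S, ∀ y ∈ OO Γ, Cj x y → y ∈ S) :
    ∃ (C : Set Γ) (n e : ℕ) (τ : ℚ), C ⊆ S ∧ (C.ncard : ℚ) / Nat.card Γ = τ ∧ ET (Nat.card Γ) c n e τ ∧
      (∀ y ∈ C, Ecl y e n) ∧ (n ≠ 1 → C.Nonempty) ∧ (S.Nonempty → 2 / 7 ≤ τ) ∧
      (∀ x ∈ C, ∀ y ∈ OO Γ, Cj x y → y ∈ C) ∧ ∀ x ∈ S \ C, ∀ y ∈ OO Γ, Cj x y → y ∈ S \ C := by
  rcases S.eq_empty_or_nonempty with rfl | ⟨x, hx⟩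
  · exact ⟨∅, 1, 0, 0, le_rfl, by simp, Or.inl ⟨rfl, rfl⟩, by simp⟩
  obtain ⟨a, e, n, b⟩ := h1 x hx
  have k := (h.card a).trans (b.ca.tau (b.card ▸ b.odd) (b.card ▸ b.cardN))
  have et : ET (Nat.card Γ) c n e ((e : ℚ)⁻¹ - (n : ℚ)⁻¹ * (e : ℚ)⁻¹) := Or.inr ⟨b.odd, b.cardN ▸ card_subgroup_dvd_card _,
    b.card ▸ hc x a b.ca, b.ty.imp (fun ⟨p, q⟩ => ⟨p, q, by subst p; ring⟩) fun ⟨p, q, r⟩ => ⟨p, q, r, by subst p; ring⟩⟩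
  refine ⟨{y | y ∈ OO Γ ∧ Cj x y}, n, e, _, fun y hy => h2 x hx y hy.1 hy.2, b.card ▸ k, et, fun y hy => b.cj hy.1 hy.2,
    fun _ => ⟨x, a, Cj.of_mem (self_mem_Cn x)⟩, fun _ => et.bd.1.resolve_left fun z => ?_,
    fun y hy z hz k => ⟨hz, h.trans a hy.1 hy.2 k⟩, fun y hy z hz k => ⟨h2 y hy.1 z hz k, fun k' =>
      hy.2 ⟨(h1 y hy.1).1, h.trans a hz k'.2 (h.symm (h1 y hy.1).1 hz k)⟩⟩⟩
  have := (z ▸ et).zero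
  have := b.ty
  omega

theorem Nine.gd {R : Subgroup Γ} {ν : ℕ} (h : Nine R ν) (hy : y ∈ OO Γ) (hR : y ∈ R) : Cn y = R :=
  ((h.cent y hR (OO_ne hy)).resolve_right (by rw [hy.2]; decide)).2

end

namespace PRep

variable {ρ ρ' : PRep Γ K} {x y z g u : Γ} {γ : Kˣ} {c n1 e1 n2 e2 : ℕ} {τ1 τ2 τ9 τU : ℚ}

theorem B.gd [Finite Γ] [Finite K] (h : ρ.B) : Gd Γ := fun x hx y hy k => by
  rcases h.loc hx with ⟨e, n, a⟩ | ⟨-, ν, a⟩ | ⟨ρ', g, γ, -, a⟩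
  exacts [a.ca y k (OO_ne hy), a.gd hy k, a.ca y k (OO_ne hy)]

theorem UD.exists_prime [Finite Γ] (h : ρ.UD u g γ) : ∃ r, r.Prime ∧ r ∣ Nat.card (Cn u) :=
  Nat.exists_prime_and_dvd (two_le_card h.ne (self_mem_Cn u) |> Nat.ne_of_gt)

/-- the summary of the count -/
structure OS (ρ : PRep Γ K) (c n1 e1 n2 e2 : ℕ) (τ1 τ2 τ9 τU : ℚ) : Prop where
  sum : ((OO Γ).ncard : ℚ) / Nat.card Γ = τ1 + τ2 + τ9 + τU
  et1 : ET (Nat.card Γ) c n1 e1 τ1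
  et2 : ET (Nat.card Γ) c n2 e2 τ2
  co : n1.Coprime n2
  ecl : ∀ x ∈ OO Γ, ∀ e n, Ecl x e n → (e = e1 ∧ n = n1) ∨ (e = e2 ∧ n = n2)
  rep1 : n1 ≠ 1 → ∃ x ∈ OO Γ, Ecl x e1 n1
  rep2 : n2 ≠ 1 → ∃ x ∈ OO Γ, Ecl x e2 n2
  nine : (τ9 = 0 ∧ ∀ x ∈ OO Γ, x ^ 3 = 1 → (3 : K) ≠ 0 → EE x) ∨ ∃ x ν, x ∈ OO Γ ∧ ¬ EE x ∧ Nine (Cn x) ν ∧
    τ9 = (OO Γ ∩ Cn x).ncard / (9 * ν) ∧ ¬ 3 ∣ n1 ∧ ¬ 3 ∣ n2
  uni : (τU = 0 ∧ ∀ x ∈ OO Γ, EE x ∨ (x ^ 3 = 1 ∧ (3 : K) ≠ 0)) ∨ ∃ ρ' u g γ, ρ.Eqv ρ' ∧ ρ'.UD u g γ ∧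
    τU = (orderOf γ : ℚ)⁻¹ - (Nat.card (Cn u) : ℚ)⁻¹ * (orderOf γ : ℚ)⁻¹ ∧ (Nat.card (Cn u)).Coprime c ∧
    (Nat.card (Cn u)).Coprime n1 ∧ (Nat.card (Cn u)).Coprime n2 ∧ ∀ x ∈ OO Γ, EE x ∨ x ^ 3 = 1 ∨ Cj u x

theorem OS.swap (h : ρ.OS c n1 e1 n2 e2 τ1 τ2 τ9 τU) : ρ.OS c n2 e2 n1 e1 τ2 τ1 τ9 τU :=
  ⟨by rw [h.sum, add_comm τ1], h.et2, h.et1, h.co.symm, fun x a e n b => (h.ecl x a e n b).symm, h.rep2, h.rep1,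
    h.nine.imp_right fun ⟨x, ν, a, b, c, d, e, f⟩ => ⟨x, ν, a, b, c, d, f, e⟩,
    h.uni.imp_right fun ⟨ρ', u, g, γ, a, b, c, d, e, f, k⟩ => ⟨ρ', u, g, γ, a, b, c, d, f, e, k⟩⟩

theorem B.os [Finite Γ] [Finite K] (h : ρ.B) (hc : ∀ x ∈ OO Γ, CA (Cn x) → (Nat.card (Cn x)).Coprime c)
    (hb : ((OO Γ).ncard : ℚ) / Nat.card Γ < 6 / 7) : ∃ n1 e1 n2 e2 τ1 τ2 τ9 τU, ρ.OS c n1 e1 n2 e2 τ1 τ2 τ9 τU := by
  have G := h.gd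
  have N0 : (0 : ℚ) < Nat.card Γ := by exact_mod_cast Nat.card_pos
  obtain ⟨C1, n1, e1, τ1, a1, a2, a3, a4, a5, a6, a7, a8⟩ := G.pick hc (S := {x | x ∈ OO Γ ∧ EE x}) (fun _ => id)
    fun x ⟨_, e, n, a⟩ y hy k => ⟨hy, e, n, a.cj hy k⟩
  obtain ⟨C2, n2, e2, τ2, b1, b2, b3, b4, b5, b6, b7, b8⟩ := G.pick hc (fun x a => a.1) a8
  obtain ⟨C3, n3, e3, τ3, c1, c2, -, -, -, c6, -⟩ := G.pick hc (fun x a => a.1.1) b8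
  have d12 : Disjoint C1 C2 := Set.disjoint_left.2 fun x a b => (b1 b).2 a
  have hE : {x | x ∈ OO Γ ∧ EE x} = C1 ∪ C2 := by
    refine Set.Subset.antisymm (fun x hx => by_contra fun k => ?_) (Set.union_subset a1 fun x a => (b1 a).1)
    have k' := not_or.1 k
    have p1 := a6 ⟨x, hx⟩
    have p2 := b6 ⟨x, hx, k'.1⟩
    have p3 := c6 ⟨x, ⟨hx, k'.1⟩, k'.2⟩
    have : (C1 ∪ C2 ∪ C3).ncard ≤ (OO Γ).ncard := Set.ncard_le_ncard (by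
      rintro y ((a | a) | a)
      exacts [(a1 a).1, (b1 a).1.1, (c1 a).1.1.1])
    rw [Set.ncard_union_eq (Set.disjoint_left.2 fun x a b => a.elim (c1 b).1.2 (c1 b).2), Set.ncard_union_eq d12] at this
    have := div_le_div_of_nonneg_right (show ((_ : ℕ) : ℚ) ≤ _ from Nat.cast_le.2 this) N0.le
    push_cast at this
    rw [add_div, add_div, a2, b2, c2] at this
    linarith
  have r1 : n1 ≠ 1 → ∃ x ∈ OO Γ, Ecl x e1 n1 := fun k => (a5 k).imp fun x a => ⟨(a1 a).1, a4 x a⟩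
  have r2 : n2 ≠ 1 → ∃ x ∈ OO Γ, Ecl x e2 n2 := fun k => (b5 k).imp fun x a => ⟨(b1 a).1.1, b4 x a⟩
  have nd : ∀ {n e}, (n ≠ 1 → ∃ x ∈ OO Γ, Ecl x e n) → ∀ y ∈ OO Γ, ∀ r, r.Prime → r ∣ n → y ^ r = 1 → EE y :=
    fun k y hy r hr hd e => by
      obtain ⟨x, -, a⟩ := k (by rintro rfl; exact hr.not_dvd_one hd)
      exact ⟨_, _, a.cj hy (a.cj_of hr hd e)⟩
  refine ⟨n1, e1, n2, e2, τ1, τ2, ({x | x ∈ OO Γ ∧ ¬ EE x ∧ x ^ 3 = 1 ∧ (3 : K) ≠ 0}.ncard : ℚ) / Nat.card Γ,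
    ({x | x ∈ OO Γ ∧ ¬ EE x ∧ ¬ (x ^ 3 = 1 ∧ (3 : K) ≠ 0)}.ncard : ℚ) / Nat.card Γ, ?_, a3, b3,
    Nat.coprime_of_dvd fun r hr p q => ?_, fun x a e n b => ?_, r1, r2, ?_, ?_⟩
  · rw [← a2, ← b2, ← add_div, ← add_div, ← add_div, ← Nat.cast_add, ← Nat.cast_add, ← Nat.cast_add,
      ← Set.ncard_union_eq d12, ← hE, ← Set.ncard_union_eq (Set.disjoint_left.2 fun x a b => b.2.1 a.2),
      ← Set.ncard_union_eq (Set.disjoint_left.2 fun x a b => a.elim (fun a => b.2.1 a.2) fun a => b.2.2 a.2.2)]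
    congr 3
    ext x
    simp only [Set.mem_union, Set.mem_setOf_eq]
    tauto
  · obtain ⟨x1, p1⟩ := a5 (by rintro rfl; exact hr.not_dvd_one p)
    obtain ⟨x2, p2⟩ := b5 (by rintro rfl; exact hr.not_dvd_one q)
    obtain ⟨y, hy, e⟩ := exists_mem_orderOf hr ((b4 x2 p2).card ▸ q)
    have o := (b4 x2 p2).ca.mem_OO ((b4 x2 p2).card ▸ (b4 x2 p2).odd) hy (by
      rintro rfl; exact hr.one_lt.ne (by simpa using e))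
    exact (b1 (b7 x2 p2 y o (Cj.of_mem hy))).2 (a7 x1 p1 y o ((a4 x1 p1).cj_of hr p (e ▸ pow_orderOf_eq_one y)))
  · exact (hE.le ⟨a, e, n, b⟩).imp (fun k => b.uniq (a4 x k)) fun k => b.uniq (b4 x k)
  · refine or_iff_not_imp_left.2 fun k => ?_
    obtain ⟨x, hx, p1, p2, p3⟩ : {x | x ∈ OO Γ ∧ ¬ EE x ∧ x ^ 3 = 1 ∧ (3 : K) ≠ 0}.Nonempty :=
      Set.nonempty_iff_ne_empty.2 fun e => k ⟨by simp [e], fun x a b c => by_contra fun d => e.le ⟨a, d, b, c⟩⟩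
    obtain ⟨-, ν, hν⟩ := ((h.loc hx).resolve_left p1).resolve_right fun ⟨_, _, _, _, a⟩ =>
      p3 (by simpa using a.uni.cast p2)
    refine ⟨x, ν, hx, p1, hν, ?_, fun a => p1 (nd r1 x hx 3 Nat.prime_three a p2),
      fun a => p1 (nd r2 x hx 3 Nat.prime_three a p2)⟩
    have := G.card hx
    rw [hν.cardN] at this
    push_cast at this
    rw [← this]
    congr 3
    ext y
    exact and_congr_right fun hy => ⟨fun a => hν.syl y a.2.1, fun a => ⟨fun ⟨e, n, b⟩ =>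
      p1 ⟨e, n, b.cj hx (G.symm hx hy a)⟩, by obtain ⟨g, a⟩ := a; simpa using hν.cube _ a, p3⟩⟩
  refine or_iff_not_imp_left.2 fun k => ?_
  obtain ⟨u, hu, p1, p2⟩ : {x | x ∈ OO Γ ∧ ¬ EE x ∧ ¬ (x ^ 3 = 1 ∧ (3 : K) ≠ 0)}.Nonempty :=
    Set.nonempty_iff_ne_empty.2 fun e => k ⟨by rw [e]; simp, fun x a => by_contra fun d => e.le ⟨a, not_or.1 d⟩⟩
  have lo : ∀ x ∈ OO Γ, ¬ EE x → ¬ (x ^ 3 = 1 ∧ (3 : K) ≠ 0) → ∃ ρ' g γ, ρ.Eqv ρ' ∧ ρ'.UD x g γ := fun x a b c =>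
    ((h.loc a).resolve_left b).resolve_left fun ⟨d, ν, e⟩ => c ⟨e.cube x (self_mem_Cn x), d⟩
  obtain ⟨ρ', g, γ, q1, q2⟩ := lo u hu p1 p2
  have cp : ∀ {n e}, (n ≠ 1 → ∃ x ∈ OO Γ, Ecl x e n) → (Nat.card (Cn u)).Coprime n := fun k =>
    Nat.coprime_of_dvd fun r hr a b => by
      obtain ⟨y, hy, e⟩ := exists_mem_orderOf hr a
      have o := q2.ca.mem_OO q2.odd hy (by rintro rfl; exact hr.one_lt.ne (by simpa using e))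
      obtain ⟨e, n, c⟩ := nd k y o r hr b (e ▸ pow_orderOf_eq_one y)
      exact p1 ⟨e, n, c.cj hu (Cj.of_mem (mem_Cn_comm.1 hy))⟩
  have cj : ∀ x ∈ OO Γ, ¬ EE x → ¬ (x ^ 3 = 1 ∧ (3 : K) ≠ 0) → Cj u x := fun x a b c => by
    obtain ⟨ρ'', g', γ', -, d⟩ := lo x a b c
    obtain ⟨r, hr, r1⟩ := q2.exists_prime
    obtain ⟨s, hs, s1⟩ := d.exists_prime
    obtain rfl : r = s := by_contra fun e => not_isCoprime_zero_zero (R := K) (by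
      simpa only [q2.cast hr r1, d.cast hs s1] using ((Nat.coprime_primes hr hs).2 e).cast (R := K))
    obtain ⟨y, hy, e⟩ := exists_mem_orderOf hr s1
    exact G.trans hu (d.ca.mem_OO d.odd hy (by rintro rfl; exact hr.one_lt.ne (by simpa using e)))
      (q2.ca.exists_conj hr r1 (e ▸ pow_orderOf_eq_one y)) (Cj.of_mem (mem_Cn_comm.1 hy))
  refine ⟨ρ', u, g, γ, q1, q2, ?_, hc u hu q2.ca, cp r1, cp r2, fun x a => or_iff_not_imp_left.2 fun b =>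
    or_iff_not_imp_left.2 fun c => cj x a b fun d => c d.1⟩
  rw [← q2.ca.tau q2.odd q2.cardN, ← G.card hu]
  congr 3
  ext y
  refine and_congr_right fun hy => ⟨fun a => cj y hy a.1 a.2, fun a => ⟨fun ⟨e, n, b⟩ =>
    p1 ⟨e, n, b.cj hu (G.symm hu hy a)⟩, fun b => b.2 ?_⟩⟩
  obtain ⟨k, a⟩ := a
  simpa using q2.cast Nat.prime_three (three_dvd_card (OO_ne (OO_conj k hy)) (by simpa using b.1) a)

end PRep

end Cfsg.Agent.MH
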