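import Cfsg.Agent.MH.Ela

/-! A large centre with a large group of elations gives `SL₃` of a subfield. -/

set_option autoImplicit false

namespace Cfsg.Agent.MH

open Matrix Cfsg.Agent.H4

variable {Γ K : Type*} [Group Γ] [Field K]

theorem inv_closed [Finite K] {B : K → Prop} {γ : K} (hγ : γ ≠ 0) (h : ∀ s, B s → B (γ * s)) {s : K} (hs : B s) :
    B (γ⁻¹ * s) := by
  have k : ∀ n : ℕ, B (γ ^ n * s) := fun n => by
    induction n with
    | zero => simpa using hs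
    | succ n ih => rw [pow_succ', mul_assoc]; exact h _ ih
  obtain ⟨n, hn, e⟩ := (isOfFinOrder_of_finite (Units.mk0 γ hγ)).exists_pow_eq_one
  obtain ⟨m, rfl⟩ := Nat.exists_eq_succ_of_ne_zero hn.ne'
  have e' : γ ^ m * γ = 1 := by simpa [pow_succ] using congrArg Units.val e
  rw [← eq_inv_of_mul_eq_one_left e']
  exact k m

/-- the multipliers of an additive subgroup -/
def multF [Finite K] (B : AddSubgroup K) : Subfield K where
  carrier := {r | ∀ s ∈ B, r * s ∈ B}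
  mul_mem' ha hb s hs := by rw [mul_assoc]; exact ha _ (hb s hs)
  one_mem' s hs := by simpa using hs
  add_mem' ha hb s hs := by rw [add_mul]; exact B.add_mem (ha s hs) (hb s hs)
  zero_mem' s hs := by simp
  neg_mem' ha s hs := by rw [neg_mul]; exact B.neg_mem (ha s hs)
  inv_mem' r hr s hs := by
    by_cases h0 : r = 0
    · simp [h0]
    · exact inv_closed (B := (· ∈ B)) h0 hr hs

theorem three_le_card [Finite K] {F : Subfield K} {l : K} (hl : l ∈ F) (h0 : l ≠ 0) (h1 : l ≠ 1) : 3 ≤ Nat.card F := by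
  have := Fintype.ofFinite F
  rw [Nat.card_eq_fintype_card]
  exact Fintype.two_lt_card_iff.2 ⟨0, 1, ⟨l, hl⟩, zero_ne_one, fun e => h0 (congrArg Subtype.val e).symm,
    fun e => h1 (congrArg Subtype.val e).symm⟩

/-- a vector proportional to a vector over the subfield -/
def Rat (F : Subfield K) (v : V3 K) : Prop := ∃ s : K, ∃ r : V3 K, (∀ i, r i ∈ F) ∧ v = s • r

theorem over_of_rat {F : Subfield K} {X : M3 K} (hX : X.det ≠ 0) (h0 : Rat F (X *ᵥ ![1, 0, 0]))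
    (h1 : Rat F (X *ᵥ ![0, 1, 0])) (h2 : Rat F (X *ᵥ ![0, 0, 1])) (h3 : Rat F (X *ᵥ ![1, 1, 1])) :
    ∃ s : K, s ≠ 0 ∧ ∀ i j, s * X i j ∈ F := by
  obtain ⟨s0, r0, m0, e0⟩ := h0
  obtain ⟨s1, r1, m1, e1⟩ := h1
  obtain ⟨s2, r2, m2, e2⟩ := h2
  obtain ⟨s, r, m, e⟩ := h3
  have c0 : ∀ i, X i 0 = s0 * r0 i := fun i => by
    simpa [mulVec, dotProduct, Fin.sum_univ_three] using congrFun e0 i
  have c1 : ∀ i, X i 1 = s1 * r1 i := fun i => by
    simpa [mulVec, dotProduct, Fin.sum_univ_three] using congrFun e1 i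
  have c2 : ∀ i, X i 2 = s2 * r2 i := fun i => by
    simpa [mulVec, dotProduct, Fin.sum_univ_three] using congrFun e2 i
  have c : ∀ i, s0 * r0 i + s1 * r1 i + s2 * r2 i = s * r i := fun i => by
    simpa [mulVec, dotProduct, Fin.sum_univ_three, c0, c1, c2] using congrFun e i
  have md : ∀ a b c : V3 K, (∀ i, a i ∈ F) → (∀ i, b i ∈ F) → (∀ i, c i ∈ F) → (col3 a b c).det ∈ F :=
    fun a b c ha hb hc => by
      rw [det_fin_three]
      simp only [col3, transpose_apply, of_apply, cons_val_zero, cons_val_one, cons_val]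
      repeat (first | apply ha | apply hb | apply hc | apply F.add_mem | apply F.sub_mem | apply F.mul_mem)
  have hd : X.det = s0 * s1 * s2 * (col3 r0 r1 r2).det := by
    simp [det_fin_three, col3, c0, c1, c2]; ring
  have d0 : (col3 r0 r1 r2).det ≠ 0 := fun e => hX (by rw [hd, e, mul_zero])
  have k0 : s0 * (col3 r0 r1 r2).det = s * (col3 r r1 r2).det := by
    simp [det_fin_three, col3]
    linear_combination (r1 1 * r2 2 - r1 2 * r2 1) * c 0 - (r1 0 * r2 2 - r1 2 * r2 0) * c 1 +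
      (r1 0 * r2 1 - r1 1 * r2 0) * c 2
  have k1 : s1 * (col3 r0 r1 r2).det = s * (col3 r0 r r2).det := by
    simp [det_fin_three, col3]
    linear_combination -(r0 1 * r2 2 - r0 2 * r2 1) * c 0 + (r0 0 * r2 2 - r0 2 * r2 0) * c 1 -
      (r0 0 * r2 1 - r0 1 * r2 0) * c 2
  have k2 : s2 * (col3 r0 r1 r2).det = s * (col3 r0 r1 r).det := by
    simp [det_fin_three, col3]
    linear_combination (r0 1 * r1 2 - r0 2 * r1 1) * c 0 - (r0 0 * r1 2 - r0 2 * r1 0) * c 1 +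
      (r0 0 * r1 1 - r0 1 * r1 0) * c 2
  have hs : s ≠ 0 := fun e => hX (by rw [hd, mul_eq_zero.1 (k0.trans (by rw [e, zero_mul])) |>.resolve_right d0]; ring)
  refine ⟨s⁻¹ * (col3 r0 r1 r2).det, mul_ne_zero (inv_ne_zero hs) d0, fun i j => ?_⟩
  fin_cases j
  · convert F.mul_mem (md _ _ _ m m1 m2) (m0 i) using 1
    simp only [Fin.zero_eta, c0]
    field_simp
    linear_combination r0 i * k0
  · convert F.mul_mem (md _ _ _ m0 m m2) (m1 i) using 1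
    simp only [Fin.mk_one, c1]
    field_simp
    linear_combination r1 i * k1
  · convert F.mul_mem (md _ _ _ m0 m1 m) (m2 i) using 1
    simp only [Fin.reduceFinMk, c2]
    field_simp
    linear_combination r2 i * k2

namespace PRep

variable {ρ : PRep Γ K} {x y : Γ} {X Y : M3 K} {c u v w φ ψ χ : V3 K}

theorem El.congr (h : ρ.El v φ) (e1 : w = v) (e2 : ψ = φ) : ρ.El w ψ := by rw [e1, e2]; exact h

theorem Orb.congr (h : ρ.Orb c v) (e : w = v) : ρ.Orb c w := e ▸ h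

theorem sl_coord [Finite K] (hL : ρ.Large ![1, 0, 0]) (o1 : ρ.Orb ![1, 0, 0] ![0, 1, 0])
    (o2 : ρ.Orb ![1, 0, 0] ![0, 0, 1]) (a12 : ρ.El ![1, 0, 0] ![0, 1, 0]) (a23 : ρ.El ![0, 1, 0] ![0, 0, 1])
    {γ : K} (hγ : γ ≠ 0) (a32 : ρ.El ![0, 0, 1] ![0, γ, 0]) {φ0 : V3 K} {l : K} (h0 : ρ.El ![1, 0, 0] φ0)
    (n0 : φ0 ≠ 0) (h1 : ρ.El ![1, 0, 0] (l • φ0)) (l0 : l ≠ 0) (l1 : l ≠ 1) :
    ∃ F : Subfield K, 3 ≤ Nat.card F ∧ (∀ i j, i ≠ j → ∀ r ∈ F, ρ.El (Pi.single i 1) (Pi.single j r)) ∧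
      ∀ x, ∃ X, ρ.R x X ∧ ∀ i j, X i j ∈ F := by
  let B : AddSubgroup K :=
    { carrier := {s | ρ.El ![1, 0, 0] ![0, s, 0]}
      add_mem' := fun h1 h2 => (h1.add h2).congr rfl (by vec)
      zero_mem' := (El.zero ρ _).congr rfl (by vec)
      neg_mem' := fun h1 => h1.neg.congr rfl (by vec) }
  have f1 : ∀ φ, ρ.El ![1, 0, 0] φ → ρ.El ![1, 0, 0] ![0, 0, φ 1] := fun φ h =>
    (h.rule a23 (by simp)).congr rfl (by vec)
  have f2 : ∀ φ, ρ.El ![1, 0, 0] φ → γ * φ 2 ∈ B := fun φ h => (h.rule a32 (by simp)).congr rfl (by vec)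
  have f3 : ∀ φ, ρ.El ![1, 0, 0] φ → φ 2 ∈ B := fun φ h => by
    simpa [hγ] using inv_closed (B := (· ∈ B)) hγ (fun s hs => f2 _ (f1 _ hs)) (f2 φ h)
  let F := multF B
  have f4 : ∀ β, ρ.El ![0, 1, 0] ![0, 0, β] → β ∈ F := fun β h s hs =>
    f3 ![0, 0, β * s] ((El.rule hs h (by simp)).congr rfl (by vec))
  have f5 : ∀ χ, ρ.El ![0, 1, 0] χ → ∀ t ∈ B, χ 0 * t ∈ F := fun χ h t ht =>
    f4 _ ((h.rule (f1 _ ht) (by simp)).congr rfl (by vec))
  obtain ⟨χ0, e0, a0⟩ : ∃ χ, ρ.El ![0, 1, 0] χ ∧ χ 0 ≠ 0 := by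
    simpa [dotProduct, Fin.sum_univ_three] using (hL.orb o1).exists_ne (w := ![1, 0, 0]) (ind_of_dot (φ := ![1, 0, 0]) (by simp) (by simp) (by simp))
  have f6 : ∀ χ, ρ.El ![0, 1, 0] χ → χ 0 ∈ F := fun χ h => by simpa using f5 χ h 1 a12
  have BF : ∀ t, t ∈ B ↔ t ∈ F := fun t => ⟨fun ht => by
    simpa [a0] using F.mul_mem (F.inv_mem (f6 _ e0)) (f5 _ e0 t ht), fun ht => by simpa using ht 1 a12⟩
  have g12 : ∀ r ∈ F, ρ.El ![1, 0, 0] ![0, r, 0] := fun r hr => (BF r).2 hr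
  have g13 : ∀ r ∈ F, ρ.El ![1, 0, 0] ![0, 0, r] := fun r hr => f1 _ (g12 r hr)
  have p1 : ∀ φ, ρ.El ![1, 0, 0] φ → φ 0 = 0 ∧ φ 1 ∈ F ∧ φ 2 ∈ F := fun φ h =>
    ⟨by simpa [dotProduct, Fin.sum_univ_three] using h.1, (BF _).1 (f3 _ (f1 _ h)), (BF _).1 (f3 _ h)⟩
  have sp : ∀ v, ρ.Orb ![1, 0, 0] v → ∀ r ∈ F, ∀ φ, ρ.El v φ → ρ.El v (r • φ) := by
    rintro _ ⟨x, X, hX, rfl⟩ r hr φ h
    obtain ⟨b0, b1, b2⟩ := p1 _ (h.conj' hX)
    have := ((g12 _ (F.mul_mem hr b1)).add (g13 _ (F.mul_mem hr b2))).congr (ψ := r • φ ᵥ* X) rfl (by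
      ext i; fin_cases i <;> simp [b0])
    simpa [smul_vecMul, vecMul_vecMul, hX.mul_inv] using this.conj hX hX.mul_inv
  have hl : l ∈ F := by
    obtain ⟨b0, b1, b2⟩ := p1 _ h0
    obtain ⟨-, c1, c2⟩ := p1 _ h1
    by_cases e : φ0 1 = 0
    · have e' : φ0 2 ≠ 0 := fun e' => n0 (by rw [vec3_eq φ0, b0, e, e']; vec)
      simpa [e'] using F.div_mem c2 b2
    · simpa [e] using F.div_mem c1 b1
  have g23 : ∀ r ∈ F, ρ.El ![0, 1, 0] ![0, 0, r] := fun r hr => (sp _ o1 r hr _ a23).congr rfl (by vec)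
  have mγ : γ ∈ F := fun s hs => f2 _ (f1 _ hs)
  have g32 : ∀ r ∈ F, ρ.El ![0, 0, 1] ![0, r, 0] := fun r hr =>
    (sp _ o2 _ (F.div_mem hr mγ) _ a32).congr rfl (by ext i; fin_cases i <;> simp [hγ])
  have g21 : ∀ r ∈ F, ρ.El ![0, 1, 0] ![r, 0, 0] := by
    obtain ⟨-, x1, b1⟩ := g23 l hl
    obtain ⟨-, x2, b2⟩ := g32 _ (F.neg_mem (F.inv_mem hl))
    obtain ⟨-, x3, b3⟩ := g23 _ (F.neg_mem F.one_mem)
    obtain ⟨-, x4, b4⟩ := g32 _ F.one_mem
    have hX := (((b1.mul b2).mul b1).mul ((b3.mul b4).mul b3)).congr (Y := diagonal ![1, l, l⁻¹]) (by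
      ext i j
      fin_cases i <;> fin_cases j <;> simp [T, mul_apply, Fin.sum_univ_three, vecMulVec, one_apply, l0])
    have := (e0.stab (c := l) (Y := diagonal ![1, l⁻¹, l]) hX (by
      ext i j
      fin_cases i <;> fin_cases j <;> simp [l0]) (by
      ext i; fin_cases i <;> simp [mulVec_diagonal])).sub (sp _ o1 _ (F.mul_mem hl hl) _ e0)
    have e1 : χ0 1 = 0 := by simpa [dotProduct, Fin.sum_univ_three] using e0.1
    have m : (l - l * l) * χ0 0 ∈ F := F.mul_mem (F.sub_mem hl (F.mul_mem hl hl)) (f6 _ e0)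
    have n : (l - l * l) * χ0 0 ≠ 0 := mul_ne_zero (fun e => l1 (mul_left_cancel₀ l0 (by linear_combination -e))) a0
    intro r hr
    refine (sp _ o1 _ (F.div_mem hr m) _ this).congr rfl ?_
    ext i
    fin_cases i
    · simp only [Fin.zero_eta, cons_val_zero, Pi.smul_apply, Pi.sub_apply, vecMul_diagonal, smul_eq_mul]
      rw [div_mul_eq_mul_div, eq_div_iff n]
      ring
    · simp [vecMul_diagonal, e1]
    · simp [vecMul_diagonal, mul_assoc, mul_comm]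
  have g31 : ∀ r ∈ F, ρ.El ![0, 0, 1] ![r, 0, 0] := fun r hr =>
    ((g32 1 F.one_mem).rule (g21 r hr) (by simp)).congr rfl (by vec)
  have p2 : ∀ φ, ρ.El ![0, 1, 0] φ → φ 1 = 0 ∧ φ 0 ∈ F ∧ φ 2 ∈ F := fun φ h => by
    have e1 : φ 1 = 0 := by simpa [dotProduct, Fin.sum_univ_three] using h.1
    exact ⟨e1, f6 _ h, f4 _ ((h.sub (g21 _ (f6 _ h))).congr rfl (by ext i; fin_cases i <;> simp [e1]))⟩
  -- rationality of the orbit
  have r1 : ∀ a b : K, ρ.Orb ![1, 0, 0] ![a, b, 0] → ∃ s : K, s ≠ 0 ∧ s * a ∈ F ∧ s * b ∈ F := by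
    intro a b o
    by_cases hb : b = 0
    · have ha : a ≠ 0 := fun e => o.ne (by simp) (by rw [e, hb]; vec)
      exact ⟨a⁻¹, inv_ne_zero ha, by simp [ha], by simp [hb]⟩
    obtain ⟨χ, e1, e2⟩ := (hL.orb o).exists_ne (w := ![1, 0, 0])
      (ind_of_dot (φ := ![0, 1, 0]) (by simp) (by simp) (by simpa using hb)).symm
    have e3 := el_smul.2 (e1.rule (g13 1 F.one_mem) (by simp))
    refine ⟨_, e2, ?_, ?_⟩
    · simpa using (p2 _ ((g21 1 F.one_mem).rule e3 (by simp))).2.2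
    · simpa using (p1 _ (a12.rule e3 (by simp))).2.2
  have mv2 : ∀ a d : K, ρ.Orb ![1, 0, 0] ![a, 0, d] → ρ.Orb ![1, 0, 0] ![a, d, 0] := fun a d o =>
    ((o.move a23).move (g32 _ (F.neg_mem F.one_mem))).congr (by vec)
  have mv3 : ∀ b d : K, ρ.Orb ![1, 0, 0] ![0, b, d] → ρ.Orb ![1, 0, 0] ![d, b, 0] := fun b d o =>
    ((o.move (g13 1 F.one_mem)).move (g31 _ (F.neg_mem F.one_mem))).congr (by vec)
  have rat : ∀ a b d s : K, s ≠ 0 → s * a ∈ F → s * b ∈ F → s * d ∈ F → Rat F ![a, b, d] :=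
    fun a b d s hs h1 h2 h3 => ⟨s⁻¹, ![s * a, s * b, s * d], fun i => by fin_cases i <;> simpa, by
      ext i; fin_cases i <;> simp [hs]⟩
  have r2 : ∀ a b d : K, ρ.Orb ![1, 0, 0] ![a, b, d] → Rat F ![a, b, d] := by
    intro a b d o
    by_cases c1 : ∃ r ∈ F, d = r * b
    · obtain ⟨r, hr, rfl⟩ := c1
      obtain ⟨s, hs, h1, h2⟩ := r1 a b ((o.move (g32 _ (F.neg_mem hr))).congr (by vec))
      exact rat _ _ _ s hs h1 h2 (by rw [mul_left_comm]; exact F.mul_mem hr h2)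
    by_cases c2 : ∃ r ∈ F, b = r * d
    · obtain ⟨r, hr, rfl⟩ := c2
      obtain ⟨s, hs, h1, h2⟩ := r1 a d (mv2 _ _ ((o.move (g23 _ (F.neg_mem hr))).congr (by vec)))
      exact rat _ _ _ s hs h1 (by rw [mul_left_comm]; exact F.mul_mem hr h2) h2
    by_cases c3 : ∃ r ∈ F, d = r * a
    · obtain ⟨r, hr, rfl⟩ := c3
      obtain ⟨s, hs, h1, h2⟩ := r1 a b ((o.move (g31 _ (F.neg_mem hr))).congr (by vec))
      exact rat _ _ _ s hs h1 h2 (by rw [mul_left_comm]; exact F.mul_mem hr h1)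
    by_cases c4 : ∃ r ∈ F, a = r * d
    · obtain ⟨r, hr, rfl⟩ := c4
      obtain ⟨s, hs, h1, h2⟩ := r1 d b (mv3 _ _ ((o.move (g13 _ (F.neg_mem hr))).congr (by vec)))
      exact rat _ _ _ s hs (by rw [mul_left_comm]; exact F.mul_mem hr h1) h2 h1
    exfalso
    have dep : ∀ s t y : K, s ∈ F → t ∈ F → s * y + t * d = 0 → (¬ ∃ r ∈ F, y = r * d) →
        s = 0 ∧ t = 0 := fun s t y hs ht e k => by
      have hd : d ≠ 0 := fun e => c1 ⟨0, F.zero_mem, by simp [e]⟩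
      by_cases h0 : s = 0
      · exact ⟨h0, by simpa [h0, hd] using e⟩
      · exact absurd ⟨_, F.neg_mem (F.div_mem ht hs), by field_simp; linear_combination e⟩ k
    have hd : d ≠ 0 := fun e => c1 ⟨0, F.zero_mem, by simp [e]⟩
    have i1 : Ind ![1, 0, 0] ![a, b, d] := ind_of_dot (φ := ![0, 0, 1]) (by simp) (by simp) (by simpa using hd)
    have i2 : Ind ![0, 1, 0] ![a, b, d] := ind_of_dot (φ := ![0, 0, 1]) (by simp) (by simp) (by simpa using hd)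
    have far1 : ρ.Far ![1, 0, 0] ![a, b, d] := fun φ h e => by
      obtain ⟨b0, b1, b2⟩ := p1 φ h
      obtain ⟨d1, d2⟩ := dep _ _ b b1 b2 (by simpa [dotProduct, Fin.sum_univ_three, b0] using e) c2
      rw [vec3_eq φ, b0, d1, d2]; vec
    have far2 : ρ.Far ![0, 1, 0] ![a, b, d] := fun φ h e => by
      obtain ⟨b0, b1, b2⟩ := p2 φ h
      obtain ⟨d1, d2⟩ := dep _ _ a b1 b2 (by simpa [dotProduct, Fin.sum_univ_three, b0] using e) c4
      rw [vec3_eq φ, b0, d1, d2]; vec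
    obtain ⟨E, k1, k2, k3⟩ := far_field_large i1 far1 hL (hL.orb o)
    obtain ⟨E', k4, k5, -⟩ := far_field_large i2 far2 (hL.orb o1) (hL.orb o)
    obtain rfl : E = E' := subfield_eq (k1.trans (k4.trans o1.card_Phi).symm)
    obtain ⟨χ, e1, e2⟩ := (hL.orb o).exists_ne i2.symm
    have m : -(a / d) ∈ E := by
      convert E.neg_mem (E.div_mem (k5 _ _ (g21 1 F.one_mem) e1) (k5 _ _ a23 e1)) using 2
      rw [mul_div_mul_right _ _ e2]
      simp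
    obtain ⟨φ, e3, e4⟩ := torus_surj k3 (ρ.Phi _) (fun x X Y c hX hY e φ hφ => El.stab hφ hX hY e)
      (g13 1 F.one_mem) m
    obtain ⟨s, hs, h1, h2⟩ := r1 d b (mv3 _ _ ((o.move e3).congr (by
      rw [e4]; ext i; fin_cases i <;> simp [hd])))
    exact c2 ⟨_, F.div_mem h2 h1, by field_simp⟩
  refine ⟨F, three_le_card hl l0 l1, fun i j hij r hr => ?_, fun x => ?_⟩
  · fin_cases i <;> fin_cases j
    any_goals exact absurd rfl hij
    exacts [(g12 r hr).congr (by vec) (by vec), (g13 r hr).congr (by vec) (by vec), (g21 r hr).congr (by vec) (by vec),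
      (g23 r hr).congr (by vec) (by vec), (g31 r hr).congr (by vec) (by vec), (g32 r hr).congr (by vec) (by vec)]
  · obtain ⟨X, hX⟩ := ρ.ex x
    have r3 : ∀ v, ρ.Orb ![1, 0, 0] v → Rat F (X *ᵥ v) := fun v o => by
      rw [vec3_eq (X *ᵥ v)]
      exact r2 _ _ _ (vec3_eq (X *ᵥ v) ▸ o.map hX)
    obtain ⟨s, hs, h⟩ := over_of_rat hX.det (r3 _ (Orb.refl ρ _)) (r3 _ o1) (r3 _ o2)
      (r3 _ ((((Orb.refl ρ _).move (g21 1 F.one_mem)).move (g31 1 F.one_mem)).congr (by vec)))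
    exact ⟨_, hX.smul hs, h⟩

/-- the group is `PSL₃(F)` up to diagonal automorphisms -/
def IsSL (ρ : PRep Γ K) : Prop :=
  ∃ (P Q : M3 K) (h : P * Q = 1) (F : Subfield K), 3 ≤ Nat.card F ∧
    (∀ i j, i ≠ j → ∀ r ∈ F, (ρ.cj P Q h).El (Pi.single i 1) (Pi.single j r)) ∧
    ∀ x, ∃ X, (ρ.cj P Q h).R x X ∧ ∀ i j, X i j ∈ F

theorem Large.cj {P Q : M3 K} {h : P * Q = 1} (e : ρ.Large (P *ᵥ v)) : (ρ.cj P Q h).Large v := by
  obtain ⟨φ, ψ, h1, h2, h3⟩ := e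
  exact ⟨_, _, h1.cj', h2.cj', h3.map' h⟩

theorem Large.isSL [Finite K] (H : ρ.Hyp) (hc : c ≠ 0) (hL : ρ.Large c) {φ0 : V3 K} {l : K} (h0 : ρ.El c φ0)
    (n0 : φ0 ≠ 0) (h1 : ρ.El c (l • φ0)) (l0 : l ≠ 0) (l1 : l ≠ 1) : ρ.IsSL := by
  obtain ⟨w, u, ψ, φ, ow, ou, iw, eψ, eφ, nφ, hψ, hφ, hu⟩ := hL.exists_two H hc
  have hd := det_ne_of_dot iw eψ.1 hψ hu
  have hw : φ ⬝ᵥ w ≠ 0 := fun e => nφ (eq_zero_of_dot hd eφ.1 e hφ)
  have ow' := ow.smul (inv_ne_zero hw)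
  have iw' : Ind c ((φ ⬝ᵥ w)⁻¹ • w) := by simpa using iw.smul one_ne_zero (inv_ne_zero hw)
  obtain ⟨χ, e1, e2⟩ := (hL.orb ow').exists_ne iw'.symm
  have e3 := e1.rule eψ (by simp [hψ])
  have ha : ((χ ⬝ᵥ c) * (ψ ⬝ᵥ u))⁻¹ ≠ 0 := inv_ne_zero (mul_ne_zero e2 hu)
  have ou' := ou.smul ha
  have iu' : Ind c (((χ ⬝ᵥ c) * (ψ ⬝ᵥ u))⁻¹ • u) := by simpa using (ind13 hd).smul one_ne_zero ha
  obtain ⟨χ', e4, e5⟩ := (hL.orb ou').exists_ne iu'.symm
  have e6 := e4.rule eφ (by simp [hφ])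
  have hd' := det_ne_of_dot iw' eψ.1 (by simp [hψ]) (w := ((χ ⬝ᵥ c) * (ψ ⬝ᵥ u))⁻¹ • u)
    (by simp [hu, e2])
  obtain ⟨Q, hQ⟩ := exists_inv hd'
  refine ⟨_, Q, hQ, sl_coord (Large.cj (by rwa [col3_e0])) (Orb.cj (by rwa [col3_e0, col3_e1]))
    (Orb.cj (by rwa [col3_e0, col3_e2])) ((El.cj' (φ := φ) (by rwa [col3_e0])).congr rfl ?_)
    ((El.cj' (by rwa [col3_e1])).congr rfl ?_) e5 ((El.cj' (by rwa [col3_e2])).congr rfl ?_)
    (El.cj' (φ := φ0) (by rwa [col3_e0])) (fun e => n0 ?_)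
    ((El.cj' (φ := l • φ0) (by rwa [col3_e0])).congr rfl ?_) l0 l1⟩
  · simp [vecMul_col3, eφ.1, hφ, hw]
  · simp only [vecMul_col3, smul_dotProduct, dotProduct_smul, eψ.1, hψ, smul_eq_mul, mul_zero]
    congr
    field_simp
  · simp only [vecMul_col3, smul_dotProduct, dotProduct_smul, eφ.1, hφ, smul_eq_mul, mul_zero]
    congr
    field_simp
  · have := congrArg (· ᵥ* Q) e
    simpa only [vecMul_vecMul, hQ, vecMul_one, zero_vecMul] using this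
  · rw [smul_vecMul]

theorem IsSL.of_tp (h : ρ.tp.IsSL) : ρ.IsSL := by
  obtain ⟨P, Q, h, F, h1, h2, h3⟩ := h
  have h' : Qᵀ * Pᵀ = 1 := by rw [← transpose_mul, h, transpose_one]
  refine ⟨Qᵀ, Pᵀ, h', F, h1, fun i j hij r hr => ?_, fun x => ?_⟩
  · have := (El.cj.1 (h2 j i hij.symm r hr)).of_tp
    rw [El.cj, mulVec_transpose, vecMul_transpose]
    rw [show (Pi.single i r : V3 K) = r • Pi.single i 1 by simp [← Pi.single_smul], smul_vecMul, el_smul,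
      ← mulVec_smul] at this
    rw [← Pi.single_smul, smul_eq_mul, mul_one] at this
    exact this
  · obtain ⟨X, hX, h4⟩ := h3 x⁻¹
    refine ⟨Xᵀ, cj_R.2 ?_, fun i j => h4 j i⟩
    simpa [mul_assoc] using tp_R.1 (cj_R.1 hX)

end PRep

end Cfsg.Agent.MH
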