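import Cfsg.Agent.MH.SL3
import Cfsg.Agent.Asch.FF

/-! Small centres on small axes give `SU₃`. -/

set_option autoImplicit false

namespace Cfsg.Agent.MH

open Matrix Cfsg.Agent.H4

variable {Γ K : Type*} [Group Γ] [Field K]

theorem exists_frob [Finite K] (E : Subfield K) : ∃ σ : K →+* K, ∀ x, σ x = x ^ Nat.card E := by
  have := Fintype.ofFinite E
  obtain ⟨p, hp⟩ := CharP.exists K
  obtain ⟨n, hpp, hn⟩ := FiniteField.card E p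
  have := Fact.mk hpp
  exact ⟨iterateFrobenius K p n, fun x => by rw [iterateFrobenius_def, Nat.card_eq_fintype_card, hn]⟩

theorem card_quad [Finite K] {E E2 : Subfield K} (h : ∀ x, x ∈ E2 ↔ (x ^ Nat.card E) ^ Nat.card E = x) {β : K}
    (hβ : β ∈ E2) (hβ' : β ∉ E) : Nat.card E2 = Nat.card E ^ 2 := by
  classical
  have hle : E ≤ E2 := fun x hx => (h x).2 (by rw [(Subf.mem_iff_pow E).1 hx, (Subf.mem_iff_pow E).1 hx])
  let _ := (Subfield.inclusion hle).toAlgebra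
  have h1 : Nat.card E2 = Nat.card E ^ Module.finrank E E2 := Module.natCard_eq_pow_finrank
  have h2 : 1 < Nat.card E := Finite.one_lt_card
  have := Fintype.ofFinite K
  have h3 : Nat.card E2 ≤ Nat.card E ^ 2 := by
    have := Asch.card_le_of_pow_eq (n := Nat.card E ^ 2) (Nat.one_lt_pow two_ne_zero h2) (E2 : Set K).toFinset
      fun x hx => by rw [pow_two, pow_mul]; exact (h x).1 (by simpa using hx)
    rwa [← Set.ncard_eq_toFinset_card', ← Nat.card_coe_set_eq] at this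
  have h4 : Module.finrank E E2 ≠ 1 := fun e => hβ' (by
    rw [Subf.eq_of_le_of_card hle (by rw [h1, e, pow_one])]; exact hβ)
  have h5 : 0 < Module.finrank E E2 := Module.finrank_pos
  have h6 := (Nat.pow_le_pow_iff_right h2).1 (h1 ▸ h3)
  rw [h1, show Module.finrank E E2 = 2 by omega]

theorem det_swap {u v w : V3 K} (h : (col3 u v w).det ≠ 0) : (col3 u w v).det ≠ 0 := det_col3_ne fun a b c e => by
  obtain ⟨h1, h2, h3⟩ := indep_of_det h (a := a) (b := c) (c := b) (by rw [← e]; abel)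
  exact ⟨h1, h3, h2⟩

theorem det_cyc {u v w : V3 K} (h : (col3 u v w).det ≠ 0) : (col3 v w u).det ≠ 0 := det_col3_ne fun a b c e => by
  obtain ⟨h1, h2, h3⟩ := indep_of_det h (a := c) (b := a) (c := b) (by rw [← e]; abel)
  exact ⟨h2, h3, h1⟩

theorem alg3 (h3 : (3 : K) = 0) {a b c δ : K} (ha : a ^ 2 = -1) (hb : b ^ 4 = 1) (hc : c ^ 4 = 1)
    (h1 : (a - b * c + δ) ^ 4 = 1) (h2 : (a - b * c - δ) ^ 4 = 1) (h4 : (c - a * b + δ) ^ 4 = 1)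
    (h5 : (c - a * b - δ) ^ 4 = 1) (h6 : (b - c * a + δ) ^ 4 = 1) (h7 : (b - c * a - δ) ^ 4 = 1) :
    b ^ 2 = c ^ 2 ∧ (a - b * c + δ) ^ 2 = -(a - b * c - δ) ^ 2 := by
  have k : ∀ A : K, (A + δ) ^ 4 = 1 → (A - δ) ^ 4 = 1 → A ^ 4 + δ ^ 4 = 1 := fun A e1 e2 => by
    linear_combination -e1 - e2 + (A ^ 4 + δ ^ 4 + 4 * A ^ 2 * δ ^ 2 - 1) * h3
  have k' : ∀ r s : K, (r - s) ^ 4 = r ^ 4 + s ^ 4 - r * s * (r ^ 2 + s ^ 2) := fun r s => by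
    linear_combination (-(r ^ 3 * s) + 2 * r ^ 2 * s ^ 2 - r * s ^ 3) * h3
  have a0 : a ≠ 0 := by rintro rfl; simp at ha
  have b0 : b ≠ 0 := by rintro rfl; simp at hb
  have c0 : c ≠ 0 := by rintro rfl; simp at hc
  have e1 : b ^ 2 = c ^ 2 := by
    have := (k _ h4 h5).trans (k _ h6 h7).symm
    rw [k', k'] at this
    apply mul_left_cancel₀ (mul_ne_zero a0 (mul_ne_zero b0 c0))
    linear_combination -this + (a ^ 4 - 1) * (hb - hc) - a * b * c * (b ^ 2 - c ^ 2) * ha +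
      a * b * c * (b ^ 2 - c ^ 2) * h3
  refine ⟨e1, ?_⟩
  have e2 : (a - b * c) ^ 4 = -1 := by
    rw [k']
    linear_combination (a ^ 2 - 1 - a * b * c) * ha + (c ^ 4 - a * b * c) * hb + hc + a * b ^ 3 * c * e1 + h3
  have e3 : δ ^ 4 = -1 := by linear_combination k _ h1 h2 - e2 + h3
  have n1 : a - b * c ≠ 0 := fun e => by simp [e] at e2
  have n2 : δ ≠ 0 := fun e => by simp [e] at e3
  generalize a - b * c = A at *
  apply mul_left_cancel₀ (mul_ne_zero n1 n2)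
  linear_combination h1 - h2 - 2 * A * δ * (A ^ 2 + δ ^ 2) * h3

/-- the skew-Hermitian Gram matrix -/
def suX (q : ℕ) (β : K) : M3 K := !![0, 1, 1; -1, 0, β; -1, -β ^ q, 0]

namespace PRep

variable {ρ : PRep Γ K} {x y : Γ} {X Y : M3 K} {c u v w φ ψ χ : V3 K}

/-- a centre in the orbit with a non-trivial elation -/
structure Fl (ρ : PRep Γ K) (c v φ : V3 K) : Prop where
  orb : ρ.Orb c v
  el : ρ.El v φ
  ne : φ ≠ 0

theorem Fl.neg (h : ρ.Fl c v φ) : ρ.Fl c v (-φ) := ⟨h.orb, h.el.neg, neg_ne_zero.2 h.ne⟩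

theorem Fl.conj (h : ρ.Fl c v φ) (h' : ρ.El u χ) : ρ.Fl c (v + (χ ⬝ᵥ v) • u) (φ - (φ ⬝ᵥ u) • χ) :=
  ⟨h.orb.move h', h.el.conj_El h', fun e => h.ne (by
    have : φ ⬝ᵥ u = 0 := by simpa [sub_dotProduct, h'.1] using congrArg (· ⬝ᵥ u) e
    simpa [this] using e)⟩

theorem Fl.map (h : ρ.Fl c v φ) (hX : ρ.R x X) : ρ.Fl c (X *ᵥ v) (φ ᵥ* X⁻¹) :=
  ⟨h.orb.map hX, h.el.conj hX hX.mul_inv, hX.inv.vecMul_ne h.ne⟩

theorem Orb.fl (h : ρ.Orb c v) (h0 : ρ.El c φ) (n0 : φ ≠ 0) : ∃ χ, ρ.Fl c v χ := by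
  obtain ⟨x, X, hX, rfl⟩ := h
  exact ⟨_, (⟨Orb.refl ρ c, h0, n0⟩ : ρ.Fl c c φ).map hX⟩

section three

variable {v1 v2 v3 φ1 φ2 φ3 : V3 K}
  (h3 : (3 : K) = 0) (far : ∀ {v w}, ρ.Orb c v → ρ.Orb c w → Ind v w → ρ.Far v w)
  (mu : ∀ {v w φ χ}, ρ.Fl c v φ → ρ.Fl c w χ → Ind v w → ((φ ⬝ᵥ w) * (χ ⬝ᵥ v)) ^ 4 = 1)

include mu in
theorem key3 (f1 : ρ.Fl c v1 φ1) (f2 : ρ.Fl c v2 φ2) (f3 : ρ.Fl c v3 φ3) (hd : (col3 v1 v2 v3).det ≠ 0) :
    ((φ1 ⬝ᵥ v2) * (φ2 ⬝ᵥ v1) - (φ1 ⬝ᵥ v3) * (φ3 ⬝ᵥ v1) * ((φ2 ⬝ᵥ v3) * (φ3 ⬝ᵥ v2)) +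
      ((φ1 ⬝ᵥ v3) * (φ3 ⬝ᵥ v2) * (φ2 ⬝ᵥ v1) - (φ1 ⬝ᵥ v2) * (φ2 ⬝ᵥ v3) * (φ3 ⬝ᵥ v1))) ^ 4 = 1 := by
  have := mu f1 (f2.conj f3.el) fun a b e => by
    have := indep_of_det hd (a := a) (b := b) (c := b * (φ3 ⬝ᵥ v2)) (by rw [← e, smul_add, mul_smul, add_assoc])
    exact ⟨this.1, this.2.1⟩
  convert this using 2
  simp only [dotProduct_add, dotProduct_smul, sub_dotProduct, smul_dotProduct, smul_eq_mul]
  ring

include h3 mu in
theorem key3' (f1 : ρ.Fl c v1 φ1) (f2 : ρ.Fl c v2 φ2) (f3 : ρ.Fl c v3 φ3) (hd : (col3 v1 v2 v3).det ≠ 0)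
    (hi : ((φ1 ⬝ᵥ v2) * (φ2 ⬝ᵥ v1)) ^ 2 = -1) :
    ((φ1 ⬝ᵥ v3) * (φ3 ⬝ᵥ v1)) ^ 2 = ((φ2 ⬝ᵥ v3) * (φ3 ⬝ᵥ v2)) ^ 2 ∧
      ((φ1 ⬝ᵥ (v2 + (φ3 ⬝ᵥ v2) • v3)) * ((φ2 - (φ2 ⬝ᵥ v3) • φ3) ⬝ᵥ v1)) ^ 2 =
      -((φ1 ⬝ᵥ (v2 + ((-φ3) ⬝ᵥ v2) • v3)) * ((φ2 - (φ2 ⬝ᵥ v3) • (-φ3)) ⬝ᵥ v1)) ^ 2 := by
  have := alg3 h3 (δ := (φ1 ⬝ᵥ v3) * (φ3 ⬝ᵥ v2) * (φ2 ⬝ᵥ v1) - (φ1 ⬝ᵥ v2) * (φ2 ⬝ᵥ v3) * (φ3 ⬝ᵥ v1)) hi
    (mu f1 f3 (ind13 hd)) (mu f2 f3 (ind23 hd)) (key3 mu f1 f2 f3 hd)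
    (by convert key3 mu f1 f2 f3.neg hd using 2; simp only [neg_dotProduct]; ring)
    (by convert key3 mu f2 f3 f1 (det_cyc hd) using 2; ring)
    (by convert key3 mu f2 f3 f1.neg (det_cyc hd) using 2; simp only [neg_dotProduct]; ring)
    (by convert key3 mu f3 f1 f2 (det_cyc (det_cyc hd)) using 2; ring)
    (by convert key3 mu f3 f1 f2.neg (det_cyc (det_cyc hd)) using 2; simp only [neg_dotProduct]; ring)
  refine ⟨this.1, ?_⟩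
  convert this.2 using 2
  · simp only [dotProduct_add, dotProduct_smul, sub_dotProduct, smul_dotProduct, smul_eq_mul]
    ring
  · simp only [dotProduct_add, dotProduct_smul, sub_dotProduct, smul_dotProduct, smul_eq_mul, neg_dotProduct]
    ring

include h3 far mu in
theorem real3 (H : ρ.Hyp) (f1 : ρ.Fl c v1 φ1) (f2 : ρ.Fl c v2 φ2) (h12 : Ind v1 v2) :
    ((φ1 ⬝ᵥ v2) * (φ2 ⬝ᵥ v1)) ^ 2 = 1 := by
  have sq : ∀ y : K, y ^ 4 = 1 → y ^ 2 = 1 ∨ y ^ 2 = -1 := fun y e =>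
    sq_eq_one_iff.1 (by rw [← pow_mul]; exact e)
  have ne : (1 : K) ≠ -1 := fun e => one_ne_zero (by linear_combination h3 - e)
  refine (sq _ (mu f1 f2 h12)).resolve_right fun hi => ?_
  have x21 := (far f2.orb f1.orb h12.symm).ne f2.el f2.ne
  have t1 : (v1 ⨯₃ v2) ⬝ᵥ v1 = 0 := by rw [dotProduct_comm]; exact dot_self_cross _ _
  have t2 : (v1 ⨯₃ v2) ⬝ᵥ v2 = 0 := by rw [dotProduct_comm]; exact dot_cross_self _ _
  have Q : ∀ v φ, ρ.Fl c v φ → (v1 ⨯₃ v2) ⬝ᵥ v ≠ 0 → ((φ1 ⬝ᵥ v) * (φ ⬝ᵥ v1)) ^ 2 = 1 := by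
    intro v φ f hv
    have hd := det_ne_of_dot h12 t1 t2 hv
    refine (sq _ (mu f1 f (ind13 hd))).resolve_right fun hj => ?_
    have f4 := f1.conj f2.el
    have t4 : (v1 ⨯₃ v2) ⬝ᵥ (v1 + (φ2 ⬝ᵥ v1) • v2) = 0 := by simp [t1, t2]
    have i24 : Ind v2 (v1 + (φ2 ⬝ᵥ v1) • v2) := fun a b e => by
      obtain ⟨k1, k2⟩ := h12 b (a + b * (φ2 ⬝ᵥ v1)) (by rw [← e, smul_add, add_smul, mul_smul]; abel)
      exact ⟨by simpa [k1] using k2, k1⟩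
    have i14 : Ind v1 (v1 + (φ2 ⬝ᵥ v1) • v2) := fun a b e => by
      obtain ⟨k1, k2⟩ := h12 (a + b) (b * (φ2 ⬝ᵥ v1)) (by rw [← e, smul_add, add_smul, mul_smul]; abel)
      have : b = 0 := by simpa [x21] using k2
      exact ⟨by simpa [this] using k1, this⟩
    have k1 := (key3' h3 mu f1 f2 f hd hi).1
    have k2 := (key3' h3 mu f2 f4 f (det_ne_of_dot i24 t2 t4 hv) (by
      rw [← hi]; simp [sub_dotProduct, f2.el.1, mul_comm])).1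
    have k3 := (key3' h3 mu f1 f f4 (det_swap (det_ne_of_dot i14 t1 t4 hv)) hj).1
    apply ne
    rw [mul_comm (φ ⬝ᵥ _), ← k2, ← k1, hj] at k3
    rw [← k3]
    simp only [dotProduct_add, dotProduct_smul, sub_dotProduct, smul_dotProduct, smul_eq_mul, f1.el.1]
    linear_combination (1 - ((φ1 ⬝ᵥ v2) * (φ2 ⬝ᵥ v1)) ^ 2) * hi
  obtain ⟨v3, o3, hv⟩ := H.exists_off (c := v1) h12.ne h12.cross_ne
  obtain ⟨φ3, f3⟩ := o3.fl f1.el f1.ne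
  replace f3 : ρ.Fl c v3 φ3 := ⟨f1.orb.trans f3.orb, f3.el, f3.ne⟩
  have hd := det_ne_of_dot h12 t1 t2 hv
  have x32 := (far f3.orb f2.orb (ind23 hd).symm).ne f3.el f3.ne
  have k := (key3' h3 mu f1 f2 f3 hd hi).2
  rw [Q _ _ (f2.conj f3.el) (by simp [t2, hv, x32]), Q _ _ (f2.conj f3.el.neg) (by simp [t2, hv, x32])] at k
  exact ne k

end three

theorem su_allFar [Finite K] (H : ρ.Hyp) (hc : c ≠ 0) {φ0 : V3 K} {l : K} (h0 : ρ.El c φ0) (n0 : φ0 ≠ 0)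
    (h1 : ρ.El c (l • φ0)) (l0 : l ≠ 0) (l1 : l ≠ 1) (hf : ∀ w, ρ.Orb c w → Ind c w → ρ.Far c w) :
    ∃ E : Subfield K, 3 ≤ Nat.card E ∧ ρ.AllFar c E := by
  have two : ∀ v, ρ.Orb c v → ∃ φ, ρ.El v φ ∧ ρ.El v (l • φ) ∧ φ ≠ 0 ∧ l • φ ≠ 0 ∧ l • φ ≠ φ := by
    rintro _ ⟨x, X, hX, rfl⟩
    have n := hX.inv.vecMul_ne n0
    refine ⟨_, h0.conj hX hX.mul_inv, smul_vecMul l φ0 X⁻¹ ▸ h1.conj hX hX.mul_inv, n, smul_ne_zero l0 n,
      fun e => l1 ?_⟩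
    rw [← sub_eq_zero, ← one_smul K (φ0 ᵥ* X⁻¹), smul_smul, mul_one, ← sub_smul, smul_eq_zero, sub_eq_zero] at e
    exact e.resolve_right n
  have ff := fun v w (ov : ρ.Orb c v) (ow : ρ.Orb c w) (h : Ind v w) φ (e1 : ρ.El v φ) (e2 : ρ.El v (l • φ)) n1 n2 n3
    χ (e3 : ρ.El w χ) (n4 : χ ≠ 0) => far_field h (far_transport hf ov ow h) e1 e2 e3 n1 n2 n3
      ((far_transport hf ow ov h.symm).ne e3 n4)
  by_cases hI : (3 : K) = 0 ∧ ∃ v φ, ρ.Orb c v ∧ ∀ ψ, ρ.El v ψ → ψ = 0 ∨ ψ = φ ∨ ψ = -φ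
  · obtain ⟨h3, v0, θ, o0, hθ⟩ := hI
    have t3 : ∀ v φ ψ, ρ.Fl c v φ → ρ.El v ψ → ψ = 0 ∨ ψ = φ ∨ ψ = -φ := by
      intro v φ ψ f e
      obtain ⟨x, X, hX, rfl⟩ := o0.symm.trans f.orb
      have inj : ∀ a b : V3 K, a ᵥ* X = b ᵥ* X → a = b := fun a b e => by
        simpa [vecMul_vecMul, hX.mul_inv] using congrArg (· ᵥ* X⁻¹) e
      have k1 := (hθ _ (f.el.conj' hX)).resolve_left (hX.vecMul_ne f.ne)
      rcases hθ _ (e.conj' hX) with k2 | k2 | k2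
      · exact Or.inl (inj _ _ (by simpa using k2))
      · rcases k1 with k1 | k1
        · exact Or.inr (Or.inl (inj _ _ (by rw [k1, k2])))
        · exact Or.inr (Or.inr (inj _ _ (by rw [neg_vecMul, k1, k2, neg_neg])))
      · rcases k1 with k1 | k1
        · exact Or.inr (Or.inr (inj _ _ (by rw [neg_vecMul, k1, k2])))
        · exact Or.inr (Or.inl (inj _ _ (by rw [k1, k2])))
    have mu : ∀ {v w φ χ}, ρ.Fl c v φ → ρ.Fl c w χ → Ind v w → ((φ ⬝ᵥ w) * (χ ⬝ᵥ v)) ^ 4 = 1 := by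
      intro v w φ χ f1 f2 h
      obtain ⟨φ', e1, e2, n1, n2, n3⟩ := two v f1.orb
      have a1 := (far_transport hf f1.orb f2.orb h).ne f1.el f1.ne
      have a2 := (far_transport hf f2.orb f1.orb h.symm).ne f2.el f2.ne
      rcases ff v w f1.orb f2.orb h φ' e1 e2 n1 n2 n3 χ f2.el f2.ne with ⟨E, -, k1, k2⟩ | ⟨-, -, k⟩
      · obtain ⟨ψ, k3, k4⟩ := torus_surj k2 (ρ.Phi v) (fun x X Y c hX hY e φ hφ => El.stab hφ hX hY e) f1.el
          (k1 _ _ f1.el f2.el)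
        rcases t3 _ _ _ f1 k3 with rfl | rfl | rfl
        · simp [a1, a2] at k4
        · rw [mul_right_cancel₀ a1 (k4.symm.trans (one_mul _).symm), one_pow]
        · rw [neg_dotProduct, ← neg_one_mul] at k4
          rw [← mul_right_cancel₀ a1 k4]; ring
      · exact k _ _ f1.el f2.el f1.ne a2
    have m1 : ∀ e : K, e ^ 2 = 1 → e ∈ (⊥ : Subfield K) := fun e h => by
      rcases sq_eq_one_iff.1 h with rfl | rfl
      exacts [one_mem _, neg_mem (one_mem _)]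
    refine ⟨⊥, three_le_card (m1 (-1) (by ring)) (by simp) (fun e => one_ne_zero (by linear_combination h3 + e)),
      far_transport hf, fun {v w φ χ} hv hw hφ hχ => ?_, fun {v w φ} hv hw hvw hφ e he => ?_⟩
    · by_cases n1 : φ = 0
      · simp [n1]
      by_cases n2 : χ = 0
      · simp [n2]
      rcases ind_or (hv.ne hc) w with h | ⟨a, rfl⟩
      · exact m1 _ (real3 h3 (far_transport hf) mu H ⟨hv, hφ, n1⟩ ⟨hw, hχ, n2⟩ h)
      · simp [hφ.1]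
    · let A : Subfield K :=
        { carrier := {e | e = 0 ∨ e = 1 ∨ e = -1}
          mul_mem' := by rintro a b (rfl | rfl | rfl) (rfl | rfl | rfl) <;> simp
          one_mem' := by simp
          add_mem' := by
            have e1 : (1 : K) + 1 = -1 := by linear_combination h3
            have e2 : (-1 : K) + -1 = 1 := by linear_combination -h3
            rintro a b (rfl | rfl | rfl) (rfl | rfl | rfl) <;> simp [e1, e2]
          zero_mem' := by simp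
          neg_mem' := by rintro a (rfl | rfl | rfl) <;> simp
          inv_mem' := by rintro a (rfl | rfl | rfl) <;> simp }
      rcases (bot_le : ⊥ ≤ A) he with rfl | rfl | rfl
      exacts [⟨0, El.zero ρ v, by simp⟩, ⟨φ, hφ, by simp⟩, ⟨-φ, hφ.neg, by simp⟩]
  · obtain ⟨E, -, hE⟩ := allFar_of H hc hf fun v w ov ow h _ => by
      obtain ⟨φ, e1, e2, n1, n2, n3⟩ := two v ov
      obtain ⟨χ, e3, -, n4, -⟩ := two w ow
      exact (ff v w ov ow h φ e1 e2 n1 n2 n3 χ e3 n4).resolve_right fun ⟨k1, k2, _⟩ => hI ⟨k1, v, φ, ov, k2⟩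
    refine ⟨E, three_le_card ?_ l0 l1, hE⟩
    obtain ⟨w, ow, h⟩ := H.exists_ind hc
    obtain ⟨χ, e3, -, n4, -⟩ := two w ow
    have o := Orb.refl ρ c
    convert E.div_mem (hE.mem o ow h1 e3) (hE.mem o ow h0 e3) using 1
    have a1 := (hE.far o ow h).ne h0 n0
    have a2 := (hE.far ow o h.symm).ne e3 n4
    rw [smul_dotProduct, smul_eq_mul]
    field_simp

theorem AllFar.conj3 [Finite K] {E : Subfield K} (h : ρ.AllFar c E) (hc : c ≠ 0) {σ : K →+* K}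
    (hσ : ∀ x, σ x = x ↔ x ∈ E) {v1 v2 v3 φ1 φ2 φ3 : V3 K} (f1 : ρ.Fl c v1 φ1) (f2 : ρ.Fl c v2 φ2)
    (f3 : ρ.Fl c v3 φ3) :
    σ ((φ1 ⬝ᵥ v2) * (φ2 ⬝ᵥ v3) * (φ3 ⬝ᵥ v1)) = -((φ1 ⬝ᵥ v3) * (φ3 ⬝ᵥ v2) * (φ2 ⬝ᵥ v1)) := by
  have k1 := h.triple f1.orb f2.orb f3.orb f1.el f2.el f3.el
  have k2 : ((φ1 ⬝ᵥ v2) * (φ2 ⬝ᵥ v3) * (φ3 ⬝ᵥ v1)) * ((φ1 ⬝ᵥ v3) * (φ3 ⬝ᵥ v2) * (φ2 ⬝ᵥ v1)) ∈ E := by
    convert E.mul_mem (E.mul_mem (h.mem f1.orb f2.orb f1.el f2.el) (h.mem f1.orb f3.orb f1.el f3.el))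
      (h.mem f2.orb f3.orb f2.el f3.el) using 1
    ring
  by_cases hd : (col3 v1 v2 v3).det = 0
  · have k3 : (φ1 ⬝ᵥ v3) * (φ3 ⬝ᵥ v2) * (φ2 ⬝ᵥ v1) = -((φ1 ⬝ᵥ v2) * (φ2 ⬝ᵥ v3) * (φ3 ⬝ᵥ v1)) := by
      rcases ind_or (f1.orb.ne hc) v2 with i | ⟨a, rfl⟩
      · rw [det_col3_eq] at hd
        obtain ⟨a, b, rfl⟩ := i.mem_span i.cross_ne (by rw [dotProduct_comm]; exact dot_self_cross _ _)
          (by rw [dotProduct_comm]; exact dot_cross_self _ _) hd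
        have := f3.el.1
        simp only [dotProduct_add, dotProduct_smul, smul_eq_mul, f1.el.1, f2.el.1] at this ⊢
        linear_combination (φ1 ⬝ᵥ v2) * (φ2 ⬝ᵥ v1) * this
      · have ha : a ≠ 0 := fun e => f2.orb.ne hc (by simp [e])
        have : φ2 ⬝ᵥ v1 = 0 := by simpa [ha] using f2.el.1
        simp [this, f1.el.1]
    rw [k3] at k1 k2 ⊢
    rw [neg_neg, hσ]
    exact mem_of_sq (by convert E.neg_mem k2 using 1; ring) (by convert E.neg_mem k1 using 1; ring)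
  · have k3 := h.not_mem f1.orb f2.orb f3.orb f1.el f2.el f3.el f1.ne f2.ne f3.ne hd
    rw [← hσ] at k1 k2 k3
    rw [map_sub] at k1
    rw [map_mul] at k2
    generalize (φ1 ⬝ᵥ v2) * (φ2 ⬝ᵥ v3) * (φ3 ⬝ᵥ v1) = w at *
    generalize (φ1 ⬝ᵥ v3) * (φ3 ⬝ᵥ v2) * (φ2 ⬝ᵥ v1) = w' at *
    apply mul_left_cancel₀ (sub_ne_zero.2 k3)
    linear_combination k2 - σ w * k1

theorem su_coord [Finite K] {E E2 : Subfield K} (h : ρ.AllFar ![1, 0, 0] E) {σ : K →+* K}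
    (hσ : ∀ x, σ x = x ↔ x ∈ E) (hσ2 : ∀ x, x ∈ E2 ↔ σ (σ x) = x)
    (sp : ∀ v φ ψ, ρ.Fl ![1, 0, 0] v φ → ρ.El v ψ → ∃ e ∈ E, ψ = e • φ)
    (sp' : ∀ v φ, ρ.Fl ![1, 0, 0] v φ → ∀ e ∈ E, ρ.El v (e • φ)) {β : K} (hβ : β ∈ E2) (hβ' : σ β ≠ β)
    {X : M3 K} (hX : X = !![0, 1, 1; -1, 0, β; -1, -σ β, 0]) (f0 : ρ.Fl ![1, 0, 0] ![1, 0, 0] (X 0))
    (f1 : ρ.Fl ![1, 0, 0] ![0, 1, 0] (X 1)) (f2 : ρ.Fl ![1, 0, 0] ![0, 0, 1] (X 2)) (x : Γ) :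
    ∃ (G : M3 K) (f : K), ρ.R x G ∧ (∀ i j, G i j ∈ E2) ∧ (G.map σ)ᵀ * X * G = f • X := by
  have hc : (![1, 0, 0] : V3 K) ≠ 0 := by simp
  have σβ := (hσ2 β).1 hβ
  have mσ : ∀ a ∈ E2, σ a ∈ E2 := fun a ha => (hσ2 _).2 (by rw [(hσ2 a).1 ha])
  have pt : ∀ v φ, ρ.Fl ![1, 0, 0] v φ → ∃ (s e : K) (u : V3 K), s ≠ 0 ∧ e ∈ E ∧ (∀ i, u i ∈ E2) ∧ v = s • u ∧
      s • φ = e • ((σ ∘ u) ᵥ* X) := by
    intro v φ f
    rcases ind_or hc v with i | ⟨s, rfl⟩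
    · have a1 := (h.far f0.orb f.orb i).ne f0.el f0.ne
      have a2 := (h.far f.orb f0.orb i.symm).ne f.el f.ne
      have y := h.mem f0.orb f.orb f0.el f.el
      have g : ρ.Fl ![1, 0, 0] ((X 0 ⬝ᵥ v)⁻¹ • v) ((-(φ ⬝ᵥ ![1, 0, 0])⁻¹) • φ) :=
        ⟨f.orb.smul (inv_ne_zero a1), by
          rw [el_smul, smul_smul]
          convert sp' _ _ f _ (E.neg_mem (E.inv_mem y)) using 2
          field_simp, smul_ne_zero (neg_ne_zero.2 (inv_ne_zero a2)) f.ne⟩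
      have b0 : X 0 ⬝ᵥ ((X 0 ⬝ᵥ v)⁻¹ • v) = 1 := by simp [a1]
      have b1 : ((-(φ ⬝ᵥ ![1, 0, 0])⁻¹) • φ) ⬝ᵥ ![1, 0, 0] = -1 := by
        rw [smul_dotProduct, smul_eq_mul, neg_mul, inv_mul_cancel₀ a2]
      have e1 : v = (X 0 ⬝ᵥ v) • (X 0 ⬝ᵥ v)⁻¹ • v := by rw [smul_smul, mul_inv_cancel₀ a1, one_smul]
      have e2 : (X 0 ⬝ᵥ v) • φ = (-((X 0 ⬝ᵥ v) * (φ ⬝ᵥ ![1, 0, 0]))) • ((-(φ ⬝ᵥ ![1, 0, 0])⁻¹) • φ) := by
        rw [smul_smul]; congr 1; field_simp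
      generalize (X 0 ⬝ᵥ v)⁻¹ • v = u at *
      generalize (-(φ ⬝ᵥ ![1, 0, 0])⁻¹) • φ = ψ at *
      have k1 := h.conj3 hc hσ f0 f1 g
      have k2 := h.conj3 hc hσ f0 g f1
      have k3 := h.conj3 hc hσ f0 f2 g
      have k4 := h.conj3 hc hσ f0 g f2
      rw [b0, b1] at k1 k2 k3 k4
      simp [hX, dotProduct, Fin.sum_univ_three] at k1 k2 k3 k4 b0 b1
      have m1 : -u 0 + β * u 2 ∈ E2 := (hσ2 _).2 (by
        rw [show σ (-u 0 + β * u 2) = -ψ 1 by simp; linear_combination -k1, map_neg]; linear_combination k2)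
      have m2 : -u 0 - σ β * u 1 ∈ E2 := (hσ2 _).2 (by
        rw [show σ (-u 0 - σ β * u 1) = -ψ 2 by simp; linear_combination -k3, map_neg]; linear_combination k4)
      have n := sub_ne_zero.2 hβ'
      have u1 : u 1 ∈ E2 := by
        convert E2.div_mem (E2.sub_mem (E2.sub_mem m1 m2) hβ) (E2.sub_mem (mσ _ hβ) hβ) using 1
        rw [eq_div_iff n]
        linear_combination -β * b0
      have u2 : u 2 ∈ E2 := by
        convert E2.sub_mem E2.one_mem u1 using 1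
        linear_combination b0
      have u0 : u 0 ∈ E2 := by
        convert E2.sub_mem (E2.mul_mem hβ u2) m1 using 1
        ring
      refine ⟨_, _, u, a1, E.neg_mem y, fun i => by fin_cases i <;> assumption, e1, e2.trans ?_⟩
      congr 1
      have b0' := congrArg σ b0
      rw [map_add, map_one] at b0'
      rw [σβ] at k3
      ext i
      fin_cases i <;> simp [hX, vecMul, dotProduct, Fin.sum_univ_three]
      · linear_combination b1 + b0'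
      · linear_combination -k1
      · linear_combination -k3
    · have hs : s ≠ 0 := fun e => f.orb.ne hc (by simp [e])
      obtain ⟨e, he, e1⟩ := sp _ _ _ f0 (el_smul.1 f.el)
      refine ⟨s, e, _, hs, he, fun i => by fin_cases i <;> simp, rfl, e1.trans ?_⟩
      congr 1
      ext i
      fin_cases i <;> simp [hX, vecMul, dotProduct, Fin.sum_univ_three]
  obtain ⟨G, hG⟩ := ρ.ex x
  have col : ∀ i : Fin 3, ∃ (s e : K) (u : V3 K), s ≠ 0 ∧ e ∈ E ∧ (∀ k, u k ∈ E2) ∧ (∀ k, G k i = s * u k) ∧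
      s • X i = e • (((σ ∘ u) ᵥ* X) ᵥ* G) := by
    intro i
    have : ρ.Fl ![1, 0, 0] (Pi.single i 1) (X i) := by
      fin_cases i
      exacts [⟨f0.orb.congr (by vec), f0.el.congr (by vec) rfl, f0.ne⟩,
        ⟨f1.orb.congr (by vec), f1.el.congr (by vec) rfl, f1.ne⟩, ⟨f2.orb.congr (by vec), f2.el.congr (by vec) rfl, f2.ne⟩]
    obtain ⟨s, e, u, h1, h2, h3, h4, h5⟩ := pt _ _ (this.map hG)
    refine ⟨s, e, u, h1, h2, h3, fun k => by simpa using congrFun h4 k, ?_⟩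
    rw [← smul_vecMul, ← h5, smul_vecMul, vecMul_vecMul, hG.inv_mul, vecMul_one]
  choose s e u hs he hu hG' k using col
  let hf : V3 K → V3 K → K := fun a b => ((σ ∘ a) ᵥ* X) ⬝ᵥ b
  have k' : ∀ i j, s i * X i j = e i * s j * hf (u i) (u j) := fun i j => by
    have := congrFun (k i) j
    simp only [Pi.smul_apply, smul_eq_mul] at this
    rw [this, mul_assoc]
    congr 1
    simp only [hf, vecMul, dotProduct, hG', Finset.mul_sum]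
    exact Finset.sum_congr rfl fun _ _ => by ring
  have EE : ∀ a ∈ E, a ∈ E2 := fun a ha => (hσ2 a).2 (by rw [(hσ a).2 ha, (hσ a).2 ha])
  have mh : ∀ i j, hf (u i) (u j) ∈ E2 := fun i j => by
    simp [hf, hX, vecMul, dotProduct, Fin.sum_univ_three]
    repeat (first | apply hu | exact hβ | apply mσ | apply E2.add_mem | apply E2.sub_mem | apply E2.mul_mem |
      apply E2.neg_mem)
  have sk : ∀ i j, hf (u j) (u i) = -σ (hf (u i) (u j)) := fun i j => by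
    simp [hf, hX, vecMul, dotProduct, Fin.sum_univ_three, (hσ2 _).1 (hu _ _), σβ]
    ring
  have s0 := hs 0
  have t : ∀ j, s j / s 0 ∈ E2 := fun j => by
    have k0 : ∀ j, X 0 j = 1 → s j / s 0 ∈ E2 := fun j hj => by
      have := k' 0 j
      rw [hj, mul_one] at this
      convert E2.inv_mem (E2.mul_mem (EE _ (he 0)) (mh 0 j)) using 1
      apply eq_inv_of_mul_eq_one_left
      field_simp
      linear_combination -this
    fin_cases j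
    exacts [by simp [s0], k0 1 (by simp [hX]), k0 2 (by simp [hX])]
  have e0 : ∀ i, e i ≠ 0 := fun i h0 => by
    have := k i
    rw [h0, zero_smul, smul_eq_zero] at this
    fin_cases i
    exacts [f0.ne (this.resolve_left (hs _)), f1.ne (this.resolve_left (hs _)), f2.ne (this.resolve_left (hs _))]
  have M : ∀ i j, ((((s 0)⁻¹ • G).map σ)ᵀ * X * ((s 0)⁻¹ • G)) i j = σ (s i / s 0) * (s j / s 0) * hf (u i) (u j) :=
    fun i j => by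
      simp only [hf, mul_apply, vecMul, dotProduct, transpose_apply, map_apply, Matrix.smul_apply, hG', smul_eq_mul,
        Fin.sum_univ_three, map_mul, Function.comp, div_eq_mul_inv]
      ring
  have M' : ∀ i j, σ (s i / s 0) * (s j / s 0) * hf (u i) (u j) = σ (s i / s 0) * (s i / s 0) / e i * X i j :=
    fun i j => by
      have := e0 i
      field_simp
      linear_combination -σ (s i / s 0) * k' i j
  have ff : ∀ j, σ (s j / s 0) * (s j / s 0) / e j = (e 0)⁻¹ := fun j => by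
    have k0 : ∀ j, X 0 j = 1 → X j 0 = -1 → σ (s j / s 0) * (s j / s 0) / e j = (e 0)⁻¹ := fun j h1 h2 => by
      have a := congrArg σ (M' 0 j)
      have b := M' j 0
      rw [sk 0 j, h2] at b
      rw [h1, div_self s0] at a
      rw [div_self s0] at b
      simp only [map_mul, map_one, one_mul, mul_one, one_div, map_inv₀, (hσ _).2 (he 0)] at a
      linear_combination a + b
    fin_cases j
    exacts [by simp [s0], k0 1 (by simp [hX]) (by simp [hX]), k0 2 (by simp [hX]) (by simp [hX])]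
  refine ⟨(s 0)⁻¹ • G, (e 0)⁻¹, hG.smul (inv_ne_zero s0), fun i j => ?_, ?_⟩
  · convert E2.mul_mem (t j) (hu j i) using 1
    simp only [Matrix.smul_apply, hG', smul_eq_mul]
    ring
  · ext i j
    rw [M, M', ff]
    rfl

/-- the group is `PSU₃(q)` up to diagonal automorphisms -/
def IsSU (ρ : PRep Γ K) : Prop :=
  ∃ (P Q : M3 K) (h : P * Q = 1) (E : Subfield K) (q : ℕ) (β : K), 3 ≤ q ∧ Nat.card E = q ^ 2 ∧ β ∈ E ∧ β ^ q ≠ β ∧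
    (∀ i, ∀ e : K, e ^ q = e → (ρ.cj P Q h).El (Pi.single i 1) (e • suX q β i)) ∧
    ∀ x, ∃ (G : M3 K) (f : K), (ρ.cj P Q h).R x G ∧ (∀ i j, G i j ∈ E) ∧
      (G.map (· ^ q))ᵀ * suX q β * G = f • suX q β

theorem Orb.of_cj {P Q : M3 K} {h : P * Q = 1} (e : (ρ.cj P Q h).Orb c v) : ρ.Orb (P *ᵥ c) (P *ᵥ v) := by
  obtain ⟨x, X, hX, rfl⟩ := e
  exact ⟨x, _, cj_R.1 hX, (cj_mulVec h X c).symm⟩

theorem AllFar.cj {E : Subfield K} {P Q : M3 K} {h : P * Q = 1} (e : ρ.AllFar (P *ᵥ c) E) :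
    (ρ.cj P Q h).AllFar c E := by
  have h' := mul_eq_one_comm.1 h
  refine ⟨fun {v w} hv hw i φ h1 h2 => ?_, fun {v w φ χ} hv hw h1 h2 => ?_, fun {v w φ} hv hw i h1 a ha => ?_⟩
  · have := e.far hv.of_cj hw.of_cj (i.map h') _ (El.cj.1 h1) (by rwa [dot_conj h])
    simpa [vecMul_vecMul, h'] using congrArg (· ᵥ* P) this
  · simpa only [dot_conj h] using e.mem hv.of_cj hw.of_cj (El.cj.1 h1) (El.cj.1 h2)
  · obtain ⟨φ', h2, h3⟩ := e.surj hv.of_cj hw.of_cj (i.map h') (El.cj.1 h1) a ha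
    exact ⟨_, h2.cj', by rw [← dotProduct_mulVec, h3, dot_conj h]⟩

theorem isSU [Finite K] (H : ρ.Hyp) (hc : c ≠ 0) (hL : ¬ ρ.Large c) {φ0 : V3 K} (hL' : ¬ ρ.tp.Large φ0) {l : K}
    (h0 : ρ.El c φ0) (n0 : φ0 ≠ 0) (h1 : ρ.El c (l • φ0)) (l0 : l ≠ 0) (l1 : l ≠ 1) : ρ.IsSU := by
  have hf : ∀ w, ρ.Orb c w → Ind c w → ρ.Far c w := by
    intro w ow i ψ e1 e2
    by_contra n1
    obtain ⟨a, rfl⟩ := (ind_or n0 ψ).resolve_left fun i => hL ⟨_, _, h0, e1, i⟩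
    have ha : a ≠ 0 := by rintro rfl; simp at n1
    have e3 : φ0 ⬝ᵥ w = 0 := by simpa [ha] using e2
    have key : ∀ b : K, b ≠ 0 → ¬ ρ.El w (b • φ0) := fun b hb e =>
      hL' ⟨_, _, h0.tp, (el_smul.2 e).tp, by simpa using i.smul one_ne_zero hb⟩
    obtain ⟨χ, f⟩ := ow.fl h0 n0
    by_cases e4 : χ ⬝ᵥ c = 0
    · obtain ⟨b, rfl⟩ := i.eq_smul n0 e4 f.el.1 h0.1 e3
      exact key b (fun e => f.ne (by simp [e])) f.el
    · exact key _ e4 (f.el.rule h0 e3)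
  obtain ⟨E, h3, hE⟩ := su_allFar H hc h0 n0 h1 l0 l1 hf
  obtain ⟨σ, hq⟩ := exists_frob E
  have hσ : ∀ x, σ x = x ↔ x ∈ E := fun x => by rw [hq, Subf.mem_iff_pow]
  have one : ∀ v φ ψ, ρ.Fl c v φ → ρ.El v ψ → ∃ e, ψ = e • φ := fun v φ ψ f e =>
    (ind_or f.ne ψ).resolve_left fun i => hL (Large.orb ⟨_, _, f.el, e, i⟩ f.orb.symm)
  have sp : ∀ v φ ψ, ρ.Fl c v φ → ρ.El v ψ → ∃ e ∈ E, ψ = e • φ := fun v φ ψ f e => by
    obtain ⟨a, rfl⟩ := one v φ ψ f e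
    obtain ⟨w, ow, i⟩ := H.exists_ind (f.orb.ne hc)
    replace ow := f.orb.trans ow
    obtain ⟨χ, g⟩ := ow.fl h0 n0
    refine ⟨a, ?_, rfl⟩
    convert E.div_mem (hE.mem f.orb ow e g.el) (hE.mem f.orb ow f.el g.el) using 1
    have a1 := (hE.far f.orb ow i).ne f.el f.ne
    have a2 := (hE.far ow f.orb i.symm).ne g.el g.ne
    rw [smul_dotProduct, smul_eq_mul]
    field_simp
  have sp' : ∀ v φ, ρ.Fl c v φ → ∀ e ∈ E, ρ.El v (e • φ) := fun v φ f e he => by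
    obtain ⟨w, ow, i⟩ := H.exists_ind (f.orb.ne hc)
    replace ow := f.orb.trans ow
    obtain ⟨ψ, k1, k2⟩ := hE.surj f.orb ow i f.el e he
    obtain ⟨a, rfl⟩ := one v φ ψ f k1
    rw [smul_dotProduct, smul_eq_mul] at k2
    rwa [← mul_right_cancel₀ ((hE.far f.orb ow i).ne f.el f.ne) k2]
  obtain ⟨v2, v3, o2, o3, hd⟩ := H.exists_basis hc
  have f1 : ρ.Fl c c φ0 := ⟨Orb.refl ρ c, h0, n0⟩
  obtain ⟨φ2, f2⟩ := o2.fl h0 n0
  obtain ⟨φ3, f3⟩ := o3.fl h0 n0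
  have nm : ∀ v φ, ρ.Fl c v φ → Ind c v → ∃ u ψ, ρ.Fl c u ψ ∧ φ0 ⬝ᵥ u = 1 ∧ ψ ⬝ᵥ c = -1 ∧ ∃ a : K, a ≠ 0 ∧ u = a • v := by
    intro v φ f i
    have a1 := (hE.far f1.orb f.orb i).ne h0 n0
    have a2 := (hE.far f.orb f1.orb i.symm).ne f.el f.ne
    refine ⟨(φ0 ⬝ᵥ v)⁻¹ • v, (-(φ ⬝ᵥ c)⁻¹) • φ, ⟨f.orb.smul (inv_ne_zero a1), ?_,
      smul_ne_zero (neg_ne_zero.2 (inv_ne_zero a2)) f.ne⟩, by simp [a1], by simp [a2], _, inv_ne_zero a1, rfl⟩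
    rw [el_smul, smul_smul]
    convert sp' _ _ f _ (E.neg_mem (E.inv_mem (hE.mem f1.orb f.orb h0 f.el))) using 2
    field_simp
  obtain ⟨_, ψ2, g2, a2, b2, s2, n2, rfl⟩ := nm _ _ f2 (ind12 hd)
  obtain ⟨_, ψ3, g3, a3, b3, s3, n3, rfl⟩ := nm _ _ f3 (ind13 hd)
  have hd' : (col3 c (s2 • v2) (s3 • v3)).det ≠ 0 := by
    rw [det_col3_eq] at hd ⊢
    simpa [n2, n3] using hd
  generalize s2 • v2 = u2 at *
  generalize s3 • v3 = u3 at *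
  have k1 := hE.conj3 hc hσ f1 g2 g3
  have k2 := hE.conj3 hc hσ f1 g3 g2
  have k3 := hE.not_mem f1.orb g2.orb g3.orb f1.el g2.el g3.el f1.ne g2.ne g3.ne hd'
  rw [a2, b3] at k1 k2 k3
  rw [a3, b2] at k1 k2
  simp only [one_mul, mul_neg, mul_one, map_neg, neg_neg, neg_mem_iff] at k1 k2 k3
  obtain ⟨Q, hQ⟩ := exists_inv hd'
  have m : ψ2 ⬝ᵥ u3 ∈ Asch.fixSub (σ.comp σ) := by
    rw [← k1, map_neg, neg_neg] at k2
    exact k2
  have hX : suX (Nat.card E) (ψ2 ⬝ᵥ u3) = !![0, 1, 1; -1, 0, ψ2 ⬝ᵥ u3; -1, -σ (ψ2 ⬝ᵥ u3), 0] := by rw [suX, hq]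
  have tr : ∀ v φ a, col3 c u2 u3 *ᵥ a = v → ρ.Fl c v φ →
      (ρ.cj _ Q hQ).Fl ![1, 0, 0] a (φ ᵥ* col3 c u2 u3) := by
    rintro v φ a rfl f
    exact ⟨Orb.cj (by rw [col3_e0]; exact f.orb), f.el.cj', fun e => f.ne (by
      have := congrArg (· ᵥ* Q) e
      simpa only [vecMul_vecMul, hQ, vecMul_one, zero_vecMul] using this)⟩
  have tr' : ∀ v φ, (ρ.cj _ Q hQ).Fl ![1, 0, 0] v φ → ρ.Fl c (col3 c u2 u3 *ᵥ v) (φ ᵥ* Q) := fun v φ f =>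
    ⟨by simpa only [col3_e0] using f.orb.of_cj, El.cj.1 f.el, fun e => f.ne (by
      have := congrArg (· ᵥ* col3 c u2 u3) e
      simpa only [vecMul_vecMul, mul_eq_one_comm.1 hQ, vecMul_one, zero_vecMul] using this)⟩
  have F0 := tr _ _ _ (col3_e0 _ _ _) f1
  have F1 := tr _ _ _ (col3_e1 _ _ _) g2
  have F2 := tr _ _ _ (col3_e2 _ _ _) g3
  rw [vecMul_col3] at F0 F1 F2
  rw [h0.1, a2, a3] at F0
  rw [g2.el.1, b2] at F1
  rw [g3.el.1, b3, ← k1] at F2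
  have SP' : ∀ v φ, (ρ.cj _ Q hQ).Fl ![1, 0, 0] v φ → ∀ e ∈ E, (ρ.cj _ Q hQ).El v (e • φ) := fun v φ f e he => by
    rw [El.cj, smul_vecMul]
    exact sp' _ _ (tr' _ _ f) e he
  refine ⟨_, Q, hQ, Asch.fixSub (σ.comp σ), Nat.card E, ψ2 ⬝ᵥ u3, h3,
    card_quad (fun x => by rw [Asch.mem_fixSub, RingHom.comp_apply, hq, hq]) m k3, m,
    fun e => k3 ((Subf.mem_iff_pow E).2 e), fun i e he => ?_, fun x => ?_⟩
  · rw [hX]
    have he' := (Subf.mem_iff_pow E).2 he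
    fin_cases i
    exacts [(SP' _ _ F0 e he').congr (by vec) rfl, (SP' _ _ F1 e he').congr (by vec) rfl,
      (SP' _ _ F2 e he').congr (by vec) rfl]
  · rw [show (fun x : K => x ^ Nat.card E) = σ from (funext hq).symm]
    refine su_coord (AllFar.cj (by rwa [col3_e0])) hσ (fun x => Asch.mem_fixSub _ x) (fun v φ ψ f e => ?_) SP' m
      (fun e => k3 ((hσ _).1 e)) hX (hX ▸ F0) (hX ▸ F1) (hX ▸ F2) x
    obtain ⟨a, ha, e'⟩ := sp _ _ _ (tr' _ _ f) (El.cj.1 e)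
    refine ⟨a, ha, ?_⟩
    have := congrArg (· ᵥ* col3 c u2 u3) e'
    simpa only [smul_vecMul, vecMul_vecMul, mul_eq_one_comm.1 hQ, vecMul_one] using this

/-- every group of elations with given centre and axis has at most two elements -/
def Small (ρ : PRep Γ K) : Prop := ∀ v φ (l : K), v ≠ 0 → φ ≠ 0 → ρ.El v φ → ρ.El v (l • φ) → l = 0 ∨ l = 1

theorem caseA [Finite K] (H : ρ.Hyp) : ρ.IsSL ∨ ρ.IsSU ∨ ρ.Small := by
  by_cases h : ρ.Small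
  · exact Or.inr (Or.inr h)
  simp only [Small, not_forall, not_or] at h
  obtain ⟨c, φ, l, hc, n, h0, h1, l0, l1⟩ := h
  by_cases hL : ρ.Large c
  · exact Or.inl (hL.isSL H hc h0 n h1 l0 l1)
  by_cases hL' : ρ.tp.Large φ
  · exact Or.inl (hL'.isSL H.tp n h0.tp hc (el_smul.2 h1).tp l0 l1).of_tp
  · exact Or.inr (Or.inl (isSU H hc hL hL' h0 n h1 l0 l1))

end PRep

end Cfsg.Agent.MH
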