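import Cfsg.Agent.MH.Loc

/-! The possible centralisers of involutions, and the count of elements. -/

set_option autoImplicit false

namespace Cfsg.Agent.MH

open Subgroup

variable {Γ : Type*} [Group Γ] {t : Γ}

/-- all involutions are conjugate to `t` -/
def Cls (t : Γ) : Prop := ∀ s, Inv s → ∃ g, g * s * g⁻¹ = t

/-- the elements of the centraliser of order greater than two commute with `j` involutions -/
def NvC (t : Γ) (j : ℕ) : Prop := ∀ x ∈ Cn t, x * x ≠ 1 → nv x = j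

/-- the centraliser has only one involution -/
structure TB (t : Γ) : Prop where
  cls : Cls t
  nv1 : NvC t 1
  ni : nv t = 1
  nab : ∃ x ∈ Cn t, ∃ y ∈ Cn t, x * y ≠ y * x

/-- the centraliser is `GL₂(3)` -/
structure TGL (t : Γ) : Prop where
  cls : Cls t
  nv1 : NvC t 1
  ni : nv t = 13
  card : Nat.card (Cn t) = 48

/-- the centraliser is dihedral -/
structure TD (t : Γ) (A : Subgroup Γ) (k : ℕ) : Prop where
  cls : Cls t
  nv1 : NvC t 1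
  ni : nv t = 2 * k + 1
  le : A ≤ Cn t
  tm : t ∈ A
  cardA : Nat.card A = 2 * k
  card : Nat.card (Cn t) = 4 * k
  comm : ∀ x ∈ A, ∀ y ∈ A, x * y = y * x
  uq : ∀ s ∈ A, Inv s → s = t
  out : ∀ x ∈ Cn t, x ∉ A → x * x = 1

/-- the centraliser is abelian with three involutions -/
structure TV (t : Γ) : Prop where
  cls : Cls t
  nv3 : NvC t 3
  ni : nv t = 3
  six : 6 ≤ Nat.card (Cn t)
  n3 : ¬ 3 ∣ Nat.card (Cn t)
  d3 : 3 ∣ Nat.card Γ
  no4 : ∀ x ∈ Cn t, x ^ 4 = 1 → x * x = 1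

/-- a homomorphism to `±1` from a predicate -/
noncomputable def homOf (C : Subgroup Γ) (P : Γ → Prop) (h : ∀ x ∈ C, ∀ y ∈ C, P (x * y) ↔ (P x ↔ P y)) : C →* ℤˣ :=
  open Classical in MonoidHom.mk' (fun x => if P x then 1 else -1) fun x y => by
    by_cases h1 : P x <;> by_cases h2 : P y <;> simp [h1, h2, h x x.2 y y.2]

theorem homOf_eq {C : Subgroup Γ} {P : Γ → Prop} {h} {x : C} : homOf C P h x = 1 ↔ P x := by
  by_cases h1 : P x <;> simp [homOf, h1]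

theorem index_odd [Finite Γ] (S : Sylow 2 Γ) {C : Subgroup Γ} (h : (S : Subgroup Γ) ≤ C) : C.index % 2 = 1 := by
  have := S.not_dvd_index
  by_contra hn
  exact this ((show 2 ∣ C.index by omega).trans (index_dvd_of_le h))

theorem thompson_half [Finite Γ] (hp : commutator Γ = ⊤) (S : Sylow 2 Γ) {C A : Subgroup Γ} (h : (S : Subgroup Γ) ≤ C)
    (hA : Nat.card C = 2 * Nat.card A) {s : Γ} (hs : s * s = 1) : ∃ g, g * s * g⁻¹ ∈ A := by
  refine thompson hp ?_ hs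
  have h1 := index_odd S h
  have h2 := C.card_mul_index
  rw [← A.card_mul_index, hA, mul_comm 2, mul_assoc] at h2
  have := Nat.eq_of_mul_eq_mul_left Nat.card_pos h2
  omega

theorem thompson_hom [Finite Γ] (hp : commutator Γ = ⊤) (S : Sylow 2 Γ) {C : Subgroup Γ} (h : (S : Subgroup Γ) ≤ C)
    (χ : C →* ℤˣ) {g : C} (hg : χ g ≠ 1) {s : Γ} (hs : s * s = 1) : ∃ x, ∃ h : x * s * x⁻¹ ∈ C, χ ⟨_, h⟩ = 1 := by
  obtain ⟨x, y, h1, h2⟩ := thompson_half hp S h (A := χ.ker.map C.subtype) (by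
    rw [card_map_of_injective (subtype_injective _), ← χ.ker.card_mul_index, index_ker, mul_comm,
      MonoidHom.range_eq_top.2 fun a => ?_, card_top]
    · simp
    · rcases Int.units_eq_one_or a with rfl | rfl
      exacts [⟨1, map_one χ⟩, ⟨g, (Int.units_eq_one_or _).resolve_left hg⟩]) hs
  exact ⟨x, h2 ▸ y.2, by simp only [← h2]; exact h1⟩

theorem TB.of [Finite Γ] (hp : commutator Γ = ⊤) (S : Sylow 2 Γ) (hS : (S : Subgroup Γ) ≤ Cn t) (ht : Inv t) (tS : t ∈ S)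
    (ic : ∀ x s, x * x ≠ 1 → Inv s → s ∈ Cn x → t ∈ Cn x → s ∈ Cn t) (one : ∀ s, Inv s → s ∈ Cn t → s = t) : TB t := by
  refine ⟨fun s hs => ?_, fun x hx h1 => nv_eq_one ht (mem_Cn_comm.1 hx) fun s hs e =>
    one s hs (ic x s h1 hs e (mem_Cn_comm.1 hx)), nv_eq_one ht (self_mem_Cn t) one, ?_⟩
  · obtain ⟨g, hg⟩ := exists_conj_mem_sylow (k := 1) Nat.prime_two S (z := s) (by simpa [pow_two] using hs.2)
    exact ⟨g, one _ (hs.conj g) (hS hg)⟩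
  by_contra hn
  push Not at hn
  have := burnside hp Nat.prime_two S fun g hg y hy => hn y (hS hy) g (mem_Cn.2
    (mul_inv_eq_iff_eq_mul.1 (one _ (ht.conj g) (hS (Nm_conj hg tS)))).symm)
  exact ht.1 (mem_bot.1 (this ▸ tS))

theorem TD.of [Finite Γ] (hp : commutator Γ = ⊤) (S : Sylow 2 Γ) (hS : (S : Subgroup Γ) ≤ Cn t) (ht : Inv t)
    (ic : ∀ x s, x * x ≠ 1 → Inv s → s ∈ Cn x → t ∈ Cn x → s ∈ Cn t) {A : Subgroup Γ} (le : A ≤ Cn t) (tm : t ∈ A)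
    (card : Nat.card (Cn t) = 2 * Nat.card A) (comm : ∀ x ∈ A, ∀ y ∈ A, x * y = y * x)
    (uq : ∀ s ∈ A, Inv s → s = t) (out : ∀ x ∈ Cn t, x ∉ A → x * x = 1) : ∃ k, TD t A k := by
  obtain ⟨k, hk⟩ := two_dvd_card ht tm
  refine ⟨k, fun s hs => ?_, fun x hx h1 => nv_eq_one ht (mem_Cn_comm.1 hx) fun s hs e => ?_, ?_, le, tm, hk,
    by omega, comm, uq, out⟩
  · obtain ⟨g, hg⟩ := thompson_half hp S hS card hs.2
    exact ⟨g, uq _ hg (hs.conj g)⟩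
  · have h2 := ic x s h1 hs e (mem_Cn_comm.1 hx)
    refine uq s (by_contra fun h3 => h1 ?_) hs
    have h4 : x ∈ A := by_contra fun k => h1 (out x hx k)
    have := out _ (mul_mem hx h2) fun k => h3 ((mul_mem_cancel_left h4).1 k)
    rwa [mul_assoc, ← mul_assoc s, ← mem_Cn.1 e, mul_assoc, hs.2, mul_one] at this
  · have : {s | Inv s ∧ s ∈ Cn t} = insert t ((Cn t : Set Γ) \ A) := by
      ext s
      refine ⟨fun h => or_iff_not_imp_left.2 fun e => ⟨h.2, fun k => e (uq s k h.1)⟩, ?_⟩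
      rintro (rfl | h)
      exacts [⟨ht, self_mem_Cn _⟩, ⟨⟨fun e => h.2 (e ▸ A.one_mem), out s h.1 h.2⟩, h.1⟩]
    rw [nv, this, Set.ncard_insert_of_notMem fun h => h.2 tm, Set.ncard_diff le, ncard_coe, ncard_coe]
    omega

theorem card_Cn_split [Finite Γ] (t : Γ) :
    Nat.card (Cn t) = 1 + nv t + {x | x ∈ Cn t ∧ x * x ≠ 1}.ncard := by
  rw [← ncard_sharp, nv, add_assoc, ← Set.ncard_union_eq (Set.disjoint_left.2 fun x a b => b.2 a.1.2), add_comm]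
  congr 2
  ext x
  refine ⟨fun h => ?_, ?_⟩
  · by_cases e : x * x = 1
    exacts [Or.inl ⟨⟨h.2, e⟩, h.1⟩, Or.inr ⟨h.1, e⟩]
  · rintro (h | h)
    exacts [⟨h.2, h.1.1⟩, ⟨h.1, by rintro rfl; simp at h⟩]

theorem Cls.card [Finite Γ] (h : Cls t) (ht : Inv t) : {s : Γ | Inv s}.ncard * Nat.card (Cn t) = Nat.card Γ := by
  rw [← card_class t]
  congr 2
  ext s
  exact ⟨h s, fun ⟨g, e⟩ => by simpa [← e, mul_assoc] using ht.conj g⁻¹⟩

theorem Cls.conj_mem [Finite Γ] (h : Cls t) {x : Γ} (hx : nv x ≠ 0) : ∃ g, g * x * g⁻¹ ∈ Cn t := by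
  simp only [Ne, nv_eq_zero, not_forall, not_not] at hx
  obtain ⟨s, h1, h2⟩ := hx
  obtain ⟨g, rfl⟩ := h s h1
  exact ⟨g, conj_mem_Cn.2 (mem_Cn_comm.1 h2)⟩

theorem Cls.count [Finite Γ] (h : Cls t) (ht : Inv t) (h13 : ∀ x ∈ Cn t, x * x ≠ 1 → nv x = 1 ∨ nv x = 3) {α β : ℕ}
    (hα : {x : Γ | x ∈ Cn t ∧ x * x ≠ 1 ∧ nv x = 1}.ncard = α)
    (hβ : {x : Γ | x ∈ Cn t ∧ x * x ≠ 1 ∧ nv x = 3}.ncard = β) :
    ((OO Γ).ncard : ℚ) / Nat.card Γ = 1 - 1 / Nat.card Γ - (1 + α + β / 3) / Nat.card (Cn t) := by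
  have h1 := count_nv h 1
  have h3 := count_nv h 3
  have h4 := h.card ht
  have h5 := card_Cn_split (1 : Γ)
  have e : Cn (1 : Γ) = ⊤ := eq_top_iff.2 fun x _ => mem_Cn.2 (by simp)
  have e1 : {x : Γ | x * x ≠ 1} = OO Γ ∪ ({x | x * x ≠ 1 ∧ nv x = 1} ∪ {x | x * x ≠ 1 ∧ nv x = 3}) := by
    ext x
    refine ⟨fun k => or_iff_not_imp_left.2 fun k' => ?_, by rintro (k | k | k) <;> exact k.1⟩
    obtain ⟨g, hg⟩ := h.conj_mem fun a => k' ⟨k, a⟩
    exact (nv_conj g x ▸ h13 _ hg (mt conj_mul_self.1 k)).imp (fun a => ⟨k, a⟩) fun a => ⟨k, a⟩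
  rw [nv, e, card_top] at h5
  simp only [mem_top, and_true, true_and] at h5
  rw [e1, Set.ncard_union_eq (Set.disjoint_left.2 (by rintro x a (b | b) <;> simp [a.2] at b)),
    Set.ncard_union_eq (Set.disjoint_left.2 fun x a b => by simp [a.2] at b)] at h5
  rw [hα] at h1
  rw [hβ] at h3
  have c0 : (Nat.card (Cn t) : ℚ) ≠ 0 := by exact_mod_cast Nat.card_pos.ne'
  have N0 : (Nat.card Γ : ℚ) ≠ 0 := by exact_mod_cast Nat.card_pos.ne'
  qify at h1 h3 h4 h5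
  field_simp
  linear_combination (-3 * Nat.card (Cn t)) * h5 - 3 * Nat.card (Cn t) * h1 - Nat.card (Cn t) * h3 -
    (3 + 3 * α + β) * h4

theorem Cls.count_one [Finite Γ] (h : Cls t) (ht : Inv t) (h1 : NvC t 1) :
    ((OO Γ).ncard : ℚ) / Nat.card Γ = nv t / Nat.card (Cn t) - 1 / Nat.card Γ := by
  rw [h.count ht (fun x a b => Or.inl (h1 x a b)) (α := {x | x ∈ Cn t ∧ x * x ≠ 1}.ncard) (β := 0)
    (congrArg _ (Set.ext fun x => ⟨fun a => ⟨a.1, a.2.1⟩, fun a => ⟨a.1, a.2, h1 x a.1 a.2⟩⟩))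
    ((Set.ncard_eq_zero (Set.toFinite _)).2 (Set.eq_empty_iff_forall_notMem.2 fun x a => by
      have := h1 x a.1 a.2.1; have := a.2.2; omega))]
  have h5 := card_Cn_split t
  have c0 : (Nat.card (Cn t) : ℚ) ≠ 0 := by exact_mod_cast Nat.card_pos.ne'
  have N0 : (Nat.card Γ : ℚ) ≠ 0 := by exact_mod_cast Nat.card_pos.ne'
  qify at h5
  field_simp
  linear_combination 3 * Nat.card Γ * h5

theorem TV.count [Finite Γ] (h : TV t) (ht : Inv t) :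
    ((OO Γ).ncard : ℚ) / Nat.card Γ = 2 / 3 + 1 / (3 * Nat.card (Cn t)) - 1 / Nat.card Γ := by
  rw [h.cls.count ht (fun x a b => Or.inr (h.nv3 x a b)) (β := {x | x ∈ Cn t ∧ x * x ≠ 1}.ncard) (α := 0)
    ((Set.ncard_eq_zero (Set.toFinite _)).2 (Set.eq_empty_iff_forall_notMem.2 fun x a => by
      have := h.nv3 x a.1 a.2.1; have := a.2.2; omega))
    (congrArg _ (Set.ext fun x => ⟨fun a => ⟨a.1, a.2.1⟩, fun a => ⟨a.1, a.2, h.nv3 x a.1 a.2⟩⟩))]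
  have h5 := card_Cn_split t
  rw [h.ni] at h5
  have c0 : (Nat.card (Cn t) : ℚ) ≠ 0 := by exact_mod_cast Nat.card_pos.ne'
  have N0 : (Nat.card Γ : ℚ) ≠ 0 := by exact_mod_cast Nat.card_pos.ne'
  qify at h5
  field_simp
  linear_combination Nat.card Γ * h5

/-- bounds on elements of order four -/
def P4 (t : Γ) : Prop := ∀ g ∈ Cn t, ∀ h ∈ Cn t, g * g ≠ 1 → h * h ≠ 1 → g ^ 4 = 1 → h ^ 4 = 1 →
  (g * h) ^ 4 = 1 → g * h * (g * h) = 1

theorem pow_four_eq (g : Γ) : g ^ 4 = g * g * (g * g) := by simp [pow_succ, mul_assoc]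

theorem TD.sq {A : Subgroup Γ} {k : ℕ} (h : TD t A k) {g : Γ} (hg : g ∈ Cn t) (h1 : g * g ≠ 1) (h4 : g ^ 4 = 1) :
    g ∈ A ∧ g * g = t :=
  have := by_contra fun k => h1 (h.out g hg k)
  ⟨this, h.uq _ (mul_mem this this) ⟨h1, pow_four_eq g ▸ h4⟩⟩

theorem TD.even {A : Subgroup Γ} {k : ℕ} (h : TD t A k) {g : Γ} (hg : g ∈ Cn t) (h1 : g * g ≠ 1) (h4 : g ^ 4 = 1) :
    2 ∣ k := by
  have := orderOf_dvd_card_of_mem (h.sq hg h1 h4).1
  rw [orderOf_eq_prime_pow (p := 2) (n := 1) (by simpa [pow_two] using h1) h4, h.cardA] at this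
  omega

theorem TD.p4 {A : Subgroup Γ} {k : ℕ} (h : TD t A k) (ht : Inv t) : P4 t := fun g hg x hx a1 a2 a3 a4 _ => by
  obtain ⟨b1, b2⟩ := h.sq hg a1 a3
  obtain ⟨b3, b4⟩ := h.sq hx a2 a4
  rw [mul_assoc, ← mul_assoc x, h.comm x b3 g b1, mul_assoc, b4, ← mul_assoc, b2, ht.2]

theorem Nine.four' {R : Subgroup Γ} {ν : ℕ} (h : Nine R ν) (hc : Cls t) (h2 : ν ≠ 2) :
    (∃ g ∈ Cn t, g * g ≠ 1 ∧ g ^ 4 = 1) ∧ (P4 t → ν = 4) := by
  obtain ⟨j, hj, g, a1, a2, a3, a4⟩ := h.four h2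
  obtain ⟨x, rfl⟩ := hc j hj
  refine ⟨⟨_, conj_mem_Cn.2 a1, mt conj_mul_self.1 a2, by simp [a3]⟩, fun p =>
    (h.nu.resolve_left h2).resolve_right fun e => ?_⟩
  obtain ⟨y, b1, b2, b3, b4, b5⟩ := a4 e
  have := p _ (conj_mem_Cn.2 a1) _ (conj_mem_Cn.2 b1) (mt conj_mul_self.1 a2) (mt conj_mul_self.1 b2) (by simp [a3])
    (by simp [b3]) (by rw [conj_mul, conj_pow, b5]; simp)
  rw [conj_mul, conj_mul_self] at this
  exact b4 this

end Cfsg.Agent.MH
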