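import Cfsg.Agent.MH.Mon
import Cfsg.Agent.MH.Grp2

/-! Unipotent elements. -/

set_option autoImplicit false

namespace Cfsg.Agent.MH

open Matrix Equiv

variable {Γ K : Type*} [Group Γ] [Field K]

/-- upper triangular matrices -/
abbrev up (l1 l2 l3 a b c : K) : M3 K := !![l1, a, c; 0, l2, b; 0, 0, l3]

theorem S3_sub (T : Subgroup S3) : T = ⊥ ∨ (Nat.card T = 2 ∧ ∃ k, sw k ∈ T) ∨ (Nat.card T = 3 ∧ c3 ∈ T) ∨
    (c3 ∈ T ∧ ∃ k, sw k ∈ T) := by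
  by_cases hs : ∃ k, sw k ∈ T <;> by_cases hc : c3 ∈ T
  · exact Or.inr (Or.inr (Or.inr ⟨hc, hs⟩))
  · obtain ⟨k, hk⟩ := hs
    refine Or.inr (Or.inl ⟨?_, k, hk⟩)
    rw [← ncard_coe]
    refine Set.ncard_eq_two.2 ⟨1, sw k, by clear hk; revert k; decide, Set.ext fun σ => ⟨fun h => ?_, ?_⟩⟩
    · have : σ = 1 ∨ σ = sw k ∨ σ = c3 ∨ σ⁻¹ = c3 ∨ σ * sw k = c3 ∨ sw k * σ = c3 := by
        clear hk h; revert k σ; decide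
      rcases this with e | e | e | e | e | e
      exacts [Or.inl e, Or.inr e, absurd (e ▸ h) hc, absurd (e ▸ T.inv_mem h) hc, absurd (e ▸ T.mul_mem h hk) hc,
        absurd (e ▸ T.mul_mem hk h) hc]
    · rintro (rfl | rfl)
      exacts [T.one_mem, hk]
  · refine Or.inr (Or.inr (Or.inl ⟨?_, hc⟩))
    rw [← ncard_coe]
    refine Set.ncard_eq_three.2 ⟨1, c3, c3⁻¹, by decide, by decide, by decide, Set.ext fun σ => ⟨fun h => ?_, ?_⟩⟩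
    · rcases S3_cases σ with e | ⟨k, rfl⟩ | e
      exacts [Or.inl e, absurd ⟨k, h⟩ hs, Or.inr e]
    · rintro (rfl | rfl | rfl)
      exacts [T.one_mem, hc, T.inv_mem hc]
  · refine Or.inl ((Subgroup.eq_bot_iff_forall _).2 fun σ h => ?_)
    rcases S3_cases σ with e | ⟨k, rfl⟩ | rfl | rfl
    exacts [e, absurd ⟨k, h⟩ hs, absurd h hc, absurd (by simpa using h) hc]

namespace PRep

variable {ρ ρ' : PRep Γ K} {x y u g : Γ} {X Y : M3 K} {a b c a' b' c' l1 l2 l3 : K}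

theorem R.up_ne (h : ρ.R x (up l1 l2 l3 a b c)) : l1 ≠ 0 ∧ l2 ≠ 0 ∧ l3 ≠ 0 := by
  simpa [det_fin_three, and_assoc] using h.det

theorem R.up_mul {m1 m2 m3 : K} (h : ρ.R x (up l1 l2 l3 a b c)) (h' : ρ.R y (up m1 m2 m3 a' b' c')) :
    ρ.R (x * y) (up (l1 * m1) (l2 * m2) (l3 * m3) (l1 * a' + a * m2) (l2 * b' + b * m3)
      (l1 * c' + a * b' + c * m3)) := (h.mul h').congr (by mat)

theorem R.up_inv (h : ρ.R x (up l1 l2 l3 a b c)) :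
    ρ.R x⁻¹ (up (l2 * l3) (l1 * l3) (l1 * l2) (-(a * l3)) (-(b * l1)) (a * b - c * l2)) :=
  h.inv_of_mul (c := l1 * l2 * l3) (by simp [h.up_ne]) (by mat)

theorem R.un_mul (h : ρ.R x (un a b c)) (h' : ρ.R y (un a' b' c')) :
    ρ.R (x * y) (un (a + a') (b + b') (c + c' + a * b')) := (h.mul h').congr (by mat)

theorem R.un_inv (h : ρ.R x (un a b c)) : ρ.R x⁻¹ (un (-a) (-b) (a * b - c)) := h.inv_of_mul' (by mat)

theorem R.un_eq_iff (h : ρ.R x (un a b c)) (h' : ρ.R y (un a' b' c')) : x = y ↔ a = a' ∧ b = b' ∧ c = c' := by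
  refine ⟨fun e => ?_, by rintro ⟨rfl, rfl, rfl⟩; exact h.inj h'⟩
  obtain ⟨κ, e⟩ := (h.eq_iff h').1 e
  simp at e
  grind

theorem un_one (ρ : PRep Γ K) : ρ.R 1 (un 0 0 0) := ρ.one.congr (by mat)

theorem R.un_one_iff (h : ρ.R x (un a b c)) : x = 1 ↔ a = 0 ∧ b = 0 ∧ c = 0 := h.un_eq_iff ρ.un_one

theorem R.un_pow (h : ρ.R x (un a b c)) (n : ℕ) : ∃ c', ρ.R (x ^ n) (un (n * a) (n * b) c') := by
  induction n with
  | zero => exact ⟨0, by simpa using ρ.un_one⟩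
  | succ n ih =>
    obtain ⟨c', ih⟩ := ih
    exact ⟨_, by simpa only [pow_succ, Nat.cast_succ, add_mul, one_mul] using ih.un_mul h⟩

theorem Uni.cast (h : ρ.Uni x) {n : ℕ} (hn : x ^ n = 1) : (n : K) = 0 := by
  obtain ⟨a, b, c, ha, -, h⟩ := h
  obtain ⟨c', h⟩ := h.un_pow n
  simpa [ha] using (h.un_one_iff.1 hn).1

theorem Uni.sq_ne (h : ρ.Uni x) : x * x ≠ 1 := by
  obtain ⟨a, b, c, ha, hb, h⟩ := h
  rw [Ne, (h.un_mul h).un_one_iff]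
  grind

/-- the unitriangular subgroup -/
def UT (ρ : PRep Γ K) : Subgroup Γ where
  carrier := {x | ∃ a b c, ρ.R x (un a b c)}
  mul_mem' := fun ⟨_, _, _, h⟩ ⟨_, _, _, h'⟩ => ⟨_, _, _, h.un_mul h'⟩
  one_mem' := ⟨_, _, _, ρ.un_one⟩
  inv_mem' := fun ⟨_, _, _, h⟩ => ⟨_, _, _, h.un_inv⟩

/-- the triangular subgroup -/
def BT (ρ : PRep Γ K) : Subgroup Γ where
  carrier := {x | ∃ l1 l2 l3 a b c, ρ.R x (up l1 l2 l3 a b c)}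
  mul_mem' := fun ⟨_, _, _, _, _, _, h⟩ ⟨_, _, _, _, _, _, h'⟩ => ⟨_, _, _, _, _, _, h.up_mul h'⟩
  one_mem' := ⟨_, _, _, _, _, _, ρ.un_one⟩
  inv_mem' := fun ⟨_, _, _, _, _, _, h⟩ => ⟨_, _, _, _, _, _, h.up_inv⟩

theorem R.up_conj (hg : ρ.R g (up l1 l2 l3 a' b' c')) (h : ρ.R x (un a b c)) :
    ∃ c', ρ.R (g * x * g⁻¹) (un (a * l1 / l2) (b * l2 / l3) c') := by
  obtain ⟨h1, h2, h3⟩ := hg.up_ne
  refine ⟨(l1 * c + a' * b - a * l1 / l2 * b') / l3, hg.conj_of h ?_⟩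
  ext i j
  fin_cases i <;> fin_cases j <;> simp [Matrix.mul_apply, Fin.sum_univ_three, h2, h3] <;> field_simp <;> ring

theorem up_of_conj (h : ρ.R x (un a b c)) (h' : ρ.R (g * x * g⁻¹) (un a' b' c')) (hb : b ≠ 0) (ha' : a' ≠ 0)
    (hb' : b' ≠ 0) : ∃ l1 l2 l3 α β γ, ρ.R g (up l1 l2 l3 α β γ) ∧ a * l1 = a' * l2 ∧ b * l2 = b' * l3 := by
  obtain ⟨G, hG⟩ := ρ.ex g
  obtain ⟨κ, -, e⟩ := (h'.mul hG).uniq ((hG.mul h).congr' (by group))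
  have hd := hG.det
  rw [eta_fin_three G] at e hd hG
  simp [det_fin_three] at e hd
  obtain ⟨⟨e1, e2, e3⟩, ⟨e4, e5, e6⟩, e7, e8, e9⟩ := e
  have k1 : κ = 1 := by
    by_contra hn
    have z1 : G 2 0 = 0 := by grind
    have z2 : G 1 0 = 0 := by grind
    have z3 : G 0 0 = 0 := by grind
    simp [z1, z2, z3] at hd
  subst k1
  have z1 : G 2 0 = 0 := by grind
  have z2 : G 1 0 = 0 := by grind
  have z3 : G 2 1 = 0 := by grind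
  rw [z1, z2, z3] at hG
  exact ⟨_, _, _, _, _, _, hG, by grind, by grind⟩

theorem Uni.cent (h : ρ.Uni u) (hg : g ∈ Cn u) : g ∈ ρ.UT := by
  obtain ⟨a, b, c, ha, hb, h⟩ := h
  obtain ⟨l1, l2, l3, α, β, γ, hG, e1, e2⟩ := up_of_conj (g := g) h
    (h.congr' (by rw [← mem_Cn.1 hg, mul_inv_cancel_right])) hb ha hb
  obtain rfl := mul_left_cancel₀ ha e1
  obtain rfl := mul_left_cancel₀ hb e2
  have := hG.up_ne.1
  exact ⟨_, _, _, (hG.smul (inv_ne_zero this)).congr (by simp [this]; exact ⟨⟨rfl, rfl⟩, rfl⟩)⟩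

theorem B.el (h : ρ.B) (h2 : (2 : K) ≠ 0) {v φ : V3 K} (e : ρ.El v φ) : v = 0 ∨ φ = 0 := by
  by_contra hn
  exact h2 (h.s.two e (not_or.1 hn).1 (not_or.1 hn).2)

theorem B.uni_of (h : ρ.B) (h2 : (2 : K) ≠ 0) (hx : x ∈ ρ.UT) (h1 : x ≠ 1) : ρ.Uni x := by
  obtain ⟨a, b, c, hx⟩ := hx
  refine ⟨a, b, c, ?_, ?_, hx⟩ <;> rintro rfl
  · have := h.el h2 (v := ![c, b, 0]) (φ := ![0, 0, 1]) ⟨by simp, x, hx.congr (by mat)⟩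
    exact h1 (hx.un_one_iff.2 (by simpa [and_comm] using this))
  · have := h.el h2 (v := ![1, 0, 0]) (φ := ![0, a, c]) ⟨by simp, x, hx.congr (by mat)⟩
    exact h1 (hx.un_one_iff.2 (by simpa using this))

theorem B.un_rel (h : ρ.B) (h2 : (2 : K) ≠ 0) (hx : ρ.R x (un a b c)) (hy : ρ.R y (un a' b' c')) : a * b' = a' * b := by
  simpa [sub_eq_zero] using h.el h2 (uni_comm' hx hy)

theorem B.Cn_uni (h : ρ.B) (h2 : (2 : K) ≠ 0) (hu : ρ.Uni u) : Cn u = ρ.UT := by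
  refine le_antisymm (fun _ => hu.cent) fun y ⟨a', b', c', hy⟩ => ?_
  obtain ⟨a, b, c, -, -, hx⟩ := hu
  rw [mem_Cn, (hx.un_mul hy).un_eq_iff (hy.un_mul hx), h.un_rel h2 hx hy]
  exact ⟨add_comm _ _, add_comm _ _, by ring⟩

theorem B.CA_UT (h : ρ.B) (h2 : (2 : K) ≠ 0) : CA ρ.UT := fun _ hy h1 => h.Cn_uni h2 (h.uni_of h2 hy h1)

theorem B.Nm_UT [Finite Γ] (h : ρ.B) (h2 : (2 : K) ≠ 0) (hu : ρ.Uni u) : Nm ρ.UT = ρ.BT := by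
  refine le_antisymm (fun g hg => ?_) fun g ⟨_, _, _, _, _, _, hg⟩ => mem_Nm fun y ⟨_, _, _, hy⟩ =>
    ⟨_, _, _, (hg.up_conj hy).choose_spec⟩
  have h1 : u ≠ 1 := fun e => hu.sq_ne (by simp [e])
  obtain ⟨a, b, c, ha, hb, hu⟩ := hu
  obtain ⟨a', b', c', ha', hb', hu'⟩ := h.uni_of h2 (Nm_conj hg ⟨_, _, _, hu⟩) (by simpa using h1)
  obtain ⟨l1, l2, l3, α, β, γ, hG, -⟩ := up_of_conj hu hu' hb ha' hb'
  exact ⟨_, _, _, _, _, _, hG⟩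

/-- the ratio of the diagonal entries -/
def Ra (ρ : PRep Γ K) (g : Γ) (γ : Kˣ) : Prop := ∃ a b c, ρ.R g (up (γ ^ 2 : K) γ 1 a b c)

theorem B.exists_Ra (h : ρ.B) (h2 : (2 : K) ≠ 0) (hu : ρ.Uni u) (hg : g ∈ ρ.BT) : ∃ γ, ρ.Ra g γ := by
  obtain ⟨a, b, c, ha, hb, hu⟩ := hu
  obtain ⟨l1, l2, l3, α, β, γ, hG⟩ := hg
  obtain ⟨c', h'⟩ := hG.up_conj hu
  obtain ⟨h3, h4, h5⟩ := hG.up_ne
  have := h.un_rel h2 hu h'
  refine ⟨Units.mk0 (l2 / l3) (div_ne_zero h4 h5), α / l3, β / l3, γ / l3, (hG.smul (inv_ne_zero h5)).congr ?_⟩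
  field_simp at this
  ext i j
  fin_cases i <;> fin_cases j <;> simp [h5, div_eq_inv_mul]
  field_simp
  exact this

theorem Ra.mul {γ δ : Kˣ} (h : ρ.Ra x γ) (h' : ρ.Ra y δ) : ρ.Ra (x * y) (γ * δ) := by
  obtain ⟨_, _, _, h⟩ := h
  obtain ⟨_, _, _, h'⟩ := h'
  exact ⟨_, _, _, by simpa only [Units.val_mul, mul_pow, mul_one] using h.up_mul h'⟩

theorem Ra.one_iff : ρ.Ra x 1 ↔ x ∈ ρ.UT := by
  simp only [Ra, Units.val_one, one_pow]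
  rfl

theorem Ra.pow {γ : Kˣ} (h : ρ.Ra x γ) (n : ℕ) : ρ.Ra (x ^ n) (γ ^ n) := by
  induction n with
  | zero => simpa using Ra.one_iff.2 ρ.UT.one_mem
  | succ n ih => simpa only [pow_succ] using ih.mul h

theorem Ra.inv {γ : Kˣ} (h : ρ.Ra x γ) : ρ.Ra x⁻¹ γ⁻¹ := by
  obtain ⟨a, b, c, h⟩ := h
  refine ⟨(γ : K)⁻¹ ^ 3 * -(a * 1), (γ : K)⁻¹ ^ 3 * -(b * γ ^ 2), (γ : K)⁻¹ ^ 3 * (a * b - c * γ),
    (h.up_inv.smul (c := (γ : K)⁻¹ ^ 3) (by simp)).congr ?_⟩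
  simp
  refine ⟨?_, ?_, ?_⟩ <;> field_simp

theorem Ra.uniq {γ δ : Kˣ} (h : ρ.Ra x γ) (h' : ρ.Ra x δ) : γ = δ := by
  obtain ⟨_, _, _, h⟩ := h
  obtain ⟨_, _, _, h'⟩ := h'
  obtain ⟨κ, -, e⟩ := h.uniq h'
  simp at e
  exact Units.ext (by grind)

theorem Ra.mem {γ : Kˣ} (h : ρ.Ra x γ) : x ∈ ρ.BT := by
  obtain ⟨_, _, _, h⟩ := h
  exact ⟨_, _, _, _, _, _, h⟩

theorem B.exists_gen [Finite Γ] [Finite K] (h : ρ.B) (h2 : (2 : K) ≠ 0) (hu : ρ.Uni u) :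
    ∃ g γ, ρ.Ra g γ ∧ Nat.card (Nm (Cn u)) = Nat.card (Cn u) * orderOf γ ∧
      ∀ x ∈ Nm (Cn u), ∃ i : ℕ, x * (g ^ i)⁻¹ ∈ Cn u := by
  let G : Subgroup Kˣ :=
    { carrier := {γ | ∃ g ∈ ρ.BT, ρ.Ra g γ}
      mul_mem' := fun ⟨_, a1, a2⟩ ⟨_, a3, a4⟩ => ⟨_, ρ.BT.mul_mem a1 a3, a2.mul a4⟩
      one_mem' := ⟨1, ρ.BT.one_mem, Ra.one_iff.2 ρ.UT.one_mem⟩
      inv_mem' := fun ⟨_, a1, a2⟩ => ⟨_, ρ.BT.inv_mem a1, a2.inv⟩ }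
  obtain ⟨⟨γ, g, hB, hg⟩, hγ⟩ := IsCyclic.exists_monoid_generator (α := G)
  rw [h.Cn_uni h2 hu, h.Nm_UT h2 hu]
  refine ⟨g, γ, hg, ?_, fun x hx => ?_⟩
  · rw [card_label ρ.Ra (B := ρ.UT) (fun x hx => (h.exists_Ra h2 hu hx).imp fun _ k => ⟨k, fun _ k' => k'.uniq k⟩)
      fun x hx δ k y => ⟨fun k' => Ra.one_iff.1 (by simpa using k'.2.mul k.inv), fun k' =>
        ⟨by simpa using ((Ra.one_iff.2 k').mul k).mem, by simpa using (Ra.one_iff.2 k').mul k⟩⟩, mul_comm]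
    congr 1
    rw [← Subgroup.orderOf_mk _ (by exact ⟨g, hg.mem, hg⟩ : γ ∈ G), orderOf_eq_card_of_forall_mem_powers hγ]
    exact ncard_coe G
  · obtain ⟨δ, hδ⟩ := h.exists_Ra h2 hu hx
    obtain ⟨i, hi⟩ := hγ ⟨δ, x, hx, hδ⟩
    obtain rfl : γ ^ i = δ := congrArg Subtype.val hi
    exact ⟨i, Ra.one_iff.1 (by simpa using hδ.mul (hg.pow i).inv)⟩

theorem exists_diag_frame (hu : ρ.Uni u) {γ : Kˣ} (hg : ρ.Ra g γ) (hγ : (γ : K) ^ 2 ≠ 1) :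
    ∃ ρ', ρ.Eqv ρ' ∧ ρ'.Uni u ∧ ρ'.R g (diagonal ![(γ ^ 2 : K), γ, 1]) := by
  obtain ⟨a, b, c, ha, hb, hu⟩ := hu
  obtain ⟨α, β, δ, hg⟩ := hg
  have n1 : (1 : K) - γ ≠ 0 := fun e => hγ (by rw [← sub_eq_zero.1 e, one_pow])
  have n2 : (1 : K) - γ ^ 2 ≠ 0 := sub_ne_zero.2 hγ.symm
  obtain ⟨x, hx⟩ : ∃ x : K, x * (γ * (1 - γ)) = α := ⟨_, div_mul_cancel₀ _ (mul_ne_zero γ.ne_zero n1)⟩
  obtain ⟨y, hy⟩ : ∃ y : K, y * (1 - γ) = β := ⟨_, div_mul_cancel₀ _ n1⟩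
  obtain ⟨z, hz⟩ : ∃ z : K, z * (1 - γ ^ 2) = α * y + δ := ⟨_, div_mul_cancel₀ _ n2⟩
  refine ⟨_, Eqv.cj ρ (P := un x y z) (Q := un (-x) (-y) (x * y - z)) (by mat),
    ⟨a, b, c + a * y - x * b, ha, hb, hu.cj' (by mat)⟩, hg.cj' ?_⟩
  ext i j
  fin_cases i <;> fin_cases j <;> simp [Matrix.mul_apply, Fin.sum_univ_three, Matrix.diagonal]
  exacts [by linear_combination -hx, by linear_combination -hz, by linear_combination -hy]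

end PRep

end Cfsg.Agent.MH
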